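/-
Pairs of conjugate regular unipotent elements generating `SL 3 F` and `SL 4 (ZMod p)`.
-/
import Cfsg.Agent.Cls.GenJordan

set_option autoImplicit false

namespace CL.SLn

open Module Matrix Cfsg Cfsg.Geo

section General

variable {F V G : Type*} [Field F] [AddCommGroup V] [Module F V] [Group G]
  [DistribMulAction G V] [SMulCommClass G F V] {H : Subgroup G}

omit [SMulCommClass G F V] in
theorem pow_smul_of_jordan {W : G} {κ l d : F} {x₀ c : V} {φ ψ : Dual F V}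
    (hW : ∀ z, W • z = κ • (z + (d * φ z) • x₀) + ((l - κ) * ψ z) • c) (h1 : φ x₀ = 0)
    (h2 : φ c = 0) (h3 : ψ x₀ = 0) (h4 : ψ c = 1) (k : ℕ) (z : V) :
    W ^ k • z = κ ^ k • (z + (k * d * φ z) • x₀) + ((l ^ k - κ ^ k) * ψ z) • c := by
  induction k with
  | zero => simp
  | succ k ih =>
    rw [pow_succ', mul_smul, ih, hW]
    simp only [map_add, map_smul, smul_eq_mul, h1, h2, h3, h4, Nat.cast_succ, pow_succ]
    module

theorem FullTv.shift {v : G} (hv : v ∈ H) {a : V} {φ : Dual F V} (h : FullTv H a φ)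
    (h1 : φ (v • a) = 0) (hne : φ (v⁻¹ • a) ≠ 0) : FullTv H (v • a) φ := fun t ↦ by
  have := (h.conj hv (t / φ (v⁻¹ • a))).comm h.tv (by rw [map_smul, h1, smul_zero])
  rwa [smul_smul, dact_apply, mul_div_cancel₀ _ hne] at this

end General

variable {F : Type*} [Field F]

theorem GenMul.neg {κ : F} (h : GenMul κ) : GenMul (-κ) := fun X hX ↦
  h X fun s hs ↦ by simpa using X.neg_mem (hX s hs)

theorem genMul_cube [Finite F] (h2 : (2 : F) ≠ 0) {ρ : F}
    (h : ∀ x : F, x ≠ 0 → ∃ k : ℕ, ρ ^ k = x) : GenMul (ρ ^ 3) := by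
  intro X hX s hs h0 t
  have hc : ∀ x : F, x ^ 3 * s ∈ X := by
    intro x
    by_cases hx : x = 0
    · simp [hx]
    obtain ⟨k, rfl⟩ := h x hx
    rw [← pow_mul, mul_comm k, pow_mul]
    exact pow_mul_mem hX k s hs
  by_cases h3 : (3 : F) = 0
  · have hinj : Function.Injective fun x : F ↦ x ^ 3 := by
      intro x y e
      have e' : x ^ 3 = y ^ 3 := e
      have : (x - y) ^ 3 = 0 := by linear_combination e' + (x * y ^ 2 - x ^ 2 * y) * h3
      exact sub_eq_zero.1 (pow_eq_zero_iff (by norm_num) |>.1 this)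
    obtain ⟨x, hx⟩ := Finite.surjective_of_injective hinj (t / s)
    have := hc x
    rwa [show x ^ 3 = t / s from hx, div_mul_cancel₀ _ h0] at this
  · have h6 : (6 : F) ≠ 0 := by
      rw [show (6 : F) = 2 * 3 by norm_num]; exact mul_ne_zero h2 h3
    set x := t / (6 * s) with hx
    have := X.sub_mem (X.sub_mem (X.add_mem (hc (x + 1)) (hc (x - 1))) (hc x)) (hc x)
    rwa [show (x + 1) ^ 3 * s + (x - 1) ^ 3 * s - x ^ 3 * s - x ^ 3 * s = x * (6 * s) by ring,
      hx, div_mul_cancel₀ _ (mul_ne_zero h6 h0)] at this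

theorem gl_smul_toGL {n : ℕ} (g : Matrix.SpecialLinearGroup (Fin n) F) (x : Fin n → F) :
    Matrix.SpecialLinearGroup.toGL g • x = (g : Matrix (Fin n) (Fin n) F) *ᵥ x := rfl

theorem coe_mul_inv_eq {n : ℕ} {A B : Matrix.SpecialLinearGroup (Fin n) F}
    {M : Matrix (Fin n) (Fin n) F} (e : (A : Matrix (Fin n) (Fin n) F) = M * B) :
    ((A * B⁻¹ : Matrix.SpecialLinearGroup (Fin n) F) : Matrix (Fin n) (Fin n) F) = M := by
  rw [Matrix.SpecialLinearGroup.coe_mul, e, mul_assoc, ← Matrix.SpecialLinearGroup.coe_mul,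
    mul_inv_cancel, Matrix.SpecialLinearGroup.coe_one, mul_one]

theorem jor_four : (jor F 4 : Matrix (Fin 4) (Fin 4) F) =
    !![1, 0, 0, 0; 1, 1, 0, 0; 0, 1, 1, 0; 0, 0, 1, 1] := by
  ext i j
  fin_cases i <;> fin_cases j <;> simp [jor, sh]

theorem jor_three : (jor F 3 : Matrix (Fin 3) (Fin 3) F) = !![1, 0, 0; 1, 1, 0; 0, 1, 1] := by
  ext i j
  fin_cases i <;> fin_cases j <;> simp [jor, sh]

/-- A conjugate pair generating `SL 4 F` for a prime field of odd order. -/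
theorem exists_gen_pair_four [Fintype F] (hp : (Fintype.card F).Prime) (h2 : (2 : F) ≠ 0) :
    ∃ g : Matrix.SpecialLinearGroup (Fin 4) F,
      Subgroup.closure ({jor F 4, g * jor F 4 * g⁻¹} : Set (Matrix.SpecialLinearGroup (Fin 4) F)) = ⊤ := by
  let g : Matrix.SpecialLinearGroup (Fin 4) F := ⟨!![1, 0, -1, 0; 0, 1, -5, -2; 0, 0, -5, -2; 0, 0, -2, -1],
    by simp [det_succ_row_zero, Fin.sum_univ_succ, Fin.succAbove]; norm_num⟩
  let M : Matrix (Fin 4) (Fin 4) F :=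
    !![3, -2, 1, 0; 13, -12, 8, -2; 17, -17, 12, -4; 6, -6, 4, -1]
  have hM : ((g * jor F 4 * g⁻¹ * (jor F 4)⁻¹ : Matrix.SpecialLinearGroup (Fin 4) F) :
      Matrix (Fin 4) (Fin 4) F) = M := by
    have e : (g : Matrix (Fin 4) (Fin 4) F) * jor F 4 = M * (jor F 4 * g) := by
      rw [jor_four]
      ext i j
      fin_cases i <;> fin_cases j <;> simp [g, M, mul_apply, Fin.sum_univ_four] <;> norm_num
    rw [mul_assoc (g * _), ← _root_.mul_inv_rev]
    exact coe_mul_inv_eq e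
  refine ⟨g, closure_eq_top_of_le _ fun H hH ↦ ?_⟩
  have hv : jorG F 4 ∈ H := hH _ (by simp)
  have hW : Matrix.SpecialLinearGroup.toGL (g * jor F 4 * g⁻¹ * (jor F 4)⁻¹) ∈ H := by
    rw [map_mul, map_inv]
    exact H.mul_mem (hH _ (by simp)) (H.inv_mem hv)
  let φ : Dual F (Fin 4 → F) :=
    (LinearMap.proj 0 : Dual F (Fin 4 → F)) - (LinearMap.proj 1 : Dual F (Fin 4 → F)) +
      (LinearMap.proj 2 : Dual F (Fin 4 → F)) - (LinearMap.proj 3 : Dual F (Fin 4 → F))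
  have hva : (jorG F 4)⁻¹ • (jorG F 4 • bv F 4 0) = bv F 4 0 := inv_smul_smul _ _
  have hb : φ (bv F 4 0) ≠ 0 := by simp [φ, bv_apply]
  have t : Tv H ((-4 : F) • jorG F 4 • bv F 4 0) φ := by
    refine ⟨by simp [jorG_bv, φ, bv_apply], _, H.pow_mem hW 4, fun x ↦ ?_⟩
    simp only [pow_succ, pow_zero, one_mul, mul_smul, gl_smul_toGL, hM, jorG_bv]
    ext i
    fin_cases i <;> simp [M, φ, mulVec, dotProduct, Fin.sum_univ_four, bv_apply] <;> ring
  have f0 : FullTv H (jorG F 4 • bv F 4 0) φ :=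
    fullTv_of_genMul (genMul_of_prime hp 0) (fun s _ ↦ by simpa using Tv.zero_left)
      (by rw [show (-4 : F) = -(2 * 2) by norm_num]; simp [h2]) t
  have f1 := f0.shift hv (by simp [jorG_bv, φ, bv_apply]) (by rwa [hva])
  have hc := mem_centers_of_climb hv f0 f1 (by rwa [hva])
    (cocyclic_jor (r := 3) (by simp [φ, bv_apply]))
  refine specialLinear_le_of_centers (eq_top_of_jor ?_ fun x hx ↦ smul_mem_centers hv hx)
  rw [← hva]
  exact smul_mem_centers (H.inv_mem hv) hc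

theorem dual_top_three {Ψ : Submodule F (Dual F (Fin 3 → F))} (h0 : LinearMap.proj 0 ∈ Ψ)
    (h1 : LinearMap.proj 1 ∈ Ψ) (h2 : LinearMap.proj 2 ∈ Ψ) : Ψ = ⊤ := by
  refine eq_top_iff.2 fun φ _ ↦ ?_
  have : φ = φ ![1, 0, 0] • LinearMap.proj 0 + φ ![0, 1, 0] • LinearMap.proj 1 +
      φ ![0, 0, 1] • LinearMap.proj 2 := by
    refine LinearMap.ext fun x ↦ ?_
    have e : x = x 0 • ![1, 0, 0] + x 1 • ![0, 1, 0] + x 2 • ![0, 0, 1] := by
      ext i; fin_cases i <;> simp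
    conv_lhs => rw [e]
    simp only [map_add, map_smul, smul_eq_mul, LinearMap.add_apply, LinearMap.smul_apply,
      LinearMap.proj_apply]
    ring
  rw [this]
  exact Ψ.add_mem (Ψ.add_mem (Ψ.smul_mem _ h0) (Ψ.smul_mem _ h1)) (Ψ.smul_mem _ h2)

/-- `SL 3 F` in characteristic two. -/
theorem exists_gen_pair_three_even [Finite F] (h2 : (2 : F) = 0) :
    ∃ g : Matrix.SpecialLinearGroup (Fin 3) F,
      Subgroup.closure ({jor F 3, g * jor F 3 * g⁻¹} : Set (Matrix.SpecialLinearGroup (Fin 3) F)) = ⊤ := by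
  obtain ⟨β, hβ, hprim⟩ := exists_primitive F
  let g : Matrix.SpecialLinearGroup (Fin 3) F := ⟨!![0, 0, β; β⁻¹, 0, 0; 0, 1, 0],
    by simp [det_fin_three, hβ]⟩
  have hM : ((g * jor F 3 * g⁻¹ : Matrix.SpecialLinearGroup (Fin 3) F) : Matrix (Fin 3) (Fin 3) F) =
      !![1, 0, β; 0, 1, 0; 0, β, 1] := coe_mul_inv_eq (by
    rw [Matrix.SpecialLinearGroup.coe_mul, jor_three]
    ext i j
    fin_cases i <;> fin_cases j <;> simp [g, mul_apply, Fin.sum_univ_three, hβ])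
  refine ⟨g, closure_eq_top_of_le _ fun H hH ↦ ?_⟩
  have hv : Matrix.SpecialLinearGroup.toGL (jor F 3) ∈ H := hH _ (by simp)
  have hu : Matrix.SpecialLinearGroup.toGL (g * jor F 3 * g⁻¹) ∈ H := hH _ (by simp)
  have hux : ∀ x : Fin 3 → F, Matrix.SpecialLinearGroup.toGL (g * jor F 3 * g⁻¹) • x =
      ![x 0 + β * x 2, x 1, β * x 1 + x 2] := fun x ↦ by
    rw [gl_smul_toGL, hM]; ext i; fin_cases i <;> simp [mulVec, dotProduct, Fin.sum_univ_three]
  have hvx : ∀ x : Fin 3 → F, Matrix.SpecialLinearGroup.toGL (jor F 3) • x =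
      ![x 0, x 0 + x 1, x 1 + x 2] := fun x ↦ by
    rw [gl_smul_toGL, jor_three]
    ext i; fin_cases i <;> simp [mulVec, dotProduct, Fin.sum_univ_three]
  generalize Matrix.SpecialLinearGroup.toGL (g * jor F 3 * g⁻¹) = u at hu hux
  generalize Matrix.SpecialLinearGroup.toGL (jor F 3) = v at hv hvx
  have t1 : Tv H (![0, 0, 1] : Fin 3 → F) (LinearMap.proj 0) :=
    ⟨by simp, v * v, H.mul_mem hv hv, fun x ↦ by
      rw [mul_smul, hvx, hvx]; ext i; fin_cases i <;> simp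
      · linear_combination x 0 * h2
      · linear_combination x 1 * h2⟩
  have t2 : Tv H ((β * β) • ![1, 0, 0] : Fin 3 → F) (LinearMap.proj 1) :=
    ⟨by simp, u * u, H.mul_mem hu hu, fun x ↦ by
      rw [mul_smul, hux, hux]; ext i; fin_cases i <;> simp
      · linear_combination β * x 2 * h2
      · linear_combination β * x 1 * h2⟩
  have s1 : ∀ s : F, Tv H (s • ![0, 0, 1] : Fin 3 → F) (LinearMap.proj 1) →
      Tv H ((β * s) • ![1, 0, 0] : Fin 3 → F) (LinearMap.proj 1) := fun s hs ↦ by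
    have a1 := (hs.conj' hu (ψ := LinearMap.proj 1) fun x ↦ by simp [hux]).sub_left hs
    convert a1 using 1
    rw [hux]; ext i; fin_cases i <;> simp
  have s2 : ∀ s : F, Tv H (s • ![1, 0, 0] : Fin 3 → F) (LinearMap.proj 1) →
      Tv H (s • ![0, 0, 1] : Fin 3 → F) (LinearMap.proj 1) := fun s hs ↦ by
    simpa using t1.comm hs (by simp)
  have f1 : FullTv H (![0, 0, 1] : Fin 3 → F) (LinearMap.proj 1) :=
    fullTv_of_genMul (genMul_of_primitive hprim) (fun s hs ↦ s2 _ (s1 s hs)) (mul_ne_zero hβ hβ)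
      (s2 _ t2)
  have x1 : LinearMap.proj 1 ∈ axes F (Fin 3 → F) H := fun y hy ↦ by
    have a1 := (s1 _ (f1 (y 0 / β))).add_left (f1 (y 2))
    rw [mul_div_cancel₀ _ hβ] at a1
    have hy' : y 1 = 0 := hy
    rwa [show y = y 0 • ![1, 0, 0] + y 2 • ![0, 0, 1] by ext i; fin_cases i <;> simp [hy']]
  have x0 : LinearMap.proj 0 ∈ axes F (Fin 3 → F) H := by
    convert Submodule.sub_mem _ (dact_mem_axes (H.inv_mem hv) x1) x1 using 1
    refine LinearMap.ext fun x ↦ ?_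
    simp [hvx]
  have x2 : LinearMap.proj 2 ∈ axes F (Fin 3 → F) H := by
    convert Submodule.smul_mem _ β⁻¹
      (Submodule.sub_mem _ (dact_mem_axes (H.inv_mem hu) x0) x0) using 1
    refine LinearMap.ext fun x ↦ ?_
    simp [hux, hβ]
  exact specialLinear_le_of_axes (dual_top_three x0 x1 x2)

/-- `SL 3 F` in odd characteristic. -/
theorem exists_gen_pair_three_odd [Fintype F] (h2 : (2 : F) ≠ 0) :
    ∃ v g : Matrix.SpecialLinearGroup (Fin 3) F, RegUnip (v : Matrix (Fin 3) (Fin 3) F) ∧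
      Subgroup.closure ({v, g * v * g⁻¹} : Set (Matrix.SpecialLinearGroup (Fin 3) F)) = ⊤ := by
  obtain ⟨ρ, hρ, hprim⟩ := exists_primitive F
  have hρ3 : ρ ^ 3 - 1 ≠ 0 := by
    intro h
    obtain ⟨k, hk⟩ := hprim (-1) (by simp)
    have : (ρ ^ k) ^ 3 = 1 := by rw [← pow_mul, mul_comm, pow_mul, sub_eq_zero.1 h, one_pow]
    rw [hk] at this
    exact h2 (by linear_combination -this)
  have hρ1 : ρ - 1 ≠ 0 := fun h ↦ hρ3 (by rw [sub_eq_zero.1 h]; simp)
  have hq : 1 + ρ + ρ ^ 2 ≠ 0 := fun h ↦ hρ3 (by linear_combination (ρ - 1) * h)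
  let v : Matrix.SpecialLinearGroup (Fin 3) F := ⟨!![0, -3, 1; 1, 3, 0; 0, 1, 0], by simp [det_fin_three]⟩
  let g : Matrix.SpecialLinearGroup (Fin 3) F :=
    ⟨!![ρ⁻¹, (1 - ρ) * (1 + 2 * ρ) / ρ, 0; 0, ρ, 0; 0, 0, 1], by simp [det_fin_three, hρ]⟩
  let M : Matrix (Fin 3) (Fin 3) F :=
    !![ρ⁻¹, (1 - ρ) * (1 + 2 * ρ), (3 * (ρ - 1) + (1 - ρ) ^ 2 * (1 + 2 * ρ) * (2 + ρ)) / ρ ^ 2;
      0, ρ ^ 2, (1 - ρ) * (2 + ρ); 0, 0, ρ⁻¹]
  have hM : ((g * v * g⁻¹ * v⁻¹ : Matrix.SpecialLinearGroup (Fin 3) F) : Matrix (Fin 3) (Fin 3) F) =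
      M := by
    have e : (g : Matrix (Fin 3) (Fin 3) F) * v = M * (v * g) := by
      ext i j
      fin_cases i <;> fin_cases j <;> simp [g, v, M, mul_apply, Fin.sum_univ_three] <;>
        field_simp <;> ring
    rw [mul_assoc (g * _), ← _root_.mul_inv_rev]
    exact coe_mul_inv_eq e
  refine ⟨v, g, ⟨⟨3, ?_⟩, fun h ↦ ?_⟩, closure_eq_top_of_le _ fun H hH ↦ ?_⟩
  · ext i j
    fin_cases i <;> fin_cases j <;>
      simp [v, pow_succ, mul_apply, Fin.sum_univ_three, one_apply] <;> norm_num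
  · have := congrFun (congrFun h 2) 0
    simp [v, pow_succ, mul_apply, Fin.sum_univ_three, one_apply] at this
  have hv : Matrix.SpecialLinearGroup.toGL v ∈ H := hH _ (by simp)
  have hW : Matrix.SpecialLinearGroup.toGL (g * v * g⁻¹ * v⁻¹) ∈ H := by
    rw [map_mul, map_inv]
    exact H.mul_mem (hH _ (by simp)) (H.inv_mem hv)
  let d : F := (ρ - 1) ^ 3 / (ρ * (1 + ρ + ρ ^ 2))
  have hd : d ≠ 0 := div_ne_zero (pow_ne_zero _ hρ1) (mul_ne_zero hρ hq)
  let c : Fin 3 → F := ![-ρ * (1 + 2 * ρ) / (1 + ρ + ρ ^ 2), 1, 0]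
  let ψ : Dual F (Fin 3 → F) :=
    LinearMap.proj 1 - (ρ * (2 + ρ) / (1 + ρ + ρ ^ 2)) • LinearMap.proj 2
  have hWx : ∀ z : Fin 3 → F, Matrix.SpecialLinearGroup.toGL (g * v * g⁻¹ * v⁻¹) • z =
      ρ⁻¹ • (z + (d * (LinearMap.proj 2 : Dual F (Fin 3 → F)) z) • ![1, 0, 0]) +
        ((ρ ^ 2 - ρ⁻¹) * ψ z) • c := fun z ↦ by
    rw [gl_smul_toGL, hM]
    ext i
    fin_cases i <;> simp [M, mulVec, dotProduct, Fin.sum_univ_three, c, ψ, d, vecHead, vecTail]
    all_goals field_simp; ring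
  have hvx : ∀ x : Fin 3 → F, Matrix.SpecialLinearGroup.toGL v • x =
      ![-3 * x 1 + x 2, x 0 + 3 * x 1, x 1] := fun x ↦ by
    rw [gl_smul_toGL]; ext i; fin_cases i <;> simp [v, mulVec, dotProduct, Fin.sum_univ_three]
  generalize Matrix.SpecialLinearGroup.toGL (g * v * g⁻¹ * v⁻¹) = W at hW hWx
  generalize Matrix.SpecialLinearGroup.toGL v = u at hv hvx
  have hvi : u⁻¹ • (![1, 0, 0] : Fin 3 → F) = ![0, 0, 1] := by
    rw [inv_smul_eq_iff, hvx]; simp
  have t0 : Tv H ((-d) • ![1, 0, 0] : Fin 3 → F) (LinearMap.proj 2) := by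
    refine ⟨by simp, _, H.pow_mem hW (Fintype.card F - 1), fun z ↦ ?_⟩
    rw [pow_smul_of_jordan hWx (by simp) (by simp [c]) (by simp [ψ]) (by simp [ψ, c]),
      FiniteField.pow_card_sub_one_eq_one _ (inv_ne_zero hρ),
      FiniteField.pow_card_sub_one_eq_one _ (pow_ne_zero 2 hρ),
      Nat.cast_sub Fintype.card_pos, FiniteField.cast_card_eq_zero]
    simp only [Nat.cast_one]
    module
  have t1 : Tv H ((d * d) • ![0, 1, 0] : Fin 3 → F) (LinearMap.proj 2) := by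
    have := (t0.conj hv).comm t0 (by simp [hvx])
    rw [dact_apply, smul_comm u⁻¹, hvi, hvx] at this
    convert this using 1
    ext i; fin_cases i <;> simp
  have sW : ∀ y : Fin 3 → F, Tv H y (LinearMap.proj 2) → Tv H (ρ • W • y) (LinearMap.proj 2) :=
    fun y hy ↦ by
      have h0 : y 2 = 0 := hy.1
      exact (hy.conj' hW (ψ := ρ • LinearMap.proj 2) fun x ↦ by
        simp [hWx, c, hρ, vecHead, vecTail]).of_smul_right
        (by simp [hWx, c, h0, vecHead, vecTail])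
  have fc : FullTv H c (LinearMap.proj 2) := by
    refine fullTv_of_genMul (genMul_cube h2 hprim) (fun s hs ↦ ?_)
      (mul_ne_zero (mul_ne_zero hd hd) hρ3) ?_
    · convert sW _ hs using 1
      rw [hWx]
      ext i; fin_cases i <;> simp [c, ψ] <;> field_simp <;> ring
    · convert (sW _ t1).sub_left t1 using 1
      rw [hWx]
      ext i; fin_cases i <;> simp [c, ψ] <;> field_simp <;> ring
  have t2 : Tv H ((d * d) • ![1, 0, 0] : Fin 3 → F) (LinearMap.proj 1) := by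
    have := t1.conj' (H.inv_mem hv) (ψ := LinearMap.proj 1) fun x ↦ by
      obtain ⟨y, rfl⟩ : ∃ y, x = u • y := ⟨u⁻¹ • x, by simp⟩
      rw [inv_smul_smul, hvx]; simp
    convert this using 1
    rw [eq_inv_smul_iff, hvx]; simp
  have x2 : LinearMap.proj 2 ∈ axes F (Fin 3 → F) H := fun y hy ↦ by
    have a1 := (t2.comm (fc ((y 0 - y 1 * c 0) / (d * d))) (by simp)).add_left (fc (y 1))
    have hy' : y 2 = 0 := hy
    have e : y = (LinearMap.proj 1 : Dual F (Fin 3 → F)) (((y 0 - y 1 * c 0) / (d * d)) • c) •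
        (d * d) • ![1, 0, 0] + y 1 • c := by
      ext i; fin_cases i <;> simp [c, hy']
      field_simp; ring
    rwa [← e] at a1
  have x1 : LinearMap.proj 1 ∈ axes F (Fin 3 → F) H := by
    convert dact_mem_axes (H.inv_mem hv) x2 using 1
    refine LinearMap.ext fun x ↦ ?_
    simp [hvx]
  have x0 : LinearMap.proj 0 ∈ axes F (Fin 3 → F) H := by
    convert Submodule.sub_mem _ (dact_mem_axes (H.inv_mem hv) x1) (Submodule.smul_mem _ 3 x1)
      using 1
    refine LinearMap.ext fun x ↦ ?_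
    simp [hvx]
  exact specialLinear_le_of_axes (dual_top_three x0 x1 x2)

end CL.SLn
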