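/-
Generation of `SL n F` by regular unipotent elements.
-/
import Cfsg.Agent.Cls.GenSmall

set_option autoImplicit false

namespace CL.SLn

open Module Matrix Cfsg Cfsg.Geo
open scoped commutatorElement

variable {F : Type*} [Field F]

/-- The functional `-2 x₀ + 4 x₁ - 8 x₂ + ξ x₃ + l x_last`. -/
noncomputable def famFun (m : ℕ) (ξ l : F) : Dual F (Fin (m + 3 + 1) → F) :=
  (-2 : F) • (LinearMap.proj ⟨0, by omega⟩ : Dual F (Fin (m + 3 + 1) → F)) +
    (4 : F) • (LinearMap.proj ⟨1, by omega⟩ : Dual F (Fin (m + 3 + 1) → F)) +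
    (-8 : F) • (LinearMap.proj ⟨2, by omega⟩ : Dual F (Fin (m + 3 + 1) → F)) +
    ξ • (LinearMap.proj ⟨3, by omega⟩ : Dual F (Fin (m + 3 + 1) → F)) +
    l • (LinearMap.proj ⟨m + 3, by omega⟩ : Dual F (Fin (m + 3 + 1) → F))

theorem famFun_apply (m : ℕ) (ξ l : F) (x : Fin (m + 3 + 1) → F) : famFun m ξ l x =
    -2 * x ⟨0, by omega⟩ + 4 * x ⟨1, by omega⟩ + -8 * x ⟨2, by omega⟩ + ξ * x ⟨3, by omega⟩ +
      l * x ⟨m + 3, by omega⟩ := rfl

theorem famFun_altv (m : ℕ) (ξ l : F) :
    famFun m ξ l (altv F (m + 3 + 1)) = -16 - ξ + (-1) ^ (m + 3) * l := by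
  simp only [famFun_apply, altv]
  norm_num
  ring

theorem exists_gen_fam (m : ℕ) (ξ l : F) (h : m = 0 → ξ = 0) (hl : l ≠ 0)
    (hne : -16 - ξ + (-1) ^ (m + 3) * l ≠ 0)
    (hgen : GenMul (2 * (-16 - ξ + (-1) ^ (m + 3) * l)) ∨
      ((2 : F) = 0 ∧ GenMul (-16 - ξ + (-1) ^ (m + 3) * l))) :
    ∃ g : GL (Fin (m + 3 + 1)) F, g.val.det = (-1) ^ (m + 3) * l ∧
      ∀ H : Subgroup (GL (Fin (m + 3 + 1)) F), jorG F (m + 3 + 1) ∈ H →
        g * jorG F (m + 3 + 1) * g⁻¹ ∈ H → specialLinear (Fin (m + 3 + 1)) F ≤ H := by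
  have e : famFun m ξ l (bv F (m + 3 + 1) (m + 3)) = l := by
    rcases m with _ | m
    · simp [famFun_apply, bv_apply, h]
    · simp [famFun_apply, bv_apply]
  have := exists_gen_pair (r := m + 3) (by omega) (famFun m ξ l) (by simp [famFun_apply, bv_apply])
    (by simp [famFun_apply, bv_apply]) (by simp [famFun_apply, bv_apply]) (by rwa [e])
    (by rwa [famFun_altv]) (by rwa [famFun_altv])
  rwa [e] at this

theorem exists_gen_conj_prime [Fintype F] (hp : (Fintype.card F).Prime) {n : ℕ} (hn : 4 ≤ n) :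
    ∃ g : Matrix.SpecialLinearGroup (Fin n) F,
      Subgroup.closure ({jor F n, g * jor F n * g⁻¹} :
        Set (Matrix.SpecialLinearGroup (Fin n) F)) = ⊤ := by
  obtain ⟨m, rfl⟩ : ∃ m, n = m + 3 + 1 := ⟨n - 4, by omega⟩
  have hsq : (-1 : F) ^ (m + 3) * (-1) ^ (m + 3) = 1 := by rw [← mul_pow]; simp
  have key : ∀ ξ : F, (m = 0 → ξ = 0) → -16 - ξ + 1 ≠ 0 →
      ∃ g : Matrix.SpecialLinearGroup (Fin (m + 3 + 1)) F,
      Subgroup.closure ({jor F (m + 3 + 1), g * jor F (m + 3 + 1) * g⁻¹} :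
        Set (Matrix.SpecialLinearGroup (Fin (m + 3 + 1)) F)) = ⊤ := by
    intro ξ h1 h2
    obtain ⟨g, hg, hH⟩ := exists_gen_fam m ξ ((-1) ^ (m + 3)) h1 (by simp) (by rwa [hsq])
      (Or.inl (genMul_of_prime hp _))
    obtain ⟨g, rfl⟩ := exists_sl_of_det (hg.trans hsq)
    refine ⟨g, closure_eq_top_of_le _ fun H h ↦ hH H (h _ (by simp)) ?_⟩
    have := h (g * jor F _ * g⁻¹) (by simp)
    rwa [map_mul, map_mul, map_inv] at this
  rcases m with _ | m
  · by_cases h2 : (2 : F) = 0
    · exact key 0 (fun _ ↦ rfl) fun h ↦ one_ne_zero (α := F) (by linear_combination h + 8 * h2)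
    · exact exists_gen_pair_four hp h2
  · exact key (-16) (by simp) (by simp)

theorem exists_gen_two [Fintype F] {n : ℕ} (hn : 4 ≤ n) :
    ∃ u : Matrix.SpecialLinearGroup (Fin n) F, RegUnip (u : Matrix (Fin n) (Fin n) F) ∧
      Subgroup.closure ({jor F n, u} : Set (Matrix.SpecialLinearGroup (Fin n) F)) = ⊤ := by
  obtain ⟨m, rfl⟩ : ∃ m, n = m + 3 + 1 := ⟨n - 4, by omega⟩
  have hsq : (-1 : F) ^ (m + 3) * (-1) ^ (m + 3) = 1 := by rw [← mul_pow]; simp
  obtain ⟨κ, h0, h16, hgen⟩ : ∃ κ : F, κ ≠ 0 ∧ κ + 16 ≠ 0 ∧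
      (GenMul (2 * κ) ∨ ((2 : F) = 0 ∧ GenMul κ)) := by
    obtain ⟨ρ, hρ, hprim⟩ := exists_primitive F
    have hg := genMul_of_primitive hprim
    by_cases h2 : (2 : F) = 0
    · exact ⟨ρ, hρ, fun h ↦ hρ (by linear_combination h - 8 * h2), Or.inr ⟨h2, hg⟩⟩
    by_cases h : ρ / 2 + 16 = 0
    · refine ⟨-ρ / 2, by simp [hρ, h2], fun h' ↦ ?_, Or.inl ?_⟩
      · have : ρ / 2 * 2 = 0 := by linear_combination h - h'
        simp [hρ, h2] at this
      · rw [mul_div_cancel₀ _ h2]; exact hg.neg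
    · exact ⟨ρ / 2, by simp [hρ, h2], h, Or.inl (by rwa [mul_div_cancel₀ _ h2])⟩
  have e : -16 - 0 + (-1) ^ (m + 3) * ((-1) ^ (m + 3) * (κ + 16)) = κ := by
    rw [← mul_assoc, hsq]; ring
  obtain ⟨g, -, hH⟩ := exists_gen_fam m 0 ((-1) ^ (m + 3) * (κ + 16)) (fun _ ↦ rfl)
    (by simp [h16]) (by rwa [e]) (by rwa [e])
  obtain ⟨u, hu⟩ := exists_sl_of_det (g := g * jorG F (m + 3 + 1) * g⁻¹) (by
    rw [← mem_specialLinear]
    exact specialLinear_normal.conj_mem _ (by rw [← range_toGL_eq]; exact ⟨_, rfl⟩) g)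
  refine ⟨u, ?_, closure_eq_top_of_le _ fun H h ↦ hH H (h _ (by simp)) (hu ▸ h u (by simp))⟩
  have : (u : Matrix _ _ F) = g.val * (jor F (m + 3 + 1) : Matrix _ _ F) * (g⁻¹).val :=
    congrArg Units.val hu
  rw [this]
  exact (regUnip_jor (by omega)).conj g

/-- A subgroup of `SL n F` holding all `t_ij(1)` and one `t_ij(μ)` with `μ` primitive. -/
theorem eq_top_of_transvection_one {ι : Type*} [Fintype ι] [DecidableEq ι]
    (h3 : ∀ i j : ι, ∃ k, k ≠ i ∧ k ≠ j) (H : Subgroup (Matrix.SpecialLinearGroup ι F))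
    (h1 : ∀ (i j : ι) (hij : i ≠ j), Matrix.SpecialLinearGroup.transvection hij 1 ∈ H) {μ : F}
    (hμ : GenMul μ) {i j : ι} (hij : i ≠ j)
    (h : Matrix.SpecialLinearGroup.transvection hij μ ∈ H) : H = ⊤ := by
  have C : ∀ {i j k : ι} (hik : i ≠ k) (hkj : k ≠ j) (hij : i ≠ j) {a b : F},
      Matrix.SpecialLinearGroup.transvection hik a ∈ H →
      Matrix.SpecialLinearGroup.transvection hkj b ∈ H →
      Matrix.SpecialLinearGroup.transvection hij (a * b) ∈ H := by
    intro i j k hik hkj hij a b ha hb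
    rw [← commutator_transvection hik hkj hij, commutatorElement_def]
    exact H.mul_mem (H.mul_mem (H.mul_mem ha hb) (H.inv_mem ha)) (H.inv_mem hb)
  have R : ∀ {i j : ι} (hij : i ≠ j) {i' : ι} (h' : i' ≠ j),
      Matrix.SpecialLinearGroup.transvection hij μ ∈ H →
      Matrix.SpecialLinearGroup.transvection h' μ ∈ H := by
    intro i j hij i' h' h
    by_cases e : i' = i
    · subst e; exact h
    · simpa using C e hij h' (h1 _ _ e) h
  have L : ∀ {i j : ι} (hij : i ≠ j) {j' : ι} (h' : i ≠ j'),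
      Matrix.SpecialLinearGroup.transvection hij μ ∈ H →
      Matrix.SpecialLinearGroup.transvection h' μ ∈ H := by
    intro i j hij j' h' h
    by_cases e : j = j'
    · subst e; exact h
    · simpa using C hij e h' h (h1 _ _ e)
  have P : ∀ (k l : ι) (hkl : k ≠ l), Matrix.SpecialLinearGroup.transvection hkl μ ∈ H := by
    intro k l hkl
    by_cases e : k = j
    · subst e
      obtain ⟨m, hm1, hm2⟩ := h3 i k
      exact L hm2.symm hkl (R hm1.symm hm2.symm (L hij hm1.symm h))
    · exact L e hkl (R hij e h)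
  let X : AddSubgroup F :=
    { carrier := {c | ∀ (k l : ι) (hkl : k ≠ l), Matrix.SpecialLinearGroup.transvection hkl c ∈ H}
      zero_mem' := fun k l hkl ↦ by
        rw [Matrix.SpecialLinearGroup.transvection_coeff_zero]; exact H.one_mem
      add_mem' := fun ha hb k l hkl ↦ by
        rw [Matrix.SpecialLinearGroup.transvection_add]; exact H.mul_mem (ha k l hkl) (hb k l hkl)
      neg_mem' := fun ha k l hkl ↦ by
        rw [← Matrix.SpecialLinearGroup.transvection_inv]; exact H.inv_mem (ha k l hkl) }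
  refine eq_top_of_transvection_mem H fun k l hkl c ↦
    hμ X (fun s hs k l hkl ↦ ?_) 1 h1 one_ne_zero c k l hkl
  obtain ⟨m, hm1, hm2⟩ := h3 k l
  exact C hm1.symm hm2 hkl (P _ _ _) (hs _ _ _)

theorem exists_gen_three [Fintype F] {n : ℕ} (hn : 4 ≤ n) :
    ∃ g h : Matrix.SpecialLinearGroup (Fin n) F,
      Subgroup.closure ({jor F n, g * jor F n * g⁻¹, h * jor F n * h⁻¹} :
        Set (Matrix.SpecialLinearGroup (Fin n) F)) = ⊤ := by
  obtain ⟨p, hchar, ⟨k, hp, -⟩⟩ := FiniteField.card' F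
  have := Fact.mk hp
  obtain ⟨g, hg⟩ := exists_gen_conj_prime (F := ZMod p) (by rwa [ZMod.card]) hn
  obtain ⟨μ, -, hprim⟩ := exists_primitive F
  let f : Matrix.SpecialLinearGroup (Fin n) (ZMod p) →* Matrix.SpecialLinearGroup (Fin n) F :=
    Matrix.SpecialLinearGroup.map (ZMod.castHom (dvd_refl p) F)
  have hf : f (jor (ZMod p) n) = jor F n := by
    apply Subtype.ext
    ext i j
    change ZMod.castHom (dvd_refl p) F ((1 + sh (ZMod p) n) i j) = (1 + sh F n) i j
    simp only [sh, Matrix.add_apply, of_apply, one_apply, map_add]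
    split_ifs <;> simp
  let i₀ : Fin n := ⟨0, by omega⟩
  let i₁ : Fin n := ⟨1, by omega⟩
  let l : Fin n := ⟨n - 1, by omega⟩
  have h0 : l ≠ i₀ := by simp [l, i₀, Fin.ext_iff]; omega
  have h1 : l ≠ i₁ := by simp [l, i₁, Fin.ext_iff]; omega
  refine ⟨f g, Matrix.SpecialLinearGroup.transvection h1 μ, ?_⟩
  set H := Subgroup.closure ({jor F n, f g * jor F n * (f g)⁻¹,
    Matrix.SpecialLinearGroup.transvection h1 μ * jor F n *
      (Matrix.SpecialLinearGroup.transvection h1 μ)⁻¹} :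
        Set (Matrix.SpecialLinearGroup (Fin n) F)) with hH
  have hj : jor F n ∈ H := Subgroup.subset_closure (by simp)
  refine eq_top_of_transvection_one (fun i j ↦ ?_) H (fun i j hij ↦ ?_)
    (genMul_of_primitive hprim) h0 ?_
  · exact Fin.exists_ne_and_ne_of_two_lt i j (by omega)
  · have : H.comap f = ⊤ := by
      rw [eq_top_iff, ← hg, Subgroup.closure_le]
      rintro x (rfl | rfl)
      · exact (show f _ ∈ H from hf ▸ hj)
      · change f _ ∈ H
        rw [map_mul, map_mul, map_inv, hf]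
        exact Subgroup.subset_closure (by simp)
    have h2 : f (Matrix.SpecialLinearGroup.transvection hij 1) ∈ H :=
      show _ ∈ H.comap f from this ▸ Subgroup.mem_top _
    convert h2
    apply Subtype.ext
    ext a b
    change (1 + single i j (1 : F)) a b =
      ZMod.castHom (dvd_refl p) F ((1 + single i j (1 : ZMod p)) a b)
    simp only [Matrix.add_apply, one_apply, map_add, single_apply]
    split_ifs <;> simp
  · have e : Matrix.SpecialLinearGroup.transvection h1 μ * jor F n =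
        jor F n * Matrix.SpecialLinearGroup.transvection h0 μ *
          Matrix.SpecialLinearGroup.transvection h1 μ := by
      have a1 : single l i₁ μ * sh F n = single l i₀ μ := by
        ext a b
        by_cases ha : a = l
        · subst ha
          rw [single_mul_apply_same]
          simp [sh, i₁, single_apply, i₀, Fin.ext_iff, eq_comm]
        · rw [single_mul_apply_of_ne _ _ _ _ _ ha, single_apply_of_row_ne (Ne.symm ha)]
      have a2 : ∀ j : Fin n, sh F n * single l j μ = 0 := by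
        intro j
        ext a b
        by_cases hb : b = j
        · subst hb
          rw [mul_single_apply_same]
          have : a.val ≠ n - 1 + 1 := by omega
          simp [sh, l, this]
        · rw [mul_single_apply_of_ne _ _ _ _ _ hb]; rfl
      apply Subtype.ext
      change (1 + single l i₁ μ) * (1 + sh F n) =
        (1 + sh F n) * (1 + single l i₀ μ) * (1 + single l i₁ μ)
      simp only [mul_add, add_mul, one_mul, mul_one, a1, a2, zero_mul, add_zero,
        single_mul_single_of_ne _ _ _ _ h0.symm]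
      abel
    have h2 : Matrix.SpecialLinearGroup.transvection h1 μ * jor F n *
      (Matrix.SpecialLinearGroup.transvection h1 μ)⁻¹ ∈ H := Subgroup.subset_closure (by simp)
    rw [e, mul_inv_cancel_right] at h2
    exact (H.mul_mem_cancel_left hj).1 h2

theorem exists_gen_pair_three [Fintype F] :
    ∃ v g : Matrix.SpecialLinearGroup (Fin 3) F, RegUnip (v : Matrix (Fin 3) (Fin 3) F) ∧
      Subgroup.closure ({v, g * v * g⁻¹} : Set (Matrix.SpecialLinearGroup (Fin 3) F)) = ⊤ := by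
  by_cases h2 : (2 : F) = 0
  · obtain ⟨g, hg⟩ := exists_gen_pair_three_even h2
    exact ⟨_, g, regUnip_jor (by norm_num), hg⟩
  · exact exists_gen_pair_three_odd h2

end CL.SLn
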