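/-
Lev's covering number theorem, part 0: flags, Hessenberg segments, the pencil lemma.
-/
import Cfsg.Agent.Cls.ProdLev

set_option autoImplicit false

namespace CL.Lev

open Module Polynomial Submodule CL.SLn

variable {F : Type*} [Field F] {V : Type*} [AddCommGroup V] [Module F V]

/-- The flag spanned by a sequence of vectors over a base subspace. -/
def R (U : Submodule F V) (e : ℕ → V) : ℕ → Submodule F V
  | 0 => U
  | j + 1 => R U e j ⊔ span F {e j}

/-- Prepending a vector. -/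
def cons (v : V) (e : ℕ → V) : ℕ → V
  | 0 => v
  | j + 1 => e j

theorem R_cons (U : Submodule F V) (v : V) (e : ℕ → V) (j : ℕ) :
    R U (cons v e) (j + 1) = R (U ⊔ span F {v}) e j := by
  induction j with
  | zero => rfl
  | succ j ih => rw [R, ih]; rfl

theorem R_mono (U : Submodule F V) (e : ℕ → V) {i j : ℕ} (h : i ≤ j) : R U e i ≤ R U e j := by
  induction h with
  | refl => exact le_rfl
  | step _ ih => exact ih.trans le_sup_left

theorem mem_R (U : Submodule F V) (e : ℕ → V) {i j : ℕ} (h : i < j) : e i ∈ R U e j :=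
  R_mono U e (Nat.succ_le_of_lt h) (mem_sup_right (mem_span_singleton_self _))

theorem R_le {U W : Submodule F V} {e : ℕ → V} {j : ℕ} (h0 : U ≤ W) (h : ∀ i < j, e i ∈ W) :
    R U e j ≤ W := by
  induction j with
  | zero => exact h0
  | succ j ih =>
    exact sup_le (ih fun i hi ↦ h i (by omega)) ((span_singleton_le_iff_mem _ _).2 (h j (by omega)))

theorem mem_R_succ {U : Submodule F V} {e : ℕ → V} {j : ℕ} {x : V} (h : x ∈ R U e (j + 1)) :
    ∃ (c : F), x - c • e j ∈ R U e j := by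
  obtain ⟨y, hy, z, hz, rfl⟩ := mem_sup.1 h
  obtain ⟨c, rfl⟩ := mem_span_singleton.1 hz
  exact ⟨c, by simpa using hy⟩

/-- `U` is `A`-invariant. -/
def Inv (A : End F V) (U : Submodule F V) : Prop := ∀ x ∈ U, A x ∈ U

/-- `A U ⊆ W`. -/
def Mp (A : End F V) (U W : Submodule F V) : Prop := ∀ x ∈ U, A x ∈ W

/-- Hessenberg segment from `U` to `U'`; invariant members have dimension in `N`. -/
inductive Seg (A : End F V) (N : Set ℕ) : Submodule F V → Submodule F V → Prop
  | refl (U : Submodule F V) : Seg A N U U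
  | step (U : Submodule F V) (v : V) (U' : Submodule F V) : v ∉ U → Mp A U (U ⊔ span F {v}) →
      (Inv A U → finrank F U ∈ N) → Seg A N (U ⊔ span F {v}) U' → Seg A N U U'

theorem Seg.trans {A : End F V} {N : Set ℕ} {U U' U'' : Submodule F V} (h : Seg A N U U')
    (h' : Seg A N U' U'') : Seg A N U U'' := by
  induction h with
  | refl => exact h'
  | step U v U' h1 h2 h3 _ ih => exact .step U v _ h1 h2 h3 (ih h')

theorem Seg.mono {A : End F V} {N N' : Set ℕ} {U U' : Submodule F V} (h : Seg A N U U')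
    (hN : N ⊆ N') : Seg A N' U U' := by
  induction h with
  | refl => exact .refl _
  | step U v U' h1 h2 h3 _ ih => exact .step U v _ h1 h2 (fun h ↦ hN (h3 h)) ih

theorem Seg.le {A : End F V} {N : Set ℕ} {U U' : Submodule F V} (h : Seg A N U U') : U ≤ U' := by
  induction h with
  | refl => exact le_rfl
  | step U v U' _ _ _ _ ih => exact le_sup_left.trans ih

/-- A flag given by vectors. -/
structure RFl (A : End F V) (N : Set ℕ) (U : Submodule F V) (e : ℕ → V) (m : ℕ) : Prop where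
  nm : ∀ j < m, e j ∉ R U e j
  hess : ∀ j < m, Mp A (R U e j) (R U e (j + 1))
  inv : ∀ j < m, Inv A (R U e j) → finrank F (R U e j) ∈ N
  top : R U e m = ⊤

theorem RFl.cons {A : End F V} {N : Set ℕ} {U : Submodule F V} {v : V} {e : ℕ → V} {m : ℕ}
    (h1 : v ∉ U) (h2 : Mp A U (U ⊔ span F {v})) (h3 : Inv A U → finrank F U ∈ N)
    (h : RFl A N (U ⊔ span F {v}) e m) : RFl A N U (cons v e) (m + 1) := by
  refine ⟨fun j hj ↦ ?_, fun j hj ↦ ?_, fun j hj ↦ ?_, by rw [R_cons, h.top]⟩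
  · cases j with
    | zero => exact h1
    | succ j => rw [R_cons]; exact h.nm j (by omega)
  · cases j with
    | zero => exact h2
    | succ j => rw [R_cons, R_cons]; exact h.hess j (by omega)
  · cases j with
    | zero => exact h3
    | succ j => rw [R_cons]; exact h.inv j (by omega)

theorem Seg.rfl' {A : End F V} {N : Set ℕ} {U U' : Submodule F V} (h : Seg A N U U')
    (hU : U' = ⊤) : ∃ e m, RFl A N U e m := by
  induction h with
  | refl U => exact ⟨fun _ ↦ 0, 0, by simp, by simp, by simp, hU⟩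
  | step U v U' h1 h2 h3 _ ih =>
    obtain ⟨e, m, h⟩ := ih hU
    exact ⟨_, _, h.cons h1 h2 h3⟩

variable [FiniteDimensional F V]

theorem finrank_sup_one {U : Submodule F V} {v : V} (h : v ∉ U) :
    finrank F ↥(U ⊔ span F {v}) = finrank F U + 1 := finrank_sup_span_singleton h

theorem finrank_R {U : Submodule F V} {e : ℕ → V} {m : ℕ} (h : ∀ j < m, e j ∉ R U e j) {j : ℕ}
    (hj : j ≤ m) : finrank F (R U e j) = finrank F U + j := by
  induction j with
  | zero => rfl
  | succ j ih => rw [R, finrank_sup_one (h j hj), ih (by omega)]; rfl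

theorem RFl.finrank_eq {A : End F V} {N : Set ℕ} {e : ℕ → V} {m : ℕ} (h : RFl A N ⊥ e m) {j : ℕ}
    (hj : j ≤ m) : finrank F (R (⊥ : Submodule F V) e j) = j := by
  simpa using finrank_R h.nm hj

theorem RFl.len {A : End F V} {N : Set ℕ} {e : ℕ → V} {m : ℕ} (h : RFl A N ⊥ e m) :
    m = finrank F V := by
  rw [← h.finrank_eq le_rfl, h.top, finrank_top]

omit [FiniteDimensional F V] in
theorem cyc_eq_sup (A : End F V) (v : V) : cyc A v = span F {v} ⊔ cyc A (A v) := by
  refine le_antisymm (cyc_le (mem_sup_left (mem_span_singleton_self _)) fun x hx ↦ ?_)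
    (sup_le ((span_singleton_le_iff_mem _ _).2 (self_mem_cyc _ _))
      (cyc_le (apply_mem_cyc (self_mem_cyc _ _)) fun _ ↦ apply_mem_cyc))
  obtain ⟨y, hy, z, hz, rfl⟩ := mem_sup.1 hx
  obtain ⟨c, rfl⟩ := mem_span_singleton.1 hy
  rw [map_add, map_smul]
  exact mem_sup_right (add_mem (smul_mem _ _ (self_mem_cyc _ _)) (apply_mem_cyc hz))

omit [FiniteDimensional F V] in
theorem mp_step {A : End F V} {U : Submodule F V} {v : V} (h : Mp A U (U ⊔ span F {v})) :
    Mp A (U ⊔ span F {v}) ((U ⊔ span F {v}) ⊔ span F {A v}) := by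
  intro x hx
  obtain ⟨y, hy, z, hz, rfl⟩ := mem_sup.1 hx
  obtain ⟨c, rfl⟩ := mem_span_singleton.1 hz
  rw [map_add, map_smul]
  exact add_mem (mem_sup_left (h y hy)) (mem_sup_right (smul_mem _ _ (mem_span_singleton_self _)))

/-- A cyclic block has no inner boundary. -/
theorem seg_blk (A : End F V) : ∀ (k : ℕ) (U : Submodule F V) (v : V),
    finrank F V - finrank F ↥(U ⊔ span F {v}) ≤ k → Mp A U (U ⊔ span F {v}) →
    Seg A ∅ (U ⊔ span F {v}) (U ⊔ cyc A v) := by
  intro k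
  induction k with
  | zero =>
    intro U v hk _
    have h1 : U ⊔ span F {v} = ⊤ :=
      eq_top_of_finrank_eq (le_antisymm (finrank_le _) (by omega))
    have h2 : U ⊔ cyc A v = ⊤ := eq_top_iff.2 (h1 ▸ sup_le_sup_left
      ((span_singleton_le_iff_mem _ _).2 (self_mem_cyc _ _)) _)
    rw [h1, h2]; exact .refl _
  | succ k ih =>
    intro U v hk h
    by_cases hv : A v ∈ U ⊔ span F {v}
    · have hI : Inv A (U ⊔ span F {v}) := fun x hx ↦ by
        have := mp_step h x hx
        rwa [sup_eq_left.2 ((span_singleton_le_iff_mem _ _).2 hv)] at this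
      have : U ⊔ cyc A v = U ⊔ span F {v} := le_antisymm
        (sup_le le_sup_left (cyc_le (mem_sup_right (mem_span_singleton_self _)) hI))
        (sup_le_sup_left ((span_singleton_le_iff_mem _ _).2 (self_mem_cyc _ _)) _)
      rw [this]; exact .refl _
    · refine .step _ (A v) _ hv (mp_step h)
        (fun hI ↦ (hv (hI v (mem_sup_right (mem_span_singleton_self _)))).elim) ?_
      have := ih (U ⊔ span F {v}) (A v) (by rw [finrank_sup_one hv]; omega) (mp_step h)
      rwa [sup_assoc U _ (cyc A (A v)), ← cyc_eq_sup] at this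

theorem seg_cyc {A : End F V} {U : Submodule F V} (hU : Inv A U) (v : V) :
    Seg A {finrank F U} U (U ⊔ cyc A v) := by
  by_cases hv : v ∈ U
  · rw [sup_eq_left.2 (cyc_le hv hU)]; exact .refl _
  · have h : Mp A U (U ⊔ span F {v}) := fun x hx ↦ mem_sup_left (hU x hx)
    exact .step _ v _ hv h (fun _ ↦ rfl) ((seg_blk A _ U v le_rfl h).mono (Set.empty_subset _))

omit [FiniteDimensional F V] in
theorem Inv.sup {A : End F V} {U W : Submodule F V} (hU : Inv A U) (hW : Inv A W) :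
    Inv A (U ⊔ W) := by
  intro x hx
  obtain ⟨y, hy, z, hz, rfl⟩ := mem_sup.1 hx
  rw [map_add]; exact add_mem_sup (hU y hy) (hW z hz)

omit [FiniteDimensional F V] in
theorem inv_cyc (A : End F V) (v : V) : Inv A (cyc A v) := fun _ ↦ apply_mem_cyc

theorem seg_of_inv (A : End F V) {W : Submodule F V} (hW : Inv A W) : ∀ (k : ℕ) (U : Submodule F V),
    finrank F W - finrank F U ≤ k → Inv A U → U ≤ W → Seg A (Set.Iio (finrank F W)) U W := by
  intro k
  induction k with
  | zero =>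
    intro U hk _ hle
    rw [eq_of_le_of_finrank_le hle (by omega)]; exact .refl _
  | succ k ih =>
    intro U hk hU hle
    by_cases h : U = W
    · rw [h]; exact .refl _
    obtain ⟨v, hv, hv'⟩ := SetLike.exists_of_lt (lt_of_le_of_ne hle h)
    have hlt : finrank F U < finrank F W := finrank_lt_finrank_of_lt (lt_of_le_of_ne hle h)
    have hle' : U ⊔ cyc A v ≤ W := sup_le hle (cyc_le hv hW)
    have hlt' : finrank F U < finrank F ↥(U ⊔ cyc A v) := finrank_lt_finrank_of_lt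
      (lt_of_le_of_ne le_sup_left fun e ↦ hv' (e ▸ mem_sup_right (self_mem_cyc _ _)))
    exact ((seg_cyc hU v).mono (by simpa using hlt)).trans
      (ih _ (by omega) (hU.sup (inv_cyc A v)) hle')

/-- Hessenberg form with boundaries in `N`. -/
def HF (A : End F V) (N : Set ℕ) : Prop := Seg A N ⊥ ⊤

omit [FiniteDimensional F V] in
theorem inv_bot (A : End F V) : Inv A ⊥ := fun x hx ↦ by simp_all

omit [FiniteDimensional F V] in
theorem inv_top (A : End F V) : Inv A ⊤ := fun _ _ ↦ trivial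

theorem hf_univ (A : End F V) : HF A Set.univ :=
  (seg_of_inv A (inv_top A) _ ⊥ le_rfl (inv_bot A) bot_le).mono (Set.subset_univ _)

/-- Cyclic endomorphism. -/
def Cy (A : End F V) : Prop := ∃ v, cyc A v = ⊤

theorem Cy.hf {A : End F V} (h : Cy A) : HF A {0} := by
  obtain ⟨v, hv⟩ := h
  have := seg_cyc (inv_bot A) v
  simpa [hv, HF] using this

/-- No subspace `U ≤ H` with `B U ⊆ T U` outside `A₀`. -/
def Ob (T B : End F V) (H A₀ : Submodule F V) : Prop :=
  ∀ U ≤ H, U.map B ≤ U.map T → U ≤ A₀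

theorem finrank_sup_map_le {S T : End F V} {A U : Submodule F V} (hA : A ≤ U)
    (h : A.map S ≤ A.map T) : finrank F ↥(U.map S ⊔ A.map T) ≤ finrank F U := by
  obtain ⟨K, hK, rfl⟩ := IsModularLattice.exists_disjoint_and_sup_eq hA
  have h1 : (A ⊔ K).map S ⊔ A.map T ≤ A.map T ⊔ K.map S := by
    rw [Submodule.map_sup]; exact sup_le (sup_le (h.trans le_sup_left) le_sup_right) le_sup_left
  have h2 := finrank_sup_add_finrank_inf_eq A K
  rw [hK.eq_bot, finrank_bot] at h2
  have h3 := finrank_sup_add_finrank_inf_eq (A.map T) (K.map S)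
  have := finrank_mono h1
  have := finrank_map_le T A
  have := finrank_map_le S K
  omega

/-- One step of the pencil lemma. -/
theorem ob_step {T B : End F V} (hT : Function.Injective T) (hB : Function.Injective B)
    {A₀ U : Submodule F V} {v v' : V} (hA : A₀ ≤ U) (h0 : A₀.map B ≤ A₀.map T) (hv : v ∉ U)
    (hT1 : Mp T U (U ⊔ span F {v})) (hB1 : Mp B U (U ⊔ span F {v}))
    (hT2 : T v ∈ (U ⊔ span F {v}) ⊔ span F {v'}) (hB2 : B v ∈ (U ⊔ span F {v}) ⊔ span F {v'})
    (hne : ¬ (T v ∈ U ⊔ span F {v} ∧ B v ∈ U ⊔ span F {v})) (hob : Ob T B U A₀)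
    {ψ : Dual F V} (hψ : ψ v' = 1) (hψ0 : ∀ x ∈ U ⊔ span F {v}, ψ x = 0) :
    ∃ w ∈ U ⊔ span F {v}, ∀ B' : End F V, (∀ x ∈ U ⊔ span F {v}, B' x = B x + ψ (B x) • w) →
      Ob T B' (U ⊔ span F {v}) A₀ := by
  obtain ⟨φ, hφ, hφ0⟩ := exists_dual_of_notMem hv
  set U1 := U ⊔ span F {v} with hU1
  have hdec : ∀ x ∈ U1, x - φ x • v ∈ U := fun x hx ↦ by
    obtain ⟨y, hy, z, hz, rfl⟩ := mem_sup.1 hx
    obtain ⟨c, rfl⟩ := mem_span_singleton.1 hz
    simpa [hφ0 y hy, hφ] using hy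
  have hdec' : ∀ x ∈ U1 ⊔ span F {v'}, ψ x = 0 → x ∈ U1 := fun x hx h ↦ by
    obtain ⟨y, hy, z, hz, rfl⟩ := mem_sup.1 hx
    obtain ⟨c, rfl⟩ := mem_span_singleton.1 hz
    have : c = 0 := by simpa [hψ0 y hy, hψ] using h
    simpa [this] using hy
  have hψT : ∀ x ∈ U1, ψ (T x) = φ x * ψ (T v) := fun x hx ↦ by
    have := hψ0 _ (hT1 _ (hdec x hx))
    simp only [map_sub, map_smul, smul_eq_mul] at this
    linear_combination this
  have hψB : ∀ x ∈ U1, ψ (B x) = φ x * ψ (B v) := fun x hx ↦ by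
    have := hψ0 _ (hB1 _ (hdec x hx))
    simp only [map_sub, map_smul, smul_eq_mul] at this
    linear_combination this
  set τ := ψ (T v)
  set β := ψ (B v)
  set t := β / τ
  set Z := U.map (B - t • T) ⊔ A₀.map T
  have hZ : finrank F Z ≤ finrank F U := finrank_sup_map_le hA (by
    rintro _ ⟨x, hx, rfl⟩
    exact sub_mem (h0 ⟨x, hx, rfl⟩) (smul_mem _ _ ⟨x, hx, rfl⟩))
  obtain ⟨z, hz, hzZ⟩ : ∃ z ∈ U1, z ∉ Z := by
    by_contra h
    push Not at h
    have := finrank_mono (show U1 ≤ Z from h)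
    rw [finrank_sup_one hv] at this
    omega
  obtain ⟨w, hw, hwZ⟩ : ∃ w ∈ U1, β ≠ 0 → (B v - t • T v) + β • w ∉ Z := by
    by_cases h : B v - t • T v ∈ Z
    · refine ⟨β⁻¹ • z, smul_mem _ _ hz, fun hβ h' ↦ hzZ ?_⟩
      rw [smul_inv_smul₀ hβ] at h'
      simpa using sub_mem h' h
    · exact ⟨0, zero_mem _, fun _ ↦ by simpa using h⟩
  refine ⟨w, hw, fun B' hB' U' hU' hm ↦ ?_⟩
  have hBU : ∀ x ∈ U, B' x = B x := fun x hx ↦ by
    rw [hB' x (mem_sup_left hx), hψ0 _ (hB1 x hx)]; simp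
  have hψB' : ∀ x ∈ U1, ψ (B' x) = φ x * β := fun x hx ↦ by
    rw [hB' x hx, map_add, map_smul, hψ0 w hw, hψB x hx]; simp
  -- enlarge `U'` by `A₀`
  set U2 := U' ⊔ A₀
  have hU2 : U2 ≤ U1 := sup_le hU' (hA.trans le_sup_left)
  have hm2 : ∀ x ∈ U2, ∃ x' ∈ U2, T x' = B' x := fun x hx ↦ by
    obtain ⟨y, hy, a, ha, rfl⟩ := mem_sup.1 hx
    obtain ⟨y', hy', e1⟩ := hm ⟨y, hy, rfl⟩
    obtain ⟨a', ha', e2⟩ := h0 ⟨a, ha, rfl⟩
    exact ⟨y' + a', add_mem_sup hy' ha', by rw [map_add, map_add, e1, e2, hBU a (hA ha)]⟩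
  have hrel : ∀ x ∈ U2, ∀ x' ∈ U2, T x' = B' x → φ x' * τ = φ x * β := fun x hx x' hx' e ↦ by
    rw [← hψT x' (hU2 hx'), e, hψB' x (hU2 hx)]
  have hker : ∀ x ∈ U1, φ x = 0 → x ∈ U := fun x hx h ↦ by simpa [h] using hdec x hx
  suffices h : U2 ≤ U from le_sup_left.trans (hob U2 h (by
    rintro _ ⟨x, hx, rfl⟩
    obtain ⟨x', hx', e⟩ := hm2 x hx
    exact ⟨x', hx', by rw [e, hBU x (h hx)]⟩))
  by_cases hτ : τ = 0
  · have hβ : β ≠ 0 := fun hβ ↦ hne ⟨hdec' _ hT2 hτ, hdec' _ hB2 hβ⟩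
    intro x hx
    obtain ⟨x', hx', e⟩ := hm2 x hx
    have := hrel x hx x' hx' e
    rw [hτ, mul_zero] at this
    exact hker x (hU2 hx) ((mul_eq_zero.1 this.symm).resolve_right hβ)
  have hI : U2 ⊓ U ≤ A₀ := hob _ inf_le_right (by
    rintro _ ⟨x, hx, rfl⟩
    obtain ⟨x', hx', e⟩ := hm2 x hx.1
    have := hrel x hx.1 x' hx' e
    rw [hφ0 x hx.2, zero_mul] at this
    exact ⟨x', ⟨hx', hker x' (hU2 hx') ((mul_eq_zero.1 this).resolve_right hτ)⟩,
      by rw [e, hBU x hx.2]⟩)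
  intro x0 hx0
  by_contra hx0U
  have hφ1 : φ x0 ≠ 0 := fun h ↦ hx0U (hker x0 (hU2 hx0) h)
  set x := (φ x0)⁻¹ • x0
  have hx : x ∈ U2 := smul_mem _ _ hx0
  have hφx : φ x = 1 := by simp [x, hφ1]
  obtain ⟨x', hx', e⟩ := hm2 x hx
  have h1 := hrel x hx x' hx' e
  have h2 : x' - t • x ∈ A₀ := hI ⟨sub_mem hx' (smul_mem _ _ hx), hker _
    (hU2 (sub_mem hx' (smul_mem _ _ hx))) (by
      simp only [map_sub, map_smul, smul_eq_mul, hφx, t]
      rw [hφx] at h1
      field_simp
      linear_combination h1)⟩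
  have h3 : x - v ∈ U := by simpa [hφx] using hdec x (hU2 hx)
  have h4 : B' x = B x + β • w := by rw [hB' x (hU2 hx), hψB x (hU2 hx), hφx, one_mul]
  by_cases hβ : β = 0
  · have h5 : A₀.map B = A₀.map T := eq_of_le_of_finrank_le h0 (by
      rw [← (equivMapOfInjective B hB A₀).finrank_eq, ← (equivMapOfInjective T hT A₀).finrank_eq])
    have h6 : B x ∈ A₀.map B := by
      rw [h5]
      refine ⟨x', by simpa [t, hβ] using h2, ?_⟩
      rw [e, h4, hβ]; simp
    obtain ⟨a, ha, e'⟩ := h6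
    have := hφ0 x (hB e' ▸ hA ha)
    rw [hφx] at this
    exact one_ne_zero this
  · refine hwZ hβ ?_
    have : B v - t • T v + β • w = T (x' - t • x) - (B - t • T) (x - v) := by
      simp only [map_sub, map_smul, LinearMap.sub_apply, LinearMap.smul_apply, e, h4]
      module
    rw [this]
    exact sub_mem (mem_sup_right ⟨_, h2, rfl⟩) (mem_sup_left ⟨_, h3, rfl⟩)

end CL.Lev
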