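/-
Lev's covering number theorem, part 1: SL-classes, alignment of flags, the pencil lemma, cyclic
products.
-/
import Cfsg.Agent.Cls.Lev0

set_option autoImplicit false
set_option linter.unusedSectionVars false

namespace CL.Lev

open Module Polynomial Submodule CL.SLn

/-- The general linear group of `V`. -/
abbrev GU (F V : Type*) [Field F] [AddCommGroup V] [Module F V] := (End F V)ˣ

variable {F : Type*} [Field F] {V : Type*} [AddCommGroup V] [Module F V]

/-- Determinant. -/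
noncomputable def dt (g : GU F V) : F := LinearMap.det (g : End F V)

@[simp] theorem dt_one : dt (1 : GU F V) = 1 := by simp [dt]

@[simp] theorem dt_mul (g h : GU F V) : dt (g * h) = dt g * dt h := by simp [dt]

theorem dt_ne_zero (g : GU F V) : dt g ≠ 0 := fun h ↦ by
  have := dt_mul g g⁻¹
  rw [mul_inv_cancel, dt_one, h, zero_mul] at this
  exact one_ne_zero this

@[simp] theorem dt_inv (g : GU F V) : dt g⁻¹ = (dt g)⁻¹ := by
  refine eq_inv_of_mul_eq_one_right ?_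
  rw [← dt_mul, mul_inv_cancel, dt_one]

@[simp] theorem dt_pow (g : GU F V) (k : ℕ) : dt (g ^ k) = dt g ^ k := by simp [dt]

@[simp] theorem inv_app (g : GU F V) (x : V) : (g⁻¹).val (g.val x) = x := by
  rw [← End.mul_apply, Units.inv_mul]; rfl

@[simp] theorem app_inv (g : GU F V) (x : V) : g.val ((g⁻¹).val x) = x := by
  rw [← End.mul_apply, Units.mul_inv]; rfl

theorem mul_app (g h : GU F V) (x : V) : (g * h).val x = g.val (h.val x) := rfl

theorem inj (g : GU F V) : Function.Injective g.val := fun a b e ↦ by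
  simpa using congrArg (g⁻¹).val e

theorem gu_ext {g h : GU F V} (e : ∀ x, g.val x = h.val x) : g = h :=
  Units.ext (LinearMap.ext e)

/-- Conjugacy under the special linear group. -/
def SC (A B : GU F V) : Prop := ∃ g : GU F V, dt g = 1 ∧ g * A * g⁻¹ = B

/-- The SL-class. -/
def cl (A : GU F V) : Set (GU F V) := {B | SC A B}

theorem SC.refl (A : GU F V) : SC A A := ⟨1, dt_one, by simp⟩

theorem SC.symm {A B : GU F V} (h : SC A B) : SC B A := by
  obtain ⟨g, hg, rfl⟩ := h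
  exact ⟨g⁻¹, by simp [hg], by group⟩

theorem SC.trans {A B C : GU F V} (h : SC A B) (h' : SC B C) : SC A C := by
  obtain ⟨g, hg, rfl⟩ := h
  obtain ⟨g', hg', rfl⟩ := h'
  exact ⟨g' * g, by simp [hg, hg'], by group⟩

theorem SC.inv {A B : GU F V} (h : SC A B) : SC A⁻¹ B⁻¹ := by
  obtain ⟨g, hg, rfl⟩ := h
  exact ⟨g, hg, by group⟩

theorem SC.dt_eq {A B : GU F V} (h : SC A B) : dt B = dt A := by
  obtain ⟨g, hg, rfl⟩ := h
  simp [hg]

theorem sc_of_conj {A : GU F V} (g c : GU F V) (hc : c * A = A * c) (hd : dt c = (dt g)⁻¹) :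
    SC A (g * A * g⁻¹) :=
  ⟨g * c, by simp [hd, dt_ne_zero], by
    rw [mul_assoc g c, hc]; group⟩

variable [FiniteDimensional F V]

/-- An endomorphism with non-zero determinant as a unit. -/
noncomputable def mkU (f : End F V) (h : LinearMap.det f ≠ 0) : GU F V :=
  ((LinearMap.isUnit_iff_isUnit_det f).2 (Ne.isUnit h)).unit

@[simp] theorem mkU_val (f : End F V) (h : LinearMap.det f ≠ 0) : (mkU f h).val = f := rfl

@[simp] theorem dt_mkU (f : End F V) (h : LinearMap.det f ≠ 0) :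
    dt (mkU f h) = LinearMap.det f := rfl

/-- The rank one update `x ↦ x + φ x • w`. -/
noncomputable def tvu (φ : Dual F V) (w : V) (h : 1 + φ w ≠ 0) : GU F V :=
  mkU (LinearMap.transvection φ w) (by simpa using h)

@[simp] theorem tvu_app (φ : Dual F V) (w : V) (h : 1 + φ w ≠ 0) (x : V) :
    (tvu φ w h).val x = x + φ x • w := rfl

@[simp] theorem dt_tvu (φ : Dual F V) (w : V) (h : 1 + φ w ≠ 0) : dt (tvu φ w h) = 1 + φ w := by
  simp [tvu]

theorem Inv.inv {g : GU F V} {U : Submodule F V} (h : Inv g.val U) : Inv (g⁻¹).val U := by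
  intro x hx
  obtain ⟨y, hy, rfl⟩ := exists_preimage_of_invariant (inj g) h hx
  simpa using hy

theorem finrank_map_gu (g : GU F V) (U : Submodule F V) :
    finrank F (U.map g.val) = finrank F U :=
  (equivMapOfInjective _ (inj g) U).finrank_eq.symm

theorem Inv.map_eq {g : GU F V} {U : Submodule F V} (h : Inv g.val U) : U.map g.val = U :=
  eq_of_le_of_finrank_le (by rintro _ ⟨x, hx, rfl⟩; exact h x hx) (finrank_map_gu g U).ge

theorem RFl.conj {B g : GU F V} {N : Set ℕ} {e e' : ℕ → V} {m : ℕ} (h : RFl B.val N ⊥ e m)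
    (nm : ∀ j < m, e' j ∉ R (⊥ : Submodule F V) e' j)
    (hg : ∀ i ≤ m, (R ⊥ e i).map g.val = R ⊥ e' i) : RFl (g * B * g⁻¹).val N ⊥ e' m := by
  refine ⟨nm, fun j hj ↦ ?_, fun j hj hI ↦ ?_, ?_⟩
  · rw [← hg j hj.le, ← hg (j + 1) hj]
    rintro _ ⟨x, hx, rfl⟩
    exact ⟨_, h.hess j hj x hx, by simp⟩
  · rw [← hg j hj.le, finrank_map_gu]
    refine h.inv j hj fun x hx ↦ ?_
    rw [← hg j hj.le] at hI
    obtain ⟨y, hy, e1⟩ := hI _ ⟨x, hx, rfl⟩
    simp only [mul_app, inv_app] at e1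
    exact inj g e1 ▸ hy
  · rw [← hg m le_rfl, h.top, Submodule.map_top, LinearMap.range_eq_top]
    exact fun x ↦ ⟨_, app_inv g x⟩

/-- The pencil lemma. -/
theorem pencil {T B : GU F V} {N N' : Set ℕ} {e : ℕ → V} {m : ℕ} (hT : RFl T.val N ⊥ e m)
    (hB : RFl B.val N' ⊥ e m) (j₀ : ℕ)
    (h0 : (R ⊥ e j₀).map B.val ≤ (R ⊥ e j₀).map T.val)
    (hc : ∀ j, j₀ < j → j < m → j ∈ N → j ∈ N' → False) {j : ℕ} (hj : j₀ ≤ j) (hjm : j < m) :
    ∃ g : GU F V, dt g = 1 ∧ (∀ i, Inv g.val (R ⊥ e i)) ∧ 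
      (∀ x ∈ R (⊥ : Submodule F V) e (j₀ + 1), g.val x = x) ∧
      Ob T.val (g * B * g⁻¹).val (R ⊥ e j) (R ⊥ e j₀) := by
  induction j, hj using Nat.le_induction with
  | base => exact ⟨1, dt_one, fun i x hx ↦ hx, fun _ _ ↦ rfl, fun U hU _ ↦ hU⟩
  | succ j hj ih =>
    obtain ⟨g, hg, hgI, hg0, hob⟩ := ih (by omega)
    have hB1 := hB.conj (g := g) hT.nm fun i _ ↦ (hgI i).map_eq
    set B1 := g * B * g⁻¹ with hB1def
    have hB10 : ∀ x ∈ R (⊥ : Submodule F V) e j₀, B1.val x = B.val x := fun x hx ↦ by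
      have h1 : (g⁻¹).val x = x := by
        conv_lhs => rw [← hg0 x (R_mono _ _ (Nat.le_succ _) hx)]
        simp
      rw [hB1def, mul_app, mul_app, h1, hg0 _ (hB.hess j₀ (by omega) x hx)]
    obtain ⟨ψ, hψ, hψ0⟩ := exists_dual_of_notMem (hT.nm (j + 1) hjm)
    obtain ⟨w, hw, hw'⟩ := ob_step (inj T) (inj B1) (R_mono ⊥ e hj) (v := e j) (v' := e (j + 1))
      (by
        rintro _ ⟨x, hx, rfl⟩
        rw [hB10 x hx]; exact h0 ⟨x, hx, rfl⟩)
      (hT.nm j (by omega)) (hT.hess j (by omega)) (hB1.hess j (by omega))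
      (hT.hess (j + 1) hjm _ (mem_R _ _ (Nat.lt_succ_self j)))
      (hB1.hess (j + 1) hjm _ (mem_R _ _ (Nat.lt_succ_self j)))
      (fun h ↦ by
        have k : ∀ {A : End F V} {M : Set ℕ}, RFl A M ⊥ e m →
            A (e j) ∈ R (⊥ : Submodule F V) e (j + 1) →
            j + 1 ∈ M := fun {A M} hA h ↦ by
          have := hA.inv (j + 1) hjm fun x hx ↦ by
            exact (sup_le le_rfl ((span_singleton_le_iff_mem _ _).2 h) :
              R ⊥ e (j + 1) ⊔ span F {A (e j)} ≤ _) (mp_step (hA.hess j (by omega)) x hx)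
          rwa [hA.finrank_eq hjm.le] at this
        exact hc (j + 1) (by omega) hjm (k hT h.1) (k hB1 h.2)) hob hψ hψ0
    have hw0 : ψ w = 0 := hψ0 w hw
    let g1 := tvu ψ w (by simp [hw0])
    have hg1 : ∀ x ∈ R (⊥ : Submodule F V) e (j + 1), g1.val x = x := fun x hx ↦ by simp [g1, hψ0 x hx]
    refine ⟨g1 * g, by simp [g1, hg, hw0], fun i x hx ↦ ?_, fun x hx ↦ ?_, ?_⟩
    · rw [mul_app]
      by_cases hi : i ≤ j + 1
      · rw [hg1 _ (R_mono _ _ hi (hgI i x hx))]; exact hgI i x hx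
      · exact add_mem (hgI i x hx) (smul_mem _ _ (R_mono ⊥ e (by omega : j + 1 ≤ i) hw))
    · rw [mul_app, hg0 x hx, hg1 x (R_mono _ _ (by omega) hx)]
    · refine hw' _ fun x hx ↦ ?_
      have h1 : (g1⁻¹).val x = x := by
        conv_lhs => rw [← hg1 x hx]
        simp
      rw [show g1 * g * B * (g1 * g)⁻¹ = g1 * B1 * g1⁻¹ by rw [hB1def]; group, mul_app, mul_app, h1]
      rfl

/-- Krylov vectors from observability. -/
theorem kry {y : End F V} {A₀ H : Submodule F V} (hA : Inv y A₀) (hAH : A₀ ≤ H)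
    (hH : finrank F H + 1 = finrank F V) (hob : ∀ U ≤ H, Inv y U → U ≤ A₀) {k : ℕ}
    (hk : finrank F A₀ + k + 1 = finrank F V) :
    ∃ v, (∀ i < k, (y ^ i) v ∈ H) ∧
      (∀ j < k + 1, (y ^ j) v ∉ R A₀ (fun i ↦ (y ^ i) v) j) ∧
      R A₀ (fun i ↦ (y ^ i) v) (k + 1) = ⊤ := by
  obtain ⟨z, hz⟩ : ∃ z, z ∉ H := by
    by_contra h
    push Not at h
    rw [show H = ⊤ from eq_top_iff.2 fun x _ ↦ h x, finrank_top] at hH
    omega
  obtain ⟨φ, hφ, hφ0⟩ := exists_dual_of_notMem hz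
  have hker : H = LinearMap.ker φ := eq_of_le_of_finrank_le hφ0 (by
    have := finrank_ker_add_one hφ; omega)
  let Φ : V →ₗ[F] (Fin k → F) := LinearMap.pi fun i ↦ φ ∘ₗ (y ^ (i : ℕ))
  have h1 := Φ.finrank_range_add_finrank_ker
  have h2 : finrank F (LinearMap.range Φ) ≤ k := by simpa using finrank_le (LinearMap.range Φ)
  obtain ⟨v, hv, hv'⟩ : ∃ v ∈ LinearMap.ker Φ, v ∉ A₀ := by
    by_contra h
    push Not at h
    have := finrank_mono (show LinearMap.ker Φ ≤ A₀ from h)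
    omega
  have h3 : ∀ i < k, (y ^ i) v ∈ H := fun i hi ↦ by
    rw [hker]; exact congrFun (LinearMap.mem_ker.1 hv) ⟨i, hi⟩
  have h4 : ∀ j < k + 1, (y ^ j) v ∉ R A₀ (fun i ↦ (y ^ i) v) j := fun j hj h ↦ by
    have hI : Inv y (R A₀ (fun i ↦ (y ^ i) v) j) := by
      refine R_le (W := (R A₀ (fun i ↦ (y ^ i) v) j).comap y)
        (fun x hx ↦ R_mono A₀ _ (Nat.zero_le j) (hA x hx)) fun i hi ↦ ?_
      rw [mem_comap, ← End.mul_apply, ← pow_succ']
      rcases (Nat.succ_le_of_lt hi).eq_or_lt with h' | h'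
      · rw [Nat.succ_eq_add_one] at h'; rw [h']; exact h
      · exact mem_R A₀ (fun i ↦ (y ^ i) v) h'
    have := hob _ (R_le hAH fun i hi ↦ h3 i (by omega)) hI
    cases j with
    | zero => exact hv' h
    | succ j => exact hv' (this (mem_R A₀ (fun i ↦ (y ^ i) v) (Nat.succ_pos j)))
  exact ⟨v, h3, h4, eq_top_of_finrank_eq (by rw [finrank_R h4 le_rfl]; omega)⟩

omit [FiniteDimensional F V] in
theorem R_le_cyc (y : End F V) (v : V) (U : Submodule F V) (k : ℕ) :
    R U (fun i ↦ (y ^ i) v) k ≤ U ⊔ cyc y v :=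
  R_le le_sup_left fun i _ ↦ mem_sup_right (by simpa using aeval_mem_cyc y v (X ^ i))

omit [FiniteDimensional F V] in
theorem R_eq_span (e : ℕ → V) (j : ℕ) : R (⊥ : Submodule F V) e j = span F (e '' Set.Iio j) := by
  induction j with
  | zero => simp [R]
  | succ j ih =>
    rw [R, ih, ← span_union, ← Set.image_singleton, ← Set.image_union]
    congr 2
    ext i; simp

/-- The basis of a flag. -/
theorem exists_basis {e : ℕ → V} {m : ℕ} (hm : m = finrank F V)
    (top : R (⊥ : Submodule F V) e m = ⊤) : ∃ b : Basis (Fin m) F V, ∀ i, b i = e i := by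
  refine ⟨basisOfTopLeSpanOfCardEqFinrank (fun i : Fin m ↦ e i) ?_ (by simpa using hm),
    fun i ↦ by rw [coe_basisOfTopLeSpanOfCardEqFinrank]⟩
  rw [← top, R_eq_span]
  refine span_mono ?_
  rintro _ ⟨i, hi, rfl⟩
  exact ⟨⟨i, hi⟩, rfl⟩

theorem exists_map {V' : Type*} [AddCommGroup V'] [Module F V'] {e : ℕ → V} {m : ℕ}
    (hm : m = finrank F V) (top : R (⊥ : Submodule F V) e m = ⊤) (e' : ℕ → V') :
    ∃ f : V →ₗ[F] V', ∀ i < m, f (e i) = e' i := by
  obtain ⟨b, hb⟩ := exists_basis hm top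
  exact ⟨b.constr F fun i ↦ e' i, fun i hi ↦ by rw [← hb ⟨i, hi⟩]; simp⟩

omit [FiniteDimensional F V] in
theorem map_R {V' : Type*} [AddCommGroup V'] [Module F V'] (f : V →ₗ[F] V') (U : Submodule F V)
    {e : ℕ → V} {e' : ℕ → V'} {j : ℕ} (h : ∀ i < j, f (e i) = e' i) :
    (R U e j).map f = R (U.map f) e' j := by
  induction j with
  | zero => rfl
  | succ j ih =>
    rw [R, R, Submodule.map_sup, ih fun i hi ↦ h i (by omega), map_span, Set.image_singleton,
      h j (by omega)]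

theorem det_unitri {e : ℕ → V} {m : ℕ} (hm : m = finrank F V)
    (top : R (⊥ : Submodule F V) e m = ⊤) {f : End F V}
    (h : ∀ i < m, f (e i) - e i ∈ R (⊥ : Submodule F V) e i) : LinearMap.det f = 1 := by
  obtain ⟨b, hb⟩ := exists_basis hm top
  have k : ∀ i j : Fin m, j ≤ i → b.repr (f (b j)) i = b.repr (b j) i := fun i j hij ↦ by
    have h1 : R (⊥ : Submodule F V) e j ≤ LinearMap.ker (b.coord i) := R_le bot_le fun l hl ↦ by
      have hl' : l < m := by omega
      rw [← hb ⟨l, hl'⟩, LinearMap.mem_ker, Basis.coord_apply, Basis.repr_self,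
        Finsupp.single_eq_of_ne]
      intro h'
      rw [h'] at hij
      exact absurd hl (not_lt.2 hij)
    have := h1 (h j j.2)
    rw [← hb j] at this
    simpa [sub_eq_zero] using this
  rw [← LinearMap.det_toMatrix b, Matrix.det_of_isUpperTriangular]
  · refine Finset.prod_eq_one fun i _ ↦ ?_
    rw [LinearMap.toMatrix_apply, k i i le_rfl]; simp
  · intro i j hij
    rw [LinearMap.toMatrix_apply, k i j (le_of_lt hij), Basis.repr_self, Finsupp.single_eq_of_ne]
    exact ne_of_gt hij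

theorem det_ne_zero_of_surj {f : End F V} (h : Function.Surjective f) : LinearMap.det f ≠ 0 :=
  ((LinearMap.isUnit_iff_isUnit_det f).1
    ((LinearMap.isUnit_iff_range_eq_top f).2 (LinearMap.range_eq_top.2 h))).ne_zero

/-- Alignment of two flags by an element of determinant one. -/
theorem align {e e' : ℕ → V} {k : ℕ} (hm : k + 1 = finrank F V)
    (top : R (⊥ : Submodule F V) e (k + 1) = ⊤) (top' : R (⊥ : Submodule F V) e' (k + 1) = ⊤)
    (nm' : e' k ∉ R (⊥ : Submodule F V) e' k) :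
    ∃ g : GU F V, dt g = 1 ∧ (∀ i < k, g.val (e i) = e' i) ∧
      ∀ i ≤ k + 1, (R ⊥ e i).map g.val = R ⊥ e' i := by
  obtain ⟨f, hf⟩ := exists_map hm top e'
  have h1 : ∀ i ≤ k + 1, (R ⊥ e i).map f = R ⊥ e' i := fun i hi ↦ by
    rw [map_R f ⊥ fun l hl ↦ hf l (by omega), Submodule.map_bot]
  have hd : LinearMap.det f ≠ 0 := det_ne_zero_of_surj (LinearMap.range_eq_top.1 (by
    have := (h1 _ le_rfl).trans top'
    rwa [top, Submodule.map_top] at this))
  obtain ⟨ψ, hψ, hψ0⟩ := exists_dual_of_notMem nm'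
  let D := tvu ψ (((LinearMap.det f)⁻¹ - 1) • e' k) (by simp [hψ, hd])
  have hD : ∀ x ∈ R (⊥ : Submodule F V) e' k, D.val x = x := fun x hx ↦ by simp [D, hψ0 x hx]
  refine ⟨D * mkU f hd, by simp [D, hψ, hd], fun i hi ↦ ?_, fun i hi ↦ ?_⟩
  · rw [mul_app, mkU_val, hf i (by omega), hD _ (mem_R _ _ hi)]
  · rw [Units.val_mul, End.mul_eq_comp, Submodule.map_comp, mkU_val, h1 i hi]
    refine Inv.map_eq fun x hx ↦ ?_
    rcases hi.eq_or_lt with rfl | hi
    · rw [top']; trivial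
    · rw [hD x (R_mono _ _ (by omega) hx)]; exact hx

/-- Lemma G: covering Hessenberg forms give a cyclic product. -/
theorem lemG {T B : GU F V} {N N' : Set ℕ} (hT : HF T.val N) (hB : HF B.val N')
    (hc : ∀ j, 0 < j → j < finrank F V → j ∈ N → j ∈ N' → False) :
    ∃ B', SC B B' ∧ Cy (T⁻¹ * B').val := by
  obtain ⟨e, m, hT⟩ := Seg.rfl' hT rfl
  obtain ⟨e', m', hB⟩ := Seg.rfl' hB rfl
  obtain rfl : m' = m := hB.len.trans hT.len.symm
  cases m' with
  | zero =>
    refine ⟨B, .refl B, 0, eq_top_iff.2 ?_⟩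
    rw [← hT.top]; exact bot_le
  | succ k =>
    obtain ⟨g0, hg0, -, hg0'⟩ := align hT.len hB.top hT.top (hT.nm k (Nat.lt_succ_self k))
    obtain ⟨g, hg, -, -, hob⟩ := pencil hT (hB.conj hT.nm hg0') 0 (by simp [R])
      (by rw [hT.len]; exact hc) (Nat.zero_le k) (Nat.lt_succ_self k)
    refine ⟨_, SC.trans ⟨g0, hg0, rfl⟩ ⟨g, hg, rfl⟩, ?_⟩
    obtain ⟨v, -, -, hv⟩ := kry (y := (T⁻¹ * (g * (g0 * B * g0⁻¹) * g⁻¹)).val) (inv_bot _)
      (bot_le : ⊥ ≤ R ⊥ e k) (by rw [hT.finrank_eq (Nat.le_succ k), ← hT.len])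
      (fun U hU hI ↦ hob U hU (by
        rintro _ ⟨x, hx, rfl⟩
        exact ⟨_, hI x hx, by rw [mul_app, app_inv]⟩)) (k := k) (by simp [← hT.len])
    exact ⟨v, eq_top_iff.2 (hv ▸ by simpa using R_le_cyc _ v ⊥ (k + 1))⟩

end CL.Lev
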