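/-
Lev's covering number theorem, part 2: pole assignment and the three classes theorem.
-/
import Cfsg.Agent.Cls.Lev1

set_option autoImplicit false
set_option linter.unusedSectionVars false

namespace CL.Lev

open Module Polynomial Submodule CL.SLn

variable {F : Type*} [Field F] {V : Type*} [AddCommGroup V] [Module F V]

theorem aeval_monic (y : End F V) {p : F[X]} (hp : p.Monic) (v : V) :
    aeval y p v = ∑ i ∈ Finset.range p.natDegree, p.coeff i • (y ^ i) v + (y ^ p.natDegree) v := by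
  rw [aeval_eq_sum_range, Finset.sum_range_succ, hp.coeff_natDegree, one_smul, LinearMap.add_apply,
    LinearMap.sum_apply]
  rfl

theorem aeval_eq_zero_of_cyc {T : End F V} {v : V} (hv : cyc T v = ⊤) {p : F[X]}
    (h : aeval T p v = 0) : aeval T p = 0 := by
  ext x
  obtain ⟨q, rfl⟩ : x ∈ cyc T v := hv ▸ trivial
  rw [ev_apply, ← End.mul_apply, ← map_mul, mul_comm, map_mul, End.mul_apply, h]
  simp

theorem pow_eq_of_agree {y y' : End F V} {H : Submodule F V} (h : ∀ x ∈ H, y' x = y x) {v : V}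
    {k : ℕ} (hk : ∀ i < k, (y ^ i) v ∈ H) : ∀ i ≤ k, (y' ^ i) v = (y ^ i) v := by
  intro i hi
  induction i with
  | zero => rfl
  | succ i ih =>
    rw [pow_succ', pow_succ', End.mul_apply, End.mul_apply, ih (by omega), h _ (hk i (by omega))]

theorem conj_pow_app (g X : GU F V) (x : V) (i : ℕ) :
    ((g * X * g⁻¹).val ^ i) (g.val x) = g.val ((X.val ^ i) x) := by
  induction i with
  | zero => rfl
  | succ i ih => rw [pow_succ', pow_succ', End.mul_apply, End.mul_apply, ih]; simp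

theorem exists_not_eigen' {a : End F V} (h : ∀ c : F, a ≠ c • 1) :
    ∃ u, ∀ c : F, c • u ≠ a u := by
  by_contra hc
  push Not at hc
  obtain ⟨c, e⟩ := a.exists_eq_smul_id_of_forall_notLinearIndependent fun v hv => by
    obtain ⟨c, e⟩ := hc v
    exact (LinearIndependent.pair_iff' (hv.ne_zero 0)).1 hv c e
  exact h c e

theorem divX_iter {p : F[X]} (hp : p.Monic) {j : ℕ} (hj : j ≤ p.natDegree) :
    (divX^[j] p).Monic ∧ (divX^[j] p).natDegree = p.natDegree - j := by
  induction j with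
  | zero => exact ⟨hp, rfl⟩
  | succ j ih =>
    obtain ⟨h1, h2⟩ := ih (by omega)
    rw [Function.iterate_succ_apply']
    have h3 : (divX (divX^[j] p)).natDegree = p.natDegree - (j + 1) := by
      rw [natDegree_divX_eq_natDegree_tsub_one, h2]; omega
    refine ⟨?_, h3⟩
    rw [Monic, leadingCoeff, h3, coeff_divX, show p.natDegree - (j + 1) + 1 = p.natDegree - j by
      omega, ← h2]
    exact h1

variable [FiniteDimensional F V]

theorem kry_top {T : End F V} {v : V} (hv : cyc T v = ⊤) :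
    R (⊥ : Submodule F V) (fun i ↦ (T ^ i) v) (finrank F V) = ⊤ := by
  obtain ⟨f, hf, hd, hf'⟩ := exists_order T v
  rw [hv, finrank_top] at hd
  have h0 := (hf' f).2 dvd_rfl
  rw [aeval_monic T hf, hd] at h0
  have h1 : (T ^ finrank F V) v ∈ R (⊥ : Submodule F V) (fun i ↦ (T ^ i) v) (finrank F V) := by
    rw [eq_neg_of_add_eq_zero_right h0]
    exact neg_mem (sum_mem fun i hi ↦ smul_mem _ _
      (mem_R ⊥ (fun i ↦ (T ^ i) v) (Finset.mem_range.1 hi)))
  by_cases hn : finrank F V = 0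
  · have := finrank_zero_iff.1 hn
    exact Subsingleton.elim _ _
  refine eq_top_iff.2 (hv ▸ cyc_le (mem_R ⊥ (fun i ↦ (T ^ i) v) (Nat.pos_of_ne_zero hn)) ?_)
  refine R_le (W := (R ⊥ (fun i ↦ (T ^ i) v) (finrank F V)).comap T) bot_le fun i hi ↦ ?_
  rw [mem_comap, ← End.mul_apply, ← pow_succ']
  rcases (Nat.succ_le_of_lt hi).eq_or_lt with h' | h'
  · rw [Nat.succ_eq_add_one] at h'; rw [h']; exact h1
  · exact mem_R ⊥ (fun i ↦ (T ^ i) v) h'

theorem det_cyc {T : End F V} {v : V} (hv : cyc T v = ⊤) {p : F[X]} (hp : p.Monic)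
    (hd : p.natDegree = finrank F V) (h : aeval T p = 0) :
    LinearMap.det T = (-1) ^ p.natDegree * p.coeff 0 := by
  have h1 : p ∣ T.charpoly := (aeval_eq_zero_iff_of_cyc hv hp.ne_zero h hd _).1 (by
    rw [LinearMap.aeval_self_charpoly]; rfl)
  have h2 : T.charpoly = p := eq_of_monic_of_dvd_of_natDegree_le hp T.charpoly_monic h1 (by
    rw [LinearMap.charpoly_natDegree, hd])
  rw [LinearMap.det_eq_sign_charpoly_coeff, h2, hd]

/-- The Horner basis. -/
theorem horner {T S : End F V} {x : V} (hx : cyc T x = ⊤) (hn0 : finrank F V ≠ 0)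
    (h : ∀ i < finrank F V, (S ^ i) x = (T ^ i) x) :
    ∃ β : End F V, LinearMap.det β = 1 ∧ β x = x ∧ (∀ k, k + 1 < finrank F V →
      S (β ((T ^ k) x)) - β ((T ^ (k + 1)) x) ∈ span F {x}) ∧
      ∀ k, k + 1 = finrank F V → S (β ((T ^ k) x)) ∈ span F {x} := by
  set n := finrank F V with hn
  set χ := S.charpoly
  have hχ : χ.Monic := S.charpoly_monic
  have hd : χ.natDegree = n := S.charpoly_natDegree
  obtain ⟨β, hβ⟩ := exists_map (V' := V) rfl (kry_top hx) fun k ↦ aeval S (divX^[n - k] χ) x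
  have key : ∀ j, S (aeval S (divX^[j + 1] χ) x) - aeval S (divX^[j] χ) x ∈ span F {x} := fun j ↦ by
    conv => enter [2, 2]; rw [← X_mul_divX_add (divX^[j] χ)]
    rw [Function.iterate_succ_apply']
    simp only [map_add, map_mul, aeval_X, aeval_C, LinearMap.add_apply, End.mul_apply,
      Module.algebraMap_end_apply, sub_add_cancel_left]
    exact neg_mem (smul_mem _ _ (mem_span_singleton_self _))
  have tri : ∀ k < n, β ((T ^ k) x) - (T ^ k) x ∈
      R (⊥ : Submodule F V) (fun i ↦ (T ^ i) x) k := fun k hk ↦ by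
    obtain ⟨h1, h2⟩ := divX_iter hχ (j := n - k) (by omega)
    have h3 : (divX^[n - k] χ).natDegree = k := by omega
    rw [hβ k hk, aeval_monic S h1, h3, h k hk, add_sub_cancel_right]
    refine sum_mem fun i hi ↦ smul_mem _ _ ?_
    have := Finset.mem_range.1 hi
    rw [h i (by omega)]
    exact mem_R ⊥ (fun i ↦ (T ^ i) x) this
  refine ⟨β, det_unitri rfl (kry_top hx) tri,
    sub_eq_zero.1 ((mem_bot F).1 (tri 0 (Nat.pos_of_ne_zero hn0))), fun k hk ↦ ?_, fun k hk ↦ ?_⟩
  · rw [hβ k (by omega), hβ (k + 1) hk, show n - k = n - (k + 1) + 1 by omega]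
    exact key _
  · have := key 0
    rw [Function.iterate_zero_apply, LinearMap.aeval_self_charpoly, LinearMap.zero_apply,
      sub_zero] at this
    rw [hβ k (by omega), show n - k = 0 + 1 by omega]
    exact this

/-- Pole assignment. -/
theorem pole {M X g : GU F V} {v x : V} (hx : cyc X.val x = ⊤)
    (hg : ∀ i < finrank F V, g.val ((X.val ^ i) x) = (M.val ^ i) v) :
    ∃ e : GU F V, dt e = dt g ∧ ∀ z, (e * X * e⁻¹).val z - M.val z ∈ span F {v} := by
  by_cases hn : finrank F V = 0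
  · have := finrank_zero_iff.1 hn
    exact ⟨g, rfl, fun z ↦ by rw [Subsingleton.elim (_ - _) 0]; exact zero_mem _⟩
  have hv : g.val x = v := hg 0 (Nat.pos_of_ne_zero hn)
  set S := g⁻¹ * M * g⁻¹⁻¹ with hS
  have hSx : ∀ i < finrank F V, (S.val ^ i) x = (X.val ^ i) x := fun i hi ↦ by
    have := conj_pow_app g⁻¹ M v i
    rwa [← hg i hi, inv_app, ← hv, inv_app] at this
  obtain ⟨α, hα, a0, a1, a2⟩ := horner hx hn (fun _ _ ↦ rfl)
  obtain ⟨β, hβ, b0, b1, b2⟩ := horner hx hn hSx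
  let αu := mkU α (by simp [hα])
  let βu := mkU β (by simp [hβ])
  have a0' : (αu⁻¹).val x = x := by
    conv_lhs => rw [← a0]
    exact inv_app αu x
  have hsp : ∀ w ∈ span F {x}, g.val (β ((αu⁻¹).val w)) ∈ span F {v} ∧ g.val w ∈ span F {v} :=
    fun w hw ↦ by
      obtain ⟨c, rfl⟩ := mem_span_singleton.1 hw
      simp only [map_smul, a0', b0, hv, and_self]
      exact smul_mem _ _ (mem_span_singleton_self _)
  refine ⟨g * βu * αu⁻¹, by simp [αu, βu, hα, hβ], fun z ↦ ?_⟩
  have : R (⊥ : Submodule F V) (fun i ↦ (X.val ^ i) x) (finrank F V) ≤ (span F {v}).comap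
      (((g * βu * αu⁻¹ * X * (g * βu * αu⁻¹)⁻¹).val - M.val) * (g * βu).val) := by
    refine R_le bot_le fun k hk ↦ ?_
    have e1 : (((g * βu * αu⁻¹ * X * (g * βu * αu⁻¹)⁻¹).val - M.val) * (g * βu).val)
        ((X.val ^ k) x) = g.val (β ((αu⁻¹).val (X.val (α ((X.val ^ k) x))))) -
          g.val (S.val (β ((X.val ^ k) x))) := by
      rw [sub_mul, ← Units.val_mul, ← Units.val_mul,
        show g * βu * αu⁻¹ * X * (g * βu * αu⁻¹)⁻¹ * (g * βu) = g * βu * αu⁻¹ * X * αu by group,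
        show M * (g * βu) = g * S * βu by rw [hS]; group]
      rfl
    rw [mem_comap, e1]
    rcases (Nat.succ_le_of_lt hk).eq_or_lt with h' | h'
    · exact sub_mem (hsp _ (a2 k h')).1 (hsp _ (b2 k h')).2
    · have := sub_mem (hsp _ (a1 k h')).1 (hsp _ (b1 k h')).2
      have e2 : (αu⁻¹).val (α ((X.val ^ (k + 1)) x)) = (X.val ^ (k + 1)) x := inv_app αu _
      simpa only [map_sub, e2, sub_sub_sub_cancel_right] using this
  rw [kry_top hx] at this
  have := this (mem_top (x := ((g * βu)⁻¹).val z))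
  rwa [mem_comap, End.mul_apply, app_inv] at this

theorem aeval_sub_mem {y y' : End F V} {u : V} {h : F} (hu : y u = h • u)
    (hy : ∀ z, y z - y' z ∈ span F {u}) (q : F[X]) (z : V) :
    aeval y q z - aeval y' q z ∈ span F {u} := by
  induction q using Polynomial.induction_on with
  | C a => simp [Algebra.algebraMap_eq_smul_one]
  | add p q hp hq =>
    have := add_mem hp hq
    simp only [map_add, LinearMap.add_apply]
    convert this using 1; abel
  | monomial k a hk =>
    rw [pow_succ', ← mul_assoc, mul_comm (C a), mul_assoc, map_mul, map_mul (aeval y'), aeval_X,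
      aeval_X, End.mul_apply, End.mul_apply]
    obtain ⟨c, hc⟩ := mem_span_singleton.1 hk
    have h1 := hy (aeval y' (C a * X ^ k) z)
    have h2 : y (aeval y (C a * X ^ k) z) - y (aeval y' (C a * X ^ k) z) ∈ span F {u} := by
      rw [← map_sub, ← hc, map_smul, hu]
      exact smul_mem _ _ (smul_mem _ _ (mem_span_singleton_self _))
    convert add_mem h1 h2 using 1; abel

theorem finrank_cyc_le {T : End F V} {v : V} {p : F[X]} (hp : p ≠ 0) (h : aeval T p v = 0) :
    finrank F (cyc T v) ≤ p.natDegree := by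
  obtain ⟨f, -, hd, hf⟩ := exists_order T v
  rw [← hd]; exact natDegree_le_of_dvd ((hf p).1 h) hp

/-- The main construction: two prescribed polynomials. -/
theorem thmA0 (hn : 3 ≤ finrank F V) {E X₀ : GU F V} (hE : ∀ a : F, E.val ≠ a • 1)
    (hX : Cy X₀.val) {h : F} {p : F[X]} (hp : p.Monic) (hd : p.natDegree + 1 = finrank F V)
    (hdet : dt X₀ = dt E * (h * ((-1) ^ p.natDegree * p.coeff 0))) :
    ∃ y : GU F V, SC X₀ (E * y) ∧ aeval y.val ((X - C h) * p) = 0 ∧
      (∃ u, u ≠ 0 ∧ y.val u = h • u) ∧ (p.eval h ≠ 0 → Cy y.val) := by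
  have h0 : h ≠ 0 := fun h0 ↦ dt_ne_zero X₀ (by simp [hdet, h0])
  obtain ⟨u, hu⟩ := exists_not_eigen' hE
  have hu0 : u ≠ 0 := fun e ↦ hu 0 (by simp [e])
  obtain ⟨x, hx⟩ := hX
  set d := p.natDegree with hdd
  -- the flag of `E`
  have mpE : Mp E.val (⊥ ⊔ span F {u}) ((⊥ ⊔ span F {u}) ⊔ span F {h • E.val u}) := by
    have := mp_step (A := E.val) (U := ⊥) (v := u) fun x hx ↦ by simp_all
    rwa [span_singleton_smul_eq (Ne.isUnit h0)]
  have nmE : h • E.val u ∉ (⊥ : Submodule F V) ⊔ span F {u} := fun hh ↦ by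
    rw [bot_sup_eq, smul_mem_iff _ h0] at hh
    obtain ⟨c, hc⟩ := mem_span_singleton.1 hh
    exact hu c hc
  obtain ⟨e₂, m₂, hE2⟩ := Seg.rfl' (((seg_blk E.val _ _ _ le_rfl mpE).mono
    (Set.subset_univ _)).trans ((seg_of_inv E.val (inv_top _) _ _ le_rfl (fun x hx ↦ by
      obtain ⟨a, ha, b, hb, rfl⟩ := mem_sup.1 hx
      rw [map_add]
      exact add_mem ((sup_le le_sup_left ((span_singleton_le_iff_mem _ _).2
        (mem_sup_right (self_mem_cyc _ _))) : _ ⊔ span F {h • E.val u} ≤ _)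
        (mpE a ha)) (mem_sup_right (apply_mem_cyc hb))) le_top).mono (Set.subset_univ _))) rfl
  have hE0 := (hE2.cons nmE mpE fun _ ↦ Set.mem_univ _).cons (U := ⊥) (by simpa using hu0)
    (fun x hx ↦ by simp_all) fun _ ↦ Set.mem_univ _
  -- the flag of `X₀`
  have hx0 : x ≠ 0 := fun e ↦ by
    have := finrank_cyc_le (T := X₀.val) (v := x) one_ne_zero (by simp [e])
    rw [hx, finrank_top, natDegree_one] at this
    omega
  have mpX : Mp X₀.val (⊥ ⊔ span F {x}) ((⊥ ⊔ span F {x}) ⊔ span F {X₀.val x}) :=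
    mp_step (U := ⊥) fun x hx ↦ by simp_all
  have nmX : X₀.val x ∉ (⊥ : Submodule F V) ⊔ span F {x} := fun hh ↦ by
    rw [bot_sup_eq] at hh
    obtain ⟨c, hc⟩ := mem_span_singleton.1 hh
    have := finrank_cyc_le (T := X₀.val) (v := x) (X_sub_C_ne_zero c) (by simp [← hc])
    rw [hx, finrank_top, natDegree_X_sub_C] at this
    omega
  obtain ⟨e₂', m₂', hX2⟩ := Seg.rfl' ((seg_blk X₀.val _ _ _ le_rfl mpX).mono
    (Set.empty_subset {0})) (by rw [bot_sup_eq, ← cyc_eq_sup, hx])
  have hX0 := (hX2.cons nmX mpX fun hI ↦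
    (nmX (hI x (mem_sup_right (mem_span_singleton_self _)))).elim).cons (U := ⊥)
    (by simpa using hx0) (fun x hx ↦ by simp_all) fun _ ↦ by simp
  set e := cons u (cons (h • E.val u) e₂)
  set e' := cons x (cons (X₀.val x) e₂')
  have l1 : m₂ + 1 = d := by have := hE0.len; omega
  have l2 : m₂' + 1 = d := by have := hX0.len; omega
  rw [l1] at hE0
  rw [l2] at hX0
  obtain ⟨g0, hg0, hg0e, hg0'⟩ := align hd hX0.top hE0.top (hE0.nm d (Nat.lt_succ_self d))
  have hg0x : g0.val x = u := hg0e 0 (by omega)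
  have hBu : (g0 * X₀ * g0⁻¹).val u = h • E.val u := by
    rw [← hg0x, mul_app, mul_app, inv_app, hg0x]; exact hg0e 1 (by omega)
  have hR1 : R (⊥ : Submodule F V) e 1 = span F {u} := bot_sup_eq _
  obtain ⟨g1, hg1, hg1I, hg1e, hob⟩ := pencil hE0 (hX0.conj hE0.nm hg0') 1 (by
    rw [hR1, map_span, map_span, Set.image_singleton, Set.image_singleton, hBu,
      span_singleton_smul_eq (Ne.isUnit h0)]) (fun j hj _ _ h ↦ by simp at h; omega)
    (j := d) (by omega) (Nat.lt_succ_self d)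
  have hB1 := (hX0.conj hE0.nm hg0').conj (g := g1) hE0.nm fun i _ ↦ (hg1I i).map_eq
  set g := g1 * g0 with hgdef
  rw [show g1 * (g0 * X₀ * g0⁻¹) * g1⁻¹ = g * X₀ * g⁻¹ by rw [hgdef]; group] at hob hB1
  set B := g * X₀ * g⁻¹ with hBdef
  have hgx : g.val x = u := by rw [hgdef, mul_app, hg0x]; exact hg1e u (mem_R ⊥ e (by omega : 0 < 2))
  have hBu' : B.val u = h • E.val u := by
    conv_lhs => rw [← hgx, hBdef, mul_app, mul_app, inv_app, hgdef, mul_app]
    rw [show g0.val (X₀.val x) = h • E.val u from hg0e 1 (by omega)]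
    exact hg1e _ (mem_R ⊥ e (by omega : 1 < 2))
  set H := R (⊥ : Submodule F V) e d
  set y1 := (E⁻¹ * B).val with hy1
  have hy1u : y1 u = h • u := by rw [hy1, mul_app, hBu', map_smul, inv_app]
  have hI1 : Inv y1 (span F {u}) := fun x hx ↦ by
    obtain ⟨c, rfl⟩ := mem_span_singleton.1 hx
    rw [map_smul, hy1u]
    exact smul_mem _ _ (smul_mem _ _ (mem_span_singleton_self _))
  have huH : span F {u} ≤ H := hR1 ▸ R_mono ⊥ e (by omega)
  have hHd : finrank F H + 1 = finrank F V := by rw [hE0.finrank_eq (Nat.le_succ d), hd]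
  obtain ⟨k, hk⟩ : ∃ k, d = k + 1 := ⟨d - 1, by omega⟩
  obtain ⟨v, hv1, hv2, hv3⟩ := kry hI1 huH hHd (fun U hU hI ↦ hR1 ▸ hob U hU (by
    rintro _ ⟨x, hx, rfl⟩
    exact ⟨_, hI x hx, by rw [hy1, mul_app, app_inv]⟩)) (k := k)
    (by rw [finrank_span_singleton hu0]; omega)
  have hvH : (y1 ^ k) v ∉ H := fun hh ↦ by
    have : R (span F {u}) (fun i ↦ (y1 ^ i) v) (k + 1) ≤ H := R_le huH fun i hi ↦ by
      rcases (Nat.lt_succ_iff.1 hi).eq_or_lt with rfl | hi
      · exact hh
      · exact hv1 i hi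
    rw [hv3, top_le_iff] at this
    rw [this, finrank_top] at hHd
    omega
  obtain ⟨φ, hφ, hφ0⟩ := exists_dual_of_notMem hvH
  set y2 : End F V := y1 - φ.smulRight (aeval y1 p v) with hy2
  have hy2H : ∀ z ∈ H, y2 z = y1 z := fun z hz ↦ by simp [hy2, hφ0 z hz]
  have hy2p := pow_eq_of_agree hy2H hv1
  have hy2u : y2 u = h • u := by rw [hy2H u (huH (mem_span_singleton_self _)), hy1u]
  have hpv : aeval y2 p v = 0 := by
    rw [aeval_monic y2 hp, ← hdd, hk, pow_succ', End.mul_apply, hy2p k le_rfl,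
      Finset.sum_congr rfl fun i hi ↦ by
        rw [hy2p i (Nat.lt_succ_iff.1 (Finset.mem_range.1 hi))]]
    have := aeval_monic y1 hp v
    rw [← hdd, hk, pow_succ', End.mul_apply] at this
    rw [hy2, LinearMap.sub_apply, LinearMap.smulRight_apply, hφ, one_smul, ← add_sub_assoc, ← this,
      sub_self]
  have htop : span F {u} ⊔ cyc y2 v = ⊤ := by
    refine eq_top_iff.2 (hv3 ▸ R_le le_sup_left fun i hi ↦ mem_sup_right ?_)
    rw [← hy2p i (by omega)]
    simpa using aeval_mem_cyc y2 v (X ^ i)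
  have hcd := finrank_cyc_le hp.ne_zero hpv
  have hucyc : u ∉ cyc y2 v := fun hh ↦ by
    rw [sup_eq_right.2 ((span_singleton_le_iff_mem _ _).2 hh)] at htop
    rw [htop, finrank_top] at hcd
    omega
  obtain ⟨φ', hφ', hφ0'⟩ := exists_dual_of_notMem hucyc
  have hker : cyc y2 v = LinearMap.ker φ' := eq_of_le_of_finrank_le hφ0' (by
    have := finrank_ker_add_one hφ'
    have := finrank_sup_one hucyc
    rw [sup_comm, htop, finrank_top] at this
    omega)
  have hdy2 : LinearMap.det y2 = h * ((-1) ^ d * p.coeff 0) := by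
    have hI : ∀ x ∈ LinearMap.ker φ', y2 x ∈ LinearMap.ker φ' := hker ▸ inv_cyc y2 v
    have hvk : v ∈ LinearMap.ker φ' := hker ▸ self_mem_cyc _ _
    have hc : cyc (y2.restrict hI) ⟨v, hvk⟩ = ⊤ := by
      rw [← comap_cyc (g := y2) (LinearMap.ker φ').subtype (injective_subtype _) (fun _ ↦ rfl)]
      exact eq_top_iff.2 fun z _ ↦ by rw [mem_comap, subtype_apply, subtype_apply, hker]; exact z.2
    rw [det_hyper hφ' y2 hI, hy2u, map_smul, hφ', smul_eq_mul, mul_one,
      det_cyc hc hp (by have := finrank_ker_add_one hφ'; omega) (aeval_eq_zero_of_cyc hc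
        (Subtype.ext ((CL.GLn.aeval_intertwine (f := y2.restrict hI) (LinearMap.ker φ').subtype
          (fun _ ↦ rfl) p _).trans hpv)))]
  let y2u := mkU y2 (fun e ↦ dt_ne_zero X₀ (by rw [hdet, ← hdy2, e, mul_zero]))
  set M := E * y2u with hM
  have hdM : dt M = dt X₀ := by rw [hM, dt_mul, hdet, dt_mkU, hdy2]
  have hMH : ∀ z ∈ H, M.val z = B.val z := fun z hz ↦ by
    rw [hM, mul_app, mkU_val, hy2H z hz, hy1, mul_app, app_inv]
  have hBR : ∀ i ≤ d, (B.val ^ i) u ∈ R (⊥ : Submodule F V) e (i + 1) := fun i hi ↦ by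
    induction i with
    | zero => exact mem_R ⊥ e (by omega : 0 < 1)
    | succ i ih => rw [pow_succ', End.mul_apply]; exact hB1.hess _ (by omega) _ (ih (by omega))
  have hMp := pow_eq_of_agree hMH (v := u) (k := d) fun i hi ↦ R_mono ⊥ e hi (hBR i hi.le)
  obtain ⟨e0, he0, he0'⟩ := pole (M := M) (X := X₀) (g := M * g * X₀⁻¹) (v := M.val u)
    (x := X₀.val x) (by rw [cyc_apply (inj X₀), hx]) fun i hi ↦ by
      rw [← End.mul_apply (X₀.val ^ i), ← pow_succ, pow_succ', End.mul_apply, mul_app, mul_app,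
        inv_app, ← conj_pow_app, hgx, ← hBdef, ← hMp i (by omega), ← End.mul_apply, ← pow_succ',
        pow_succ, End.mul_apply]
  set y := E⁻¹ * (e0 * X₀ * e0⁻¹) with hy
  have hyy : ∀ z, y.val z - y2 z ∈ span F {u} := fun z ↦ by
    obtain ⟨c, hc⟩ := mem_span_singleton.1 (he0' z)
    have : y.val z - y2 z = (E⁻¹).val ((e0 * X₀ * e0⁻¹).val z - M.val z) := by
      rw [map_sub, hM, mul_app E, inv_app]; rfl
    rw [this, ← hc, map_smul, hM, mul_app, inv_app, mkU_val, hy2u]
    exact smul_mem _ _ (smul_mem _ _ (mem_span_singleton_self _))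
  set ψ : Dual F V := φ' ∘ₗ (y.val - y2) with hψ
  have hψ' : ∀ z, y.val z = y2 z + ψ z • u := fun z ↦ by
    obtain ⟨c, hc⟩ := mem_span_singleton.1 (hyy z)
    have : ψ z = c := by
      rw [hψ, LinearMap.comp_apply, LinearMap.sub_apply, ← hc, map_smul, hφ', smul_eq_mul, mul_one]
    rw [this, hc]; abel
  have hyu : y.val u = h • u := by
    have h1 : y.val = LinearMap.transvection (ψ ∘ₗ (y2u⁻¹).val) u * y2 := LinearMap.ext fun z ↦ by
      rw [hψ' z, End.mul_apply, LinearMap.transvection.apply, LinearMap.comp_apply ψ,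
        show (y2u⁻¹).val (y2 z) = z from inv_app y2u z]
    have h2 : dt y = LinearMap.det y2 := by
      have := dt_ne_zero E
      have := dt_ne_zero e0
      rw [hy, dt_mul, dt_mul, dt_mul, dt_inv, dt_inv, ← hdM, hM, dt_mul, dt_mkU]
      field_simp
    rw [dt, h1, map_mul, LinearMap.transvection.det] at h2
    have h3 : (y2u⁻¹).val u = h⁻¹ • u := by
      rw [← inv_app y2u (h⁻¹ • u), map_smul, mkU_val, hy2u, inv_smul_smul₀ h0]
    have h4 := mul_right_cancel₀ (dt_ne_zero y2u) (h2.trans (one_mul _).symm)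
    rw [LinearMap.comp_apply, h3, map_smul, smul_eq_mul, add_eq_left, mul_eq_zero] at h4
    rw [hψ' u, h4.resolve_left (inv_ne_zero h0), hy2u]; simp
  have hsub := aeval_sub_mem hyu hyy p
  have hpy : ∀ z, aeval y.val p z ∈ span F {u} := fun z ↦ by
    obtain ⟨a, ha, b, hb, rfl⟩ := mem_sup.1 (show z ∈ span F {u} ⊔ cyc y2 v from htop ▸ trivial)
    obtain ⟨c, rfl⟩ := mem_span_singleton.1 ha
    obtain ⟨q, rfl⟩ := hb
    have := hsub (ev y2 v q)
    rw [ev_apply, ← End.mul_apply (aeval y2 p), ← map_mul, mul_comm, map_mul, End.mul_apply, hpv,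
      map_zero, sub_zero] at this
    rw [map_add, map_smul, aeval_eigen hyu]
    exact add_mem (smul_mem _ _ (smul_mem _ _ (mem_span_singleton_self _))) this
  refine ⟨y, ⟨e0, by simp [he0, hdM, hgdef, hg0, hg1, dt_ne_zero], by rw [hy]; group⟩,
    LinearMap.ext fun z ↦ ?_, ⟨u, hu0, hyu⟩, fun hph ↦ ?_⟩
  · obtain ⟨c, hc⟩ := mem_span_singleton.1 (hpy z)
    rw [map_mul, End.mul_apply, ← hc, map_smul, aeval_eigen hyu]
    simp
  · obtain ⟨c, hc⟩ := mem_span_singleton.1 (hpy v)
    refine ⟨v + ((1 - c) / p.eval h) • u, ?_⟩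
    have h1 : u ∈ cyc y.val (v + ((1 - c) / p.eval h) • u) := by
      have := aeval_mem_cyc y.val (v + ((1 - c) / p.eval h) • u) p
      rwa [map_add, map_smul, aeval_eigen hyu, ← hc, smul_smul, div_mul_cancel₀ _ hph, ← add_smul,
        add_sub_cancel, one_smul] at this
    refine eq_top_iff.2 (htop ▸ sup_le ((span_singleton_le_iff_mem _ _).2 h1) (cyc_le ?_ ?_))
    · simpa using sub_mem (self_mem_cyc _ _) (smul_mem _ ((1 - c) / p.eval h) h1)
    · intro z hz
      rw [eq_sub_of_add_eq (hψ' z).symm]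
      exact sub_mem (apply_mem_cyc hz) (smul_mem _ _ h1)

end CL.Lev
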