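/-
Lev's covering number theorem, part 3: good classes, the three classes theorem, scalars.
-/
import Cfsg.Agent.Cls.Lev2

set_option autoImplicit false
set_option linter.unusedSectionVars false

namespace CL.Lev

open Module Polynomial Submodule CL.SLn
open scoped Pointwise

variable {F : Type*} [Field F] {V : Type*} [AddCommGroup V] [Module F V]

/-- Non-central. -/
def NC (A : GU F V) : Prop := ∀ a : F, A.val ≠ a • 1

theorem NC.inv {A : GU F V} (h : NC A) : NC A⁻¹ := fun a e ↦ by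
  have h1 : ∀ x, x = a • A.val x := fun x ↦ by
    conv_lhs => rw [← inv_app A x, e]
    rfl
  by_cases ha : a = 0
  · exact h 0 (LinearMap.ext fun x ↦ by rw [h1 x, ha]; simp)
  · exact h a⁻¹ (LinearMap.ext fun x ↦ by
      conv_rhs => rw [LinearMap.smul_apply, End.one_apply, h1 x, inv_smul_smul₀ ha])

theorem mem_pow_sc {A : GU F V} {k : ℕ} {M M' : GU F V} (h : M ∈ cl A ^ k) (h' : SC M M') :
    M' ∈ cl A ^ k := by
  obtain ⟨g, hg, rfl⟩ := h'
  induction k generalizing M with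
  | zero => rw [pow_zero, Set.mem_one] at h ⊢; simp [h]
  | succ k ih =>
    rw [pow_succ] at h ⊢
    obtain ⟨a, ha, b, hb, rfl⟩ := h
    exact ⟨_, ih ha, g * b * g⁻¹, SC.trans hb ⟨g, hg, rfl⟩, by group⟩

theorem dt_of_mem {A : GU F V} {k : ℕ} {M : GU F V} (h : M ∈ cl A ^ k) : dt M = dt A ^ k := by
  induction k generalizing M with
  | zero => rw [pow_zero, Set.mem_one] at h; simp [h]
  | succ k ih =>
    rw [pow_succ] at h
    obtain ⟨a, ha, b, hb, rfl⟩ := h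
    rw [dt_mul, ih ha, SC.dt_eq hb, pow_succ]

theorem mul_mem_pow {A : GU F V} {j k : ℕ} {M M' : GU F V} (h : M ∈ cl A ^ j)
    (h' : M' ∈ cl A ^ k) : M * M' ∈ cl A ^ (j + k) := by
  rw [pow_add]; exact Set.mul_mem_mul h h'

theorem mem_pow_one {A B : GU F V} (h : SC A B) : B ∈ cl A ^ 1 := by rw [pow_one]; exact h

variable [FiniteDimensional F V]

theorem Cy.inv {A : GU F V} (h : Cy A.val) : Cy (A⁻¹).val := by
  obtain ⟨v, hv⟩ := h
  exact ⟨v, cyc_inv (Units.mul_inv A) hv⟩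

theorem Cy.nc {A : GU F V} (h : Cy A.val) (h2 : 2 ≤ finrank F V) : NC A := fun a e ↦ by
  obtain ⟨v, hv⟩ := h
  have := finrank_cyc_le (T := A.val) (v := v) (X_sub_C_ne_zero a) (by simp [e])
  rw [hv, finrank_top, natDegree_X_sub_C] at this
  omega

theorem conj_of_cyc {A B : GU F V} (hA : Cy A.val) (hB : Cy B.val) {P : F[X]} (hP : P ≠ 0)
    (h1 : aeval A.val P = 0) (h2 : aeval B.val P = 0) (hd : P.natDegree = finrank F V) :
    ∃ g : GU F V, g * A * g⁻¹ = B := by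
  obtain ⟨v, hv⟩ := hA
  obtain ⟨w, hw⟩ := hB
  obtain ⟨e, he⟩ := exists_equiv_of_cyc hv hw hP h1 h2 hd hd
  refine ⟨mkU e.toLinearMap (det_ne_zero_of_surj e.surjective), ?_⟩
  rw [mul_inv_eq_iff_eq_mul]
  exact gu_ext he

/-- Cyclic with a simple eigenvalue. -/
def Good (Y : GU F V) : Prop := ∃ (h : F) (p : F[X]), p.Monic ∧ p.natDegree + 1 = finrank F V ∧
  p.eval h ≠ 0 ∧ aeval Y.val ((X - C h) * p) = 0 ∧ Cy Y.val

theorem Good.cy {Y : GU F V} (h : Good Y) : Cy Y.val := by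
  obtain ⟨_, _, -, -, -, -, h⟩ := h; exact h

theorem Good.cent {Y : GU F V} (hY : Good Y) {δ : F} (hδ : δ ≠ 0) :
    ∃ c : GU F V, c * Y = Y * c ∧ dt c = δ := by
  obtain ⟨h, p, hp, hd, hph, h0, z, hz⟩ := hY
  set u := aeval Y.val p z with hu
  have hYu : Y.val u = h • u := by
    have := congrArg (fun f : End F V ↦ f z) h0
    simpa [sub_eq_zero, ← hu] using this
  have hu0 : u ≠ 0 := fun e ↦ by
    have := finrank_cyc_le hp.ne_zero (hu ▸ e)
    rw [hz, finrank_top] at this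
    omega
  obtain ⟨φ₀, hφ₀⟩ := exists_dual_eq_one (F := F) hu0
  have hw : ∀ w, aeval Y.val p w = φ₀ (aeval Y.val p w) • u := fun w ↦ by
    obtain ⟨q, rfl⟩ : w ∈ cyc Y.val z := hz ▸ trivial
    rw [ev_apply, ← End.mul_apply, ← map_mul, mul_comm, map_mul, End.mul_apply, ← hu,
      aeval_eigen hYu, map_smul, hφ₀, smul_eq_mul, mul_one]
  have h1 : 1 + (((δ - 1) / p.eval h) • φ₀ ∘ₗ aeval Y.val p) u = δ := by
    rw [LinearMap.smul_apply, LinearMap.comp_apply, aeval_eigen hYu, map_smul, hφ₀]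
    simp [hph]
  refine ⟨tvu _ u (h1 ▸ hδ), gu_ext fun x ↦ ?_, by rw [dt_tvu, h1]⟩
  simp only [mul_app, tvu_app, LinearMap.smul_apply, LinearMap.comp_apply, smul_eq_mul, mul_smul,
    ← hw, map_add, map_smul]
  rw [aeval_comm_apply]

theorem natDegree_good {h : F} {p : F[X]} (hp : p.Monic) :
    ((X - C h) * p).natDegree = p.natDegree + 1 := by
  rw [(monic_X_sub_C h).natDegree_mul hp, natDegree_X_sub_C, add_comm]

theorem det_good {Y : End F V} (hY : Cy Y) {h : F} {p : F[X]} (hp : p.Monic)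
    (hd : p.natDegree + 1 = finrank F V) (h0 : aeval Y ((X - C h) * p) = 0) :
    LinearMap.det Y = h * ((-1) ^ p.natDegree * p.coeff 0) := by
  obtain ⟨z, hz⟩ := hY
  rw [det_cyc hz ((monic_X_sub_C h).mul hp) (by rw [natDegree_good hp, hd]) h0, natDegree_good hp]
  simp only [mul_coeff_zero, coeff_sub, coeff_X_zero, coeff_C_zero]
  ring

/-- The three classes theorem. -/
theorem thmA (hn : 3 ≤ finrank F V) {E X₀ Y : GU F V} (hE : NC E) (hX : Cy X₀.val) (hY : Good Y)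
    (hdet : dt X₀ = dt E * dt Y) : ∃ y, SC Y y ∧ SC X₀ (E * y) := by
  obtain ⟨h, p, hp, hd, hph, h0, hc⟩ := id hY
  obtain ⟨y, h1, h2, -, h3⟩ := thmA0 hn hE hX hp hd (hdet.trans (by rw [← det_good hc hp hd h0]; rfl))
  obtain ⟨g, rfl⟩ := conj_of_cyc hc (h3 hph) ((monic_X_sub_C h).mul hp).ne_zero h0 h2
    (by rw [natDegree_good hp, hd])
  obtain ⟨c, hc1, hc2⟩ := hY.cent (inv_ne_zero (dt_ne_zero g))
  exact ⟨_, sc_of_conj g c hc1 hc2, h1⟩

/-- A product of `j` conjugates is cyclic. -/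
def J (A : GU F V) (j : ℕ) : Prop := ∃ M ∈ cl A ^ j, Cy M.val

theorem J.of_hf {A M : GU F V} {j : ℕ} (hM : M ∈ cl A ^ j) {N N' : Set ℕ} (h1 : HF (M⁻¹).val N)
    (h2 : HF A.val N') (hc : ∀ j, 0 < j → j < finrank F V → j ∈ N → j ∈ N' → False) :
    J A (j + 1) := by
  obtain ⟨B, hB, h⟩ := lemG h1 h2 hc
  rw [inv_inv] at h
  exact ⟨_, mul_mem_pow hM (mem_pow_one hB), h⟩

theorem J.succ {A : GU F V} {j : ℕ} (h : J A j) : J A (j + 1) := by
  obtain ⟨M, hM, h⟩ := h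
  exact J.of_hf hM h.inv.hf (hf_univ _) fun j hj _ h _ ↦ by simp at h; omega

theorem J.mono {A : GU F V} {j k : ℕ} (h : J A j) (hjk : j ≤ k) : J A k := by
  induction hjk with
  | refl => exact h
  | step _ ih => exact ih.succ

theorem Cy.j {A : GU F V} (h : Cy A.val) : J A 1 := ⟨A, mem_pow_one (.refl A), h⟩

theorem good_mem (hn : 3 ≤ finrank F V) {A Y : GU F V} (hA : NC A) {j : ℕ} (h : J A j)
    (hY : Good Y) (hd : dt Y = dt A ^ (j + 1)) : Y ∈ cl A ^ (j + 1) := by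
  obtain ⟨M, hM, h⟩ := h
  obtain ⟨y, h1, h2⟩ := thmA hn hA.inv h hY (by
    have := dt_ne_zero A
    rw [dt_of_mem hM, hd, dt_inv]; field_simp; ring)
  refine mem_pow_sc ?_ h1.symm
  have := mul_mem_pow (mem_pow_one (.refl A)) (mem_pow_sc hM h2)
  rwa [mul_inv_cancel_left, add_comm] at this

theorem mem_of_good (hn : 3 ≤ finrank F V) {A Y D : GU F V} {a b : ℕ} (h : J A a)
    (hY : Good Y) (hY' : Y ∈ cl A ^ b) (hD : NC D) (hd : dt D = dt A ^ (a + b)) :
    D ∈ cl A ^ (a + b) := by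
  obtain ⟨M, hM, h⟩ := h
  obtain ⟨y, h1, h2⟩ := thmA hn hD.inv h.inv hY (by
    have := dt_ne_zero A
    rw [dt_inv, dt_inv, dt_of_mem hM, hd, dt_of_mem hY', pow_add]; field_simp)
  have h3 := h2.inv
  rw [inv_inv, mul_inv_rev, inv_inv] at h3
  have := mul_mem_pow (mem_pow_sc hY' h1) (mem_pow_sc hM h3)
  rwa [mul_inv_cancel_left, add_comm] at this

theorem exists_model {P : F[X]} (hP : P.Monic) (hd : P.natDegree = finrank F V)
    (h0 : P.coeff 0 ≠ 0) : ∃ T : GU F V, Cy T.val ∧ aeval T.val P = 0 := by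
  let pb := AdjoinRoot.powerBasis' hP
  have := pb.finite
  have e : AdjoinRoot P ≃ₗ[F] V := LinearEquiv.ofFinrankEq _ _ (by
    rw [pb.finrank, ← hd]; rfl)
  let S : End F (AdjoinRoot P) := Algebra.lmul F _ (AdjoinRoot.root P)
  have hS : ∀ q : F[X], aeval S q 1 = AdjoinRoot.mk P q := fun q ↦ by
    rw [aeval_algHom_apply, AdjoinRoot.aeval_eq]; simp
  have hT : ∀ q : F[X], aeval (e.conj S) q (e 1) = e (AdjoinRoot.mk P q) := fun q ↦ by
    rw [← hS]
    exact (CL.GLn.aeval_intertwine (f := S) e.toLinearMap (fun v ↦ by simp) q 1).symm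
  have hc : cyc (e.conj S) (e 1) = ⊤ := eq_top_iff.2 fun x _ ↦ by
    obtain ⟨y, rfl⟩ := e.surjective x
    obtain ⟨q, rfl⟩ := AdjoinRoot.mk_surjective y
    exact ⟨q, hT q⟩
  have ha : aeval (e.conj S) P = 0 := aeval_eq_zero_of_cyc hc (by rw [hT]; simp)
  exact ⟨mkU (e.conj S) (by rw [det_cyc hc hP hd ha]; simp [h0]), ⟨_, hc⟩, ha⟩

theorem exists_good (h4 : ∀ a b c : F, ∃ x, x ≠ a ∧ x ≠ b ∧ x ≠ c) (hn : 3 ≤ finrank F V) {δ : F}
    (hδ : δ ≠ 0) (μ : F) : ∃ Y : GU F V, Good Y ∧ dt Y = δ ∧ ∃ P : F[X], P.Monic ∧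
      P.natDegree = finrank F V ∧ P.eval μ ≠ 0 ∧ aeval Y.val P = 0 := by
  obtain ⟨h, h0, hμ, -⟩ := h4 0 μ 0
  obtain ⟨d, hd⟩ : ∃ d, finrank F V = d + 2 + 1 := ⟨finrank F V - 3, by omega⟩
  set c := δ / (h * (-1) ^ (d + 2)) with hc
  have hs : ((-1 : F)) ^ (d + 2) ≠ 0 := pow_ne_zero _ (by simp)
  have hc0 : c ≠ 0 := div_ne_zero hδ (mul_ne_zero h0 hs)
  obtain ⟨a, ha1, ha2, -⟩ := h4 (-(h ^ (d + 2) + c) / h) (-(μ ^ (d + 2) + c) / μ) 0
  set p : F[X] := X ^ (d + 2) + (C a * X + C c) with hp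
  have hlt : (C a * X + C c).degree < ((d + 2 : ℕ) : WithBot ℕ) :=
    lt_of_le_of_lt degree_linear_le (by norm_cast; omega)
  have hm : p.Monic := monic_X_pow_add hlt
  have hdeg : p.natDegree = d + 2 := by
    rw [hp, natDegree_add_eq_left_of_degree_lt (by rwa [degree_X_pow]), natDegree_X_pow]
  have hp0 : p.coeff 0 = c := by simp [hp]
  have hev : ∀ t, t ≠ 0 → a ≠ -(t ^ (d + 2) + c) / t → p.eval t ≠ 0 := fun t ht hne e ↦ hne (by
    simp only [hp, eval_add, eval_pow, eval_X, eval_mul, eval_C] at e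
    field_simp
    linear_combination e)
  obtain ⟨Y, hY, hY'⟩ := exists_model (V := V) ((monic_X_sub_C h).mul hm)
    (by rw [natDegree_good hm, hdeg, hd]) (by simp [hp0, h0, hc0])
  refine ⟨Y, ⟨h, p, hm, by rw [hdeg, hd], hev h h0 ha1, hY', hY⟩, ?_, _,
    (monic_X_sub_C h).mul hm, by rw [natDegree_good hm, hdeg, hd], ?_, hY'⟩
  · rw [dt, det_good hY hm (by rw [hdeg, hd]) hY', hdeg, hp0, hc]
    field_simp
  · rw [eval_mul]
    refine mul_ne_zero (by simpa [sub_eq_zero] using hμ.symm) ?_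
    by_cases hμ0 : μ = 0
    · rw [hμ0, ← coeff_zero_eq_eval_zero, hp0]; exact hc0
    · exact hev μ hμ0 ha2

/-- Non-central elements from a short cyclic product. -/
theorem mem_of_J (h4 : ∀ a b c : F, ∃ x, x ≠ a ∧ x ≠ b ∧ x ≠ c) (hn : 3 ≤ finrank F V)
    {A D : GU F V} (hA : NC A) {j k : ℕ} (h : J A j) (hk : 2 * j + 1 ≤ k) (hD : NC D)
    (hd : dt D = dt A ^ k) : D ∈ cl A ^ k := by
  obtain ⟨Y, hY, hY', -⟩ := exists_good h4 hn (pow_ne_zero (j + 1) (dt_ne_zero A)) 0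
  obtain ⟨a, rfl⟩ : ∃ a, k = a + (j + 1) := ⟨k - (j + 1), by omega⟩
  exact mem_of_good hn (h.mono (by omega)) hY (good_mem hn hA h hY hY') hD hd

/-- A scalar is a product of `n` conjugates. -/
theorem thmZ (hn : 3 ≤ finrank F V) {A : GU F V} (hA : NC A)
    (h : Odd (finrank F V) ∨ ∃ c : GU F V, c * A = A * c ∧ dt c = -1) :
    ∃ M ∈ cl A ^ finrank F V, ∃ z : F, M.val = z • 1 := by
  set n := finrank F V with hn'
  set p : F[X] := ∑ i ∈ Finset.range n, X ^ i with hp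
  have hm : p.Monic := monic_geom_sum_X (by omega)
  have hmul : (X - C 1) * p = X ^ n - 1 := by rw [C_1, hp, mul_geom_sum]
  have hd : p.natDegree + 1 = n := by
    rw [← natDegree_good (h := 1) hm, hmul, ← C_1, natDegree_X_pow_sub_C]
  have hp0 : p.coeff 0 = 1 := by
    have := congrArg (fun q : F[X] ↦ q.coeff 0) hmul
    simpa [coeff_X_pow, show 0 ≠ n by omega] using this
  obtain ⟨X₀, hX, hX'⟩ := exists_model (V := V) (monic_X_pow_sub_C (dt A) (by omega : n ≠ 0))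
    natDegree_X_pow_sub_C (by simpa [coeff_X_pow, show 0 ≠ n by omega] using dt_ne_zero A)
  have hdX : dt X₀ = dt A * (1 * ((-1) ^ p.natDegree * p.coeff 0)) := by
    obtain ⟨z, hz⟩ := hX
    rw [dt, det_cyc hz (monic_X_pow_sub_C (dt A) (by omega : n ≠ 0)) natDegree_X_pow_sub_C hX',
      natDegree_X_pow_sub_C, hp0]
    conv_lhs => rw [← hd]
    simp [coeff_X_pow, pow_succ, mul_comm]
  obtain ⟨y, h1, h2, -, -⟩ := thmA0 hn hA hX hm hd hdX
  have hdy : dt y = (-1) ^ p.natDegree := by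
    have := h1.dt_eq
    rw [dt_mul, hdX, hp0] at this
    simpa using mul_left_cancel₀ (dt_ne_zero A) this
  have hsc : ∀ k, SC A (y ^ k * A * (y ^ k)⁻¹) := fun k ↦ by
    rcases h with h | ⟨c, hc, hc'⟩
    · exact ⟨y ^ k, by rw [dt_pow, hdy, Even.neg_one_pow (by rw [← hd] at h; simpa [parity_simps] using h), one_pow], rfl⟩
    · rcases neg_one_pow_eq_or F (p.natDegree * k) with h' | h'
      · exact ⟨y ^ k, by rw [dt_pow, hdy, ← pow_mul, h'], rfl⟩
      · exact sc_of_conj _ c hc (by rw [dt_pow, hdy, ← pow_mul, h', hc']; simp)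
  have key : ∀ k, (A * y) ^ k * (y ^ k)⁻¹ ∈ cl A ^ k := fun k ↦ by
    induction k with
    | zero => simp
    | succ k ih =>
      have := mul_mem_pow ih (mem_pow_one (hsc k))
      convert this using 1
      rw [pow_succ, pow_succ']; group
  refine ⟨_, key n, dt A, ?_⟩
  have hy : y ^ n = 1 := by
    rw [hmul, map_sub, map_pow, aeval_X, map_one, sub_eq_zero] at h2
    exact Units.ext h2
  obtain ⟨g, -, hg⟩ := h1
  rw [map_sub, map_pow, aeval_X, aeval_C, sub_eq_zero] at hX'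
  rw [hy, inv_one, mul_one, ← hg, conj_pow, Units.val_mul, Units.val_mul, Units.val_pow_eq_pow_val,
    hX', Algebra.algebraMap_eq_smul_one]
  simp

end CL.Lev
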