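/-
Lev's covering number theorem, part 4: direct sums and Hessenberg forms.
-/
import Cfsg.Agent.Cls.Lev3

set_option autoImplicit false
set_option linter.unusedSectionVars false

namespace CL.Lev

open Module Polynomial Submodule CL.SLn
open scoped Pointwise

universe u

variable {F : Type*} [Field F] {V V₁ V₂ V₃ W : Type*} [AddCommGroup V] [Module F V]
  [AddCommGroup V₁] [Module F V₁] [AddCommGroup V₂] [Module F V₂] [AddCommGroup V₃] [Module F V₃]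
  [AddCommGroup W] [Module F W]

/-- Direct sum of two automorphisms along `e`. -/
noncomputable def ds (e : (V₁ × V₂) ≃ₗ[F] V) (a : GU F V₁) (b : GU F V₂) : GU F V where
  val := e.conj (a.val.prodMap b.val)
  inv := e.conj ((a⁻¹).val.prodMap (b⁻¹).val)
  val_inv := LinearMap.ext fun x ↦ by
    obtain ⟨⟨x, y⟩, rfl⟩ := e.surjective x
    simp [-Units.val_inv_eq_inv_val]
  inv_val := LinearMap.ext fun x ↦ by
    obtain ⟨⟨x, y⟩, rfl⟩ := e.surjective x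
    simp [-Units.val_inv_eq_inv_val]

@[simp] theorem ds_app (e : (V₁ × V₂) ≃ₗ[F] V) (a : GU F V₁) (b : GU F V₂) (x : V₁) (y : V₂) :
    (ds e a b).val (e (x, y)) = e (a.val x, b.val y) := by simp [ds]

theorem ds_ext (e : (V₁ × V₂) ≃ₗ[F] V) {g h : GU F V}
    (H : ∀ x y, g.val (e (x, y)) = h.val (e (x, y))) : g = h := gu_ext fun x ↦ by
  obtain ⟨⟨x, y⟩, rfl⟩ := e.surjective x
  exact H x y

theorem ds_mul (e : (V₁ × V₂) ≃ₗ[F] V) (a a' : GU F V₁) (b b' : GU F V₂) :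
    ds e a b * ds e a' b' = ds e (a * a') (b * b') :=
  ds_ext e fun x y ↦ by simp

theorem ds_inv (e : (V₁ × V₂) ≃ₗ[F] V) (a : GU F V₁) (b : GU F V₂) :
    (ds e a b)⁻¹ = ds e a⁻¹ b⁻¹ := Units.ext rfl

theorem ds_one (e : (V₁ × V₂) ≃ₗ[F] V) : ds e 1 1 = 1 := ds_ext e fun x y ↦ by simp

theorem ds_swap (e : (V₁ × V₂) ≃ₗ[F] V) (a : GU F V₁) (b : GU F V₂) :
    ds e a b = ds ((LinearEquiv.prodComm F V₂ V₁).trans e) b a :=
  ds_ext e fun x y ↦ by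
    rw [ds_app]; exact (ds_app ((LinearEquiv.prodComm F V₂ V₁).trans e) b a y x).symm

/-- Reassociation. -/
noncomputable def asc (e : (V₁ × W) ≃ₗ[F] V) (e' : (V₂ × V₃) ≃ₗ[F] W) : ((V₁ × V₂) × V₃) ≃ₗ[F] V :=
  (LinearEquiv.prodAssoc F V₁ V₂ V₃).trans (((LinearEquiv.refl F V₁).prodCongr e').trans e)

theorem ds_assoc (e : (V₁ × W) ≃ₗ[F] V) (e' : (V₂ × V₃) ≃ₗ[F] W) (a : GU F V₁) (b : GU F V₂)
    (c : GU F V₃) : ds e a (ds e' b c) = ds (asc e e') (ds (LinearEquiv.refl F _) a b) c :=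
  ds_ext (asc e e') fun ⟨x, y⟩ z ↦ by
    rw [ds_app, show (ds (LinearEquiv.refl F _) a b).val (x, y) = (a.val x, b.val y) from
      ds_app (LinearEquiv.refl F _) a b x y]
    exact (ds_app e a (ds e' b c) x (e' (y, z))).trans (by rw [ds_app]; rfl)

theorem aeval_ds (e : (V₁ × V₂) ≃ₗ[F] V) (a : GU F V₁) (b : GU F V₂) (p : F[X]) (x : V₁) (y : V₂) :
    aeval (ds e a b).val p (e (x, y)) = e (aeval a.val p x, aeval b.val p y) := by
  have h1 := CL.GLn.aeval_intertwine (f := a.val) (g := (ds e a b).val)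
    (e.toLinearMap ∘ₗ LinearMap.inl F V₁ V₂) (fun v ↦ by simp) p x
  have h2 := CL.GLn.aeval_intertwine (f := b.val) (g := (ds e a b).val)
    (e.toLinearMap ∘ₗ LinearMap.inr F V₁ V₂) (fun v ↦ by simp) p y
  simp only [LinearMap.comp_apply, LinearMap.inl_apply, LinearMap.inr_apply,
    LinearEquiv.coe_coe] at h1 h2
  rw [show (x, y) = (x, 0) + (0, y) by simp, map_add, map_add, ← h1, ← h2, ← map_add]
  simp

theorem map_cyc {g : End F V} {g' : End F W} (ι : W →ₗ[F] V) (h : ∀ x, ι (g' x) = g (ι x))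
    (v : W) : (cyc g' v).map ι = cyc g (ι v) := by
  ext x
  constructor
  · rintro ⟨_, ⟨p, rfl⟩, rfl⟩
    exact ⟨p, (CL.GLn.aeval_intertwine ι h p v).symm⟩
  · rintro ⟨p, rfl⟩
    exact ⟨_, ⟨p, rfl⟩, CL.GLn.aeval_intertwine ι h p v⟩

/-- A sum of cyclic maps with coprime polynomials is cyclic. -/
theorem cy_ds (e : (V₁ × V₂) ≃ₗ[F] V) {a : GU F V₁} {b : GU F V₂} (ha : Cy a.val) (hb : Cy b.val)
    {P Q : F[X]} (hP : aeval a.val P = 0) (hQ : aeval b.val Q = 0) (h : IsCoprime P Q) :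
    Cy (ds e a b).val := by
  obtain ⟨v, hv⟩ := ha
  obtain ⟨w, hw⟩ := hb
  obtain ⟨s, t, hst⟩ := h
  refine ⟨e (v, w), eq_top_iff.2 fun z _ ↦ ?_⟩
  obtain ⟨⟨x, y⟩, rfl⟩ := e.surjective z
  obtain ⟨p, rfl⟩ : x ∈ cyc a.val v := hv ▸ trivial
  obtain ⟨q, rfl⟩ : y ∈ cyc b.val w := hw ▸ trivial
  refine ⟨p * (t * Q) + q * (s * P), ?_⟩
  have h1 : aeval a.val (t * Q) = 1 := by
    rw [eq_sub_of_add_eq' hst]; simp [hP]
  have h2 : aeval b.val (s * P) = 1 := by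
    rw [eq_sub_of_add_eq hst]; simp [hQ]
  rw [ev_apply, aeval_ds, map_add, map_add, map_mul _ p, map_mul _ p, map_mul _ q, map_mul _ q,
    h1, h2]
  simp [hP, hQ, ev_apply]

theorem aeval_ds_mul (e : (V₁ × V₂) ≃ₗ[F] V) {a : GU F V₁} {b : GU F V₂} {P Q : F[X]}
    (hP : aeval a.val P = 0) (hQ : aeval b.val Q = 0) : aeval (ds e a b).val (P * Q) = 0 := by
  ext z
  obtain ⟨⟨x, y⟩, rfl⟩ := e.surjective z
  rw [aeval_ds, map_mul, hP, mul_comm P, map_mul, hQ]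
  simp

variable [FiniteDimensional F V] [FiniteDimensional F V₁] [FiniteDimensional F V₂]
  [FiniteDimensional F V₃] [FiniteDimensional F W]

theorem finrank_ds (e : (V₁ × V₂) ≃ₗ[F] V) : finrank F V = finrank F V₁ + finrank F V₂ := by
  rw [← e.finrank_eq, finrank_prod]

@[simp] theorem dt_ds (e : (V₁ × V₂) ≃ₗ[F] V) (a : GU F V₁) (b : GU F V₂) :
    dt (ds e a b) = dt a * dt b := by
  rw [dt, dt, dt, ← LinearMap.det_prodMap, ← LinearMap.det_conj _ e]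
  rfl

theorem sc_ds (e : (V₁ × V₂) ≃ₗ[F] V) {a a' : GU F V₁} {b b' : GU F V₂} (ha : SC a a')
    (hb : SC b b') : SC (ds e a b) (ds e a' b') := by
  obtain ⟨g, hg, rfl⟩ := ha
  obtain ⟨h, hh, rfl⟩ := hb
  exact ⟨ds e g h, by simp [hg, hh], by rw [ds_inv, ds_mul, ds_mul]⟩

theorem mem_pow_ds (e : (V₁ × V₂) ≃ₗ[F] V) {a a' : GU F V₁} {b b' : GU F V₂} {k : ℕ}
    (ha : a' ∈ cl a ^ k) (hb : b' ∈ cl b ^ k) : ds e a' b' ∈ cl (ds e a b) ^ k := by
  induction k generalizing a' b' with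
  | zero =>
    rw [pow_zero, Set.mem_one] at ha hb ⊢
    rw [ha, hb, ds_one]
  | succ k ih =>
    rw [pow_succ] at ha hb ⊢
    obtain ⟨x, hx, y, hy, rfl⟩ := ha
    obtain ⟨x', hx', y', hy', rfl⟩ := hb
    exact ⟨_, ih hx hx', _, sc_ds e hy hy', ds_mul _ _ _ _ _⟩

theorem pow_mem_cl (a : GU F V) (k : ℕ) : a ^ k ∈ cl a ^ k := Set.pow_mem_pow (SC.refl a)

theorem exists_ds {A : GU F V} {R₁ R₂ : Submodule F V} (h : IsCompl R₁ R₂) (h1 : Inv A.val R₁)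
    (h2 : Inv A.val R₂) : ∃ (a : GU F R₁) (b : GU F R₂), A = ds (R₁.prodEquivOfIsCompl R₂ h) a b ∧
      (∀ x, (a.val x : V) = A.val x) ∧ ∀ y, (b.val y : V) = A.val y := by
  have k : ∀ {R : Submodule F V}, Inv A.val R → ∃ a : GU F R, ∀ x, (a.val x : V) = A.val x :=
    fun {R} hR ↦ ⟨⟨A.val.restrict hR, (A⁻¹).val.restrict hR.inv,
      LinearMap.ext fun x ↦ Subtype.ext (app_inv A x),
      LinearMap.ext fun x ↦ Subtype.ext (inv_app A x)⟩, fun _ ↦ rfl⟩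
  obtain ⟨a, ha⟩ := k h1
  obtain ⟨b, hb⟩ := k h2
  refine ⟨a, b, ds_ext (R₁.prodEquivOfIsCompl R₂ h) fun x y ↦ ?_, ha, hb⟩
  rw [ds_app]
  simp [ha, hb]

theorem Seg.map {A : End F V} {A₁ : End F W} (ι : W →ₗ[F] V) (hι : Function.Injective ι)
    (h : ∀ x, ι (A₁ x) = A (ι x)) {U : Submodule F V} (hU : Inv A U)
    (hd : Disjoint U (LinearMap.range ι)) {N : Set ℕ} {U₁ U₂ : Submodule F W}
    (H : Seg A₁ N U₁ U₂) :
    Seg A {j | ∃ i ∈ N, j = finrank F U + i} (U ⊔ U₁.map ι) (U ⊔ U₂.map ι) := by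
  have k : ∀ (U₁ : Submodule F W) v, ι v ∈ U ⊔ U₁.map ι → v ∈ U₁ := fun U₁ v hv ↦ by
    obtain ⟨a, ha, _, ⟨w, hw, rfl⟩, e⟩ := mem_sup.1 hv
    have : a = 0 := disjoint_def.1 hd a ha ⟨v - w, by rw [map_sub, ← e]; abel⟩
    rw [this, zero_add] at e
    exact hι e ▸ hw
  induction H with
  | refl => exact .refl _
  | step U₁ v U₂ h1 h2 h3 _ ih =>
    rw [Submodule.map_sup, map_span, Set.image_singleton, ← sup_assoc] at ih
    refine .step _ (ι v) _ (fun hv ↦ h1 (k _ _ hv)) (fun x hx ↦ ?_) (fun hI ↦ ?_) ih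
    · obtain ⟨a, ha, _, ⟨w, hw, rfl⟩, rfl⟩ := mem_sup.1 hx
      rw [map_add, ← h, sup_assoc, ← Set.image_singleton, ← map_span, ← Submodule.map_sup]
      exact add_mem_sup (hU a ha) ⟨_, h2 w hw, rfl⟩
    · refine ⟨_, h3 fun x hx ↦ k _ _ ?_, ?_⟩
      · rw [h]; exact hI _ (mem_sup_right ⟨x, hx, rfl⟩)
      · have := finrank_sup_add_finrank_inf_eq U (U₁.map ι)
        rw [(hd.mono_right LinearMap.map_le_range).eq_bot, finrank_bot,
          ← (equivMapOfInjective ι hι U₁).finrank_eq] at this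
        exact this

/-- The two embeddings. -/
abbrev i₁ (e : (V₁ × V₂) ≃ₗ[F] V) : V₁ →ₗ[F] V := e.toLinearMap ∘ₗ LinearMap.inl F V₁ V₂

abbrev i₂ (e : (V₁ × V₂) ≃ₗ[F] V) : V₂ →ₗ[F] V := e.toLinearMap ∘ₗ LinearMap.inr F V₁ V₂

theorem i₁_inj (e : (V₁ × V₂) ≃ₗ[F] V) : Function.Injective (i₁ e) :=
  e.injective.comp LinearMap.inl_injective

theorem i₂_inj (e : (V₁ × V₂) ≃ₗ[F] V) : Function.Injective (i₂ e) :=
  e.injective.comp LinearMap.inr_injective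

theorem i_disj (e : (V₁ × V₂) ≃ₗ[F] V) (U : Submodule F V₁) :
    Disjoint (U.map (i₁ e)) (LinearMap.range (i₂ e)) := by
  rw [disjoint_def]
  rintro _ ⟨x, -, rfl⟩ ⟨y, hy⟩
  have : x = 0 := (congrArg Prod.fst (e.injective hy)).symm
  simp [this]

theorem i_top (e : (V₁ × V₂) ≃ₗ[F] V) :
    (⊤ : Submodule F V₁).map (i₁ e) ⊔ (⊤ : Submodule F V₂).map (i₂ e) = ⊤ :=
  eq_top_iff.2 fun z _ ↦ by
    obtain ⟨⟨x, y⟩, rfl⟩ := e.surjective z
    exact mem_sup.2 ⟨_, ⟨x, trivial, rfl⟩, _, ⟨y, trivial, rfl⟩, by simp [← map_add]⟩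

theorem inv_map₁ (e : (V₁ × V₂) ≃ₗ[F] V) {a : GU F V₁} (b : GU F V₂) {U : Submodule F V₁}
    (h : Inv a.val U) : Inv (ds e a b).val (U.map (i₁ e)) := by
  rintro _ ⟨x, hx, rfl⟩
  exact ⟨_, h x hx, by simp⟩

theorem seg_ds₂ (e : (V₁ × V₂) ≃ₗ[F] V) {a : GU F V₁} {b : GU F V₂} {U : Submodule F V₁}
    (h : Inv a.val U) {N : Set ℕ} (hb : HF b.val N) :
    Seg (ds e a b).val {j | ∃ i ∈ N, j = finrank F U + i} (U.map (i₁ e))
      (U.map (i₁ e) ⊔ (⊤ : Submodule F V₂).map (i₂ e)) := by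
  have := Seg.map (i₂ e) (i₂_inj e) (A := (ds e a b).val) (fun x ↦ by simp) (inv_map₁ e b h)
    (i_disj e U) hb
  rwa [Submodule.map_bot, sup_bot_eq, ← (equivMapOfInjective _ (i₁_inj e) U).finrank_eq] at this

theorem seg_ds₁ (e : (V₁ × V₂) ≃ₗ[F] V) {a : GU F V₁} (b : GU F V₂) {U : Submodule F V₁}
    {N : Set ℕ} (ha : Seg a.val N ⊥ U) : Seg (ds e a b).val N ⊥ (U.map (i₁ e)) := by
  have := Seg.map (i₁ e) (i₁_inj e) (A := (ds e a b).val) (fun x ↦ by simp) (inv_bot _)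
    disjoint_bot_left ha
  simpa using this

theorem hf_ds (e : (V₁ × V₂) ≃ₗ[F] V) {a : GU F V₁} {b : GU F V₂} {N₁ N₂ : Set ℕ}
    (ha : HF a.val N₁) (hb : HF b.val N₂) :
    HF (ds e a b).val (N₁ ∪ {j | ∃ i ∈ N₂, j = finrank F V₁ + i}) := by
  have h2 := seg_ds₂ e (inv_top a.val) hb
  rw [i_top, finrank_top] at h2
  exact ((seg_ds₁ e b ha).mono Set.subset_union_left).trans (h2.mono Set.subset_union_right)

/-- An eigenvector with cyclic quotient. -/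
def EC (a : GU F V) : Prop :=
  ∃ x v, x ≠ 0 ∧ Inv a.val (span F {x}) ∧ span F {x} ⊔ cyc a.val v = ⊤

theorem cyc_inv_eq (a : GU F V) (v : V) : cyc (a⁻¹).val v = cyc a.val v :=
  le_antisymm (cyc_le (self_mem_cyc _ _) (inv_cyc a.val v).inv)
    (cyc_le (self_mem_cyc _ _) (by simpa [Inv] using (inv_cyc (a⁻¹).val v).inv))

theorem EC.inv {a : GU F V} (h : EC a) : EC a⁻¹ := by
  obtain ⟨x, v, h1, h2, h3⟩ := h
  exact ⟨x, v, h1, h2.inv, by rwa [cyc_inv_eq]⟩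

theorem inv_span {a : End F V} {x : V} {c : F} (h : a x = c • x) : Inv a (span F {x}) := by
  intro y hy
  obtain ⟨s, rfl⟩ := mem_span_singleton.1 hy
  rw [map_smul, h]
  exact smul_mem _ _ (smul_mem _ _ (mem_span_singleton_self _))

theorem Cy.ec {a : GU F V} (h : Cy a.val) {x : V} (hx : x ≠ 0) {c : F} (hc : a.val x = c • x) :
    EC a := by
  obtain ⟨v, hv⟩ := h
  exact ⟨x, v, hx, inv_span hc, by simp [hv]⟩

theorem hf_sandwich (e : (V₁ × V₂) ≃ₗ[F] V) {a : GU F V₁} {b : GU F V₂} {N : Set ℕ}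
    (ha : EC a) (hb : HF b.val N) :
    HF (ds e a b).val ({0} ∪ {j | ∃ i ∈ N, j = 1 + i} ∪ {1 + finrank F V₂}) := by
  obtain ⟨x, v, h1, h2, h3⟩ := ha
  have s1 : Seg a.val {0} ⊥ (span F {x}) := by
    have := seg_cyc (inv_bot a.val) x
    rwa [finrank_bot, bot_sup_eq, le_antisymm (cyc_le (mem_span_singleton_self x) h2)
      ((span_singleton_le_iff_mem _ _).2 (self_mem_cyc _ _))] at this
  have s2 := seg_ds₂ e h2 hb
  rw [finrank_span_singleton h1] at s2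
  have hI : Inv (ds e a b).val ((span F {x}).map (i₁ e) ⊔ (⊤ : Submodule F V₂).map (i₂ e)) :=
    (inv_map₁ e b h2).sup (by rintro _ ⟨y, -, rfl⟩; exact ⟨b.val y, trivial, by simp⟩)
  have s3 := seg_cyc hI (i₁ e v)
  have hd := finrank_sup_add_finrank_inf_eq ((span F {x}).map (i₁ e))
    ((⊤ : Submodule F V₂).map (i₂ e))
  rw [((i_disj e _).mono_right LinearMap.map_le_range).eq_bot, finrank_bot,
    ← (equivMapOfInjective _ (i₁_inj e) _).finrank_eq,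
    ← (equivMapOfInjective _ (i₂_inj e) _).finrank_eq, finrank_span_singleton h1, finrank_top,
    add_zero] at hd
  rw [hd, ← map_cyc (i₁ e) (g' := a.val) (fun x ↦ by simp), sup_right_comm, ← Submodule.map_sup,
    h3, i_top] at s3
  exact ((seg_ds₁ e b s1).mono fun _ h ↦ Or.inl (Or.inl h)).trans
    ((s2.mono fun _ h ↦ Or.inl (Or.inr h)).trans (s3.mono fun _ h ↦ Or.inr h))

theorem HF.zero_mem {A : End F V} {N : Set ℕ} (h : HF A N) (h0 : finrank F V ≠ 0) : 0 ∈ N := by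
  obtain ⟨e, m, h⟩ := Seg.rfl' h rfl
  have := h.inv 0 (by rw [h.len]; omega) (inv_bot _)
  rwa [h.finrank_eq (Nat.zero_le _)] at this

theorem HF.cy {A : GU F V} {N : Set ℕ} (h : HF A.val N)
    (hN : ∀ j, 0 < j → j < finrank F V → j ∉ N) : Cy A.val := by
  obtain ⟨B, ⟨g, -, rfl⟩, v, hv⟩ := lemG (hf_univ (1 : GU F V).val) h fun j h1 h2 _ h3 ↦ hN j h1 h2 h3
  rw [inv_one, one_mul] at hv
  refine ⟨(g⁻¹).val v, ?_⟩
  rw [← map_cyc (g' := (g * A * g⁻¹).val) (g⁻¹).val (fun x ↦ by simp), hv, Submodule.map_top,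
    LinearMap.range_eq_top]
  exact fun x ↦ ⟨_, inv_app g x⟩

/-- All blocks have dimension at least two. -/
def Tail (A : GU F V) : Prop := ∃ N : Set ℕ, (∀ i ∈ N, i + 1 ∉ N ∧ i + 2 ≤ finrank F V) ∧
  HF A.val N ∧ HF (A⁻¹).val N ∧ ∃ y ∈ cl A ^ 2, HF (y⁻¹).val N

theorem Tail.ds (e : (V₁ × V₂) ≃ₗ[F] V) {a : GU F V₁} {b : GU F V₂} (ha : Tail a) (hb : Tail b) :
    Tail (ds e a b) := by
  obtain ⟨N, h1, h2, h3, y, hy, h4⟩ := ha
  obtain ⟨N', h1', h2', h3', y', hy', h4'⟩ := hb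
  refine ⟨_, fun i hi ↦ ?_, hf_ds e h2 h2', ds_inv e a b ▸ hf_ds e h3 h3', _, mem_pow_ds e hy hy',
    ds_inv e y y' ▸ hf_ds e h4 h4'⟩
  rw [finrank_ds e]
  rcases hi with hi | ⟨i, hi, rfl⟩
  · have := h1 i hi
    refine ⟨?_, by omega⟩
    rintro (h | ⟨j, -, hj⟩)
    · exact this.1 h
    · omega
  · have := h1' i hi
    refine ⟨?_, by omega⟩
    rintro (h | ⟨j, hj, hj'⟩)
    · have := h1 _ h; omega
    · exact this.1 (by rwa [show i + 1 = j by omega])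

theorem Cy.tail {a : GU F V} (h : Cy a.val) (h2 : 2 ≤ finrank F V) : Tail a := by
  obtain ⟨y, hy, hy'⟩ := h.j.succ
  exact ⟨{0}, by simpa using h2, h.hf, h.inv.hf, y, hy, hy'.inv.hf⟩

theorem tail_zero {a : GU F V} (h : finrank F V = 0) : Tail a := by
  have := finrank_zero_iff.1 h
  have k : ∀ A : End F V, HF A ∅ := fun A ↦ by
    rw [HF, Subsingleton.elim (⊤ : Submodule F V) ⊥]; exact .refl _
  exact ⟨∅, by simp, k _, k _, _, pow_mem_cl a 2, k _⟩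

theorem Tail.dim {a : GU F V} (h : Tail a) : finrank F V = 0 ∨ 2 ≤ finrank F V := by
  obtain ⟨N, h1, h2, -⟩ := h
  by_cases h0 : finrank F V = 0
  · exact Or.inl h0
  · exact Or.inr (h1 0 (h2.zero_mem h0)).2

theorem Tail.cy {a : GU F V} (h : Tail a) (h3 : finrank F V ≤ 3) : Cy a.val := by
  obtain ⟨N, h1, h2, -⟩ := h
  refine h2.cy fun j hj hj' hN ↦ ?_
  have := h1 j hN
  exact (h1 0 (h2.zero_mem (by omega))).1 (by rwa [show 0 + 1 = j by omega])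

theorem J_sandwich (e : (V₁ × V₂) ≃ₗ[F] V) {a y : GU F V₁} {b y' : GU F V₂} (ha : Cy a.val)
    {N : Set ℕ} (hN : ∀ i ∈ N, i + 1 ∉ N ∧ i + 2 ≤ finrank F V₂) (hb : HF b.val N) {j : ℕ}
    (hy : y ∈ cl a ^ j) (hy' : y' ∈ cl b ^ j) (h1 : EC y) (h2 : HF (y'⁻¹).val N) :
    J (ds e a b) (j + 1) := by
  refine J.of_hf (mem_pow_ds e hy hy') (ds_inv e y y' ▸ hf_sandwich e h1.inv h2)
    (ds_swap e a b ▸ hf_ds _ hb ha.hf) fun j h0 _ k1 k2 ↦ ?_
  rcases k1 with (k1 | ⟨i, hi, rfl⟩) | k1 <;> rcases k2 with k2 | ⟨i', hi', k2⟩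
  · simp at k1; omega
  · simp at k1; omega
  · exact (hN i hi).1 (by rwa [add_comm])
  · have := hN i hi; simp at hi'; omega
  · have := hN _ k2; simp at k1; omega
  · simp at k1 hi'; omega

theorem J_two (e : (V₁ × V₂) ≃ₗ[F] V) {a : GU F V₁} {b : GU F V₂} (ha : Cy a.val) (ha' : EC a)
    (hb : Tail b) : J (ds e a b) 2 := by
  obtain ⟨N, h1, h2, h3, -⟩ := hb
  exact J_sandwich e ha h1 h2 (mem_pow_one (.refl a)) (mem_pow_one (.refl b)) ha' h3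

theorem Good.ec {Y : GU F V} (hY : Good Y) : EC Y := by
  obtain ⟨h, p, hp, hd, hph, h0, z, hz⟩ := hY
  refine Cy.ec ⟨z, hz⟩ (x := aeval Y.val p z) (c := h) (fun e ↦ ?_) ?_
  · have := finrank_cyc_le hp.ne_zero e
    rw [hz, finrank_top] at this
    omega
  · have := congrArg (fun f : End F V ↦ f z) h0
    simpa [sub_eq_zero] using this

theorem top_of_two (h2 : finrank F V = 2) {x y : V} (hx : x ≠ 0) (hy : ∀ c : F, c • x ≠ y) :
    span F {x} ⊔ span F {y} = ⊤ := by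
  refine eq_top_of_finrank_eq ?_
  rw [finrank_sup_one fun h ↦ ?_, finrank_span_singleton hx, h2]
  obtain ⟨c, hc⟩ := mem_span_singleton.1 h
  exact hy c hc

/-- Maps on a plane. -/
theorem exists_gu_two (h2 : finrank F V = 2) {x y x' y' : V} (hx : x ≠ 0) (hy : ∀ c : F, c • x ≠ y)
    (hx' : x' ≠ 0) (hy' : ∀ c : F, c • x' ≠ y') {δ : F} (hδ : δ ≠ 0) :
    ∃ (g : GU F V) (c : F), dt g = δ ∧ g.val x = x' ∧ g.val y = c • y' := by
  obtain ⟨f, hf⟩ := exists_map (e := cons x fun _ ↦ y) h2.symm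
    (by simpa [R, cons] using top_of_two h2 hx hy) (cons x' fun _ ↦ y')
  have f0 : f x = x' := hf 0 (by omega)
  have f1 : f y = y' := hf 1 (by omega)
  have hd : LinearMap.det f ≠ 0 := det_ne_zero_of_surj (LinearMap.range_eq_top.1 (eq_top_iff.2
    (top_of_two h2 hx' hy' ▸ sup_le ((span_singleton_le_iff_mem _ _).2 ⟨x, f0⟩)
      ((span_singleton_le_iff_mem _ _).2 ⟨y, f1⟩))))
  obtain ⟨ψ, h1, h0⟩ := exists_dual_pair hy'
  let D := tvu ψ ((δ / LinearMap.det f - 1) • y') (by simp [h1, hd, hδ])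
  refine ⟨D * mkU f hd, δ / LinearMap.det f, by simp [D, h1, hd], ?_, ?_⟩
  · rw [mul_app, mkU_val, f0]; simp [D, h0]
  · rw [mul_app, mkU_val, f1]; simp [D, h1, sub_smul]

theorem exists_ec (h4 : ∀ a b c : F, ∃ x, x ≠ a ∧ x ≠ b ∧ x ≠ c) {a : GU F V} (ha : Cy a.val)
    (h2 : 2 ≤ finrank F V) : ∃ y ∈ cl a ^ 2, EC y := by
  rcases h2.eq_or_lt with h2' | h3
  · obtain ⟨x, hx⟩ := exists_not_eigen' (ha.nc h2)
    have hx0 : x ≠ 0 := fun e ↦ hx 0 (by simp [e])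
    have hx' : ∀ c : F, c • x ≠ (a⁻¹).val x := fun c hc ↦ by
      have h1 := congrArg a.val hc
      rw [app_inv, map_smul] at h1
      have hc0 : c ≠ 0 := fun e ↦ hx0 (by rw [← h1, e, zero_smul])
      exact hx c⁻¹ (by conv_lhs => rw [← h1, inv_smul_smul₀ hc0])
    obtain ⟨g, c, hg, h1, h3⟩ := exists_gu_two h2'.symm hx0 hx hx0 hx' one_ne_zero
    refine ⟨_, mul_mem_pow (mem_pow_one (.refl a)) (mem_pow_one ⟨g, hg, rfl⟩), x, a.val x, hx0,
      inv_span (c := c) ?_, eq_top_iff.2 (top_of_two h2'.symm hx0 hx ▸ sup_le_sup_left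
        ((span_singleton_le_iff_mem _ _).2 (self_mem_cyc _ _)) _)⟩
    conv_lhs => rw [← h1, mul_app, mul_app, mul_app, inv_app, h3, map_smul, app_inv]
  · obtain ⟨Y, hY, hd, -⟩ := exists_good h4 h3 (pow_ne_zero 2 (dt_ne_zero a)) 0
    exact ⟨Y, good_mem h3 (ha.nc h2) ha.j hY hd, hY.ec⟩

theorem J_three (h4 : ∀ a b c : F, ∃ x, x ≠ a ∧ x ≠ b ∧ x ≠ c) (e : (V₁ × V₂) ≃ₗ[F] V)
    {a : GU F V₁} {b : GU F V₂} (ha : Cy a.val) (h2 : 2 ≤ finrank F V₁) (hb : Tail b) :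
    J (ds e a b) 3 := by
  obtain ⟨N, h1, h2', -, y', hy', h3⟩ := hb
  obtain ⟨y, hy, h⟩ := exists_ec h4 ha h2
  exact J_sandwich e ha h1 h2' hy hy' h h3

theorem J_two_of_ne (e : (V₁ × V₂) ≃ₗ[F] V) {a : GU F V₁} {b : GU F V₂} (ha : Cy a.val)
    (hb : Cy b.val) (h : finrank F V₁ ≠ finrank F V₂) : J (ds e a b) 2 := by
  refine J.of_hf (mem_pow_one (.refl _)) (ds_inv e a b ▸ hf_ds e ha.inv.hf hb.inv.hf)
    (ds_swap e a b ▸ hf_ds _ hb.hf ha.hf) fun j h0 _ k1 k2 ↦ ?_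
  simp at k1 k2
  omega

theorem cy_one {a : GU F V} (h : finrank F V = 1) : Cy a.val ∧ EC a := by
  obtain ⟨v, hv, h'⟩ := finrank_eq_one_iff'.1 h
  have h1 : span F {v} = ⊤ := eq_top_iff.2 fun x _ ↦ mem_span_singleton.2 (h' x)
  have h2 : cyc a.val v = ⊤ :=
    eq_top_iff.2 (h1 ▸ (span_singleton_le_iff_mem _ _).2 (self_mem_cyc _ _))
  exact ⟨⟨v, h2⟩, v, v, hv, h1 ▸ inv_top _, by simp [h2]⟩

/-- `A` has a one-dimensional direct summand. -/
def One {V : Type u} [AddCommGroup V] [Module F V] (A : GU F V) : Prop :=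
  ∃ (V₁ V₂ : Type u) (_ : AddCommGroup V₁) (_ : Module F V₁) (_ : AddCommGroup V₂)
    (_ : Module F V₂) (_ : FiniteDimensional F V₁) (_ : FiniteDimensional F V₂)
    (e : (V₁ × V₂) ≃ₗ[F] V) (a : GU F V₁) (b : GU F V₂), finrank F V₂ = 1 ∧ A = ds e a b

/-- Splitting off a cyclic summand carrying the minimal polynomial. -/
theorem exists_split (A : GU F V) (h0 : finrank F V ≠ 0) :
    ∃ (R₁ R₂ : Submodule F V) (e : (R₁ × R₂) ≃ₗ[F] V) (a : GU F R₁) (b : GU F R₂) (f : F[X]),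
      A = ds e a b ∧ Cy a.val ∧ f.Monic ∧ f.natDegree = finrank F R₁ ∧ 1 ≤ finrank F R₁ ∧
        aeval a.val f = 0 ∧ aeval b.val f = 0 := by
  obtain ⟨w, f, ψ, R', -, hf, h1, hd, hfR, -, -, -, hR', -, h5, h6⟩ := exists_summand (inj A)
    (C := ⊥) (R := ⊤) disjoint_bot_left (by simp) (fun h ↦ h0 (by
      rw [← finrank_top, h, finrank_bot]))
  obtain ⟨a, b, hA, ha, hb⟩ := exists_ds ⟨h5, codisjoint_iff.2 h6⟩ (inv_cyc A.val w) hR'
  refine ⟨_, _, _, a, b, f, hA, ⟨⟨w, self_mem_cyc _ _⟩, ?_⟩, hf, hd, hd ▸ h1, ?_, ?_⟩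
  · rw [← comap_cyc (g := A.val) (cyc A.val w).subtype (injective_subtype _) ha]
    exact eq_top_iff.2 fun z _ ↦ z.2
  · exact LinearMap.ext fun x ↦ Subtype.ext
      ((CL.GLn.aeval_intertwine (cyc A.val w).subtype ha f x).trans (hfR _ trivial))
  · exact LinearMap.ext fun x ↦ Subtype.ext
      ((CL.GLn.aeval_intertwine R'.subtype hb f x).trans (hfR _ trivial))

theorem tail_or_one : ∀ (n : ℕ) (V : Type u) [AddCommGroup V] [Module F V] [FiniteDimensional F V]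
    (A : GU F V), finrank F V ≤ n → Tail A ∨ One A := by
  intro n
  induction n with
  | zero => intro V _ _ _ A h; exact Or.inl (tail_zero (by omega))
  | succ n ih =>
    intro V _ _ _ A h
    by_cases h0 : finrank F V = 0
    · exact Or.inl (tail_zero h0)
    obtain ⟨R₁, R₂, e, a, b, f, rfl, ha, -, -, h1, -⟩ := exists_split A h0
    rcases h1.eq_or_lt with h1 | h1
    · exact Or.inr ⟨R₂, R₁, _, _, _, _, inferInstance, inferInstance, _, b, a, h1.symm, ds_swap e a b⟩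
    rcases ih R₂ b (by have := finrank_ds e; omega) with h | ⟨V₁, V₂, _, _, _, _, _, _, e', c, l, hl, rfl⟩
    · exact Or.inl ((ha.tail h1).ds e h)
    · exact Or.inr ⟨R₁ × V₁, V₂, _, _, _, _, inferInstance, inferInstance, _, _, l, hl,
        ds_assoc e e' a c l⟩

end CL.Lev
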