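/-
Lev's covering number theorem, part 5: small cases (planes, two blocks of dimension three).
-/
import Cfsg.Agent.Cls.Lev4
import Cfsg.Agent.Cls.ProdComm

set_option autoImplicit false
set_option linter.unusedSectionVars false

namespace CL.Lev

open Module Polynomial Submodule CL.SLn
open scoped Pointwise

variable {F : Type*} [Field F] {V V₁ V₂ V₃ W : Type*} [AddCommGroup V] [Module F V]
  [AddCommGroup V₁] [Module F V₁] [AddCommGroup V₂] [Module F V₂] [AddCommGroup V₃] [Module F V₃]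
  [AddCommGroup W] [Module F W]

/-- The quadratic polynomial with given trace and norm. -/
noncomputable def qd (σ π : F) : F[X] := X ^ 2 - C σ * X + C π

theorem qd_monic (σ π : F) : (qd σ π).Monic := by unfold qd; monicity!

theorem qd_natDegree (σ π : F) : (qd σ π).natDegree = 2 := by unfold qd; compute_degree!

@[simp] theorem qd_eval (σ π x : F) : (qd σ π).eval x = x ^ 2 - σ * x + π := by simp [qd]

theorem qd_coeff_zero (σ π : F) : (qd σ π).coeff 0 = π := by simp [qd]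

theorem eq_qd {f : F[X]} (hf : f.Monic) (h : f.natDegree = 2) :
    f = qd (-f.coeff 1) (f.coeff 0) := by
  conv_lhs => rw [hf.as_sum, h]
  simp [qd, Finset.sum_range_succ]
  ring

theorem qd_coprime {τ τ' δ : F} (h : τ ≠ τ') (hδ : δ ≠ 0) : IsCoprime (qd τ δ) (qd τ' δ) := by
  have h1 : τ' - τ ≠ 0 := sub_ne_zero.2 h.symm
  refine ⟨C δ⁻¹ * (1 - C (τ' - τ)⁻¹ * (X - C τ)), C δ⁻¹ * (C (τ' - τ)⁻¹ * (X - C τ)), ?_⟩
  have e1 : C δ⁻¹ * C δ = 1 := by rw [← C_mul, inv_mul_cancel₀ hδ, C_1]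
  have e2 : C (τ' - τ)⁻¹ * (C τ' - C τ) = 1 := by rw [← C_sub, ← C_mul, inv_mul_cancel₀ h1, C_1]
  unfold qd
  linear_combination e1 - C δ⁻¹ * (X - C τ) * X * e2

theorem coprime_of_eval {p : F[X]} {h : F} (hp : p.eval h ≠ 0) : IsCoprime p (X - C h) :=
  ((irreducible_X_sub_C h).coprime_iff_not_dvd.2 fun hd ↦ hp (dvd_iff_isRoot.1 hd)).symm

variable [FiniteDimensional F V] [FiniteDimensional F V₁] [FiniteDimensional F V₂]
  [FiniteDimensional F V₃] [FiniteDimensional F W]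

/-- A matrix on a plane. -/
noncomputable def mt (b : Basis (Fin 2) F V) (s t u v : F) : End F V :=
  Matrix.toLinAlgEquiv b !![s, t; u, v]

theorem mt_mul (b : Basis (Fin 2) F V) (s t u v s' t' u' v' : F) :
    mt b s t u v * mt b s' t' u' v' =
      mt b (s * s' + t * u') (s * t' + t * v') (u * s' + v * u') (u * t' + v * v') := by
  rw [mt, mt, mt, ← map_mul, Matrix.mul_fin_two]

theorem det_mt (b : Basis (Fin 2) F V) (s t u v : F) :
    LinearMap.det (mt b s t u v) = s * v - t * u := by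
  rw [← Matrix.det_fin_two_of, ← LinearMap.det_toLin b]
  rfl

theorem aeval_mt (b : Basis (Fin 2) F V) (s t u v : F) {σ π : F} (h1 : s + v = σ)
    (h2 : s * v - t * u = π) : aeval (mt b s t u v) (qd σ π) = 0 := by
  rw [mt, aeval_algHom_apply, map_eq_zero_iff _ (AlgEquiv.injective _), ← h1, ← h2]
  simp only [qd, map_add, map_sub, map_mul, aeval_X, aeval_C, pow_two, Matrix.mul_fin_two,
    Algebra.algebraMap_eq_smul_one]
  ext i j
  fin_cases i <;> fin_cases j <;> simp [Matrix.mul_apply, Matrix.one_apply] <;> ring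

theorem mt_smul (b : Basis (Fin 2) F V) (s : F) : mt b s 0 0 s = s • 1 := by
  rw [mt, ← map_one (Matrix.toLinAlgEquiv b), ← map_smul]
  congr 1
  ext i j
  fin_cases i <;> fin_cases j <;> simp

theorem cy_mt (b : Basis (Fin 2) F V) {s t u v : F} (h : ¬ (t = 0 ∧ u = 0 ∧ s = v)) :
    Cy (mt b s t u v) := by
  obtain ⟨x, hx⟩ := exists_not_eigen' (a := mt b s t u v) fun c hc ↦ h (by
    rw [← mt_smul b, mt, mt] at hc
    have := (Matrix.toLinAlgEquiv b).injective hc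
    have h1 := congrFun (congrFun this 0) 0
    have h2 := congrFun (congrFun this 0) 1
    have h3 := congrFun (congrFun this 1) 0
    have h4 := congrFun (congrFun this 1) 1
    simp at h1 h2 h3 h4
    exact ⟨h2, h3, h1.trans h4.symm⟩)
  exact ⟨x, cyc_top_of_two (by simpa using finrank_eq_card_basis b) hx
    fun e ↦ hx 0 (by simp [e])⟩

theorem exists_plane (h2 : finrank F V = 2) {a : GU F V} (ha : Cy a.val) {σ π : F}
    (h : aeval a.val (qd σ π) = 0) : ∃ b : Basis (Fin 2) F V, a.val = mt b 0 (-π) 1 σ := by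
  obtain ⟨x, hx⟩ := ha
  obtain ⟨b, hb⟩ := exists_basis h2.symm (h2 ▸ kry_top hx)
  have h0 : b 0 = x := hb 0
  have h1 : b 1 = a.val x := by simpa using hb 1
  have h3 := congrArg (fun f : End F V ↦ f x) h
  simp only [qd, map_add, map_sub, map_mul, aeval_X, aeval_C, pow_two, LinearMap.add_apply,
    LinearMap.sub_apply, End.mul_apply, Module.algebraMap_end_apply, LinearMap.zero_apply] at h3
  refine ⟨b, b.ext fun i ↦ ?_⟩
  fin_cases i
  · rw [mt, Matrix.toLinAlgEquiv_self]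
    simp [h0, h1]
  · simp only [mt, Matrix.toLinAlgEquiv_self, Fin.sum_univ_two]
    simp only [Fin.mk_one, Matrix.of_apply, Matrix.cons_val', Matrix.cons_val_one,
      Matrix.cons_val_fin_one, Matrix.cons_val_zero, h0, h1]
    linear_combination (norm := module) h3

theorem plane_conj {b : Basis (Fin 2) F V} {a : GU F V} {σ π : F} (ha : a.val = mt b 0 (-π) 1 σ)
    (x : F) {u : F} (hu : u ≠ 0) : ∃ g : GU F V, dt g = u ∧
      (g * a * g⁻¹).val = mt b x ((x * (σ - x) - π) / u) u (σ - x) := by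
  refine ⟨mkU (mt b 1 x 0 u) (by simpa [det_mt] using hu), by simp [det_mt], ?_⟩
  rw [Units.val_mul, Units.mul_inv_eq_iff_eq_mul, Units.val_mul, mkU_val, ha, mt_mul, mt_mul]
  congr 1 <;> field_simp <;> ring

theorem plane_prod {b : Basis (Fin 2) F V} {a : GU F V} {σ π : F} (ha : a.val = mt b 0 (-π) 1 σ)
    (x : F) {u : F} (hu : u ≠ 0) : ∃ g : GU F V, dt g = u ∧
      aeval (a * (g * a * g⁻¹)).val
        (qd (-π * u + (x * (σ - x) - π) / u + σ * (σ - x)) (π ^ 2)) = 0 ∧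
      (a * (g * a * g⁻¹)).val = mt b (-π * u) (-π * (σ - x)) (x + σ * u)
        ((x * (σ - x) - π) / u + σ * (σ - x)) := by
  obtain ⟨g, hg, h⟩ := plane_conj ha x hu
  have e : (a * (g * a * g⁻¹)).val = mt b (-π * u) (-π * (σ - x)) (x + σ * u)
      ((x * (σ - x) - π) / u + σ * (σ - x)) := by
    rw [Units.val_mul, h, ha, mt_mul]
    congr 1 <;> ring
  exact ⟨g, hg, e ▸ aeval_mt b _ _ _ _ (by ring) (by field_simp; ring), e⟩

theorem norm_ne_zero (h2 : finrank F V = 2) {a : GU F V} (ha : Cy a.val) {σ π : F}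
    (h : aeval a.val (qd σ π) = 0) : π ≠ 0 := by
  obtain ⟨b, hb⟩ := exists_plane h2 ha h
  have := dt_ne_zero a
  rw [dt, hb, det_mt] at this
  simpa using this

theorem exists_avoid (h4 : ∀ a b c : F, ∃ x, x ≠ a ∧ x ≠ b ∧ x ≠ c) {α : F} (hα : α ≠ 0)
    (β γ σ : F) : ∃ x, x ≠ σ ∧ α * x ^ 2 + β * x + γ ≠ 0 := by
  by_cases h : ∃ r, α * r ^ 2 + β * r + γ = 0
  · obtain ⟨r, hr⟩ := h
    obtain ⟨x, h1, h2, h3⟩ := h4 σ r (-β / α - r)
    refine ⟨x, h1, fun e ↦ h3 ?_⟩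
    have : (x - r) * (α * (x + r) + β) = 0 := by linear_combination e - hr
    have := (mul_eq_zero.1 this).resolve_left (sub_ne_zero.2 h2)
    field_simp
    linear_combination this
  · obtain ⟨x, h1, -⟩ := h4 σ σ σ
    exact ⟨x, h1, fun e ↦ h ⟨x, e⟩⟩

theorem mem_sq_ds (e : (V₁ × V₂) ≃ₗ[F] V) (a g : GU F V₁) (b h : GU F V₂) (hd : dt g * dt h = 1) :
    ds e (a * (g * a * g⁻¹)) (b * (h * b * h⁻¹)) ∈ cl (ds e a b) ^ 2 := by
  rw [← ds_mul]
  exact mul_mem_pow (mem_pow_one (.refl _)) (mem_pow_one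
    ⟨ds e g h, by simpa using hd, by rw [ds_inv, ds_mul, ds_mul]⟩)

/-- Two equal blocks of dimension two. -/
theorem case22 (h4 : ∀ a b c : F, ∃ x, x ≠ a ∧ x ≠ b ∧ x ≠ c) (e : (V₁ × V₂) ≃ₗ[F] V)
    (h1 : finrank F V₁ = 2) (h2 : finrank F V₂ = 2) {a : GU F V₁} {b : GU F V₂} (ha : Cy a.val)
    (hb : Cy b.val) {σ π : F} (ha' : aeval a.val (qd σ π) = 0) (hb' : aeval b.val (qd σ π) = 0) :
    (∃ Y ∈ cl (ds e a b) ^ 2, Good Y) ∧ ∃ M ∈ cl (ds e a b) ^ 2, ∃ z : F, M.val = z • 1 := by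
  have hπ := norm_ne_zero h1 ha ha'
  obtain ⟨b₁, hb₁⟩ := exists_plane h1 ha ha'
  obtain ⟨b₂, hb₂⟩ := exists_plane h2 hb hb'
  constructor
  · obtain ⟨z, hz0, hz1, hz2⟩ := h4 0 1 (-1)
    have hz : z ^ 2 - 1 ≠ 0 := fun e ↦ by
      have : (z - 1) * (z + 1) = 0 := by linear_combination e
      rcases mul_eq_zero.1 this with h | h
      · exact hz1 (sub_eq_zero.1 h)
      · exact hz2 (eq_neg_of_add_eq_zero_left h)
    obtain ⟨g, hg, k1, k2⟩ := plane_prod hb₁ (z * σ) (neg_ne_zero.2 hz0)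
    obtain ⟨x, hx, hx'⟩ := exists_avoid h4 hz0 (-σ * z - σ) (σ ^ 2) σ
    obtain ⟨g', hg', k1', k2'⟩ := plane_prod hb₂ x (neg_ne_zero.2 (inv_ne_zero hz0))
    rw [show -π * -z + (z * σ * (σ - z * σ) - π) / -z + σ * (σ - z * σ) = π * z + π / z by
      field_simp; ring] at k1
    rw [show -π * -z⁻¹ + (x * (σ - x) - π) / -z⁻¹ + σ * (σ - x) =
      π * z + π / z + (z * x ^ 2 + (-σ * z - σ) * x + σ ^ 2) by field_simp; ring] at k1'
    set τ := π * z + π / z + (z * x ^ 2 + (-σ * z - σ) * x + σ ^ 2) with hτ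
    have hne : π * z + π / z ≠ τ := fun e ↦ hx' (by rw [hτ] at e; linear_combination -e)
    refine ⟨_, mem_sq_ds e a g b g' (by rw [hg, hg']; field_simp), π * z,
      (X - C (π / z)) * qd τ (π ^ 2), (monic_X_sub_C _).mul (qd_monic _ _), ?_, ?_, ?_, ?_⟩
    · rw [natDegree_good (qd_monic _ _), qd_natDegree, finrank_ds e, h1, h2]
    · rw [eval_mul, qd_eval]
      refine mul_ne_zero (fun e ↦ mul_ne_zero hπ hz ?_) fun e ↦ hne ?_
      · simp only [eval_sub, eval_X, eval_C] at e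
        field_simp at e
        linear_combination e
      · refine mul_left_cancel₀ (mul_ne_zero hπ hz0) ?_
        rw [mul_add, mul_div_assoc', mul_right_comm π z π, mul_div_cancel_right₀ _ hz0]
        linear_combination e
    · rw [← mul_assoc (X - C (π * z)), show (X - C (π * z)) * (X - C (π / z)) = qd (π * z + π / z) (π ^ 2) by
        rw [qd, show π ^ 2 = π * z * (π / z) by field_simp, C_mul (a := π * z), C_add]; ring]
      exact aeval_ds_mul e k1 k1'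
    · refine cy_ds e (k2 ▸ cy_mt _ fun h ↦ mul_ne_zero hπ hz ?_) (k2' ▸ cy_mt _ fun h ↦ hx ?_) k1 k1'
        (qd_coprime hne (pow_ne_zero _ hπ))
      · have := h.2.2
        field_simp at this
        linear_combination this
      · have := h.1
        simp only [mul_eq_zero, neg_eq_zero, hπ, false_or] at this
        exact (sub_eq_zero.1 this).symm
  · obtain ⟨g, hg, -, k2⟩ := plane_prod hb₁ σ (neg_ne_zero.2 one_ne_zero)
    obtain ⟨g', hg', -, k2'⟩ := plane_prod hb₂ σ (neg_ne_zero.2 one_ne_zero)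
    refine ⟨_, mem_sq_ds e a g b g' (by rw [hg, hg']; simp), π, LinearMap.ext fun w ↦ ?_⟩
    obtain ⟨⟨x, y⟩, rfl⟩ := e.surjective w
    rw [ds_app, k2, k2']
    simp [mt_smul, ← map_smul]

theorem norm_surj [Finite F] {σ π : F} (h : ∀ x, x ^ 2 - σ * x + π ≠ 0) :
    4 * π - σ ^ 2 ≠ 0 ∧ ∀ δ, ∃ x u : F, x ^ 2 + σ * x * u + π * u ^ 2 = δ := by
  by_cases h2 : (2 : F) = 0
  · have hc : ringChar F = 2 := by
      have := (ringChar.spec F 2).1 (by exact_mod_cast h2)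
      exact ((Nat.dvd_prime Nat.prime_two).1 this).resolve_left CharP.ringChar_ne_one
    constructor
    · intro e
      obtain ⟨r, hr⟩ := FiniteField.isSquare_of_char_two hc π
      have : σ = 0 := pow_eq_zero_iff two_ne_zero |>.1 (by linear_combination 2 * π * h2 - e)
      exact h r (by rw [this, hr]; linear_combination r ^ 2 * h2)
    · intro δ
      obtain ⟨r, hr⟩ := FiniteField.isSquare_of_char_two hc δ
      exact ⟨r, 0, by rw [hr]; ring⟩
  · have hD : 4 * π - σ ^ 2 ≠ 0 := fun e ↦ h (σ / 2) (by field_simp; linear_combination e)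
    refine ⟨hD, fun δ ↦ ?_⟩
    obtain ⟨a, b, hab⟩ := exists_sq_sub_mul_sq (neg_ne_zero.2 hD) (4 * δ)
    exact ⟨(a - σ * b) / 2, b, by field_simp; linear_combination hab⟩

theorem plane_irr [Finite F] (h2 : finrank F V = 2) {a : GU F V} (ha : Cy a.val) {σ π : F}
    (ha' : aeval a.val (qd σ π) = 0) (h : ∀ x, x ^ 2 - σ * x + π ≠ 0) {τ : F} (h1 : τ ≠ 2 * π)
    (h1' : τ ≠ -(2 * π)) : ∃ Y ∈ cl a ^ 2, Cy Y.val ∧ aeval Y.val (qd τ (π ^ 2)) = 0 := by
  obtain ⟨b, hb⟩ := exists_plane h2 ha ha'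
  obtain ⟨hD, hN⟩ := norm_surj h
  set x₀ := (2 * π * σ - σ * (σ ^ 2 - τ)) / (4 * π - σ ^ 2) with hx₀
  set u₀ := (2 * (σ ^ 2 - τ) - σ ^ 2) / (4 * π - σ ^ 2) with hu₀
  have d1 := div_mul_cancel₀ (2 * π * σ - σ * (σ ^ 2 - τ)) hD
  have d2 := div_mul_cancel₀ (2 * (σ ^ 2 - τ) - σ ^ 2) hD
  rw [← hx₀] at d1
  rw [← hu₀] at d2
  have e1 : 2 * x₀ + σ * u₀ = σ :=
    mul_right_cancel₀ hD (by linear_combination 2 * d1 + σ * d2)
  have e2 : σ * x₀ + 2 * π * u₀ = σ ^ 2 - τ :=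
    mul_right_cancel₀ hD (by linear_combination σ * d1 + 2 * π * d2)
  obtain ⟨x', u', hxu⟩ := hN
    (-(x₀ ^ 2 + σ * x₀ * u₀ + π * u₀ ^ 2 - σ * x₀ - (σ ^ 2 - τ) * u₀ + π))
  have key : (x' + x₀) ^ 2 + σ * (x' + x₀) * (u' + u₀) + π * (u' + u₀) ^ 2 - σ * (x' + x₀) -
      (σ ^ 2 - τ) * (u' + u₀) + π = 0 := by linear_combination hxu + x' * e1 + u' * e2
  generalize x' + x₀ = x at key
  generalize u' + u₀ = u at key
  have hu : u ≠ 0 := fun e ↦ h x (by rw [e] at key; linear_combination key)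
  obtain ⟨g, hg, k1, k2⟩ := plane_prod hb x hu
  have ht : -π * u + (x * (σ - x) - π) / u + σ * (σ - x) = τ := by
    field_simp; linear_combination -key
  obtain ⟨s, t, hst⟩ := hN u⁻¹
  have hc : LinearMap.det (mt b s (-π * t) t (s + σ * t)) = u⁻¹ := by
    rw [det_mt]; linear_combination hst
  refine ⟨_, mul_mem_pow (mem_pow_one (.refl a)) (mem_pow_one (sc_of_conj g
    (mkU _ (hc ▸ inv_ne_zero hu)) (Units.ext ?_) (by rw [dt_mkU, hc, hg]))), k2 ▸ cy_mt _ ?_,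
    ht ▸ k1⟩
  · rw [Units.val_mul, Units.val_mul, mkU_val, hb, mt_mul, mt_mul]
    congr 1 <;> ring
  · rintro ⟨r1, r2, r3⟩
    have hπ := norm_ne_zero h2 ha ha'
    have r4 : σ - x = 0 := by simpa [hπ] using r1
    rw [add_assoc, ← r3] at ht
    rw [r4] at r3
    have : (u - 1) * (u + 1) = 0 := by
      field_simp at r3
      refine mul_left_cancel₀ hπ ?_
      linear_combination -r3
    rcases mul_eq_zero.1 this with r | r
    · exact h1' (by rw [← ht, sub_eq_zero.1 r]; ring)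
    · exact h1 (by rw [← ht, eq_neg_of_add_eq_zero_left r]; ring)

/-- Three equal irreducible blocks of dimension two. -/
theorem case222 [Finite F] (h4 : ∀ a b c : F, ∃ x, x ≠ a ∧ x ≠ b ∧ x ≠ c)
    (e₀ : (V₁ × V₂) ≃ₗ[F] W) (e : (W × V₃) ≃ₗ[F] V) (h1 : finrank F V₁ = 2)
    (h2 : finrank F V₂ = 2) (h3 : finrank F V₃ = 2) {a : GU F V₁} {b : GU F V₂} {c : GU F V₃}
    (ha : Cy a.val) (hb : Cy b.val) (hc : Cy c.val) {σ π : F} (ha' : aeval a.val (qd σ π) = 0)
    (hb' : aeval b.val (qd σ π) = 0) (hc' : aeval c.val (qd σ π) = 0)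
    (h : ∀ x, x ^ 2 - σ * x + π ≠ 0) : J (ds e (ds e₀ a b) c) 2 := by
  have hπ := norm_ne_zero h1 ha ha'
  obtain ⟨s, t, r, k1, k2, k3, k4, k5, k6, k7, k8, k9⟩ : ∃ s t r : F, s ≠ t ∧ s ≠ r ∧ t ≠ r ∧
      s ≠ 2 * π ∧ s ≠ -(2 * π) ∧ t ≠ 2 * π ∧ t ≠ -(2 * π) ∧ r ≠ 2 * π ∧ r ≠ -(2 * π) := by
    by_cases h2 : (2 : F) = 0
    · obtain ⟨s, hs, -⟩ := h4 0 0 0
      obtain ⟨t, ht, ht', -⟩ := h4 0 s 0
      obtain ⟨r, hr, hr', hr''⟩ := h4 0 s t
      exact ⟨s, t, r, ht'.symm, hr'.symm, hr''.symm, by simp [h2, hs, ht, hr]⟩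
    · obtain ⟨t, ht, ht', ht''⟩ := h4 0 (2 * π) (-(2 * π))
      have := mul_ne_zero h2 hπ
      refine ⟨0, t, -t, ht.symm, (neg_ne_zero.2 ht).symm, fun e ↦ mul_ne_zero h2 ht ?_, this.symm,
        (neg_ne_zero.2 this).symm, ht', ht'', fun e ↦ ht'' ?_, fun e ↦ ht' ?_⟩
      · linear_combination e
      · linear_combination -e
      · linear_combination -e
  obtain ⟨Y₁, m1, c1, a1⟩ := plane_irr h1 ha ha' h k4 k5
  obtain ⟨Y₂, m2, c2, a2⟩ := plane_irr h2 hb hb' h k6 k7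
  obtain ⟨Y₃, m3, c3, a3⟩ := plane_irr h3 hc hc' h k8 k9
  have hp := pow_ne_zero 2 hπ
  exact ⟨_, mem_pow_ds e (mem_pow_ds e₀ m1 m2) m3, cy_ds e (cy_ds e₀ c1 c2 a1 a2 (qd_coprime k1 hp))
    c3 (aeval_ds_mul e₀ a1 a2) a3 ((qd_coprime k2 hp).mul_left (qd_coprime k3 hp))⟩

theorem ec_of_root (h2 : finrank F V = 2) {a : GU F V} (ha : Cy a.val) {σ π : F}
    (ha' : aeval a.val (qd σ π) = 0) {r : F} (hr : r ^ 2 - σ * r + π = 0) : EC a := by
  obtain ⟨x, hx⟩ := exists_not_eigen' (ha.nc h2.ge)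
  refine ha.ec (x := a.val x - (σ - r) • x) (c := r) (fun e ↦ hx _ (sub_eq_zero.1 e).symm) ?_
  have h3 := congrArg (fun f : End F V ↦ f x) ha'
  simp only [qd, map_add, map_sub, map_mul, aeval_X, aeval_C, pow_two, LinearMap.add_apply,
    LinearMap.sub_apply, End.mul_apply, Module.algebraMap_end_apply, LinearMap.zero_apply] at h3
  rw [show π = σ * r - r ^ 2 by linear_combination hr] at h3
  rw [map_sub, map_smul]
  linear_combination (norm := module) h3

theorem exists_irr [Finite F] {c : F} (hc : c ≠ 0) : ∃ σ : F, ∀ x, x ^ 2 - σ * x + c ≠ 0 := by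
  by_contra h
  push Not at h
  choose f hf using h
  have h0 : ∀ σ, f σ ≠ 0 := fun σ e ↦ hc (by simpa [e] using hf σ)
  have hinj : Function.Injective f := fun s t e ↦ mul_right_cancel₀ (h0 t) (by
    have := hf s
    rw [e] at this
    linear_combination hf t - this)
  obtain ⟨σ, hσ⟩ := Finite.surjective_of_injective hinj 0
  exact h0 σ hσ

theorem good_three (h3 : finrank F V = 3) {a : GU F V} (ha : Cy a.val) {h σ c : F} (h0 : h ≠ 0)
    (hc : ∀ x, x ^ 2 - σ * x + c ≠ 0) (hd : h * c = dt a ^ 2) :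
    ∃ Y ∈ cl a ^ 2, Cy Y.val ∧ aeval Y.val ((X - C h) * qd σ c) = 0 := by
  have hn : (qd σ c).natDegree + 1 = finrank F V := by rw [qd_natDegree, h3]
  obtain ⟨Y, hY, hY'⟩ := exists_model (V := V) ((monic_X_sub_C h).mul (qd_monic σ c))
    (by rw [natDegree_good (qd_monic _ _), hn])
    (by simpa [qd_coeff_zero, h0] using hc 0)
  refine ⟨Y, good_mem h3.ge (ha.nc (by omega)) ha.j
    ⟨h, _, qd_monic σ c, hn, by simpa using hc h, hY', hY⟩ ?_, hY, hY'⟩
  rw [dt, det_good hY (qd_monic σ c) hn hY', qd_natDegree, qd_coeff_zero, ← hd]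
  ring

/-- Two blocks of dimension three. -/
theorem case33 [Finite F] (h4 : ∀ a b c : F, ∃ x, x ≠ a ∧ x ≠ b ∧ x ≠ c) (e : (V₁ × V₂) ≃ₗ[F] V)
    (h1 : finrank F V₁ = 3) (h2 : finrank F V₂ = 3) {a : GU F V₁} {b : GU F V₂} (ha : Cy a.val)
    (hb : Cy b.val) : J (ds e a b) 2 := by
  have da := pow_ne_zero 2 (dt_ne_zero a)
  have db := pow_ne_zero 2 (dt_ne_zero b)
  obtain ⟨h, h0, hh1, hh2⟩ := h4 0 1 (dt b ^ 2 / dt a ^ 2)
  obtain ⟨σ, hσ⟩ := exists_irr da
  obtain ⟨σ', hσ'⟩ := exists_irr (div_ne_zero db h0)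
  obtain ⟨Y₁, m1, c1, a1⟩ := good_three h1 ha one_ne_zero hσ (one_mul _)
  obtain ⟨Y₂, m2, c2, a2⟩ := good_three h2 hb h0 hσ' (by field_simp)
  refine ⟨_, mem_pow_ds e m1 m2, cy_ds e c1 c2 a1 a2 (IsCoprime.mul_left
    (coprime_of_eval ?_).symm (IsCoprime.mul_right (coprime_of_eval (by simpa using hσ h)) ?_))⟩
  · rw [eval_mul, qd_eval]
    exact mul_ne_zero (by simpa [sub_eq_zero] using hh1.symm) (hσ' 1)
  · have hi : Irreducible (qd σ (dt a ^ 2)) :=
      ((qd_monic _ _).irreducible_iff_roots_eq_zero_of_degree_le_three (by rw [qd_natDegree])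
        (by rw [qd_natDegree]; omega)).2 (Multiset.eq_zero_of_forall_notMem fun x hx ↦
          hσ x (by simpa using (mem_roots (qd_monic _ _).ne_zero).1 hx))
    refine hi.coprime_iff_not_dvd.2 fun hd ↦ hh2 ?_
    have := congrArg (fun p : F[X] ↦ p.coeff 0) (eq_of_monic_of_dvd_of_natDegree_le (qd_monic _ _)
      (qd_monic _ _) hd (by rw [qd_natDegree, qd_natDegree]))
    simp only [qd_coeff_zero] at this
    rw [eq_div_iff da, ← this, mul_div_cancel₀ _ h0]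

end CL.Lev
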