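/-
Lev's covering number theorem, part 6: classes of rank at least two.
-/
import Cfsg.Agent.Cls.Lev5

set_option autoImplicit false
set_option linter.unusedSectionVars false

namespace CL.Lev

open Module Polynomial Submodule CL.SLn
open scoped Pointwise

universe u

variable {F : Type*} [Field F]

section
variable {V V₁ V₂ V₃ W : Type*} [AddCommGroup V] [Module F V]
  [AddCommGroup V₁] [Module F V₁] [AddCommGroup V₂] [Module F V₂] [AddCommGroup V₃] [Module F V₃]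
  [AddCommGroup W] [Module F W] [FiniteDimensional F V] [FiniteDimensional F V₁]
  [FiniteDimensional F V₂] [FiniteDimensional F V₃] [FiniteDimensional F W]

theorem NC.ds (e : (V₁ × V₂) ≃ₗ[F] V) {a : GU F V₁} (ha : NC a) (b : GU F V₂) :
    NC (ds e a b) := fun c hc ↦ ha c (LinearMap.ext fun x ↦ by
  have := ds_app e a b x 0
  rw [hc, LinearMap.smul_apply, End.one_apply, ← map_smul] at this
  exact (congrArg Prod.fst (e.injective this)).symm)

theorem hf_Iio (A : End F V) : HF A (Set.Iio (finrank F V)) := by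
  have := seg_of_inv A (inv_top A) _ ⊥ le_rfl (inv_bot A) bot_le
  rwa [finrank_top] at this

theorem cy_ds_zero (e : (V₁ × V₂) ≃ₗ[F] V) {a : GU F V₁} (ha : Cy a.val) (b : GU F V₂)
    (h : finrank F V₂ = 0) : Cy (ds e a b).val := by
  have := finrank_zero_iff.1 h
  exact cy_ds e ha ⟨0, Subsingleton.elim _ _⟩ (P := 0) (Q := 1) (by simp) (Subsingleton.elim _ _)
    isCoprime_one_right

/-- The conclusion of the theorem for the class of `A`. -/
def Concl (A : GU F V) : Prop :=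
  (∀ D, NC D → dt D = dt A ^ finrank F V → D ∈ cl A ^ finrank F V) ∧
    (dt A = 1 → ∃ M ∈ cl A ^ finrank F V, ∃ z : F, M.val = z • 1)

theorem concl_of_J (h4 : ∀ a b c : F, ∃ x, x ≠ a ∧ x ≠ b ∧ x ≠ c) {A : GU F V} (hA : NC A) {j : ℕ}
    (h : J A j) (hj : 1 ≤ j) (hn : 2 * j + 2 ≤ finrank F V) : Concl A := by
  refine ⟨fun D hD hd ↦ mem_of_J h4 (by omega) hA h (by omega) hD hd, fun h1 ↦ ⟨1, ?_, 1, by simp⟩⟩
  obtain ⟨k, hk⟩ : ∃ k, finrank F V = 1 + k := ⟨finrank F V - 1, by omega⟩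
  have := mul_mem_pow (mem_pow_one (.refl A))
    (mem_of_J h4 (by omega) hA h (k := k) (by omega) hA.inv (by simp [h1]))
  rwa [mul_inv_cancel, ← hk] at this

theorem exists_scalar (h : finrank F V = 1) (l : GU F V) :
    ∃ μ : F, aeval l.val (X - C μ) = 0 := by
  obtain ⟨v, -, h'⟩ := finrank_eq_one_iff'.1 h
  obtain ⟨μ, hμ⟩ := h' (l.val v)
  refine ⟨μ, LinearMap.ext fun x ↦ ?_⟩
  obtain ⟨c, rfl⟩ := h' x
  simp [← hμ]

theorem eq_smul_of_deg_one {T : End F V} {f : F[X]} (hf : f.Monic) (hd : f.natDegree = 1)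
    (h : aeval T f = 0) (x : V) : T x = (-f.coeff 0) • x := by
  rw [hf.eq_X_add_C hd, map_add, aeval_X, aeval_C, add_eq_zero_iff_eq_neg] at h
  rw [h]; simp

theorem thmZ_one (e : (V₁ × V₂) ≃ₗ[F] V) (h : finrank F V₂ = 1) (hn : 3 ≤ finrank F V)
    {a : GU F V₁} {l : GU F V₂} (hA : NC (ds e a l)) :
    ∃ M ∈ cl (ds e a l) ^ finrank F V, ∃ z : F, M.val = z • 1 := by
  refine thmZ hn hA (Or.inr ⟨ds e 1 (-1), by rw [ds_mul, ds_mul]; simp, ?_⟩)
  rw [dt_ds, dt_one, one_mul, dt, Units.val_neg, Units.val_one, ← neg_one_smul F (1 : End F V₂),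
    LinearMap.det_smul, h]
  simp

theorem concl_one (h4 : ∀ a b c : F, ∃ x, x ≠ a ∧ x ≠ b ∧ x ≠ c) (e : (V₁ × V₂) ≃ₗ[F] V)
    (h : finrank F V₂ = 1) {a : GU F V₁} (l : GU F V₂) (ha : NC a) {j : ℕ} (hj : J a j)
    (hn : finrank F V₁ = 2 * j + 1) (h3 : 3 ≤ finrank F V₁) : Concl (ds e a l) := by
  have hV := finrank_ds e
  refine ⟨fun D hD hd ↦ ?_, fun _ ↦ thmZ_one e h (by omega) (ha.ds e l)⟩
  obtain ⟨μ, hμ⟩ := exists_scalar h (l ^ (j + 1))
  obtain ⟨Y, hY, hY', P, hP, hPd, hPμ, hP0⟩ :=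
    exists_good h4 h3 (pow_ne_zero (j + 1) (dt_ne_zero a)) μ
  have hm := mem_pow_ds e (good_mem h3 ha hj hY hY') (pow_mem_cl l (j + 1))
  have hc := cy_ds e hY.cy (cy_one h).1 hP0 hμ (coprime_of_eval hPμ)
  rw [show finrank F V = j + 1 + (j + 1) by omega] at hd ⊢
  exact mem_of_good (by omega) ⟨_, hm, hc⟩
    ⟨μ, P, hP, by omega, hPμ, mul_comm P _ ▸ aeval_ds_mul e hP0 hμ, hc⟩ hm hD hd

end

/-- One block of dimension at least three or two blocks of dimension two. -/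
def Core {V : Type u} [AddCommGroup V] [Module F V] (A : GU F V) : Prop :=
  (Cy A.val ∧ 3 ≤ finrank F V) ∨
  ∃ (V₁ V₂ : Type u) (_ : AddCommGroup V₁) (_ : Module F V₁) (_ : AddCommGroup V₂)
    (_ : Module F V₂) (_ : FiniteDimensional F V₁) (_ : FiniteDimensional F V₂)
    (e : (V₁ × V₂) ≃ₗ[F] V) (a : GU F V₁) (b : GU F V₂),
      finrank F V₁ = 2 ∧ finrank F V₂ = 2 ∧ Cy a.val ∧ Cy b.val ∧ A = ds e a b

variable {V₀ : Type u} [AddCommGroup V₀] [Module F V₀] [FiniteDimensional F V₀] {A₀ : GU F V₀}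

theorem Core.tail (h : Core A₀) : Tail A₀ := by
  rcases h with ⟨h, h3⟩ | ⟨V₁, V₂, _, _, _, _, _, _, e, a, b, h1, h2, ha, hb, rfl⟩
  · exact h.tail (by omega)
  · exact (ha.tail h1.ge).ds e (hb.tail h2.ge)

theorem Core.dim (h : Core A₀) : 3 ≤ finrank F V₀ := by
  rcases h with ⟨h, h3⟩ | ⟨V₁, V₂, _, _, _, _, _, _, e, a, b, h1, h2, ha, hb, rfl⟩
  · exact h3
  · rw [finrank_ds e]; omega

theorem Core.cy (h : Core A₀) (h4 : finrank F V₀ ≠ 4) : Cy A₀.val := by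
  rcases h with ⟨h, h3⟩ | ⟨V₁, V₂, _, _, _, _, _, _, e, a, b, h1, h2, ha, hb, rfl⟩
  · exact h
  · rw [finrank_ds e] at h4; omega

theorem Core.nc (h : Core A₀) : NC A₀ := by
  rcases h with ⟨h, h3⟩ | ⟨V₁, V₂, _, _, _, _, _, _, e, a, b, h1, h2, ha, hb, rfl⟩
  · exact h.nc (by omega)
  · exact (ha.nc h1.ge).ds e b

section
variable {V W V' L L' W' : Type*} [AddCommGroup V] [Module F V] [AddCommGroup W] [Module F W]
  [FiniteDimensional F V] [FiniteDimensional F W] [AddCommGroup V'] [Module F V']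
  [AddCommGroup L] [Module F L] [FiniteDimensional F V'] [FiniteDimensional F L]
  [AddCommGroup L'] [Module F L'] [AddCommGroup W'] [Module F W'] [FiniteDimensional F L']
  [FiniteDimensional F W']

theorem Core.j3 (h4 : ∀ a b c : F, ∃ x, x ≠ a ∧ x ≠ b ∧ x ≠ c) (h : Core A₀)
    (e : (V₀ × W) ≃ₗ[F] V) {b : GU F W} (hb : Tail b) : J (ds e A₀ b) 3 := by
  rcases h with ⟨h, h3⟩ | ⟨V₁, V₂, _, _, _, _, _, _, e₀, a, a', h1, h2, ha, ha', rfl⟩
  · exact J_three h4 e h (by omega) hb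
  · rw [ds_swap, ds_assoc, ds_swap]
    exact J_three h4 _ ha' h2.ge (hb.ds _ (ha.tail h1.ge))

theorem Core.step (h : Core A₀) (e : (V₀ × W) ≃ₗ[F] V) (b : GU F W) {j : ℕ}
    (e₁ : (W' × L) ≃ₗ[F] V) (e₂ : (V' × L') ≃ₗ[F] W') {Y : GU F V'} {l : GU F L} {l' : GU F L'}
    (hL : finrank F L = 1) (hL' : finrank F L' = 1) (hY : Cy Y.val)
    (hm : ds e₁ (ds e₂ Y l') l ∈ cl (ds e A₀ b) ^ j) : J (ds e A₀ b) (j + 1) := by
  have d1 := finrank_ds e
  have d2 := finrank_ds e₁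
  have d3 := finrank_ds e₂
  rcases h with ⟨h, h3⟩ | ⟨V₁, V₂, _, _, _, _, _, _, e₀, a, a', h1, h2, ha, ha', rfl⟩
  · refine J.of_hf hm (by
      rw [ds_inv, ds_inv]
      exact hf_ds e₁ (hf_ds e₂ hY.inv.hf (cy_one hL').1.hf) (cy_one hL).1.hf)
      (ds_swap e A₀ b ▸ hf_ds _ (hf_Iio _) h.hf) fun j h0 _ k1 k2 ↦ ?_
    simp at k1 k2
    omega
  · have d4 := finrank_ds e₀
    refine J.of_hf hm (by
      rw [ds_inv, ds_inv, ds_swap e₂]
      exact hf_ds e₁ (hf_ds _ (cy_one hL').1.hf hY.inv.hf) (cy_one hL).1.hf)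
      (by
        rw [ds_swap, ds_assoc, ds_swap (LinearEquiv.refl F (W × V₁))]
        exact hf_ds _ (hf_ds _ ha.hf (hf_Iio _)) ha'.hf) fun j h0 _ k1 k2 ↦ ?_
    simp only [Set.mem_union, Set.mem_singleton_iff, Set.mem_ofPred_eq, exists_eq_left, add_zero,
      Set.mem_Iio, finrank_prod] at k1 k2
    rcases k2 with (k2 | ⟨i, hi, k2⟩) | k2 <;> omega

end

theorem J_odd (h4 : ∀ a b c : F, ∃ x, x ≠ a ∧ x ≠ b ∧ x ≠ c) (h : Core A₀) :
    ∀ (j : ℕ) (W V : Type u) [AddCommGroup W] [Module F W] [FiniteDimensional F W]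
      [AddCommGroup V] [Module F V] [FiniteDimensional F V] (e : (V₀ × W) ≃ₗ[F] V) (b : GU F W),
      finrank F V = 2 * j + 1 → J (ds e A₀ b) j := by
  intro j
  induction j with
  | zero =>
    intro W V _ _ _ _ _ _ e b hn
    have := h.dim
    have := finrank_ds e
    omega
  | succ j ih =>
    intro W V _ _ _ _ _ _ e b hn
    have d0 := h.dim
    have d1 := finrank_ds e
    rcases tail_or_one _ W b le_rfl with hb | ⟨W₁, L, _, _, _, _, _, _, e₁, c, l, hl, rfl⟩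
    · rcases hb.dim with hw | hw
      · exact (cy_ds_zero e (h.cy (by omega)) b hw).j.mono (by omega)
      · by_cases h7 : 2 ≤ j
        · exact (h.j3 h4 e hb).mono (by omega)
        · exact (J_two_of_ne e (h.cy (by omega)) (hb.cy (by omega)) (by omega)).mono (by omega)
    have d2 := finrank_ds e₁
    rcases tail_or_one _ W₁ c le_rfl with hc | ⟨W₂, L', _, _, _, _, _, _, e₂, d, l', hl', rfl⟩
    · rw [ds_assoc, ds_swap]
      exact (J_two _ (cy_one hl).1 (cy_one hl).2 (h.tail.ds _ hc)).mono (by omega)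
    have d3 := finrank_ds e₂
    obtain ⟨Y, hY, hY'⟩ := ih W₂ (V₀ × W₂) (LinearEquiv.refl F _) d (by rw [finrank_prod]; omega)
    refine h.step e _ (asc e e₁) (asc (LinearEquiv.refl F _) e₂) (l := l ^ j) (l' := l' ^ j)
      hl hl' hY' ?_
    rw [ds_assoc, ds_assoc (LinearEquiv.refl F (V₀ × W₁))]
    exact mem_pow_ds _ (mem_pow_ds _ hY (pow_mem_cl l' j)) (pow_mem_cl l j)

variable {W V : Type u} [AddCommGroup W] [Module F W] [FiniteDimensional F W]
  [AddCommGroup V] [Module F V] [FiniteDimensional F V]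

theorem concl_core (h4 : ∀ a b c : F, ∃ x, x ≠ a ∧ x ≠ b ∧ x ≠ c) (h : Core A₀)
    (e : (V₀ × W) ≃ₗ[F] V) (b : GU F W)
    (hs : Tail b → finrank F V = 4 ∨ finrank F V = 6 → Concl (ds e A₀ b)) : Concl (ds e A₀ b) := by
  have d0 := h.dim
  have d1 := finrank_ds e
  have hA := h.nc.ds e b
  rcases Nat.even_or_odd' (finrank F V) with ⟨j, hj | hj⟩
  · rcases tail_or_one _ W b le_rfl with hb | ⟨W₁, L, _, _, _, _, _, _, e₁, c, l, hl, rfl⟩
    · by_cases h8 : 4 ≤ j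
      · exact concl_of_J h4 hA (h.j3 h4 e hb) (by omega) (by omega)
      · exact hs hb (by omega)
    · have d2 := finrank_ds e₁
      have d3 : finrank F (V₀ × W₁) = 2 * (j - 1) + 1 := by rw [finrank_prod]; omega
      rw [ds_assoc]
      exact concl_one h4 _ hl l (h.nc.ds _ c) (J_odd h4 h _ W₁ _ _ c d3) d3 (by omega)
  · exact ⟨fun D hD hd ↦ mem_of_J h4 (by omega) hA (J_odd h4 h j W V e b hj) hj.ge hD hd,
      fun _ ↦ thmZ (by omega) hA (Or.inl ⟨j, hj⟩)⟩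

theorem concl_three [Finite F] (h4 : ∀ a b c : F, ∃ x, x ≠ a ∧ x ≠ b ∧ x ≠ c) (h : Cy A₀.val)
    (h3 : 3 ≤ finrank F V₀) (e : (V₀ × W) ≃ₗ[F] V) (b : GU F W) : Concl (ds e A₀ b) := by
  refine concl_core h4 (Or.inl ⟨h, h3⟩) e b fun hb hn ↦ ?_
  have d1 := finrank_ds e
  have hA := (h.nc (by omega)).ds e b
  rcases hb.dim with hw | hw
  · exact concl_of_J h4 hA (cy_ds_zero e h b hw).j le_rfl (by omega)
  · have hc := hb.cy (by omega)
    by_cases h33 : finrank F V₀ = 3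
    · exact concl_of_J h4 hA (case33 h4 e h33 (by omega) h hc) (by omega) (by omega)
    · exact concl_of_J h4 hA (J_two_of_ne e h hc (by omega)) (by omega) (by omega)

theorem concl_two [Finite F] (h4 : ∀ a b c : F, ∃ x, x ≠ a ∧ x ≠ b ∧ x ≠ c) {V₁ V₂ : Type u}
    [AddCommGroup V₁] [Module F V₁] [FiniteDimensional F V₁] [AddCommGroup V₂] [Module F V₂]
    [FiniteDimensional F V₂] (e₀ : (V₁ × V₂) ≃ₗ[F] V₀) (e : (V₀ × W) ≃ₗ[F] V)
    (h1 : finrank F V₁ = 2) (h2 : finrank F V₂ = 2) {a : GU F V₁} {a' : GU F V₂} {b : GU F W}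
    (ha : Cy a.val) (ha' : Cy a'.val) {σ π : F} (k1 : aeval a.val (qd σ π) = 0)
    (k2 : aeval a'.val (qd σ π) = 0) (k3 : aeval b.val (qd σ π) = 0) :
    Concl (ds e (ds e₀ a a') b) := by
  refine concl_core h4 (Or.inr ⟨V₁, V₂, _, _, _, _, inferInstance, inferInstance, e₀, a, a', h1, h2,
    ha, ha', rfl⟩) e b fun hb hn ↦ ?_
  have d0 := finrank_ds e₀
  have d1 := finrank_ds e
  have hA := ((ha.nc h1.ge).ds e₀ a').ds e b
  rcases hb.dim with hw | hw
  · have := finrank_zero_iff.1 hw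
    rw [ds_swap, ds_assoc]
    have hc : Cy (ds (LinearEquiv.refl F _) b a).val := by
      rw [ds_swap]; exact cy_ds_zero _ ha b hw
    have hc' : aeval (ds (LinearEquiv.refl F _) b a).val (qd σ π) = 0 :=
      one_mul (qd σ π) ▸ aeval_ds_mul _ (Subsingleton.elim _ _) k1
    obtain ⟨⟨Y, hY, hY'⟩, M, hM, z, hz⟩ := case22 h4
      (asc ((LinearEquiv.prodComm F W V₀).trans e) e₀) (by rw [finrank_prod]; omega) h2 hc ha' hc' k2
    rw [Concl, show finrank F V = 2 + 2 by omega]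
    refine ⟨fun D hD hd ↦ mem_of_good (by omega) ⟨Y, hY, hY'.cy⟩ hY' hY hD hd,
      fun _ ↦ ⟨_, mul_mem_pow hM hM, z * z, ?_⟩⟩
    rw [Units.val_mul, hz, smul_mul_smul_comm, one_mul]
  · have hc := hb.cy (by omega)
    refine concl_of_J h4 hA (j := 2) ?_ (by omega) (by omega)
    by_cases hr : ∃ r, r ^ 2 - σ * r + π = 0
    · obtain ⟨r, hr⟩ := hr
      rw [ds_swap, ds_assoc, ds_swap]
      exact J_two _ ha' (ec_of_root h2 ha' k2 hr) (hb.ds _ (ha.tail h1.ge))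
    · exact case222 h4 e₀ e h1 h2 (by omega) ha ha' hc k1 k2 k3 fun x hx ↦ hr ⟨x, hx⟩

/-- A non-central element satisfies the conclusion or is a scalar plus a rank one map. -/
theorem concl_or_rank [Finite F] (h4 : ∀ a b c : F, ∃ x, x ≠ a ∧ x ≠ b ∧ x ≠ c)
    (hn : 3 ≤ finrank F V) {A : GU F V} (hA : NC A) : Concl A ∨ (One A ∧
      ∃ (l : F) (u : V) (φ : Dual F V), ∀ x, A.val x = l • x + φ x • u) := by
  obtain ⟨R₁, R₂, e, a, b, f, rfl, ha, hf, hd, h1, k1, k2⟩ := exists_split A (by omega)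
  have d1 := finrank_ds e
  by_cases h3 : 3 ≤ finrank F R₁
  · exact Or.inl (concl_three h4 ha h3 e b)
  rcases h1.eq_or_lt with h1 | h1
  · refine (hA (-f.coeff 0) (LinearMap.ext fun z ↦ ?_)).elim
    obtain ⟨⟨x, y⟩, rfl⟩ := e.surjective z
    rw [ds_app, eq_smul_of_deg_one hf (by omega) k1, eq_smul_of_deg_one hf (by omega) k2,
      LinearMap.smul_apply, End.one_apply, ← map_smul]
    rfl
  have h2 : finrank F R₁ = 2 := by omega
  obtain ⟨S₁, S₂, e', a', b', f', rfl, ha', hf', hd', h1', k1', k2'⟩ := exists_split b (by omega)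
  have k3 : aeval a'.val f = 0 := LinearMap.ext fun x ↦ by
    have := aeval_ds e' a' b' f x 0
    rw [k2, LinearMap.zero_apply, eq_comm, map_eq_zero_iff _ e'.injective] at this
    exact congrArg Prod.fst this
  have k4 : aeval b'.val f = 0 := LinearMap.ext fun x ↦ by
    have := aeval_ds e' a' b' f 0 x
    rw [k2, LinearMap.zero_apply, eq_comm, map_eq_zero_iff _ e'.injective] at this
    exact congrArg Prod.snd this
  have hq := eq_qd hf (hd.trans h2)
  generalize -f.coeff 1 = σ at hq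
  generalize f.coeff 0 = π at hq
  subst hq
  have h5 : finrank F S₁ ≤ 2 := by
    obtain ⟨v, hv⟩ := ha'
    have := finrank_cyc_le (T := a'.val) (v := v) hf.ne_zero (by simp [k3])
    rwa [hv, finrank_top, qd_natDegree] at this
  rcases h5.eq_or_lt with h5 | h5
  · rw [ds_assoc]
    exact Or.inl (concl_two h4 _ _ h2 h5 ha ha' k1 k3 k4)
  have h6 : finrank F S₁ = 1 := by omega
  refine Or.inr ⟨⟨R₁ × S₂, S₁, _, _, _, _, inferInstance, inferInstance, _, _, a', h6,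
    by rw [ds_swap e', ds_assoc]⟩, ?_⟩
  set l := -f'.coeff 0 with hl
  have k5 : ∀ y, (ds e' a' b').val y = l • y := fun y ↦ by
    obtain ⟨⟨x, y⟩, rfl⟩ := e'.surjective y
    rw [ds_app, eq_smul_of_deg_one hf' (by omega) k1', eq_smul_of_deg_one hf' (by omega) k2',
      ← map_smul]
    rfl
  have hr : l ^ 2 - σ * l + π = 0 := by
    obtain ⟨y, hy⟩ := (finrank_pos_iff_exists_ne_zero (R := F) (M := R₂)).1 (by omega)
    have := aeval_eigen (k5 y) (qd σ π)
    rw [k2, LinearMap.zero_apply, qd_eval] at this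
    exact (smul_eq_zero.1 this.symm).resolve_right hy
  obtain ⟨c, hc⟩ := exists_plane h2 ha k1
  refine ⟨l, e (c 1 - l • c 0, 0), (c.coord 0 + (σ - l) • c.coord 1) ∘ₗ LinearMap.fst F _ _ ∘ₗ
    e.symm.toLinearMap, fun z ↦ ?_⟩
  obtain ⟨⟨x, y⟩, rfl⟩ := e.surjective z
  rw [ds_app, k5, ← map_smul, ← map_smul, ← map_add]
  congr 1
  refine Prod.ext ?_ (by simp)
  obtain ⟨s, t, rfl⟩ : ∃ s t : F, x = s • c 0 + t • c 1 :=
    ⟨_, _, by rw [← c.sum_repr x, Fin.sum_univ_two]⟩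
  have m0 : a.val (c 0) = c 1 := by rw [hc, mt, Matrix.toLinAlgEquiv_self]; simp
  have m1 : a.val (c 1) = (-π) • c 0 + σ • c 1 := by rw [hc, mt, Matrix.toLinAlgEquiv_self]; simp
  rw [show π = σ * l - l ^ 2 by linear_combination hr] at m1
  simp [m0, m1]
  module

end CL.Lev
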