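/-
Lev's covering number theorem, part 7: classes of rank one.
-/
import Cfsg.Agent.Cls.Lev6

set_option autoImplicit false
set_option linter.unusedSectionVars false

namespace CL.Lev

open Module Polynomial Submodule CL.SLn
open scoped Pointwise

universe u

variable {F : Type*} [Field F] {V : Type*} [AddCommGroup V] [Module F V] [FiniteDimensional F V]

/-- Non-trivial rank one updates of the identity with determinant `a`. -/
def K1 (V : Type*) [AddCommGroup V] [Module F V] (a : F) : Set (GU F V) :=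
  {B | ∃ (φ : Dual F V) (u : V), φ ≠ 0 ∧ u ≠ 0 ∧ 1 + φ u = a ∧ ∀ x, B.val x = x + φ x • u}

theorem exists_vec₂ {φ ψ : Dual F V} (hφ : φ ≠ 0) (hψ : ψ ≠ 0) : ∃ w, φ w = 1 ∧ ψ w ≠ 0 := by
  obtain ⟨x, hx⟩ : ∃ x, φ x ≠ 0 := by
    by_contra h; push Not at h; exact hφ (LinearMap.ext h)
  obtain ⟨y, hy⟩ : ∃ x, ψ x ≠ 0 := by
    by_contra h; push Not at h; exact hψ (LinearMap.ext h)
  have k : ∀ w, φ w ≠ 0 → ψ w ≠ 0 → ∃ w, φ w = 1 ∧ ψ w ≠ 0 := fun w h1 h2 ↦
    ⟨(φ w)⁻¹ • w, by simp [h1], by simp [h1, h2]⟩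
  by_cases h1 : ψ x = 0
  · by_cases h2 : φ y = 0
    · exact k (x + y) (by simpa [h2]) (by simpa [h1])
    · exact k y h2 hy
  · exact k x hx h1

theorem sc_K1 (hn : 3 ≤ finrank F V) {a : F} {A B : GU F V} (hA : A ∈ K1 V a) (hB : B ∈ K1 V a) :
    SC A B := by
  obtain ⟨φ, u, hφ, hu, ha, hA⟩ := hA
  obtain ⟨φ', u', hφ', hu', ha', hB⟩ := hB
  obtain ⟨ψ, h1, h2, -⟩ := exists_dual_of_notMem₂ (W := (⊥ : Submodule F V)) (u := u) (v := u')
    (by simpa) (by simpa)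
  let g1 := tvu ((ψ u)⁻¹ • ψ) (u' - u) (by simp [mul_sub, h1, h2])
  have e1 : g1.val u = u' := by simp [g1, h1]
  set φ₁ : Dual F V := φ ∘ₗ (g1⁻¹).val with hφ₁
  have e2 : φ₁ u' = φ' u' := by
    rw [hφ₁, LinearMap.comp_apply, ← e1, inv_app, e1]; linear_combination ha - ha'
  obtain ⟨w, h3, h4⟩ := exists_vec₂ hφ' (ψ := φ₁) fun e ↦ hφ (LinearMap.ext fun x ↦ by
    have := LinearMap.congr_fun e (g1.val x)
    simpa [hφ₁, -tvu_app] using this)
  let g2 := tvu (φ₁ - φ') w (by simpa [h3] using h4)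
  have e3 : (g2 * g1) * A * (g2 * g1)⁻¹ = B := by
    rw [mul_inv_eq_iff_eq_mul]
    refine gu_ext fun x ↦ ?_
    have e4 : φ₁ (g1.val x) = φ x := by rw [hφ₁, LinearMap.comp_apply, inv_app]
    rw [mul_app, mul_app, mul_app, mul_app, hA, hB, map_add, map_add, map_smul, map_smul, e1]
    generalize g1.val x = y at e4
    simp [g2, e2, h3, e4]
  obtain ⟨z, hz, hz'⟩ : ∃ z ∈ LinearMap.ker φ, z ∉ span F {u} := by
    by_contra h
    push Not at h
    obtain ⟨w, hw, -⟩ := exists_vec₂ hφ hφ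
    have := finrank_mono (show LinearMap.ker φ ≤ span F {u} from h)
    rw [finrank_span_singleton hu] at this
    have := finrank_ker_add_one hw
    omega
  obtain ⟨θ, h5, h6⟩ := exists_dual_of_notMem hz'
  have h7 := h6 u (mem_span_singleton_self u)
  rw [← e3]
  refine sc_of_conj _ (tvu θ (((dt (g2 * g1))⁻¹ - 1) • z) (by simp [-dt_mul, h5, dt_ne_zero]))
    (gu_ext fun x ↦ ?_) (by simp [-dt_mul, h5])
  simp only [mul_app, tvu_app, hA, map_add, map_smul, h7, LinearMap.mem_ker.1 hz, smul_eq_mul]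
  module

theorem peel {a : F} (ha : a ≠ 0) {g : GU F V} {U : Submodule F V} (hU : ∀ x ∈ U, g.val x = x)
    {v : V} (hv : g.val v ≠ v) {ψ : Dual F V} (h0 : ∀ x ∈ U, ψ x = 0) (h1 : ψ v = 1)
    (h2 : ψ (g.val v) = a) : ∃ ρ ∈ K1 V a, (∀ x, ρ.val x = x + ψ x • (g.val v - v)) ∧
      dt (ρ⁻¹ * g) = dt g / a ∧ (∀ x ∈ U ⊔ span F {v}, (ρ⁻¹ * g).val x = x) ∧
      ∀ x, (ρ⁻¹ * g).val x = g.val x - (a⁻¹ * ψ (g.val x)) • (g.val v - v) := by
  have h3 : 1 + ψ (g.val v - v) = a := by simp [h1, h2]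
  have k : ∀ x, ((tvu ψ _ (h3 ▸ ha))⁻¹ * g).val x =
      g.val x - (a⁻¹ * ψ (g.val x)) • (g.val v - v) := fun x ↦ by
    apply inj (tvu ψ _ (h3 ▸ ha))
    rw [mul_app, app_inv, tvu_app, map_sub, map_smul, map_sub, h1, h2, smul_eq_mul, sub_add,
      ← sub_smul, show a⁻¹ * ψ (g.val x) - (ψ (g.val x) - a⁻¹ * ψ (g.val x) * (a - 1)) = 0 by
        field_simp; ring]
    simp
  refine ⟨tvu ψ _ (h3 ▸ ha), ⟨ψ, _, fun e ↦ by simp [e] at h1, sub_ne_zero.2 hv, h3, fun _ ↦ rfl⟩,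
    fun _ ↦ rfl, by rw [dt_mul, dt_inv, dt_tvu, h3]; field_simp, fun x hx ↦ ?_, k⟩
  obtain ⟨y, hy, z, hz, rfl⟩ := mem_sup.1 hx
  obtain ⟨c, rfl⟩ := mem_span_singleton.1 hz
  rw [map_add, map_smul, k, k, hU y hy, h0 y hy, h2, inv_mul_cancel₀ ha]
  simp

theorem mem_K1_pow (h4 : ∀ a b c : F, ∃ x, x ≠ a ∧ x ≠ b ∧ x ≠ c) {a : F} (ha : a ≠ 0) (k : ℕ) :
    ∀ (g : GU F V) (U : Submodule F V), finrank F U + (k + 2) = finrank F V →
      (∀ x ∈ U, g.val x = x) → (∀ μ : F, ∃ x, g.val x - μ • x ∉ U) → dt g = a ^ (k + 2) →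
      g ∈ K1 V a ^ (k + 2) := by
  have pre : ∀ (g : GU F V) (U : Submodule F V), (∀ x ∈ U, g.val x = x) →
      (∀ μ : F, ∃ x, g.val x - μ • x ∉ U) → ∃ (v : V) (ψ : Dual F V), v ∉ U ∧
        g.val v ∉ U ⊔ span F {v} ∧ (∀ x ∈ U, ψ x = 0) ∧ ψ v = 1 ∧ ψ (g.val v) = a := by
    intro g U hU h
    obtain ⟨v, hv⟩ := exists_not_eigen' (a := U.mapQ U g.val fun x hx ↦ by
      rw [mem_comap, hU x hx]; exact hx) fun c hc ↦ by
        obtain ⟨x, hx⟩ := h c
        have := LinearMap.congr_fun hc (U.mkQ x)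
        exact hx ((Submodule.Quotient.eq U).1 this)
    obtain ⟨v, rfl⟩ := U.mkQ_surjective v
    have h1 : g.val v ∉ U ⊔ span F {v} := fun h ↦ by
      obtain ⟨y, hy, z, hz, e⟩ := mem_sup.1 h
      obtain ⟨c, rfl⟩ := mem_span_singleton.1 hz
      refine hv c ((Submodule.Quotient.eq U).2 ?_)
      rw [← e]; simpa using hy
    have h2 : v ∉ U := fun h ↦ h1 (by rw [hU v h]; exact mem_sup_left h)
    obtain ⟨α, a1, a2⟩ := exists_dual_of_notMem h1
    obtain ⟨β, b1, b2⟩ := exists_dual_of_notMem h2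
    exact ⟨v, β + (a - β (g.val v)) • α, h2, h1, fun x hx ↦ by simp [a2 x (mem_sup_left hx), b2 x hx],
      by simp [b1, a2 v (mem_sup_right (mem_span_singleton_self v))], by simp [a1]⟩
  induction k with
  | zero =>
    intro g U hd hU h hg
    obtain ⟨v, ψ, h1, h2, h3, h4', h5⟩ := pre g U hU h
    have hv : g.val v ≠ v := fun e ↦ h2 (by rw [e]; exact mem_sup_right (mem_span_singleton_self v))
    obtain ⟨ρ, hρ, k0, k1, k2, -⟩ := peel ha hU hv h3 h4' h5
    obtain ⟨θ, t1, t2⟩ := exists_dual_of_notMem h2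
    have htop : (U ⊔ span F {v}) ⊔ span F {g.val v} = ⊤ :=
      eq_top_of_finrank_eq (by rw [finrank_sup_one h2, finrank_sup_one h1]; omega)
    set g' := ρ⁻¹ * g with hg'
    have k3 : ∀ x, g'.val x = x + θ x • (g'.val (g.val v) - g.val v) := fun x ↦ by
      obtain ⟨y, hy, z, hz, rfl⟩ := mem_sup.1 (show x ∈ _ from htop ▸ mem_top)
      obtain ⟨c, rfl⟩ := mem_span_singleton.1 hz
      simp only [map_add, map_smul, k2 y hy, t2 y hy, t1]
      module
    have k4 : 1 + θ (g'.val (g.val v) - g.val v) = a := by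
      have e : g'.val = LinearMap.transvection θ (g'.val (g.val v) - g.val v) := LinearMap.ext k3
      rw [← LinearMap.transvection.det, ← e]
      change dt g' = a
      rw [k1, hg]; field_simp
    by_cases hw : g'.val (g.val v) - g.val v = 0
    · obtain ⟨c, c0, c1, -⟩ := h4 0 1 0
      have ha1 : a = 1 := by rw [← k4, hw]; simp
      have hψ : ψ (g.val v - v) = 0 := by simp [h4', h5, ha1]
      have hψ0 : ψ ≠ 0 := fun e ↦ by simp [e] at h4'
      have m : ∀ s : F, s ≠ 0 → tvu ψ (s • (g.val v - v)) (by simp [-map_sub, hψ]) ∈ K1 V a :=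
        fun s hs ↦ ⟨ψ, _, hψ0, smul_ne_zero hs (sub_ne_zero.2 hv), by simp [-map_sub, hψ, ha1],
          fun _ ↦ rfl⟩
      rw [zero_add, pow_two]
      refine ⟨_, m c c0, _, m (1 - c) (sub_ne_zero.2 c1.symm), gu_ext fun x ↦ ?_⟩
      have : g.val x = ρ.val (g'.val x) := by rw [hg', mul_app, app_inv]
      rw [k3, hw, smul_zero, add_zero, k0] at this
      conv_rhs => rw [this]
      simp only [mul_app, tvu_app, map_add, map_smul, hψ, smul_eq_mul]
      module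
    · rw [zero_add, pow_two]
      exact ⟨ρ, hρ, g', ⟨θ, _, fun e ↦ by simp [e] at t1, hw, k4, k3⟩, by simp [hg']⟩
  | succ k ih =>
    intro g U hd hU h hg
    obtain ⟨v, ψ, h1, h2, h3, h4', h5⟩ := pre g U hU h
    have hv : g.val v ≠ v := fun e ↦ h2 (by rw [e]; exact mem_sup_right (mem_span_singleton_self v))
    obtain ⟨z, hz⟩ : ∃ z, z ∉ (U ⊔ span F {v}) ⊔ span F {g.val v} := by
      by_contra hh
      push Not at hh
      have := finrank_mono (show (⊤ : Submodule F V) ≤ _ from fun x _ ↦ hh x)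
      rw [finrank_sup_one h2, finrank_sup_one h1, finrank_top] at this
      omega
    obtain ⟨θ, t1, t2⟩ := exists_dual_of_notMem hz
    have mv : v ∈ U ⊔ span F {v} := mem_sup_right (mem_span_singleton_self v)
    obtain ⟨ρ, hρ, -, k1, k2, k3⟩ := peel ha hU hv h3 h4' h5
    obtain ⟨ρ', hρ', -, k1', k2', k3'⟩ := peel ha hU hv (ψ := ψ + θ)
      (fun x hx ↦ by simp [h3 x hx, t2 x (mem_sup_left (mem_sup_left hx))])
      (by simp [h4', t2 v (mem_sup_left mv)])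
      (by simp [h5, t2 _ (mem_sup_right (mem_span_singleton_self _))])
    have fin : ∀ ρ ∈ K1 V a, dt (ρ⁻¹ * g) = dt g / a →
        (∀ x ∈ U ⊔ span F {v}, (ρ⁻¹ * g).val x = x) →
        (∀ μ : F, ∃ x, (ρ⁻¹ * g).val x - μ • x ∉ U ⊔ span F {v}) → g ∈ K1 V a ^ (k + 1 + 2) := by
      intro ρ hρ e1 e2 e3
      rw [show k + 1 + 2 = k + 2 + 1 by ring, pow_succ']
      exact ⟨ρ, hρ, _, ih _ _ (by rw [finrank_sup_one h1]; omega) e2 e3
        (by rw [e1, hg]; field_simp; ring), by simp⟩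
    by_contra hcon
    have c1 := _root_.mt (fin ρ hρ k1 k2) hcon
    have c2 := _root_.mt (fin ρ' hρ' k1' k2') hcon
    push Not at c1 c2
    obtain ⟨μ, hμ⟩ := c1
    obtain ⟨μ', hμ'⟩ := c2
    have key : ∀ x, (a⁻¹ * θ (g.val x)) • g.val v + (μ' - μ) • x ∈ U ⊔ span F {v} := fun x ↦ by
      have := add_mem (sub_mem (hμ x) (hμ' x)) (smul_mem _ (a⁻¹ * θ (g.val x)) mv)
      rw [k3, k3', LinearMap.add_apply] at this
      convert this using 1
      module
    by_cases hμμ : μ' - μ = 0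
    · have := key ((g⁻¹).val z)
      rw [app_inv, t1, hμμ, zero_smul, add_zero, mul_one, smul_mem_iff _ (inv_ne_zero ha)] at this
      exact h2 this
    · refine hz ((smul_mem_iff _ hμμ).1 ?_)
      have := sub_mem (mem_sup_left (T := span F {g.val v}) (key z))
        (smul_mem _ (a⁻¹ * θ (g.val z)) (mem_sup_right (mem_span_singleton_self (g.val v))))
      rwa [add_sub_cancel_left] at this

theorem rank_one (h4 : ∀ a b c : F, ∃ x, x ≠ a ∧ x ≠ b ∧ x ≠ c) (hn : 3 ≤ finrank F V)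
    {A : GU F V} (hA : NC A) {l : F} {u : V} {φ : Dual F V} (h : ∀ x, A.val x = l • x + φ x • u)
    {D : GU F V} (hD : NC D) (hd : dt D = dt A ^ finrank F V) : D ∈ cl A ^ finrank F V := by
  have hφ : φ ≠ 0 := fun e ↦ hA l (LinearMap.ext fun x ↦ by simp [h, e])
  have hu : u ≠ 0 := fun e ↦ hA l (LinearMap.ext fun x ↦ by simp [h, e])
  have hl : l ≠ 0 := fun e ↦ by
    obtain ⟨w, hw, -⟩ := exists_vec₂ hφ hφ
    have := finrank_ker_add_one hw
    obtain ⟨⟨y, hy⟩, hy'⟩ := (finrank_pos_iff_exists_ne_zero (R := F) (M := LinearMap.ker φ)).1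
      (by omega)
    exact hy' (Subtype.ext (inj A (by simp [h, e, LinearMap.mem_ker.1 hy])))
  let s : GU F V := Units.map (algebraMap F (End F V)).toMonoidHom (Units.mk0 l hl)
  have hs : ∀ x, s.val x = l • x := fun x ↦ rfl
  have hc : ∀ g : GU F V, s * g = g * s := fun g ↦ gu_ext fun x ↦ by simp [hs]
  have hs' : ∀ x, (s⁻¹).val x = l⁻¹ • x := fun x ↦ rfl
  have hm : s⁻¹ * A ∈ K1 V (dt (s⁻¹ * A)) := by
    have e : ∀ x, (s⁻¹ * A).val x = x + (l⁻¹ • φ) x • u := fun x ↦ by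
      rw [mul_app, hs', h, smul_add, inv_smul_smul₀ hl, smul_smul]; rfl
    refine ⟨l⁻¹ • φ, u, smul_ne_zero (inv_ne_zero hl) hφ, hu, ?_, e⟩
    have e' : (s⁻¹ * A).val = LinearMap.transvection (l⁻¹ • φ) u := LinearMap.ext e
    rw [← LinearMap.transvection.det, ← e']
    rfl
  have key : ∀ k, ∀ M ∈ K1 V (dt (s⁻¹ * A)) ^ k, s ^ k * M ∈ cl A ^ k := fun k ↦ by
    induction k with
    | zero => simp
    | succ k ih =>
      intro M hM
      rw [pow_succ] at hM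
      obtain ⟨x, hx, y, hy, rfl⟩ := hM
      obtain ⟨g, hg, rfl⟩ := sc_K1 hn hm hy
      have := mul_mem_pow (ih x hx) (mem_pow_one ⟨g, hg, rfl⟩)
      convert this using 1
      rw [pow_succ, mul_assoc (s ^ k), mul_assoc (s ^ k), ← mul_assoc s, hc x, mul_assoc x,
        ← mul_assoc s, ← mul_assoc s, hc g]
      group
  obtain ⟨k, hk⟩ : ∃ k, finrank F V = k + 2 := ⟨finrank F V - 2, by omega⟩
  have hp : ∀ j x, ((s ^ j)⁻¹).val x = (l ^ j)⁻¹ • x := fun j x ↦ by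
    induction j with
    | zero => simp
    | succ j ih => rw [pow_succ, mul_inv_rev, mul_app, ih, hs', smul_smul, pow_succ, mul_inv_rev]
  have := key _ _ (mem_K1_pow h4 (dt_ne_zero _) k ((s ^ (k + 2))⁻¹ * D) ⊥ (by simp [hk])
    (by simp) (fun μ ↦ ?_) (by rw [dt_mul, dt_mul, dt_inv, dt_inv, dt_pow, hd, hk, mul_pow, inv_pow]))
  · rwa [mul_inv_cancel_left, ← hk] at this
  · by_contra hh
    push Not at hh
    refine hD (l ^ (k + 2) * μ) (LinearMap.ext fun x ↦ ?_)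
    have := hh x
    rw [mem_bot, sub_eq_zero, mul_app, hp, inv_smul_eq_iff₀ (pow_ne_zero _ hl), smul_smul] at this
    exact this

/-- Lev's theorem in `GL(V)`. -/
theorem concl {V : Type u} [AddCommGroup V] [Module F V] [FiniteDimensional F V] [Finite F]
    (h4 : ∀ a b c : F, ∃ x, x ≠ a ∧ x ≠ b ∧ x ≠ c) (hn : 3 ≤ finrank F V) {A : GU F V}
    (hA : NC A) : Concl A := by
  rcases concl_or_rank h4 hn hA with h | ⟨⟨V₁, V₂, _, _, _, _, _, _, e, a, b, h1, rfl⟩, l, u, φ, h⟩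
  · exact h
  · exact ⟨fun D hD hd ↦ rank_one h4 hn hA h hD hd, fun _ ↦ thmZ_one e h1 hn hA⟩

theorem fix_of_mem {A : GU F V} {u : V} {φ : Dual F V} (h : ∀ x, A.val x = x + φ x • u) (k : ℕ) :
    ∀ M ∈ cl A ^ k, ∃ U : Submodule F V, finrank F V ≤ finrank F U + k ∧ ∀ x ∈ U, M.val x = x := by
  induction k with
  | zero => intro M hM; exact ⟨⊤, by simp, by simp_all⟩
  | succ k ih =>
    intro M hM
    rw [pow_succ] at hM
    obtain ⟨x, hx, y, ⟨g, -, rfl⟩, rfl⟩ := hM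
    obtain ⟨U, h1, h2⟩ := ih x hx
    refine ⟨U ⊓ LinearMap.ker (φ ∘ₗ (g⁻¹).val), ?_, fun z hz ↦ ?_⟩
    · have a1 := finrank_sup_add_finrank_inf_eq U (LinearMap.ker (φ ∘ₗ (g⁻¹).val))
      have a2 := finrank_le (U ⊔ LinearMap.ker (φ ∘ₗ (g⁻¹).val))
      have a3 := (φ ∘ₗ (g⁻¹).val).finrank_range_add_finrank_ker
      have a4 : finrank F (LinearMap.range (φ ∘ₗ (g⁻¹).val)) ≤ 1 := by
        simpa using finrank_le (LinearMap.range (φ ∘ₗ (g⁻¹).val))
      omega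
    · have : φ ((g⁻¹).val z) = 0 := hz.2
      rw [mul_app, mul_app, mul_app, h, this, zero_smul, add_zero, app_inv, h2 z hz.1]

/-- `SL(n, F)` inside `GL(Fⁿ)`. -/
noncomputable def tau (n : ℕ) (F : Type*) [Field F] :
    Matrix.SpecialLinearGroup (Fin n) F →* GU F (Fin n → F) where
  toFun A := mkU (Matrix.toLin' A.val) (by simp)
  map_one' := Units.ext (by simp [End.one_eq_id])
  map_mul' A B := Units.ext (by simp [Matrix.toLin'_mul, End.mul_eq_comp])

theorem tau_val {n : ℕ} (A : Matrix.SpecialLinearGroup (Fin n) F) :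
    (tau n F A).val = Matrix.toLin' A.val := rfl

theorem dt_tau {n : ℕ} (A : Matrix.SpecialLinearGroup (Fin n) F) : dt (tau n F A) = 1 := by
  simp [dt, tau_val]

theorem tau_inj {n : ℕ} : Function.Injective (tau n F) := fun _ _ h ↦
  Subtype.ext (Matrix.toLin'.injective (congrArg Units.val h))

theorem tau_surj {n : ℕ} {g : GU F (Fin n → F)} (h : dt g = 1) : ∃ A, tau n F A = g :=
  ⟨⟨LinearMap.toMatrix' g.val, by rw [LinearMap.det_toMatrix']; exact h⟩,
    Units.ext (Matrix.toLin'_toMatrix' _)⟩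

theorem center_iff {n : ℕ} (A : Matrix.SpecialLinearGroup (Fin n) F) :
    A ∈ Subgroup.center _ ↔ ¬ NC (tau n F A) := by
  constructor
  · intro h hn
    obtain ⟨r, -, hr⟩ := Matrix.SpecialLinearGroup.mem_center_iff.1 h
    exact hn r (by rw [tau_val, ← hr, Matrix.scalar_apply, ← Matrix.smul_one_eq_diagonal]; simp [End.one_eq_id])
  · intro h
    simp only [NC, not_forall, not_not] at h
    obtain ⟨a, ha⟩ := h
    refine Subgroup.mem_center_iff.2 fun B ↦ tau_inj (Units.ext ?_)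
    simp [ha]

theorem mem_tau_iff {n k : ℕ} (x : Matrix.SpecialLinearGroup (Fin n) F) (M : GU F (Fin n → F)) :
    M ∈ cl (tau n F x) ^ k ↔ ∃ f : Fin k → Matrix.SpecialLinearGroup (Fin n) F,
      M = tau n F (List.ofFn fun i ↦ f i * x * (f i)⁻¹).prod := by
  rw [Set.mem_pow]
  constructor
  · rintro ⟨f, rfl⟩
    choose g hg hg' using fun i ↦ (f i).2
    choose a ha using fun i ↦ tau_surj (hg i)
    refine ⟨a, ?_⟩
    rw [map_list_prod, List.map_ofFn]
    congr 2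
    ext1 i
    simp [ha, hg']
  · rintro ⟨f, rfl⟩
    refine ⟨fun i ↦ ⟨_, tau n F (f i), dt_tau _, rfl⟩, ?_⟩
    rw [map_list_prod, List.map_ofFn]
    congr 2
    ext1 i
    simp

end CL.Lev
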