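/-
Conjugacy of semisimple elements of odd prime order in even-dimensional orthogonal groups, `q` odd.
-/
import Cfsg.Agent.Cls.OSpec7
import Cfsg.Agent.Cls.OAut11
import Cfsg.Agent.Cls.OrthExt

set_option autoImplicit false
set_option linter.unusedSectionVars false

open QuadraticMap Module Polynomial CL.Known CL.Spec CL.GLn

namespace CL.Cls

universe u

theorem det_aeval_eq_prod {K n : Type*} [Field K] [IsAlgClosed K] [Fintype n] [DecidableEq n] (N : Matrix n n K)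
    (P : K[X]) : (aeval N P).det = (N.charpoly.roots.map fun z => P.eval z).prod := by
  have hc : Multiset.card N.charpoly.roots = Fintype.card n := by
    rw [← Matrix.charpoly_natDegree_eq_dim N, ← (IsAlgClosed.splits _).natDegree_eq_card_roots]
  have hC : ∀ a : K, (algebraMap K (Matrix n n K) a).det = a ^ Fintype.card n := fun a => by
    simp [Algebra.algebraMap_eq_smul_one]
  induction IsAlgClosed.splits P using Submonoid.closure_induction with
  | one => simp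
  | mul a b _ _ ha hb => simp [ha, hb, Multiset.prod_map_mul]
  | mem P hP =>
    rcases hP with ⟨a, rfl⟩ | ⟨a, rfl⟩
    · simp [hC, hc]
    · have h1 := Matrix.eval_charpoly N (-a)
      rw [(IsAlgClosed.splits _).eq_prod_roots_of_monic N.charpoly_monic, eval_multiset_prod, Multiset.map_map,
        show Matrix.scalar n (-a) - N = -(aeval N (X + C a)) by
          rw [map_add, aeval_X, aeval_C, map_neg, neg_add', sub_eq_neg_add, sub_eq_neg_add, add_comm]; rfl,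
        Matrix.det_neg, ← hc] at h1
      refine mul_left_cancel₀ (pow_ne_zero _ (neg_ne_zero.2 one_ne_zero)) (h1.symm.trans ?_)
      rw [← Multiset.prod_replicate, ← Multiset.map_const', ← Multiset.prod_map_mul]
      exact congrArg _ (Multiset.map_congr rfl fun z _ => by simp; ring)

variable {F : Type u} {K : Type*} [Field F] [Field K] [Algebra F K] [IsAlgClosed K] {V W : Type*} [AddCommGroup V]
  [Module F V] [FiniteDimensional F V] [AddCommGroup W] [Module F W] [FiniteDimensional F W]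

theorem aroots_charpoly_pow (f : End F V) (t : ℕ) :
    (f ^ t).charpoly.aroots K = (f.charpoly.aroots K).map (· ^ t) := by
  let b := finBasis F V
  let N := (LinearMap.toMatrix b b f).map (algebraMap F K)
  have h1 : f.charpoly.aroots K = N.charpoly.roots := by
    rw [aroots_def, Matrix.charpoly_map, LinearMap.charpoly_toMatrix]
  have h2 : (f ^ t).charpoly.map (algebraMap F K) = (N ^ t).charpoly := by
    rw [← LinearMap.charpoly_toMatrix _ b, ← Matrix.charpoly_map, ← LinearMap.toMatrix_pow, Matrix.map_pow]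
  rw [h1, aroots_def, h2, ← roots_multiset_prod_X_sub_C (N.charpoly.roots.map (· ^ t))]
  congr 1
  refine Polynomial.funext fun c => ?_
  have := det_aeval_eq_prod N (C c - X ^ t)
  rw [Matrix.eval_charpoly, eval_multiset_prod, Multiset.map_map, Multiset.map_map]
  rw [map_sub, map_pow, aeval_X, aeval_C] at this
  exact this.trans (by simp)

theorem sim_of_aroots {f : End F V} {g : End F W} {r : ℕ} (hr : (r : F) ≠ 0) (hf : f ^ r = 1) (hg : g ^ r = 1)
    (h : f.charpoly.aroots K = g.charpoly.aroots K) : Sim f g := by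
  obtain ⟨s, hs⟩ := exists_hasED f
  obtain ⟨t, ht⟩ := exists_hasED g
  have sq : Squarefree (X ^ r - 1 : F[X]) := (X_pow_sub_one_separable_iff.2 hr).squarefree
  refine hs.sim (multiset_eq_of_prod_eq (fun P hP => ⟨(hs.primary P hP).monic, (hs.primary P hP).irreducible_of_squarefree
    (sq.squarefree_of_dvd ((hs.aeval_eq_zero_iff _).1 (by simp [hf]) P hP))⟩) (fun P hP => ⟨(ht.primary P hP).monic,
    (ht.primary P hP).irreducible_of_squarefree (sq.squarefree_of_dvd ((ht.aeval_eq_zero_iff _).1 (by simp [hg]) P hP))⟩)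
    (map_injective _ (algebraMap F K).injective ?_) ▸ ht)
  rw [← hs.charpoly_eq, ← ht.charpoly_eq, map_eq_prod_aroots (LinearMap.charpoly_monic f),
    map_eq_prod_aroots (LinearMap.charpoly_monic g), h]

omit [IsAlgClosed K] in
theorem sorb_map_pow (q e : ℕ) (y : K) (t : ℕ) : (sorb q e y).map (· ^ t) = sorb q e (y ^ t) := by
  rw [sorb, sorb, ← inv_pow]
  simp only [orb, Multiset.map_add, Multiset.map_map, Function.comp_def, ← zpow_natCast _ t, ← zpow_mul, mul_comm]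

section Main

variable {Q : QuadraticForm F V} (hQ : (polarBilin Q).Nondegenerate) {g : OG Q} {r : ℕ}
include hQ

omit [FiniteDimensional F V] in
theorem ndon_fixS (hr : (r : F) ≠ 0) (hg : g ^ r = 1) : NDon Q (fixS g) := fun x hx h =>
  nondeg_iff.1 hQ x fun y => mul_left_cancel₀ hr (by
    have h1 := h (∑ i ∈ Finset.range r, (g ^ i).1 y) (mem_fixS.2 (by
      have := Finset.sum_range_succ' (fun i => (g ^ i).1 y) r
      rw [Finset.sum_range_succ, hg, pow_zero, add_left_inj] at this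
      rw [map_sum, this]
      exact Finset.sum_congr rfl fun i _ => by rw [pow_succ']; rfl))
    have h2 : ∀ i, polar Q x ((g ^ i).1 y) = polar Q x y := fun i => by
      rw [← OG.polar_app (g ^ i) x y, OG.pow_app_of_smul g (v := x) (c := 1) (by rw [mem_fixS.1 hx, one_smul]), one_pow,
        one_smul]
    rw [← polarBilin_apply_apply, map_sum] at h1
    simp only [polarBilin_apply_apply, h2] at h1
    simpa using h1)

variable [Fintype F] (h2 : (2 : F) ≠ 0) (hr : r.Prime) (hr2 : r ≠ 2) (hrF : (r : F) ≠ 0) (hg : g ^ r = 1)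
include h2 hr hr2 hrF hg

theorem exists_spinor_comm_of_fpf {m : ℕ} (hV : finrank F V = 2 * m) (hm : m ≠ 0) (hf : ∀ v, g.1 v = v → v = 0) :
    ∃ k : OG Q, dickson hQ k = 1 ∧ spinor hQ k = -1 ∧ g * k = k * g := by
  obtain ⟨p, hp⟩ := CharP.exists F
  have := Fact.mk (CharP.char_is_prime F p)
  have hq := isCharPow_card (F := F) p
  have ho : Odd (Fintype.card F) := Nat.odd_iff.2 (odd_card_of_two_ne_zero h2)
  obtain ⟨E, k, h1, -⟩ := exists_dat (AlgebraicClosure F) p (g.1 : End F V)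
  have a1 := ((Dat.OG_pow_eq_one_iff h1 r).1 hg).1
  have a0 := Dat.sym hQ h1
  have a2 : ∀ x ∈ E, orderOf x = r := fun x hx => by
    have := Fact.mk hr
    refine orderOf_eq_prime (a1 x hx) ?_
    rintro rfl
    have h3 := Dat.det_one_sub h1
    rw [Multiset.prod_eq_zero (Multiset.mem_map.2 ⟨1, hx, sub_self _⟩), map_eq_zero, LinearMap.det_eq_zero_iff_ker_ne_bot] at h3
    exact h3 (LinearMap.ker_eq_bot'.2 fun v hv => hf v (sub_eq_zero.1 hv).symm)
  have a3 : ∀ {z : AlgebraicClosure F}, r ∣ orderOf z → z ≠ 1 ∧ z ≠ -1 := fun h =>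
    ⟨by rintro rfl; exact mul_self_ne_one_of_dvd hr hr2 h (by simp),
      by rintro rfl; exact mul_self_ne_one_of_dvd hr hr2 h (by simp)⟩
  obtain ⟨x, hx⟩ := Multiset.card_pos_iff_exists_mem.1 (show 0 < Multiset.card E by rw [h1.card]; omega)
  obtain ⟨e, s, E', b1, b2, rfl, b4⟩ := a0.exists_sorb_one hq hx (mul_self_ne_one_of_dvd hr hr2 (a2 x hx).symm.dvd)
  obtain ⟨y, y0, y1, y2⟩ := exists_orderOf_eq_of_dvd_tn (AlgebraicClosure F) hq b1 (s := s) dvd_rfl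
  have y3 : orderOf x ∣ orderOf y := y1 ▸ orderOf_dvd_of_pow_eq_one b2
  obtain ⟨t, rfl⟩ := exists_pow_eq_of_orderOf_dvd (y1 ▸ (tn_pos Fintype.one_lt_card b1 s).ne') y3
  have y4 : ∀ z ∈ sorb (Fintype.card F) e y, z ≠ 1 ∧ z ≠ -1 := fun z hz =>
    a3 (by rw [orderOf_of_mem_sorb hq hz, ← a2 _ hx]; exact y3)
  have y5 := sym_sorb Fintype.card_ne_zero y0 y2
  have c1 := h1.card
  simp only [Multiset.card_add, card_sorb] at c1
  obtain ⟨Q₁, hQ₁, k₁, d₁⟩ := exists_tame_OG (F := F) (p := p) (k := 0) ⟨card_sorb, y5.ne, y5.frob, Or.inl rfl⟩ y5.inv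
    (fun h => (y4 _ h).1 rfl) fun h => (y4 _ h).2 rfl
  obtain ⟨Q₂, hQ₂, g₂, d₂⟩ := exists_tame_OG (F := F) (p := p) (k := 0) ⟨rfl, b4.ne, b4.frob, Or.inl rfl⟩ b4.inv
    (fun h => (a3 (a2 _ (by simp [h])).symm.dvd).1 rfl) fun h => (a3 (a2 _ (by simp [h])).symm.dvd).2 rfl
  have hQ' := nondeg_prod hQ₁ hQ₂
  have c2 : OG.prodMap _ _ (k₁ ^ t, g₂) ^ r = 1 := by
    rw [← map_pow, Prod.pow_mk, ← pow_mul, (Dat.OG_pow_eq_one_iff d₁ _).2 ⟨fun z hz => pow_eq_one_of_mem_sorb hz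
      (by rw [pow_mul, a1 _ hx]), by simp⟩, (Dat.OG_pow_eq_one_iff d₂ _).2 ⟨fun z hz => a1 z (by simp [hz]), by simp⟩]
    exact map_one _
  have c3 : Sim (ogEnd _ (OG.prodMap _ _ (k₁ ^ t, g₂))) (g.1 : End F V) :=
    sim_of_aroots (K := AlgebraicClosure F) hrF (by rw [← map_pow, c2, map_one])
      (by rw [← ogEnd_apply, ← map_pow, hg, map_one]) (by
      rw [show ogEnd _ (OG.prodMap _ _ (k₁ ^ t, g₂)) = LinearMap.prodMap (ogEnd Q₁ (k₁ ^ t)) (ogEnd Q₂ g₂) from rfl,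
        LinearMap.charpoly_prodMap, aroots_mul (mul_ne_zero (LinearMap.charpoly_monic _).ne_zero
        (LinearMap.charpoly_monic _).ne_zero), map_pow, aroots_charpoly_pow, ogEnd_apply, ogEnd_apply, d₁.eig, d₂.eig, h1.eig,
        sorb_map_pow])
  have c4 : ((Fintype.card F : ℕ) : ZMod r) ≠ 0 := fun h => by
    obtain ⟨a, -, ha⟩ := hq
    rw [Int.natAbs_natCast] at ha
    rw [ZMod.natCast_eq_zero_iff, ha] at h
    exact hrF (((Nat.prime_dvd_prime_iff_eq hr (CharP.char_is_prime F p)).1 (hr.dvd_of_dvd_pow h)) ▸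
      CharP.cast_eq_zero F p)
  have hV' := c3.finrank_eq.trans hV
  obtain ⟨φ, hφ⟩ := exists_equiv_of_isPlus_iff hQ' hQ hV' hV (by
    obtain ⟨ψ, hψ⟩ := c3
    rw [isPlus_iff_of_fpf hQ hV hr hr2 c4 g hg hf, isPlus_iff_of_fpf hQ' hV' hr hr2 c4 _ c2 fun v hv =>
      ψ.map_eq_zero_iff.1 (hf _ ((hψ v).symm.trans (congrArg ψ hv)))])
  obtain ⟨h, hh⟩ := isConj_iff.1 (OG_isConj_of_semisimple hQ
    (isSemisimple_of_pow hrF (by rw [← ogEnd_apply, ← map_pow, hg, map_one]))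
    (eq_of_sq_of_odd (hr.odd_of_ne_two hr2) (congrArg Subtype.val hg)) ((sim_congr φ hφ (OG.prodMap _ _ (k₁ ^ t, g₂))).trans c3).symm)
  refine ⟨h⁻¹ * OG.congr φ hφ (OG.prodMap _ _ (k₁, 1)) * h, ?_, ?_, ?_⟩
  · rw [map_mul, map_mul, mul_right_comm, ← map_mul, inv_mul_cancel, map_one, one_mul, dickson_eq_one_iff_det hQ h2,
      (sim_congr φ hφ _).det]
    change LinearMap.det (LinearMap.prodMap (ogEnd Q₁ k₁) (ogEnd Q₂ 1)) = 1
    rw [LinearMap.det_prodMap, map_one, map_one, mul_one, ogEnd_apply, ← map_eq_one_iff _ (algebraMap F (AlgebraicClosure F)).injective,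
      ← d₁.prod, prod_sorb y0]
  · rw [map_mul, map_mul, mul_right_comm, ← map_mul, inv_mul_cancel, map_one, one_mul, spinor_congr hQ' hQ h2,
      spinor_prodMap hQ₁ hQ₂ h2, map_one, mul_one]
    refine (Int.units_eq_one_or _).resolve_left fun e => ?_
    have := (Dat.spinor_iff_of_neg hQ₁ h2 d₁ fun h => (y4 _ h).2 rfl).1 e
    change spS _ _ = 1 at this
    rw [spS_sorb hq ho y0 y2 (y4 _ (self_mem_sorb b1)).2, pow_half_eq_neg_one hq ho b1 y1, inv_neg_one] at this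
    exact neg_one_ne_one_of_two h2 this
  · have : Commute (h * g * h⁻¹) (OG.congr φ hφ (OG.prodMap _ _ (k₁, 1))) := by
      rw [hh]
      exact ((((Commute.refl k₁).pow_left t).prod (Commute.one_right g₂)).map _).map _
    have := this.conj h⁻¹
    simpa [mul_assoc] using this.eq

/-- In the centraliser of `g` every spinor norm occurs, and every Dickson invariant if `g` fixes a vector. -/
theorem exists_comm_dickson_spinor {m : ℕ} (hV : finrank F V = 2 * m) (hm : m ≠ 0) (a b : ℤˣ)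
    (ha : (∀ v, g.1 v = v → v = 0) → a = 1) : ∃ k : OG Q, dickson hQ k = a ∧ spinor hQ k = b ∧ g * k = k * g := by
  by_cases hf : ∀ v, g.1 v = v → v = 0
  · obtain rfl := ha hf
    rcases Int.units_eq_one_or b with rfl | rfl
    exacts [⟨1, map_one _, map_one _, by simp⟩, exists_spinor_comm_of_fpf hQ h2 hr hr2 hrF hg hV hm hf]
  have hN := ndon_fixS hQ hrF hg
  have h1 := (dickson_eq_one_iff hQ g).1 (dickson_eq_one_of_mem_commutator hQ
    (mem_commutator_of_odd hQ h2 (hr.odd_of_ne_two hr2) hg))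
  have h3 := finrank_resid_add_fixS g
  have h4 : finrank F (fixS g) ≠ 0 := fun h => hf fun v hv => by
    simpa [Submodule.finrank_eq_zero.1 h] using mem_fixS.2 hv
  have hd : 2 ≤ finrank F (fixS g) := by obtain ⟨c, hc⟩ := h1; omega
  obtain ⟨ν, hν⟩ := FiniteField.exists_nonsquare (ringChar_ne_two_of_two_ne_zero h2)
  have hν0 : ν ≠ 0 := by rintro rfl; exact hν IsSquare.zero
  obtain ⟨u, hu, hu'⟩ := hN.exists_map_eq hd 1
  obtain ⟨v, hv, hv'⟩ := hN.exists_map_eq hd ν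
  have hc : ∀ w ∈ fixS g, Commute g (refl Q w) := fun w hw => by
    rw [Commute, SemiconjBy, ← mul_inv_eq_iff_eq_mul, refl_conj, mem_fixS.1 hw]
  have e1 := dickson_refl hQ (hu' ▸ one_ne_zero : Q u ≠ 0)
  have e2 := dickson_refl hQ (hv' ▸ hν0 : Q v ≠ 0)
  have e3 := (spinor_refl_eq_one_iff hQ (hu' ▸ one_ne_zero)).2 (hu' ▸ IsSquare.one)
  have e4 := (spinor_refl_eq_neg_one_iff hQ (hv' ▸ hν0)).2 (hv' ▸ hν)
  rcases Int.units_eq_one_or a with rfl | rfl <;> rcases Int.units_eq_one_or b with rfl | rfl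
  exacts [⟨1, map_one _, map_one _, by simp⟩, ⟨refl Q u * refl Q v, by simp [e1, e2], by simp [e3, e4],
    (hc u hu).mul_right (hc v hv)⟩, ⟨_, e1, e3, hc u hu⟩, ⟨_, e2, e4, hc v hv⟩]

namespace GamO

theorem exists_toAutOG_eq_conj {ψ : GamO Q} (hψ : fld Q ψ = 1) : ∃ h : OG Q, toAutOG Q ψ g = h * g * h⁻¹ := by
  obtain ⟨h, hh⟩ := isConj_iff.1 (OG_isConj_of_semisimple hQ (g' := toAutOG Q ψ g)
    (isSemisimple_of_pow hrF (by rw [← ogEnd_apply, ← map_pow, hg, map_one]))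
    (eq_of_sq_of_odd (hr.odd_of_ne_two hr2) (congrArg Subtype.val hg))
    ⟨linHom Q ⟨ψ, hψ⟩, fun v => (toAutOG_app_app ψ g v).symm⟩)
  exact ⟨h, hh.symm⟩

theorem exists_toAutOG_eq_conj_omega (he : Even (finrank F V)) (h0 : finrank F V ≠ 0) {ψ : GamO Q}
    (hψ : ψ ∈ GO0 hQ he) : ∃ h ∈ commutator (OG Q), toAutOG Q ψ g = h * g * h⁻¹ := by
  obtain ⟨h1, h3⟩ := (mem_GO0 hQ he).1 hψ
  obtain ⟨h, hh⟩ := exists_toAutOG_eq_conj hQ h2 hr hr2 hrF hg h1
  obtain ⟨m, hm⟩ := id he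
  obtain ⟨k, k1, k2, k3⟩ := exists_comm_dickson_spinor hQ h2 hr hr2 hrF hg (m := m) (by omega) (by omega)
    (dickson hQ h) (spinor hQ h) fun hf => by
      have c : ∀ v, ψ.1.1 (g.1 v) = h.1 (g.1 (h⁻¹.1 (ψ.1.1 v))) := fun v => by
        rw [← toAutOG_app_app, hh]; rfl
      have := eps_eq_one_of_skew hQ h2 he ((⟨ofOG Q h, fld_ofOG h⟩ : (fld Q).ker)⁻¹ * ⟨ψ, h1⟩)
        (LinearEquiv.ofInjectiveEndo ((g.1 : End F V) - (g⁻¹.1 : End F V)) (LinearMap.ker_eq_bot.1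
          (LinearMap.ker_eq_bot'.2 fun v hv => hf v (eq_of_sq_of_odd (hr.odd_of_ne_two hr2) (congrArg Subtype.val hg) v
            (by rw [show g.1 v = g⁻¹.1 v from sub_eq_zero.1 hv]; exact g.1.apply_symm_apply v)))))
        (fun u v => ?_) fun v => ?_
      · rwa [map_mul, h3, mul_one, map_inv, eps_ofOG, inv_eq_one] at this
      · change polar Q (g.1 u - g⁻¹.1 u) v = -polar Q u (g.1 v - g⁻¹.1 v)
        rw [polar_sub_left, polar_sub_right, neg_sub, ← OG.polar_app g u (g⁻¹.1 v), ← OG.polar_app g (g⁻¹.1 u) v]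
        simp
      · change h⁻¹.1 (ψ.1.1 (g.1 v - g⁻¹.1 v)) = g.1 (h⁻¹.1 (ψ.1.1 v)) - g⁻¹.1 (h⁻¹.1 (ψ.1.1 v))
        have c' := c (g⁻¹.1 v)
        rw [app_sub, map_sub, c]
        simp only [OG.app_inv_app, OG.inv_app_app] at c' ⊢
        rw [c']
        simp
  refine ⟨h * k, (mem_commutator_OG_iff hQ (Or.inl (exists_ne_zero_one_of_two_ne_zero h2)) _).2
    ⟨by rw [map_mul, k1, Int.units_mul_self], by rw [map_mul, k2, Int.units_mul_self]⟩, ?_⟩
  rw [hh, mul_assoc h k, ← k3]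
  group

end GamO

end Main

section Matrices

variable [Fintype F] {r : ℕ} {ι : Type} [Fintype ι] [DecidableEq ι] {Q : QuadraticForm F (ι → F)} (hQ : (polarBilin Q).Nondegenerate)
  (h6 : 6 ≤ finrank F (ι → F)) {x : MulAut (Cfsg.POmega F ⇑Q)} (hx : x ∈ Cfsg.pgoAut F ⇑Q)
include hQ h6 hx

theorem exists_ofOG_of_odd (hr : Odd r) (hxr : x ^ r = 1) : ∃ g : OG Q, g ^ r = 1 ∧ autM Q (GamO.ofOG Q g) = x := by
  rw [pgoAut_eq] at hx
  obtain ⟨φ, hφ, rfl⟩ := hx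
  obtain ⟨v, hv⟩ := exists_map_eq hQ (by omega) 1
  have hv' : Q v ≠ 0 := by rw [hv]; exact one_ne_zero
  obtain ⟨k, rfl⟩ := hr
  obtain ⟨c, hc⟩ := (autM_eq_iff hQ h6).1 ((map_pow _ _ _).trans (hxr.trans (map_one _).symm))
  have h1 : φ.mu ^ (2 * k + 1) = c ^ 2 := by
    rw [← GamO.mu_scalar hv', ← mul_one (GamO.scalar Q c), ← hc]
    exact (congrArg Units.val (map_pow (GamO.muHom hv') ⟨φ, hφ⟩ (2 * k + 1))).symm
  obtain ⟨d, g, hg⟩ := GamO.exists_eq_scalar_mul' hφ ⟨c / φ.mu ^ k, by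
    have := φ.mu_ne_zero
    field_simp
    rw [← h1]; ring⟩
  have h3 := (autM_eq_iff hQ h6).2 ⟨d, hg⟩
  rw [h3] at hxr ⊢
  obtain ⟨e, he⟩ := (autM_eq_iff hQ h6).1 ((map_pow _ _ _).trans (hxr.trans (map_one _).symm))
  have h4 : (g ^ (2 * k + 1)) ^ 2 = 1 := by
    rcases GamO.eq_of_scalar_mul_eq hv' (c := e) (d := 1) (g := 1) (h := g ^ (2 * k + 1))
      (by rw [map_one, map_one, one_mul, map_pow, he]) with h | h
    · rw [h, one_pow]
    · rw [h, mul_one, pow_two, negOG_mul_self]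
  refine ⟨g ^ (2 * k + 1 + 1), ?_, by rw [map_pow, map_pow, pow_succ, hxr, one_mul]⟩
  rw [← pow_mul, show (2 * k + 1 + 1) * (2 * k + 1) = (2 * k + 1) * 2 * (k + 1) by ring, pow_mul, pow_mul, h4, one_pow]

theorem isConjUnder_semisimple (h2 : (2 : F) ≠ 0) (he : Even (finrank F (ι → F))) (hr : r.Prime) (hro : Odd r)
    (hrF : (r : F) ≠ 0) (hxr : x ^ r = 1) :
    (∀ y, (Cfsg.IsConjUnder (Cfsg.Inn _) x y ↔ Cfsg.IsConjUnder ((GamO.GO0 hQ he).map (autM Q)) x y) ∧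
      (Cfsg.IsConjUnder (Cfsg.psoAut F ⇑Q) x y ↔ Cfsg.IsConjUnder ((GamO.GO0 hQ he).map (autM Q)) x y)) ∧
    ∀ y, Cfsg.IsConjUnder (Cfsg.poAut F ⇑Q) x y ↔ Cfsg.IsConjUnder (Cfsg.pgoAut F ⇑Q) x y := by
  obtain ⟨g, hg, rfl⟩ := exists_ofOG_of_odd hQ h6 hx hro hxr
  have hr2 : r ≠ 2 := by rintro rfl; exact absurd hro (by decide)
  have key : ∀ {ψ : GamO Q} {h : OG Q}, GamO.toAutOG Q ψ g = h * g * h⁻¹ → autM Q ψ * autM Q (GamO.ofOG Q g) *
      (autM Q ψ)⁻¹ = autM Q (GamO.ofOG Q h) * autM Q (GamO.ofOG Q g) * (autM Q (GamO.ofOG Q h))⁻¹ := fun h => by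
    rw [← map_inv, ← map_mul, ← map_mul, GamO.conj_ofOG, h]
    simp only [map_mul, map_inv]
  rw [psoAut_eq hQ h2, poAut_eq, pgoAut_eq]
  refine ⟨fun y => ⟨⟨fun ⟨a, ha, e⟩ => ⟨a, ?_, e⟩, ?_⟩, ⟨?_, ?_⟩⟩, fun y => ⟨?_, ?_⟩⟩
  · obtain ⟨h, rfl⟩ := inn_le_range_autM ha
    refine ⟨_, (GamO.ofOG_mem_GO0 hQ he).2 ?_, rfl⟩
    rcases (GamO.toAut_ofOG_mem_inn_iff hQ h6).1 (autM_mem_inn_iff.1 ha) with h1 | h1
    · exact dickson_eq_one_of_mem_commutator hQ h1
    · simpa [dickson_negOG_of_even hQ he] using dickson_eq_one_of_mem_commutator hQ h1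
  · rintro ⟨_, ⟨ψ, hψ, rfl⟩, rfl⟩
    obtain ⟨h, h1, h3⟩ := GamO.exists_toAutOG_eq_conj_omega hQ h2 hr hr2 hrF hg he (by omega) hψ
    exact ⟨_, autM_mem_inn_iff.2 ((GamO.toAut_ofOG_mem_inn_iff hQ h6).2 (Or.inl h1)), key h3⟩
  · rintro ⟨_, ⟨_, ⟨h, h1, rfl⟩, rfl⟩, rfl⟩
    exact ⟨_, ⟨_, (GamO.ofOG_mem_GO0 hQ he).2 h1, rfl⟩, rfl⟩
  · rintro ⟨_, ⟨ψ, hψ, rfl⟩, rfl⟩
    obtain ⟨h, h1, h3⟩ := GamO.exists_toAutOG_eq_conj_omega hQ h2 hr hr2 hrF hg he (by omega) hψ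
    exact ⟨_, ⟨_, ⟨h, dickson_eq_one_of_mem_commutator hQ h1, rfl⟩, rfl⟩, key h3⟩
  · rintro ⟨_, ⟨h, rfl⟩, rfl⟩
    exact ⟨_, ⟨_, GamO.fld_ofOG h, rfl⟩, rfl⟩
  · rintro ⟨_, ⟨ψ, hψ, rfl⟩, rfl⟩
    obtain ⟨h, h3⟩ := GamO.exists_toAutOG_eq_conj hQ h2 hr hr2 hrF hg hψ
    exact ⟨_, ⟨h, rfl⟩, key h3⟩

end Matrices

end CL.Cls
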