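/-
Commutators in classical groups, core: an element of a Levi factor without fixed points on the two opposite unipotent
radicals absorbs them.
-/
import Cfsg.Agent.Known.ClassNo8
import Cfsg.Agent.Chev.EGFpf

set_option autoImplicit false

open Module Polynomial

namespace CL.Ore

open CL.Sp CL.Chev CL.GLn

universe u

theorem comm_of_fpf {Γ : Type*} [Group Γ] {G Q Q' : Subgroup Γ} [Finite Q] [Finite Q'] (hQ : Q ≤ G) (hQ' : Q' ≤ G)
    {a b u v : Γ} (ha : a ∈ G) (hb : b ∈ G) (h1 : Fpf Q a) (h2 : Fpf Q' (b * a⁻¹ * b⁻¹)) (hv : v ∈ Q) (hu : u ∈ Q') :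
    ∃ x ∈ G, ∃ y ∈ G, v * (a * (b * a⁻¹ * b⁻¹)) * u = x * y * x⁻¹ * y⁻¹ := by
  obtain ⟨y, hy, e⟩ := h1.exists_mul_eq hv
  obtain ⟨z, hz, e'⟩ := h2.exists_mul_eq' hu
  refine ⟨y * a * y⁻¹, mul_mem (mul_mem (hQ hy) ha) (inv_mem (hQ hy)), z * b * y⁻¹,
    mul_mem (mul_mem (hQ' hz) hb) (inv_mem (hQ hy)), ?_⟩
  rw [← mul_assoc v, e, mul_assoc, e']
  group

variable {K V : Type*} [Field K] [AddCommGroup V] [Module K V] {B : LinearMap.BilinForm K V} {E F : Submodule K V}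

/-- The unipotent radical of the stabiliser of an isotropic subspace. -/
def Rad (B : LinearMap.BilinForm K V) (E : Submodule K V) : Subgroup (V ≃ₗ[K] V) where
  carrier := {u | u ∈ Isom B ∧ (∀ x ∈ E, u x = x) ∧ ∀ x, (∀ e ∈ E, B e x = 0) → u x - x ∈ E}
  mul_mem' {u v} hu hv := ⟨mul_mem hu.1 hv.1, fun x hx => by rw [LinearEquiv.mul_apply, hv.2.1 x hx, hu.2.1 x hx],
    fun x hx => by
      simpa using add_mem (hu.2.2 (v x) fun e he => by rw [← hv.2.1 e he, hv.1, hx e he]) (hv.2.2 x hx)⟩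
  one_mem' := ⟨one_mem _, fun _ _ => rfl, fun x _ => by simp⟩
  inv_mem' {u} hu := ⟨inv_mem hu.1, fun x hx => by conv_lhs => rw [← hu.2.1 x hx, inv_apply_apply], fun x hx => by
    simpa [apply_inv_apply] using neg_mem (hu.2.2 (u⁻¹ x) fun e he => by
      rw [← isom_left hu.1, hu.2.1 e he, hx e he])⟩

theorem rad_le : Rad B E ≤ Isom B := fun _ h => h.1

/-- Orthogonal to both spaces. -/
def Perp (B : LinearMap.BilinForm K V) (E F : Submodule K V) (w : V) : Prop :=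
  (∀ x ∈ E, B x w = 0) ∧ ∀ y ∈ F, B y w = 0

/-- Two isotropic subspaces in duality. -/
structure InDual (B : LinearMap.BilinForm K V) (E F : Submodule K V) : Prop where
  refl : ∀ x y, B x y = 0 → B y x = 0
  isoE : ∀ x ∈ E, ∀ y ∈ E, B x y = 0
  isoF : ∀ x ∈ F, ∀ y ∈ F, B x y = 0
  EF : ∀ y ∈ F, (∀ x ∈ E, B x y = 0) → y = 0
  FE : ∀ x ∈ E, (∀ y ∈ F, B y x = 0) → x = 0
  dec : ∀ v, ∃ e ∈ E, ∃ f ∈ F, ∃ w, Perp B E F w ∧ v = e + f + w

theorem InDual.symm (h : InDual B E F) : InDual B F E :=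
  ⟨h.refl, h.isoF, h.isoE, h.FE, h.EF, fun v => let ⟨e, he, f, hf, w, hw, e'⟩ := h.dec v
    ⟨f, hf, e, he, w, ⟨hw.2, hw.1⟩, by rw [e', add_comm e]⟩⟩

theorem InDual.eq_zero (h : InDual B E F) {e f w : V} (he : e ∈ E) (hf : f ∈ F) (hw : Perp B E F w)
    (h0 : e + f + w = 0) : e = 0 ∧ f = 0 ∧ w = 0 := by
  have h1 : f = 0 := h.EF f hf fun x hx => by simpa [h.isoE x hx e he, hw.1 x hx] using congrArg (B x) h0
  have h2 : e = 0 := h.FE e he fun x hx => by simpa [h.isoF x hx f hf, hw.2 x hx] using congrArg (B x) h0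
  exact ⟨h2, h1, by simpa [h1, h2] using h0⟩

theorem InDual.fpf (h : InDual B E F) {a : V ≃ₗ[K] V} (ha : a ∈ Isom B) (haE : ∀ x, a x ∈ E ↔ x ∈ E)
    (hc : ∀ u, Commute a u → ∀ y ∈ F, u y ∈ F) : Fpf (Rad B E) a := by
  have key : ∀ a ∈ Isom B, (∀ x, a x ∈ E ↔ x ∈ E) → ∀ u ∈ Rad B E, a * u * a⁻¹ ∈ Rad B E := fun a ha haE u hu => by
    refine ⟨mul_mem (mul_mem ha hu.1) (inv_mem ha), fun x hx => ?_, fun x hx => ?_⟩
    · rw [LinearEquiv.mul_apply, LinearEquiv.mul_apply, hu.2.1 _ ((haE _).1 (by rwa [apply_inv_apply])), apply_inv_apply]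
    · simpa [apply_inv_apply] using (haE _).2 (hu.2.2 (a⁻¹ x) fun e he => by
        rw [← isom_left ha, hx _ ((haE _).2 he)])
  refine ⟨Subgroup.mem_normalizer_iff.2 fun u => ⟨key a ha haE u, fun hu => ?_⟩, fun u hu hau => ?_⟩
  · simpa [mul_assoc] using key a⁻¹ (inv_mem ha) (fun x => by rw [← haE, apply_inv_apply]) _ hu
  · ext v
    obtain ⟨e, he, f, hf, w, hw, rfl⟩ := h.dec v
    have h1 : u f - f = 0 := h.EF _ (sub_mem (hc u hau f hf) hf) fun x hx => by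
      rw [map_sub, ← hu.1 x f, hu.2.1 x hx, sub_self]
    have h2 : u w - w = 0 := h.FE _ (hu.2.2 w hw.1) fun y hy => by
      rw [map_sub, isom_right hu.1, hw.2 _ (hc _ hau.inv_right y hy), hw.2 y hy, sub_self]
    simp [hu.2.1 e he, sub_eq_zero.1 h1, sub_eq_zero.1 h2]

theorem form_aeval {f f' : End K V} (h : ∀ x y, B (f x) y = B x (f' y)) (p : K[X]) (x y : V) :
    B (aeval f p x) y = B x (aeval f' p y) := by
  have hp : ∀ n : ℕ, ∀ x y, B ((f ^ n) x) y = B x ((f' ^ n) y) := fun n => by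
    induction n with
    | zero => simp
    | succ n ih => intro x y; rw [pow_succ', pow_succ, End.mul_apply, End.mul_apply, h, ih]
  induction p using Polynomial.induction_on' with
  | add p q hp hq => simp [hp, hq]
  | monomial n c => simp [aeval_monomial, hp]

theorem aeval_mem {f : End K V} (h : ∀ x ∈ E, f x ∈ E) (p : K[X]) {x : V} (hx : x ∈ E) : aeval f p x ∈ E :=
  aeval_apply_smul_mem_of_le_comap' (by simpa using hx) p f h

theorem Perp.map {a : V ≃ₗ[K] V} (ha : a ∈ Isom B) (hE : ∀ x, a x ∈ E ↔ x ∈ E) (hF : ∀ x, a x ∈ F ↔ x ∈ F) {w : V}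
    (hw : Perp B E F w) : Perp B E F (a w) :=
  ⟨fun x hx => by rw [isom_right ha, hw.1 _ ((hE _).1 (by rwa [apply_inv_apply]))],
    fun x hx => by rw [isom_right ha, hw.2 _ ((hF _).1 (by rwa [apply_inv_apply]))]⟩

/-- The orthogonal complement of `E + F`. -/
def perp (B : LinearMap.BilinForm K V) (E F : Submodule K V) : Submodule K V where
  carrier := {w | Perp B E F w}
  add_mem' ha hb := ⟨fun x hx => by simp [ha.1 x hx, hb.1 x hx], fun x hx => by simp [ha.2 x hx, hb.2 x hx]⟩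
  zero_mem' := ⟨by simp, by simp⟩
  smul_mem' c _ ha := ⟨fun x hx => by simp [ha.1 x hx], fun x hx => by simp [ha.2 x hx]⟩

theorem inv_mem_iff {a : V ≃ₗ[K] V} (hE : ∀ x, a x ∈ E ↔ x ∈ E) (x : V) : a⁻¹ x ∈ E ↔ x ∈ E := by
  rw [← hE, apply_inv_apply]

theorem comm_aeval {a u : V ≃ₗ[K] V} (h : Commute a u) (p : K[X]) (x : V) :
    aeval (a : End K V) p (u x) = u (aeval (a : End K V) p x) :=
  (aeval_intertwine (u : V →ₗ[K] V) (fun v => (LinearEquiv.congr_fun h.eq v).symm) p x).symm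

/-- The fixed-point-free criterion. -/
theorem InDual.fpf_of_poly (h : InDual B E F) {a : V ≃ₗ[K] V} (ha : a ∈ Isom B) (hE : ∀ x, a x ∈ E ↔ x ∈ E)
    (hF : ∀ x, a x ∈ F ↔ x ∈ F) (p : K[X]) (h0 : ∀ x ∈ E, aeval (a : End K V) p x = 0)
    (h1 : ∀ x ∈ E, aeval ((a⁻¹ : V ≃ₗ[K] V) : End K V) p x = 0 → x = 0)
    (h2 : ∀ x ∈ E, ∃ y ∈ E, aeval ((a⁻¹ : V ≃ₗ[K] V) : End K V) p y = x)
    (h3 : ∀ w, Perp B E F w → aeval (a : End K V) p w = 0 → w = 0)
    (h4 : ∀ w, Perp B E F w → aeval ((a⁻¹ : V ≃ₗ[K] V) : End K V) p w = 0 → w = 0) :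
    Fpf (Rad B E) a ∧ Fpf (Rad B F) a := by
  have mem : ∀ b ∈ Isom B, (∀ x, b x ∈ E ↔ x ∈ E) → (∀ x, b x ∈ F ↔ x ∈ F) → ∀ {e f w : V}, e ∈ E → f ∈ F →
      Perp B E F w → aeval (b : End K V) p (e + f + w) = 0 → aeval (b : End K V) p e = 0 ∧
        aeval (b : End K V) p f = 0 ∧ aeval (b : End K V) p w = 0 := fun b hb bE bF e f w he hf hw h0 =>
    h.eq_zero (aeval_mem (fun x => (bE x).2) p he) (aeval_mem (fun x => (bF x).2) p hf)
      (aeval_mem (E := perp B E F) (fun x hx => Perp.map hb bE bF hx) p hw) (by simpa using h0)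
  refine ⟨h.fpf ha hE fun u hu y hy => ?_, h.symm.fpf ha hF fun u hu x hx => ?_⟩
  · obtain ⟨e, he, f, hf, w, hw, e1⟩ := h.dec (u y)
    have h5 : aeval ((a⁻¹ : V ≃ₗ[K] V) : End K V) p y = 0 :=
      h.EF _ (aeval_mem (fun x => (inv_mem_iff hF x).2) p hy) fun x hx => by
        rw [← form_aeval (isom_left ha), h0 x hx, map_zero, LinearMap.zero_apply]
    obtain ⟨a1, -, a2⟩ := mem a⁻¹ (inv_mem ha) (inv_mem_iff hE) (inv_mem_iff hF) he hf hw (by
      rw [← e1, comm_aeval hu.inv_left, h5, map_zero])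
    simpa [e1, h1 e he a1, h4 w hw a2] using hf
  · obtain ⟨e, he, f, hf, w, hw, e1⟩ := h.dec (u x)
    obtain ⟨-, a1, a2⟩ := mem a ha hE hF he hf hw (by rw [← e1, comm_aeval hu, h0 x hx, map_zero])
    have h5 : f = 0 := h.EF f hf fun z hz => by
      obtain ⟨y, hy, rfl⟩ := h2 z hz
      refine h.refl _ _ ?_
      rw [← form_aeval (isom_left ha), a1, map_zero, LinearMap.zero_apply]
    simpa [e1, h5, h3 w hw a2] using he

theorem Fpf.of_comm {Γ : Type*} [Group Γ] {Q : Subgroup Γ} {a z : Γ} (h : Fpf Q a) (hz : ∀ x, Commute z x) :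
    Fpf Q (z * a) :=
  ⟨mul_mem (Subgroup.mem_normalizer_iff.2 fun x => by rw [(hz x).eq, mul_inv_cancel_right]) h.1,
    fun y hy e => h.2 y hy (by simpa using (hz y).inv_left.mul_left e)⟩

variable [FiniteDimensional K V]

theorem InDual.exists_isom (h : InDual B E F) (hB : ∀ x, (∀ y, B x y = 0) → x = 0)
    (f : (E × F × perp B E F) →ₗ[K] V)
    (hf : ∀ p q, B (f p) (f q) = B (p.1 + p.2.1 + p.2.2) (q.1 + q.2.1 + q.2.2)) :
    ∃ a ∈ Isom B, ∀ p : E × F × perp B E F, a (p.1 + p.2.1 + p.2.2) = f p := by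
  let φ : (E × F × perp B E F) →ₗ[K] V := E.subtype.coprod (F.subtype.coprod (perp B E F).subtype)
  have hφ : ∀ p, φ p = p.1 + p.2.1 + p.2.2 := fun p => (add_assoc _ _ _).symm
  let e := LinearEquiv.ofBijective φ ⟨(injective_iff_map_eq_zero φ).2 fun p hp => by
      obtain ⟨a, b, c⟩ := h.eq_zero p.1.2 p.2.1.2 p.2.2.2 ((hφ p).symm.trans hp)
      exact Prod.ext (Subtype.ext a) (Prod.ext (Subtype.ext b) (Subtype.ext c)),
    fun v => let ⟨e, he, f, hf, w, hw, e'⟩ := h.dec v; ⟨(⟨e, he⟩, ⟨f, hf⟩, ⟨w, hw⟩), (hφ _).trans e'.symm⟩⟩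
  have h1 : ∀ x y, B (f (e.symm x)) (f (e.symm y)) = B x y := fun x y => by
    rw [hf, ← hφ, ← hφ]
    exact congrArg₂ (B · ·) (e.apply_symm_apply x) (e.apply_symm_apply y)
  refine ⟨LinearEquiv.ofInjectiveEndo (f ∘ₗ e.symm.toLinearMap) ((injective_iff_map_eq_zero _).2 fun x hx =>
    hB x fun y => by rw [← h1, show f (e.symm x) = 0 from hx, map_zero, LinearMap.zero_apply]), h1, fun p => ?_⟩
  rw [← hφ]
  exact congrArg f (e.symm_apply_apply p)

theorem InDual.bij (h : InDual B E F) : Function.Bijective (B.compl₁₂ E.subtype F.subtype).flip := by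
  have h1 : Function.Injective (B.compl₁₂ E.subtype F.subtype).flip := (injective_iff_map_eq_zero _).2 fun y hy =>
    Subtype.ext (h.EF y y.2 fun x hx => LinearMap.congr_fun hy ⟨x, hx⟩)
  have h2 : Function.Injective (B.compl₁₂ E.subtype F.subtype) := (injective_iff_map_eq_zero _).2 fun y hy =>
    Subtype.ext (h.FE y y.2 fun x hx => h.refl _ _ (LinearMap.congr_fun hy ⟨x, hx⟩))
  have h3 := LinearMap.finrank_le_finrank_of_injective h1
  have h4 := LinearMap.finrank_le_finrank_of_injective h2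
  rw [Subspace.dual_finrank_eq] at h4
  exact ⟨h1, (LinearMap.injective_iff_surjective_of_finrank_eq_finrank
    (le_antisymm h3 (Subspace.dual_finrank_eq.trans_le h4))).1 h1⟩

/-- Every automorphism of `E` is induced by an isometry that stabilises `F` and fixes the complement. -/
theorem InDual.exists_levi {ε : K} (h : InDual B E F) (hB : ∀ x, (∀ y, B x y = 0) → x = 0)
    (hs : ∀ x y, B y x = ε * B x y) (A : E ≃ₗ[K] E) : ∃ a ∈ Isom B, (∀ x : E, a x = A x) ∧ (∀ x, a x ∈ E ↔ x ∈ E) ∧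
      (∀ x, a x ∈ F ↔ x ∈ F) ∧ ∀ w, Perp B E F w → a w = w := by
  let Φ := LinearEquiv.ofBijective _ h.bij
  let A' : F ≃ₗ[K] F := Φ.trans (A.symm.dualMap.trans Φ.symm)
  have h1 : ∀ (x : E) (y : F), B (A x) (A' y) = B x y := fun x y => by
    have := LinearMap.congr_fun (Φ.apply_symm_apply (A.symm.dualMap (Φ y))) (A x)
    exact this.trans (congrArg (fun z : E => B z y) (A.symm_apply_apply x))
  have h2 : ∀ (x : E) (y : F), B (A' y) (A x) = B y x := fun x y => by rw [hs, h1, ← hs]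
  obtain ⟨a, ha, e⟩ := h.exists_isom hB ((E.subtype ∘ₗ A.toLinearMap).coprod
    ((F.subtype ∘ₗ A'.toLinearMap).coprod (perp B E F).subtype)) fun p q => by
      have e1 := fun (x : E) (w : perp B E F) => w.2.1 x x.2
      have e2 := fun (x : F) (w : perp B E F) => w.2.2 x x.2
      have e3 := fun (x : E) (w : perp B E F) => h.refl _ _ (e1 x w)
      have e4 := fun (x : F) (w : perp B E F) => h.refl _ _ (e2 x w)
      have e5 := fun x y : E => h.isoE x x.2 y y.2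
      have e6 := fun x y : F => h.isoF x x.2 y y.2
      simp [h1, h2, e1, e2, e3, e4, e5, e6, add_assoc]
  have aE : ∀ x : E, a x = A x := fun x => by simpa using e (x, 0, 0)
  have aF : ∀ x : F, a x = A' x := fun x => by simpa using e (0, x, 0)
  refine ⟨a, ha, aE, fun x => ⟨fun hx => ?_, fun hx => aE ⟨x, hx⟩ ▸ (A _).2⟩,
    fun x => ⟨fun hx => ?_, fun hx => aF ⟨x, hx⟩ ▸ (A' _).2⟩, fun w hw => by simpa using e (0, 0, ⟨w, hw⟩)⟩
  · have := aE (A.symm ⟨_, hx⟩)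
    rw [A.apply_symm_apply] at this
    exact a.injective this ▸ (A.symm _).2
  · have := aF (A'.symm ⟨_, hx⟩)
    rw [A'.apply_symm_apply] at this
    exact a.injective this ▸ (A'.symm _).2

theorem exists_of_poly {K : Type u} [Field K] {W : Type*} [AddCommGroup W] [Module K W] [FiniteDimensional K W] {p : K[X]}
    (hm : p.Monic) (hd : p.natDegree = finrank K W) (h0 : p.coeff 0 ≠ 0)
    (h : ∀ (L : Type u) [Field L] [Algebra K L] (x : L), aeval x p = 0 → aeval x⁻¹ p ≠ 0) :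
    ∃ A : W ≃ₗ[K] W, aeval (A : End K W) p = 0 ∧ Function.Bijective (aeval ((A⁻¹ : W ≃ₗ[K] W) : End K W) p) := by
  have hf := (AdjoinRoot.powerBasis' hm).finite
  obtain ⟨e⟩ : Nonempty (AdjoinRoot p ≃ₗ[K] W) := FiniteDimensional.nonempty_linearEquiv_of_finrank_eq
    ((AdjoinRoot.powerBasis' hm).finrank.trans hd)
  have hu : ∀ s : AdjoinRoot p, (∀ (L : Type u) [Field L] [Algebra K L] (f : AdjoinRoot p →ₐ[K] L), f s ≠ 0) →
      IsUnit s := fun s hs => by
    by_contra hn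
    obtain ⟨m, hm, hs'⟩ := exists_max_ideal_of_mem_nonunits hn
    let _ := Ideal.Quotient.field m
    exact hs _ (Ideal.Quotient.mkₐ K m) (Ideal.Quotient.eq_zero_iff_mem.2 hs')
  have hr : ∀ (L : Type u) [Field L] [Algebra K L] (f : AdjoinRoot p →ₐ[K] L), aeval (f (AdjoinRoot.root p)) p = 0 :=
    fun L _ _ f => by rw [aeval_algHom_apply, AdjoinRoot.aeval_eq, AdjoinRoot.mk_self, map_zero]
  obtain ⟨x, hx⟩ := hu (AdjoinRoot.root p) fun L _ _ f hf => h0 (by
    have := hr L f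
    rwa [hf, ← coeff_zero_eq_aeval_zero', map_eq_zero] at this)
  have h1 : IsUnit (aeval ((x⁻¹ : (AdjoinRoot p)ˣ) : AdjoinRoot p) p) := hu _ fun L _ _ f => by
    rw [← aeval_algHom_apply, map_units_inv, hx]
    exact h L _ (hr L f)
  let ρ : AdjoinRoot p →ₐ[K] End K W := e.conjAlgEquiv K |>.toAlgHom.comp (Algebra.lmul K _)
  let A := LinearMap.GeneralLinearGroup.toLinearEquiv (Units.map ρ.toMonoidHom x)
  refine ⟨A, ?_, (Module.End.isUnit_iff _).1 ?_⟩
  · rw [show (A : End K W) = ρ x from rfl, aeval_algHom_apply, hx, AdjoinRoot.aeval_eq, AdjoinRoot.mk_self, map_zero]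
  · rw [show ((A⁻¹ : W ≃ₗ[K] W) : End K W) = ρ (x⁻¹ : (AdjoinRoot p)ˣ) from rfl, aeval_algHom_apply]
    exact h1.map ρ

end CL.Ore
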