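/-
Commutators in general linear groups with a prescribed spectrum of the first entry, part 1: definitions and gluing along
a parabolic subgroup.
-/
import Cfsg.Agent.Cls.OreCore
import Cfsg.Agent.Cls.ProdLev

set_option autoImplicit false

open Module Polynomial

namespace CL.OreO

open CL.Sp CL.Chev CL.GLn

variable {K : Type*} [Field K] {E E' A B : Type*} [AddCommGroup E] [Module K E] [AddCommGroup E'] [Module K E']
  [AddCommGroup A] [Module K A] [AddCommGroup B] [Module K B]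

/-- The field in which spectra live. -/
abbrev Om (K : Type*) [Field K] := AlgebraicClosure K

/-- `D` is killed by a polynomial all of whose roots lie in `T`. -/
def Kil (T : Set (Om K)) (D : End K E) : Prop := ∃ P : K[X], aeval D P = 0 ∧ ∀ x : Om K, aeval x P = 0 → x ∈ T

/-- No two elements of `T` are inverse to each other. -/
def Sig (T : Set (Om K)) : Prop := (0 : Om K) ∉ T ∧ ∀ x ∈ T, ∀ y ∈ T, x * y ≠ 1

/-- `l` is a commutator with controlled spectrum and determinants. -/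
def GC (T : Set (Om K)) (l : E ≃ₗ[K] E) (δ γ : Kˣ) : Prop :=
  ∃ D c : E ≃ₗ[K] E, l = D * c * D⁻¹ * c⁻¹ ∧ Kil T (D : End K E) ∧ LinearEquiv.det D = δ ∧ LinearEquiv.det c = γ

/-- Neither a nontrivial scalar nor a transvection. -/
def NB (l : E ≃ₗ[K] E) : Prop := (∀ c : K, (∀ x, l x = c • x) → ∀ x, l x = x) ∧
  ∀ (z : E) (μ : Dual K E), z ≠ 0 → μ ≠ 0 → μ z = 0 → ¬ ∀ x, l x = x + μ x • z

variable {T T' : Set (Om K)} {δ γ δ' γ' : Kˣ}

theorem Kil.mono {D : End K E} (h : Kil T D) (hT : T ⊆ T') : Kil T' D :=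
  let ⟨P, a, b⟩ := h; ⟨P, a, fun x hx => hT (b x hx)⟩

theorem Kil.sim {D : End K E} {D' : End K E'} (h : Kil T D) (e : Sim D D') : Kil T D' :=
  let ⟨P, a, b⟩ := h; ⟨P, (e.aeval_eq_zero_iff P).1 a, b⟩

theorem GC.mono {l : E ≃ₗ[K] E} (h : GC T l δ γ) (hT : T ⊆ T') : GC T' l δ γ :=
  let ⟨D, c, a, b, d⟩ := h; ⟨D, c, a, b.mono hT, d⟩

theorem comm_iff {l D c : E ≃ₗ[K] E} : l = D * c * D⁻¹ * c⁻¹ ↔ ∀ x, l (c (D x)) = D (c x) := by
  rw [eq_mul_inv_iff_mul_eq, eq_mul_inv_iff_mul_eq, LinearEquiv.ext_iff]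
  rfl

theorem GC.congr {l : E ≃ₗ[K] E} {l' : E' ≃ₗ[K] E'} (h : GC T l δ γ) (e : E ≃ₗ[K] E') (he : ∀ x, e (l x) = l' (e x)) :
    GC T l' δ γ := by
  obtain ⟨D, c, a, b, d1, d2⟩ := h
  exact ⟨(e.symm.trans D).trans e, (e.symm.trans c).trans e, comm_iff.2 fun x => by simp [← he, comm_iff.1 a],
    b.sim ⟨e, fun x => by simp⟩, (LinearEquiv.det_conj _ _).trans d1, (LinearEquiv.det_conj _ _).trans d2⟩

theorem NB.congr {l : E ≃ₗ[K] E} {l' : E' ≃ₗ[K] E'} (h : NB l') (e : E ≃ₗ[K] E') (he : ∀ x, e (l x) = l' (e x)) :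
    NB l := by
  refine ⟨fun c hc x => e.injective ((he x).trans (h.1 c (fun y => ?_) _)), fun z μ a b c d =>
    h.2 (e z) (μ ∘ₗ e.symm.toLinearMap) (by simpa) (fun h0 => b (LinearMap.ext fun x => ?_)) (by simpa) fun y => ?_⟩
  · obtain ⟨y, rfl⟩ := e.surjective y
    rw [← he, hc, map_smul]
  · simpa using LinearMap.congr_fun h0 (e x)
  · obtain ⟨y, rfl⟩ := e.surjective y
    simp [← he, d]

theorem nb_one : NB (1 : E ≃ₗ[K] E) :=
  ⟨fun _ _ _ => rfl, fun z μ a b _ h => b (LinearMap.ext fun x => by simpa [a] using h x)⟩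

theorem coprime_of_roots {P Q : K[X]} (hP : ∀ x : Om K, aeval x P = 0 → x ∈ T) (hQ : ∀ x : Om K, aeval x Q = 0 → x ∈ T')
    (h : Disjoint T T') : IsCoprime P Q :=
  (isCoprime_iff_aeval_ne_zero_of_isAlgClosed K (Om K) P Q).2 fun x => by
    by_contra hn
    rw [not_or, not_not, not_not] at hn
    exact Set.disjoint_left.1 h (hP x hn.1) (hQ x hn.2)

theorem eq_zero_of_coprime {D : End K E} {P Q : K[X]} (h : IsCoprime P Q) {x : E} (hP : aeval D P x = 0)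
    (hQ : aeval D Q x = 0) : x = 0 := by
  obtain ⟨a, b, e⟩ := h
  have := congrArg (fun p => aeval D p x) e
  simpa [hP, hQ] using this.symm

theorem Kil.exists_poly {D : E ≃ₗ[K] E} (h : Kil T (D : End K E)) (hT : Sig T) : ∃ P : K[X], aeval (D : End K E) P = 0 ∧
    (∀ x, aeval ((D⁻¹ : E ≃ₗ[K] E) : End K E) P x = 0 → x = 0) ∧ P.eval 1 ≠ 0 := by
  obtain ⟨P, h1, h2⟩ := h
  obtain ⟨a, b, e⟩ : IsCoprime X P := coprime_of_roots (T := {0}) (by simp) h2 (by simpa using hT.1)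
  have h3 : ((D⁻¹ : E ≃ₗ[K] E) : End K E) = aeval (D : End K E) a := LinearMap.ext fun x => by
    simpa [h1, apply_inv_apply] using (congrArg (fun p => aeval (D : End K E) p (D⁻¹ x)) e).symm
  refine ⟨P, h1, fun x hx => eq_zero_of_coprime (D := (D : End K E)) (P := P) (Q := P.comp a) ?_ (by simp [h1])
    (by rwa [aeval_comp, ← h3]), fun h0 => ?_⟩
  · refine (isCoprime_iff_aeval_ne_zero_of_isAlgClosed K (Om K) _ _).2 fun x => ?_
    by_contra hn
    rw [not_or, not_not, not_not, aeval_comp] at hn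
    exact hT.2 _ (h2 _ hn.2) x (h2 x hn.1) (by simpa [hn.1] using congrArg (aeval x) e)
  · have := h2 1 (by rw [← map_one (algebraMap K (Om K)), aeval_algebraMap_apply, coe_aeval_eq_eval, h0, map_zero])
    exact hT.2 1 this 1 this (one_mul 1)

/-- The unipotent radical of the stabiliser of a subspace. -/
def Uni (S : Submodule K E) : Subgroup (E ≃ₗ[K] E) where
  carrier := {u | (∀ x ∈ S, u x = x) ∧ ∀ x, u x - x ∈ S}
  mul_mem' {u v} hu hv := ⟨fun x hx => by rw [LinearEquiv.mul_apply, hv.1 x hx, hu.1 x hx],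
    fun x => by simpa using add_mem (hu.2 (v x)) (hv.2 x)⟩
  one_mem' := ⟨fun _ _ => rfl, fun x => by simp⟩
  inv_mem' {u} hu := ⟨fun x hx => by conv_lhs => rw [← hu.1 x hx, inv_apply_apply], fun x => by
    simpa [apply_inv_apply] using neg_mem (hu.2 (u⁻¹ x))⟩

theorem Uni.conj {S : Submodule K E} {a u : E ≃ₗ[K] E} (ha : ∀ x, a x ∈ S ↔ x ∈ S) (hu : u ∈ Uni S) :
    a * u * a⁻¹ ∈ Uni S :=
  ⟨fun x hx => by
    rw [LinearEquiv.mul_apply, LinearEquiv.mul_apply, hu.1 _ ((ha _).1 (by rwa [apply_inv_apply])), apply_inv_apply],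
    fun x => by simpa [apply_inv_apply] using (ha _).2 (hu.2 (a⁻¹ x))⟩

theorem Uni.norm {S : Submodule K E} {a : E ≃ₗ[K] E} (ha : ∀ x, a x ∈ S ↔ x ∈ S) :
    a ∈ Subgroup.normalizer (Uni S : Set (E ≃ₗ[K] E)) :=
  Subgroup.mem_normalizer_iff.2 fun u => ⟨Uni.conj ha, fun hu => by
    simpa [mul_assoc] using Uni.conj (Ore.inv_mem_iff ha) hu⟩

theorem Uni.det [FiniteDimensional K E] {S : Submodule K E} {u : E ≃ₗ[K] E} (hu : u ∈ Uni S) : LinearEquiv.det u = 1 := by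
  have h : IsNilpotent (-((u : End K E) - 1)) := IsNilpotent.neg ⟨2, LinearMap.ext fun x => by
    simpa [sq, sub_eq_zero] using hu.1 _ (hu.2 x)⟩
  have := LinearMap.eval_charpoly (-((u : End K E) - 1)) 1
  rw [h.charpoly_eq_X_pow_finrank] at this
  exact Units.ext (by simpa using this.symm)

theorem Uni.fpf {S S' : Submodule K E} (h : S ⊔ S' = ⊤) {a : E ≃ₗ[K] E} (ha : ∀ x, a x ∈ S ↔ x ∈ S) {P Q : K[X]}
    (hc : IsCoprime P Q) (hP : ∀ x ∈ S, aeval (a : End K E) P x = 0) (hQ : ∀ x ∈ S', aeval (a : End K E) Q x = 0) :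
    Fpf (Uni S) a := by
  refine ⟨Uni.norm ha, fun u hu e => LinearEquiv.ext fun x => ?_⟩
  obtain ⟨y, hy, z, hz, rfl⟩ := Submodule.mem_sup.1 (h ▸ Submodule.mem_top : x ∈ S ⊔ S')
  have := eq_zero_of_coprime hc (hP _ (hu.2 z)) (by rw [map_sub, Ore.comm_aeval e, hQ z hz, map_zero, sub_zero])
  simp [hu.1 y hy, sub_eq_zero.1 this]

theorem aeval_prod (f : A ≃ₗ[K] A) (g : B ≃ₗ[K] B) (P : K[X]) (x : A × B) :
    aeval (f.prodCongr g : End K (A × B)) P x = (aeval (f : End K A) P x.1, aeval (g : End K B) P x.2) :=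
  Prod.ext (aeval_intertwine (LinearMap.fst K A B) (fun _ => rfl) P x)
    (aeval_intertwine (LinearMap.snd K A B) (fun _ => rfl) P x)

/-- The first summand. -/
abbrev S1 (K A B : Type*) [Field K] [AddCommGroup A] [Module K A] [AddCommGroup B] [Module K B] : Submodule K (A × B) :=
  LinearMap.ker (LinearMap.snd K A B)

/-- The second summand. -/
abbrev S2 (K A B : Type*) [Field K] [AddCommGroup A] [Module K A] [AddCommGroup B] [Module K B] : Submodule K (A × B) :=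
  LinearMap.ker (LinearMap.fst K A B)

theorem prod_S1 (f : A ≃ₗ[K] A) (g : B ≃ₗ[K] B) (x : A × B) : f.prodCongr g x ∈ S1 K A B ↔ x ∈ S1 K A B := by simp

theorem prod_S2 (f : A ≃ₗ[K] A) (g : B ≃ₗ[K] B) (x : A × B) : f.prodCongr g x ∈ S2 K A B ↔ x ∈ S2 K A B := by simp

theorem S12 : S1 K A B ⊔ S2 K A B = ⊤ :=
  eq_top_iff.2 fun x _ => Submodule.mem_sup.2 ⟨(x.1, 0), by simp, (0, x.2), by simp, by simp⟩

theorem Kil.prod {f : A ≃ₗ[K] A} {g : B ≃ₗ[K] B} (h : Kil T (f : End K A)) (h' : Kil T' (g : End K B)) :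
    Kil (T ∪ T') (f.prodCongr g : End K (A × B)) := by
  obtain ⟨P, a, b⟩ := h
  obtain ⟨Q, c, d⟩ := h'
  refine ⟨P * Q, LinearMap.ext fun x => ?_, fun x hx => (mul_eq_zero.1 ((map_mul _ _ _).symm.trans hx)).imp (b x) (d x)⟩
  rw [aeval_prod, map_mul, a, map_mul, c]
  simp

variable [FiniteDimensional K A] [FiniteDimensional K B]

theorem det_prod (f : A ≃ₗ[K] A) (g : B ≃ₗ[K] B) :
    LinearEquiv.det (f.prodCongr g) = LinearEquiv.det f * LinearEquiv.det g :=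
  Units.ext (by simpa using LinearMap.det_prodMap (f : End K A) (g : End K B))

theorem GC.prod {f : A ≃ₗ[K] A} {g : B ≃ₗ[K] B} (h : GC T f δ γ) (h' : GC T' g δ' γ') :
    GC (T ∪ T') (f.prodCongr g) (δ * δ') (γ * γ') := by
  obtain ⟨D, c, a1, a2, rfl, rfl⟩ := h
  obtain ⟨D', c', b1, b2, rfl, rfl⟩ := h'
  exact ⟨D.prodCongr D', c.prodCongr c', comm_iff.2 fun x => Prod.ext (comm_iff.1 a1 _) (comm_iff.1 b1 _), a2.prod b2,
    det_prod _ _, det_prod _ _⟩

theorem GC.glue [Finite K] {f : A ≃ₗ[K] A} {g : B ≃ₗ[K] B} (h : GC T f δ γ) (h' : GC T' g δ' γ') (hT : Disjoint T T')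
    {u v : (A × B) ≃ₗ[K] (A × B)} (hv : v ∈ Uni (S2 K A B)) (hu : u ∈ Uni (S1 K A B)) :
    GC (T ∪ T') (v * f.prodCongr g * u) (δ * δ') (γ * γ') := by
  have := Module.finite_of_finite K (M := A × B)
  have : Finite ((A × B) ≃ₗ[K] (A × B)) := DFunLike.finite _
  obtain ⟨D, c, a1, a2, rfl, rfl⟩ := h
  obtain ⟨D', c', b1, b2, rfl, rfl⟩ := h'
  have a3 := a2.prod b2
  obtain ⟨P, a4, a5⟩ := a2
  obtain ⟨Q, b4, b5⟩ := b2
  have hc := coprime_of_roots a5 b5 hT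
  have k1 : ∀ x ∈ S1 K A B, aeval (D.prodCongr D' : End K (A × B)) P x = 0 := fun x hx => by
    rw [aeval_prod]; simp [a4, show x.2 = 0 from hx]
  have k2 : ∀ x ∈ S2 K A B, aeval (D.prodCongr D' : End K (A × B)) Q x = 0 := fun x hx => by
    rw [aeval_prod]; simp [b4, show x.1 = 0 from hx]
  have f1 := Uni.fpf S12 (prod_S1 D D') hc k1 k2
  have f2 := Uni.fpf ((sup_comm _ _).trans S12) (prod_S2 D D') hc.symm k2 k1
  obtain ⟨y, hy, e⟩ := f2.exists_mul_eq hv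
  obtain ⟨z, hz, e'⟩ := (f1.inv.conj (Uni.norm (prod_S1 c c'))).exists_mul_eq' hu
  have e0 : f.prodCongr g = D.prodCongr D' * c.prodCongr c' * (D.prodCongr D')⁻¹ * (c.prodCongr c')⁻¹ :=
    comm_iff.2 fun x => Prod.ext (comm_iff.1 a1 _) (comm_iff.1 b1 _)
  refine ⟨y * D.prodCongr D' * y⁻¹, z * c.prodCongr c' * y⁻¹, ?_, a3.sim ⟨y, fun x => by simp [inv_apply_apply]⟩,
    by simp [det_prod], by simp [det_prod, Uni.det hy, Uni.det hz]⟩
  calc _ = v * D.prodCongr D' * (c.prodCongr c' * (D.prodCongr D')⁻¹ * (c.prodCongr c')⁻¹ * u) := by rw [e0]; group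
    _ = _ := by rw [e, e']; group

end CL.OreO
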