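/-
Commutators in general linear groups with a prescribed spectrum, part 2: peeling off a scalar block.
-/
import Cfsg.Agent.Cls.OreGL1

set_option autoImplicit false

open Module Polynomial

namespace CL.OreO

open CL.Sp CL.Chev CL.GLn CL.SLn

variable {K : Type*} [Field K] {E A B : Type*} [AddCommGroup E] [Module K E]
  [AddCommGroup A] [Module K A] [AddCommGroup B] [Module K B]

theorem exists_ker_two [FiniteDimensional K B] (h3 : 3 ≤ finrank K B) (κ ν : Dual K B) :
    ∃ w, w ≠ 0 ∧ κ w = 0 ∧ ν w = 0 := by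
  obtain ⟨w, h1, h2⟩ := Submodule.exists_mem_ne_zero_of_ne_bot
    (LinearMap.ker_ne_bot_of_finrank_lt (f := κ.prod ν) (by simpa using Nat.lt_of_succ_le h3))
  exact ⟨w, h2, by simpa using h1⟩

theorem exists_avoid [FiniteDimensional K B] (h3 : 3 ≤ finrank K B) {D : Submodule K B} (h0 : D ≠ ⊥) (h1 : D ≠ ⊤)
    (l : B ≃ₗ[K] B) : ∃ d ∈ D, ∃ κ : Dual K B, (∀ x ∈ D, κ x = 0) ∧
      ∀ l' : B ≃ₗ[K] B, (∀ x, l' x = l x + κ (l x) • d) → NB l' := by
  by_cases h : NB l
  · exact ⟨0, zero_mem _, 0, by simp, fun l' e => h.congr (LinearEquiv.refl K B) (by simpa using e)⟩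
  obtain ⟨d, hd, d0⟩ := Submodule.exists_mem_ne_zero_of_ne_bot h0
  obtain ⟨y, hy⟩ : ∃ y, y ∉ D := not_forall.1 fun h => h1 (eq_top_iff.2 fun x _ => h x)
  rw [NB, not_and_or] at h
  push Not at h
  rcases h with ⟨c, hc, x, hx⟩ | ⟨z, ν, hz, hν, h2, h⟩
  · obtain ⟨κ, k1, k2⟩ := exists_dual_of_notMem hy
    have c0 : c ≠ 0 := fun e => hy (by
      rw [show y = 0 from l.injective (by simp [hc, e])]; exact zero_mem _)
    refine ⟨d, hd, κ, k2, fun l' e => ⟨fun c' h' => absurd ?_ d0, fun z ν _ _ _ h' => hx ?_⟩⟩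
    · obtain ⟨w, a, b, -⟩ := exists_ker_two h3 κ κ
      have e1 : c' = c := smul_left_injective K a (by simpa [e, hc, b] using (h' w).symm)
      simpa [e, hc, e1, k1, c0] using h' y
    · obtain ⟨w, a, b, b'⟩ := exists_ker_two h3 κ ν
      have e1 : c = 1 := smul_left_injective K a (by simpa [e, hc, b, b'] using h' w)
      simp [hc, e1]
  by_cases h4 : z ∈ D ∧ ∀ x ∈ D, ν x = 0
  · exact ⟨z, h4.1, -ν, by simpa using h4.2, fun l' e => nb_one.congr (LinearEquiv.refl K B) (by simp [e, h, h2])⟩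
  obtain ⟨d, hd, hdz⟩ : ∃ d ∈ D, ∀ s : K, d ≠ s • z := by
    by_contra hn
    push Not at hn
    obtain ⟨s, rfl⟩ := hn d hd
    refine h4 ⟨(D.smul_mem_iff (left_ne_zero_of_smul d0)).1 hd, fun x hx => ?_⟩
    obtain ⟨t, rfl⟩ := hn x hx
    simp [h2]
  obtain ⟨u, hu⟩ : ∃ u, ν u = 1 := by
    obtain ⟨u, hu⟩ := DFunLike.ne_iff.1 hν
    exact ⟨(ν u)⁻¹ • u, by simpa using inv_mul_cancel₀ hu⟩
  obtain ⟨x, hx, hx'⟩ : ∃ x, ν x = 0 ∧ x ∉ D := by
    by_contra hn
    push Not at hn
    refine h4 ⟨hn z h2, fun x hx => by_contra fun e => hy ?_⟩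
    simpa using add_mem (hn (y - (ν y / ν x) • x) (by simp [e])) (D.smul_mem (ν y / ν x) hx)
  obtain ⟨κ, k1, k2⟩ := exists_dual_of_notMem hx'
  refine ⟨d, hd, κ, k2, fun l' e => ⟨fun c' h' => ?_, fun z' ν' _ _ _ h' => ?_⟩⟩
  · obtain ⟨w, a, b, b'⟩ := exists_ker_two h3 κ ν
    have e1 : c' = 1 := smul_left_injective K a (by simpa [e, h, b, b'] using (h' w).symm)
    simp [h', e1]
  · have e1 : d = ν' x • z' := by simpa [e, h, hx, k1] using h' x
    have e2 : z = ν' (u - (κ u + κ z) • x) • z' := by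
      have := h' (u - (κ u + κ z) • x)
      rw [e, h] at this
      simpa [hx, hu, k1] using this
    generalize ν' (u - (κ u + κ z) • x) = s at e2
    have e3 : s ≠ 0 := fun e => hz (by rw [e2, e, zero_smul])
    exact hdz (ν' x / s) (by rw [e2, smul_smul, div_mul_cancel₀ _ e3, ← e1])

theorem exists_ldu [FiniteDimensional K B] (l : (A × B) ≃ₗ[K] (A × B)) (m : A ≃ₗ[K] A) (hm : ∀ a, (l (a, 0)).1 = m a) :
    ∃ l' : B ≃ₗ[K] B, ∃ v ∈ Uni (S2 K A B), ∃ u ∈ Uni (S1 K A B), l = v * m.prodCongr l' * u ∧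
      ∀ a, v (m a, 0) = l (a, 0) := by
  let v : (A × B) ≃ₗ[K] (A × B) := (LinearEquiv.refl K A).skewProd (LinearEquiv.refl K B)
    (LinearMap.snd K A B ∘ₗ l.toLinearMap ∘ₗ LinearMap.inl K A B ∘ₗ m.symm.toLinearMap)
  have h1 : ∀ a, v (m a, 0) = l (a, 0) := fun a => Prod.ext (hm a).symm (by simp [v])
  have hv : v ∈ Uni (S2 K A B) := ⟨fun x hx => by simp [v, show x.1 = 0 from hx, Prod.ext_iff, Prod.mk_zero_zero],
    fun x => by simp [v]⟩
  have h2 : ∀ a, v⁻¹ (l (a, 0)) = (m a, 0) := fun a => by rw [← h1, inv_apply_apply]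
  let f : End K B := LinearMap.snd K A B ∘ₗ (v⁻¹ * l : (A × B) ≃ₗ[K] (A × B)).toLinearMap ∘ₗ LinearMap.inr K A B
  have hf : ∀ x : A × B, (v⁻¹ (l x)).2 = f x.2 := fun x => by
    rw [show x = (x.1, 0) + (0, x.2) by simp, map_add, map_add, h2]; simp [f]
  have hi : Function.Injective f := (injective_iff_map_eq_zero f).2 fun b hb => by
    have : l (0, b) = l (m.symm (v⁻¹ (l (0, b))).1, 0) := v⁻¹.injective (Prod.ext (by simp [h2]) (by rw [h2, hf, hb]))
    exact congrArg Prod.snd (l.injective this)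
  refine ⟨LinearEquiv.ofInjectiveEndo f hi, v, hv, (m.prodCongr (LinearEquiv.ofInjectiveEndo f hi))⁻¹ * (v⁻¹ * l),
    ⟨fun x hx => (m.prodCongr (LinearEquiv.ofInjectiveEndo f hi)).injective ?_, fun x => ?_⟩, by group, h1⟩
  · rw [LinearEquiv.mul_apply, apply_inv_apply, show x = (x.1, 0) from Prod.ext rfl hx, LinearEquiv.mul_apply, h2]
    simp
  · rw [← prod_S1 m (LinearEquiv.ofInjectiveEndo f hi), map_sub, LinearEquiv.mul_apply, apply_inv_apply]
    exact sub_eq_zero.2 (hf x)

theorem peel_prod [Finite K] [FiniteDimensional K A] [FiniteDimensional K B] (h3 : 3 ≤ finrank K B)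
    (l : (A × B) ≃ₗ[K] (A × B)) (m : A ≃ₗ[K] A) (hm : ∀ a, (l (a, 0)).1 = m a) (h0 : ∃ a, (l (a, 0)).2 ≠ 0)
    (h1 : ∃ b, ∀ a, (l (a, 0)).2 ≠ b) : ∃ l' : B ≃ₗ[K] B, NB l' ∧
      LinearEquiv.det l = LinearEquiv.det m * LinearEquiv.det l' ∧ ∀ {T T' : Set (Om K)} {δ γ δ' γ' : Kˣ},
        GC T m δ γ → GC T' l' δ' γ' → Disjoint T T' → GC (T ∪ T') l (δ * δ') (γ * γ') := by
  obtain ⟨l', v, hv, u, hu, e, hv'⟩ := exists_ldu l m hm
  obtain ⟨_, ⟨a, rfl⟩, κ, h4, h5⟩ := exists_avoid h3
    (D := LinearMap.range (LinearMap.snd K A B ∘ₗ l.toLinearMap ∘ₗ LinearMap.inl K A B))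
    (fun e => h0.elim fun a ha => ha ((Submodule.eq_bot_iff _).1 e _ ⟨a, rfl⟩))
    (fun e => h1.elim fun b hb => (Submodule.eq_top_iff'.1 e b).elim hb) l'
  have h6 : ∀ x, κ (v (x, 0)).2 = 0 := fun x => by
    obtain ⟨x, rfl⟩ := m.surjective x
    exact hv' x ▸ h4 _ ⟨x, rfl⟩
  let t : B ≃ₗ[K] B := LinearEquiv.transvection (h4 _ ⟨a, rfl⟩)
  let w : (A × B) ≃ₗ[K] (A × B) := LinearEquiv.transvection (f := κ ∘ₗ LinearMap.snd K A B) (v := (m a, 0)) (by simp)
  have hw : w ∈ Uni (S1 K A B) := ⟨fun x hx => by simp [w, LinearMap.transvection.apply, show x.2 = 0 from hx],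
    fun x => by simp [w, LinearMap.transvection.apply]⟩
  have v1 : ∀ x, (v x).1 = x.1 := fun x => sub_eq_zero.1 (hv.2 x)
  have v2 : ∀ x : A × B, v x = v (x.1, 0) + (0, x.2) := fun x => by
    rw [← hv.1 (0, x.2) (by simp), ← map_add]; simp
  have e1 : v * w = w * v * (LinearEquiv.refl K A).prodCongr t := LinearEquiv.ext fun x => by
    have k : κ (l (a, 0)).2 = 0 := h4 _ ⟨a, rfl⟩
    simp only [LinearEquiv.mul_apply, w, t, LinearEquiv.transvection.apply, map_add, map_smul, hv']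
    rw [v2 (LinearEquiv.prodCongr _ _ x), v2 x]
    refine Prod.ext ?_ ?_ <;> simp [LinearMap.transvection.apply, h6, k, hm, add_assoc]
  have e2 : (LinearEquiv.refl K A).prodCongr t * m.prodCongr l' = m.prodCongr (t * l') := rfl
  have e3 : w⁻¹ * l * w = v * m.prodCongr (t * l') *
      (((m.prodCongr l')⁻¹ * w⁻¹ * (m.prodCongr l')⁻¹⁻¹) * u * w) := by
    rw [← e2, e]
    calc _ = w⁻¹ * (v * w) * w⁻¹ * m.prodCongr l' * u * w := by group
      _ = _ := by rw [e1]; group
  refine ⟨t * l', h5 _ fun x => rfl, by simp [e, t, det_prod, Uni.det hu, Uni.det hv], fun a1 a2 a3 => ?_⟩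
  have := a1.glue a2 a3 hv (mul_mem (mul_mem (Uni.conj (Ore.inv_mem_iff (prod_S1 m l')) (inv_mem hw)) hu) hw)
  rw [← e3] at this
  exact this.congr w fun x => by simp

theorem mem_sup_one {S : Submodule K E} {x y : E} (h : x ∈ S ⊔ K ∙ y) : ∃ a ∈ S, ∃ c : K, x = a + c • y := by
  obtain ⟨a, ha, z, hz, rfl⟩ := Submodule.mem_sup.1 h
  obtain ⟨c, rfl⟩ := Submodule.mem_span_singleton.1 hz
  exact ⟨a, ha, c, rfl⟩

theorem card_cover [Finite E] {ι : Type*} [Fintype ι] (S : ι → Submodule K E) (h : ∀ x, ∃ i, x ∈ S i) :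
    Nat.card E + Fintype.card ι ≤ 1 + ∑ i, Nat.card (S i) := by
  classical
  have := Fintype.ofFinite E
  have h1 : (Finset.univ.erase (0 : E)) ⊆ Finset.univ.biUnion fun i => (S i : Set E).toFinset.erase 0 := fun x hx => by
    obtain ⟨i, hi⟩ := h x
    exact Finset.mem_biUnion.2 ⟨i, Finset.mem_univ _, by simpa [hi] using hx⟩
  have h2 := (Finset.card_le_card h1).trans Finset.card_biUnion_le
  have h3 : ∀ i, ((S i : Set E).toFinset.erase 0).card + 1 = Nat.card (S i) := fun i => by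
    rw [Finset.card_erase_add_one (by simp), Set.toFinset_card, Nat.card_eq_fintype_card]; rfl
  rw [Finset.card_erase_of_mem (Finset.mem_univ _), Finset.card_univ, ← Nat.card_eq_fintype_card] at h2
  simp only [← h3, Finset.sum_add_distrib, Finset.sum_const, Finset.card_univ, smul_eq_mul, mul_one]
  omega

variable [FiniteDimensional K E]

theorem finrank_comap_eq {f : End K E} {Y : Submodule K E} (h : Y ⊔ LinearMap.range f = ⊤) :
    finrank K (Y.comap f) = finrank K Y := by
  have h1 := LinearMap.finrank_range_add_finrank_ker f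
  have h2 := LinearMap.finrank_range_add_finrank_ker (f ∘ₗ (Y.comap f).subtype)
  have h3 := Submodule.finrank_sup_add_finrank_inf_eq Y (LinearMap.range f)
  rw [LinearMap.range_comp, Submodule.range_subtype, Submodule.map_comap_eq, LinearMap.ker_comp,
    (Submodule.comapSubtypeEquivOfLe (LinearMap.ker_le_comap f)).finrank_eq, inf_comm] at h2
  rw [h, finrank_top] at h3
  omega

omit [FiniteDimensional K E] in
theorem disjoint_sup_span {S R : Submodule K E} {x : E} (h : Disjoint S R) (hx : x ∉ S ⊔ R) : Disjoint (S ⊔ K ∙ x) R :=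
  Submodule.disjoint_def.2 fun y hy hR => by
    obtain ⟨a, ha, c, rfl⟩ := mem_sup_one hy
    by_cases hc : c = 0
    · exact Submodule.disjoint_def.1 h _ (by simpa [hc] using ha) hR
    · exact absurd ((Submodule.smul_mem_iff _ hc).1 (by
        simpa using sub_mem (Submodule.mem_sup_right hR) (Submodule.mem_sup_left ha : a ∈ S ⊔ R))) hx

theorem card_sub_le [Finite K] {S : Submodule K E} {c t : ℕ} (h : finrank K S ≤ t + c) :
    Nat.card S ≤ Nat.card K ^ t * Nat.card K ^ c := by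
  rw [natCard_eq_pow_finrank (K := K), ← pow_add]
  exact Nat.pow_le_pow_right Nat.card_pos h

theorem finrank_lt_of_ne {S : Submodule K E} (h : S ≠ ⊤) : finrank K S < finrank K E := Submodule.finrank_lt h

/-- The fields with at most three elements. -/
def Small (K : Type*) [Field K] : Prop := Nat.card K = 2 ∧ (2 : K) = 0 ∨ Nat.card K = 3 ∧ (3 : K) = 0

theorem Small.finite (h : Small K) : Finite K := Nat.finite_of_card_ne_zero (by rcases h with h | h <;> omega)

theorem Small.cases (h : Small K) {μ : K} (hμ : μ ≠ 0) (x : K) : x = 0 ∨ x = μ ∨ x = -μ := by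
  classical
  have := h.finite
  have := Fintype.ofFinite K
  by_contra hn
  push Not at hn
  rcases h with ⟨h, -⟩ | ⟨h, h3⟩
  · have := Finset.card_le_univ ({x, 0, μ} : Finset K)
    rw [Finset.card_eq_three.2 ⟨x, 0, μ, hn.1, hn.2.1, hμ.symm, rfl⟩, ← Nat.card_eq_fintype_card] at this
    omega
  · have h4 : μ ≠ -μ := fun e => hμ (by linear_combination μ * h3 - e)
    have := Finset.card_le_univ (insert x {0, μ, -μ} : Finset K)
    rw [Finset.card_insert_of_notMem (by simp [hn]), Finset.card_eq_three.2 ⟨0, μ, -μ, hμ.symm, by simpa, h4, rfl⟩,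
      ← Nat.card_eq_fintype_card] at this
    omega

theorem exists_free (hK : Small K) (l : E ≃ₗ[K] E) {μ : K} (hμ : μ ≠ 0) {N M : End K E} (hN : ∀ x, N x = l x - μ • x)
    (hM : ∀ x, M x = l x - (2 * μ) • x) (h0 : N ≠ 0) {k : ℕ}
    (hk : k + finrank K (LinearMap.range N) ≤ finrank K E ∨ 2 * k ≤ finrank K E ∧ k ≤ finrank K (LinearMap.range M)) :
    ∀ j ≤ k, ∃ S : Submodule K E, finrank K S = j ∧ Disjoint S (S.map N) ∧
      (Disjoint S (LinearMap.range N) ∨ S ⊔ LinearMap.range N = ⊤) ∧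
      (Disjoint S (LinearMap.range M) ∨ S ⊔ LinearMap.range M = ⊤) ∧ (j = 0 ∨ ∃ x ∈ S, N x ≠ 0) := by
  classical
  have := hK.finite
  have := Module.finite_of_finite K (M := E)
  intro j
  induction j with
  | zero => exact fun _ => ⟨⊥, by simp, by simp, by simp, by simp, Or.inl rfl⟩
  | succ j ih =>
    intro hj
    obtain ⟨S, h1, h2, h3, h4, -⟩ := ih (by omega)
    let H : Submodule K E := if S ⊔ LinearMap.range M = ⊤ then ⊥ else S ⊔ LinearMap.range M
    have hl : LinearMap.range l.toLinearMap = ⊤ := l.range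
    have hM2 : (2 : K) = 0 → M = l.toLinearMap := fun e => LinearMap.ext fun x => by simp [hM, e]
    have H2 : (2 : K) = 0 → Nat.card H = 1 := fun e => by simp [H, hM2 e, hl]
    have H3 : ∀ t, finrank K E = t + 1 → finrank K H ≤ t := fun t ht => by
      by_cases e : S ⊔ LinearMap.range M = ⊤
      · rw [show H = ⊥ from if_pos e]; simp
      · rw [show H = _ from if_neg e]; exact Nat.lt_succ_iff.1 ((finrank_lt_of_ne e).trans_eq ht)
    have H4 : ∀ x ∉ H, Disjoint (S ⊔ K ∙ x) (LinearMap.range M) ∨ (S ⊔ K ∙ x) ⊔ LinearMap.range M = ⊤ := fun x hx => by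
      by_cases e : S ⊔ LinearMap.range M = ⊤
      · exact Or.inr (eq_top_iff.2 (e.ge.trans (sup_le_sup_right le_sup_left _)))
      · exact Or.inl (disjoint_sup_span (h4.resolve_right e) (by simpa [H, e] using hx))
    have hm : ∀ x, x ∈ S ⊔ K ∙ x := fun x => Submodule.mem_sup_right (Submodule.mem_span_singleton_self x)
    by_cases e : S ⊔ LinearMap.range N = ⊤
    · have a1 := Submodule.finrank_add_le_finrank_add_finrank S (LinearMap.range N)
      rw [e, finrank_top] at a1
      let Y := S ⊔ S.map N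
      have a2 : finrank K Y ≤ finrank K S + finrank K S :=
        (Submodule.finrank_add_le_finrank_add_finrank S (S.map N)).trans (Nat.add_le_add_left (S.finrank_map_le N) _)
      obtain ⟨hk, hk'⟩ := hk.resolve_left (by omega)
      obtain ⟨t, ht⟩ : ∃ t, finrank K E = t + 2 := ⟨finrank K E - 2, by omega⟩
      have b1 := finrank_comap_eq (f := N) (Y := Y) (eq_top_iff.2 (e.ge.trans (sup_le_sup_right le_sup_left _)))
      have b2 := finrank_comap_eq (f := l.toLinearMap) (Y := Y) (by simp [hl])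
      have b3 : finrank K (Y.comap M) ≤ t + 1 := by
        rcases h4 with h4 | h4
        · refine Nat.lt_succ_iff.1 ((finrank_lt_of_ne fun e' => ?_).trans_eq ht)
          have : LinearMap.range M ≤ S.map M := by
            rintro _ ⟨x, rfl⟩
            obtain ⟨a, ha, _, ⟨b, hb, rfl⟩, e''⟩ := Submodule.mem_sup.1 (Submodule.eq_top_iff'.1 e' x)
            have a3 : a + μ • b = M (x - b) := by rw [map_sub, ← e'', hN, hM]; module
            have a4 := Submodule.disjoint_def.1 h4 _ (add_mem ha (S.smul_mem μ hb)) ⟨_, a3.symm⟩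
            exact ⟨b, hb, (sub_eq_zero.1 (by rw [← map_sub, ← a3, a4])).symm⟩
          have := (Submodule.finrank_mono this).trans (S.finrank_map_le M)
          omega
        · rw [finrank_comap_eq (Y := Y) (eq_top_iff.2 (h4.ge.trans (sup_le_sup_right le_sup_left _)))]
          omega
      obtain ⟨x, hx⟩ : ∃ x, ∀ i, x ∉ ![Y, Y.comap N, Y.comap l.toLinearMap, Y.comap M, H] i := by
        by_contra hn
        push Not at hn
        have c0 := card_cover _ hn
        have c1 := card_sub_le (S := Y) (t := t) (c := 0) (by omega)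
        have c2 := card_sub_le (S := Y.comap N) (t := t) (c := 0) (by omega)
        have c3 := card_sub_le (S := Y.comap l.toLinearMap) (t := t) (c := 0) (by omega)
        have c4 := card_sub_le b3
        have c5 := card_sub_le (c := 1) (H3 _ ht)
        rw [natCard_eq_pow_finrank (K := K), ht, pow_add] at c0
        simp only [Fin.sum_univ_succ, Fintype.card_fin, Matrix.cons_val_zero, Matrix.cons_val_succ, Finset.univ_eq_empty,
          Finset.sum_empty] at c0
        rcases hK with ⟨q, q'⟩ | ⟨q, -⟩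
        · rw [H2 q', hM2 q'] at c0
          rw [q] at c0 c1 c2 c3
          omega
        · rw [q] at c0 c1 c2 c3 c4 c5
          omega
      have x0 : x ∉ Y := hx 0
      have x1 : N x ∉ Y := hx 1
      refine ⟨S ⊔ K ∙ x, by rw [Submodule.finrank_sup_span_singleton fun h => x0 (Submodule.mem_sup_left h), h1],
        Submodule.disjoint_def.2 ?_, Or.inr (eq_top_iff.2 (e.ge.trans (sup_le_sup_right le_sup_left _))), H4 x (hx 4),
        Or.inr ⟨x, hm x, fun h => x1 (h ▸ zero_mem _)⟩⟩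
      rintro _ hy ⟨z, hz, rfl⟩
      obtain ⟨a, ha, c, e1⟩ := mem_sup_one hy
      obtain ⟨b, hb, d, rfl⟩ := mem_sup_one hz
      have m1 : d • N x - c • x ∈ Y := by
        rw [show d • N x - c • x = a - N b by rw [map_add, map_smul] at e1; linear_combination (norm := module) e1]
        exact sub_mem (Submodule.mem_sup_left ha) (Submodule.mem_sup_right ⟨b, hb, rfl⟩)
      by_cases hd : d = 0
      · have hc : c = 0 := by_contra fun hc => x0 ((Y.smul_mem_iff hc).1 (by simpa [hd] using m1))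
        exact Submodule.disjoint_def.1 h2 _ (by simpa [e1, hc] using ha) ⟨b, hb, by simp [hd]⟩
      · have m2 : N x - (c / d) • x ∈ Y := (Y.smul_mem_iff hd).1 (by rwa [smul_sub, smul_smul, mul_div_cancel₀ _ hd])
        rcases hK.cases hμ (c / d) with e2 | e2 | e2 <;> rw [e2] at m2
        · exact absurd (by simpa using m2) x1
        · exact absurd (show M x ∈ Y by convert m2 using 1; rw [hN, hM]; module) (hx 3)
        · exact absurd (show l x ∈ Y by simpa [hN] using m2) (hx 2)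
    · have a1 := finrank_lt_of_ne e
      obtain ⟨t, ht⟩ : ∃ t, finrank K E = t + 1 := ⟨finrank K E - 1, by omega⟩
      obtain ⟨x, hx⟩ : ∃ x, ∀ i, x ∉ ![S ⊔ LinearMap.range N, LinearMap.ker N, H] i := by
        by_contra hn
        push Not at hn
        have c0 := card_cover _ hn
        have a2 := finrank_lt_of_ne (mt LinearMap.ker_eq_top.1 h0)
        have c1 := card_sub_le (S := S ⊔ LinearMap.range N) (t := t) (c := 0) (by omega)
        have c2 := card_sub_le (S := LinearMap.ker N) (t := t) (c := 0) (by omega)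
        have c3 := card_sub_le (c := 0) (H3 _ ht)
        rw [natCard_eq_pow_finrank (K := K), ht, pow_add] at c0
        simp only [Fin.sum_univ_succ, Fintype.card_fin, Matrix.cons_val_zero, Matrix.cons_val_succ, Finset.univ_eq_empty,
          Finset.sum_empty] at c0
        rcases hK with ⟨q, q'⟩ | ⟨q, -⟩
        · rw [H2 q'] at c0
          rw [q] at c0 c1 c2
          omega
        · rw [q] at c0 c1 c2 c3
          omega
      have a3 := disjoint_sup_span (h3.resolve_right e) (hx 0)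
      exact ⟨S ⊔ K ∙ x, by rw [Submodule.finrank_sup_span_singleton fun h => hx 0 (Submodule.mem_sup_left h), h1],
        a3.mono_right LinearMap.map_le_range, Or.inl a3, H4 x (hx 2), Or.inr ⟨x, hm x, hx 1⟩⟩

universe u

variable {K : Type u} [Field K]

/-- Scalar blocks of dimension `k`. -/
def Lev (T : Set (Om K)) (k : ℕ) (μ : Kˣ) : Prop := ∀ (A : Type u) [AddCommGroup A] [Module K A] [FiniteDimensional K A],
  finrank K A = k → ∀ m : A ≃ₗ[K] A, (∀ x, m x = (μ : K) • x) → ∃ δ γ, GC T m δ γ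

/-- The goal for one element. -/
def Goal {E : Type u} [AddCommGroup E] [Module K E] (U : Set (Om K)) (l : E ≃ₗ[K] E) : Prop :=
  ∀ δ γ : Kˣ, ∃ T ⊆ U, Sig T ∧ GC T l δ γ

/-- The goal in dimension `n`. -/
def Full (U : Set (Om K)) (n : ℕ) : Prop := ∀ (E : Type u) [AddCommGroup E] [Module K E] [FiniteDimensional K E],
  finrank K E = n → ∀ l : E ≃ₗ[K] E, NB l → LinearEquiv.det l = 1 → Goal U l

/-- Two sets of eigenvalues without interaction. -/
def Far (T U : Set (Om K)) : Prop := ∀ x ∈ T, ∀ y ∈ U, x ≠ y ∧ x * y ≠ 1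

variable {E : Type u} [AddCommGroup E] [Module K E] [FiniteDimensional K E] {T U U' : Set (Om K)}

omit [FiniteDimensional K E] in
theorem Goal.mono {l : E ≃ₗ[K] E} (h : Goal U l) (hU : U ⊆ U') : Goal U' l := fun δ γ =>
  let ⟨T, a, b⟩ := h δ γ; ⟨T, a.trans hU, b⟩

theorem Full.mono {n : ℕ} (h : Full U n) (hU : U ⊆ U') : Full U' n := fun E _ _ _ a l b c => (h E a l b c).mono hU

theorem Sig.union {T' : Set (Om K)} (h : Sig T) (h' : Sig T') (hF : Far T U) (hU : T' ⊆ U) : Sig (T ∪ T') :=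
  ⟨fun e => e.elim h.1 h'.1, fun x hx y hy => hx.elim (fun hx => hy.elim (h.2 x hx y) fun hy => (hF x hx y (hU hy)).2)
    fun hx => hy.elim (fun hy => mul_comm x y ▸ (hF y hy x (hU hx)).2) (h'.2 x hx y)⟩

/-- The rank of `l - μ`. -/
noncomputable def rk (l : E ≃ₗ[K] E) (μ : K) : ℕ := finrank K (LinearMap.range ((l : End K E) - μ • 1))

theorem goal_step (hK : Small K) {k r : ℕ} {μ : Kˣ} (hL : Lev T k μ) (hT : Sig T) (hF : Far T U) (hU : Full U r)
    (hμ : μ ^ k = 1) (h0 : 0 < k) (h3 : 3 ≤ r) (hn : finrank K E = k + r) {l : E ≃ₗ[K] E} (hl : NB l)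
    (hd : LinearEquiv.det l = 1) (h : rk l μ < r ∨ k < r ∧ k ≤ rk l (2 * μ)) : Goal (T ∪ U) l := by
  have := hK.finite
  have hD : ∀ T' ⊆ U, Disjoint T T' := fun T' a => Set.disjoint_left.2 fun x hx hx' => (hF x hx x (a hx')).1 rfl
  intro δ γ
  by_cases h1 : (l : End K E) - (μ : K) • 1 = 0
  · have h2 : ∀ x, l x = (μ : K) • x := fun x => sub_eq_zero.1 (LinearMap.congr_fun h1 x)
    have h4 := hl.1 _ h2
    have : Nontrivial E := nontrivial_of_finrank_pos (R := K) (by omega)
    obtain ⟨x, hx⟩ := exists_ne (0 : E)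
    have h5 : (μ : K) = 1 := smul_left_injective K hx (by simp [← h2, h4])
    obtain ⟨δ', γ', a⟩ := hL (Fin k → K) (by simp) 1 (by simp [h5])
    obtain ⟨T', b1, b2, b3⟩ := hU (Fin r → K) (by simp) 1 nb_one (map_one _) (δ'⁻¹ * δ) (γ'⁻¹ * γ)
    refine ⟨_, Set.union_subset_union_right _ b1, hT.union b2 hF b1, ?_⟩
    simpa using (a.prod b3).congr (l' := l) (LinearEquiv.ofFinrankEq _ _ (by simp [hn])) fun x => (h4 _).symm
  obtain ⟨S, a1, a2, -, -, a3⟩ := exists_free hK l μ.ne_zero (M := (l : End K E) - (2 * μ : K) • 1) (fun _ => rfl)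
    (fun _ => rfl) h1 (k := k) (by unfold rk at h; omega) k le_rfl
  obtain ⟨x, hx, a3⟩ := a3.resolve_left h0.ne'
  obtain ⟨R, a4, a5⟩ := a2.symm.exists_isCompl
  have a6 := Submodule.finrank_add_eq_of_isCompl a5
  let e := Submodule.prodEquivOfIsCompl S R a5.symm
  let m : S ≃ₗ[K] S := DistribMulAction.toLinearEquiv K S μ
  have a7 : ∀ a : S, e.symm (l (e (a, 0))) = (m a, ⟨_, a4 ⟨a, a.2, rfl⟩⟩) := fun a =>
    e.symm_apply_eq.2 (by simp [e, m, Units.smul_def])
  have a8 : ∀ a : S, ((((e.trans l).trans e.symm) (a, 0)).2 : E) = ((l : End K E) - (μ : K) • 1) a := fun a =>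
    congrArg (fun p : S × R => (p.2 : E)) (a7 a)
  obtain ⟨l', b1, b2, b3⟩ := peel_prod (A := S) (B := R) (by omega) ((e.trans l).trans e.symm) m
    (fun a => congrArg Prod.fst (a7 a)) ⟨⟨x, hx⟩, fun h => a3 ((a8 ⟨x, hx⟩).symm.trans (congrArg Subtype.val h))⟩
    (by
      by_contra hc
      push Not at hc
      have c1 : R ≤ S.map ((l : End K E) - (μ : K) • 1) := fun y hy => by
        obtain ⟨a, ha⟩ := hc ⟨y, hy⟩
        exact ⟨a, a.2, (a8 a).symm.trans (congrArg Subtype.val ha)⟩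
      have c2 := Submodule.finrank_mono c1
      have c3 := Submodule.finrank_mono (LinearMap.map_le_range (f := (l : End K E) - (μ : K) • 1) (p := S))
      have c4 := S.finrank_map_le ((l : End K E) - (μ : K) • 1)
      unfold rk at h
      omega)
  have b4 : LinearEquiv.det m = 1 := Units.ext (by
    rw [LinearEquiv.coe_det, show (m : End K S) = (μ : K) • 1 from rfl, LinearMap.det_smul, a1, map_one, mul_one,
      ← Units.val_pow_eq_pow_val, hμ])
  have b5 := LinearEquiv.det_conj l e.symm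
  rw [LinearEquiv.symm_symm, b2, b4, one_mul, hd] at b5
  obtain ⟨δ', γ', a⟩ := hL S a1 m fun _ => rfl
  obtain ⟨T', c1, c2, c3⟩ := hU R (by omega) l' b1 b5 (δ'⁻¹ * δ) (γ'⁻¹ * γ)
  refine ⟨_, Set.union_subset_union_right _ c1, hT.union c2 hF c1, ?_⟩
  simpa using (b3 a c3 (hD _ c1)).congr (l' := l) e fun x => by simp

theorem rk_add (l : E ≃ₗ[K] E) {μ ν : K} (h : μ ≠ ν) : finrank K E ≤ rk l μ + rk l ν := by
  refine le_trans ((finrank_top K E).ge.trans (Submodule.finrank_mono fun x _ => ?_))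
    (Submodule.finrank_add_le_finrank_add_finrank _ _)
  refine Submodule.mem_sup.2 ⟨_, LinearMap.mem_range_self _ ((ν - μ)⁻¹ • x), _,
    LinearMap.mem_range_self _ (-(ν - μ)⁻¹ • x), ?_⟩
  have := inv_mul_cancel₀ (sub_ne_zero.2 h.symm)
  simp only [LinearMap.sub_apply, LinearMap.smul_apply, End.one_apply, map_smul]
  linear_combination (norm := module) this • x

end CL.OreO
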