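/-
Commutators in general linear groups with a prescribed spectrum, part 3: block companion matrices and a checker for
tables of certificates.
-/
import Cfsg.Agent.Cls.OreGL2
import Cfsg.Agent.Cls.ProdComm

set_option autoImplicit false

open Module Polynomial

namespace CL.OreO

open CL.Sp CL.Chev CL.GLn CL.SLn

universe u

variable {K : Type u} [Field K]

theorem det_of_cyc {V : Type*} [AddCommGroup V] [Module K V] [FiniteDimensional K V] {T : End K V} {v : V}
    (h : cyc T v = ⊤) {f : K[X]} (hf : f.Monic) (hd : f.natDegree = finrank K V) (h0 : aeval T f = 0) :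
    LinearMap.det T = (-1) ^ finrank K V * f.coeff 0 := by
  have h1 := (aeval_eq_zero_iff_of_cyc h hf.ne_zero h0 hd T.charpoly).1 (by simp [LinearMap.aeval_self_charpoly])
  rw [LinearMap.det_eq_sign_charpoly_coeff,
    eq_of_monic_of_dvd_of_natDegree_le hf T.charpoly_monic h1 (by rw [T.charpoly_natDegree, hd])]

/-- The total length. -/
def tot (L : List (List ℕ)) : ℕ := (L.map List.length).sum

/-- Block diagonal matrix of companion matrices. -/
def qc : List (List ℕ) → ℕ → ℕ → ℕ
  | [], _, _ => 0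
  | a :: r, i, j => if j < a.length then (if j + 1 < a.length then (if i = j + 1 then 1 else 0) else a.getD i 0)
      else if i < a.length then 0 else qc r (i - a.length) (j - a.length)

/-- Its determinant. -/
def dt (q : ℕ) : List (List ℕ) → ℕ
  | [] => 1
  | a :: r => (q - 1) ^ (a.length + 1) * a.getD 0 0 * dt q r

theorem exists_qc {q : ℕ} (hq : ∀ x : K, ∃ m < q, (m : K) = x) (hc : ((q - 1 : ℕ) : K) = -1) (n : ℕ) :
    ∀ (E : Type u) [AddCommGroup E] [Module K E] [FiniteDimensional K E], finrank K E = n → ∀ l : End K E,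
      Function.Injective l → ∃ L : List (List ℕ), (∀ a ∈ L, a ≠ [] ∧ ∀ x ∈ a, x < q) ∧ tot L = n ∧
        (dt q L : K) = LinearMap.det l ∧ ∃ b : ℕ → E, (∀ x, x ∈ Submodule.span K (b '' Set.Iio n)) ∧
          ∀ j < n, l (b j) = ∑ i ∈ Finset.range n, (qc L i j : K) • b i := by
  induction n using Nat.strong_induction_on with
  | _ n ih =>
  intro E _ _ _ hn l hl
  rcases Nat.eq_zero_or_pos n with rfl | h0
  · have := finrank_zero_iff.1 hn
    exact ⟨[], by simp, rfl, by simp [dt, Subsingleton.elim l 1], 0, fun x => by simp [Subsingleton.elim x 0], by simp⟩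
  have : Nontrivial E := nontrivial_of_finrank_pos (R := K) (by omega)
  obtain ⟨w, f, -, R, -, hf, h1, h2, h3, -, -, -, h4, -, h5, h6⟩ :=
    exists_summand (C := ⊥) (R := ⊤) hl disjoint_bot_left (fun _ _ => trivial) top_ne_bot
  have hC : IsCompl (cyc l w) R := ⟨h5, codisjoint_iff.2 h6⟩
  have h7 := Submodule.finrank_add_eq_of_isCompl hC
  obtain ⟨L, a1, a2, a3, b, a4, a5⟩ := ih (finrank K R) (by omega) R rfl (l.restrict h4)
    fun x y e => Subtype.ext (hl (congrArg Subtype.val e))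
  choose ρ hρ hρ' using hq
  generalize hm : f.natDegree = m at *
  let a := (List.range m).map fun i => ρ (-f.coeff i)
  have ha : a.length = m := by simp [a]
  have ha' : ∀ i < m, (a.getD i 0 : K) = -f.coeff i := fun i hi => by simp [a, List.getD, hi, hρ']
  have ha'' : ∀ i, (a.getD (m + i) 0 : K) = 0 := fun i => by simp [List.getD, ha]
  obtain rfl : n = m + finrank K R := by omega
  let c : ℕ → E := fun i => if i < m then (l ^ i) w else b (i - m)
  have c1 : ∀ i ∈ Finset.range m, c i = (l ^ i) w := fun i hi => if_pos (Finset.mem_range.1 hi)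
  have c2 : ∀ i, c (m + i) = b i := fun i => by simp [c]
  refine ⟨a :: L, ?_, by simp [tot, ha, ← a2], ?_, c, fun x => ?_, fun j hj => ?_⟩
  · rintro _ (_ | ⟨_, h⟩)
    · exact ⟨List.ne_nil_of_length_pos (by omega), by simp [a, hρ]⟩
    · exact a1 _ h
  · have e1 : cyc (l.restrict fun _ => apply_mem_cyc (g := l) (v := w)) ⟨w, self_mem_cyc _ _⟩ = ⊤ := by
      rw [← comap_cyc (g := l) (cyc l w).subtype Subtype.val_injective fun _ => rfl]
      exact Submodule.comap_subtype_self _
    rw [det_of_isCompl hC (fun _ => apply_mem_cyc) h4, ← a3, det_of_cyc e1 hf (hm.trans h2) (LinearMap.ext fun x =>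
      Subtype.ext ((aeval_intertwine (cyc l w).subtype (fun _ => rfl) f x).trans (h3 _ trivial))), ← h2]
    simp only [dt, ha, Nat.cast_mul, Nat.cast_pow, hc, ha' 0 h1]
    ring
  · obtain ⟨_, ⟨p, rfl⟩, z, hz, rfl⟩ := Submodule.mem_sup.1 (h6 ▸ Submodule.mem_top : x ∈ cyc l w ⊔ R)
    refine add_mem ?_ ?_
    · rw [ev_apply, ← modByMonic_add_div p f, map_add, mul_comm f, map_mul, LinearMap.add_apply, End.mul_apply,
        h3 w trivial, map_zero, add_zero, aeval_eq_sum_range' (hm ▸ natDegree_modByMonic_lt p hf (by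
          rintro rfl; simp at hm; omega)), LinearMap.sum_apply]
      exact sum_mem fun i hi => Submodule.smul_mem _ _ (Submodule.subset_span
        ⟨i, (Finset.mem_range.1 hi).trans_le (Nat.le_add_right _ _), c1 i hi⟩)
    · have := Submodule.apply_mem_span_image_of_mem_span R.subtype (a4 ⟨z, hz⟩)
      refine Submodule.span_mono ?_ this
      rintro _ ⟨_, ⟨i, hi, rfl⟩, rfl⟩
      exact ⟨m + i, Nat.add_lt_add_left hi m, c2 i⟩
  · rw [Finset.sum_range_add]
    rcases lt_or_ge j m with h | h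
    · rw [c1 j (Finset.mem_range.2 h), ← End.mul_apply, ← pow_succ']
      by_cases h' : j + 1 < m
      · simp [qc, ha, h, h', c1, show ∀ i, m + i ≠ j + 1 by omega]
      · have := h3 w trivial
        rw [hf.as_sum, hm] at this
        simp only [qc, ha, h, h', if_true, if_false, ha'', zero_smul, Finset.sum_const_zero, add_zero]
        rw [show j + 1 = m by omega, Finset.sum_congr rfl fun i hi => by rw [ha' i (Finset.mem_range.1 hi), c1 i hi]]
        simpa [add_eq_zero_iff_eq_neg, Algebra.algebraMap_eq_smul_one] using this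
    · obtain ⟨j, rfl⟩ := Nat.exists_eq_add_of_le h
      rw [Finset.sum_eq_zero fun i hi => by simp [qc, ha, Finset.mem_range.1 hi], c2, zero_add]
      simpa [qc, ha, c2] using congrArg Subtype.val (a5 j (by omega))

/-- Words of a given length. -/
def words (q : ℕ) : ℕ → List (List ℕ)
  | 0 => [[]]
  | m + 1 => (List.range q).flatMap fun x => (words q m).map (x :: ·)

theorem mem_words {q : ℕ} : ∀ a : List ℕ, (∀ x ∈ a, x < q) → a ∈ words q a.length
  | [], _ => by simp [words]
  | x :: a, h => by simpa [words] using ⟨h x (by simp), mem_words a fun y hy => h y (by simp [hy])⟩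

/-- All block structures of a given total length. -/
def allL (q : ℕ) : ℕ → ℕ → List (List (List ℕ))
  | _, 0 => [[]]
  | 0, _ + 1 => []
  | f + 1, n + 1 => (List.range (n + 1)).flatMap fun m => (words q (m + 1)).flatMap fun a => (allL q f (n - m)).map (a :: ·)

theorem mem_allL {q : ℕ} : ∀ (L : List (List ℕ)) (f : ℕ), (∀ a ∈ L, a ≠ [] ∧ ∀ x ∈ a, x < q) → tot L ≤ f →
    L ∈ allL q f (tot L)
  | [], f, _, _ => by cases f <;> simp [allL, tot]
  | a :: r, f, h, hf => by
    obtain ⟨m, hm⟩ := Nat.exists_eq_add_one_of_ne_zero (List.length_pos_iff.2 (h a (by simp)).1).ne'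
    have e : tot (a :: r) = m + tot r + 1 := by simp [tot, hm]; omega
    rw [e] at hf ⊢
    obtain ⟨f, rfl⟩ := Nat.exists_eq_add_one_of_ne_zero (show f ≠ 0 by omega)
    simp only [allL, List.mem_flatMap, List.mem_map, List.mem_range]
    exact ⟨m, by omega, a, hm ▸ mem_words a (h a (by simp)).2, r,
      by simpa using mem_allL r f (fun b hb => h b (by simp [hb])) (by omega), rfl⟩

/-- Sums. -/
def sm (f : ℕ → ℕ) (n : ℕ) : ℕ := Nat.rec 0 (fun k s => Nat.add s (f k)) n

/-- Conjunctions. -/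
def al (f : ℕ → Bool) (n : ℕ) : Bool := Nat.rec true (fun k b => f k && b) n

theorem sm_eq (f : ℕ → ℕ) (n : ℕ) : sm f n = ∑ i : Fin n, f i := by
  rw [Fin.sum_univ_eq_sum_range]
  induction n with
  | zero => rfl
  | succ n ih => rw [Finset.sum_range_succ, ← ih]; rfl

theorem al_true {f : ℕ → Bool} {n : ℕ} (h : al f n = true) : ∀ i < n, f i = true := by
  induction n with
  | zero => simp
  | succ n ih =>
    replace h := Bool.and_eq_true_iff.1 (show (f n && al f n) = true from h)
    exact fun i hi => (Nat.lt_succ_iff_lt_or_eq.1 hi).elim (ih h.2 i) fun e => e ▸ h.1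

theorem al_false {f : ℕ → Bool} {n : ℕ} (h : al f n = false) : ∃ i < n, f i = false := by
  induction n with
  | zero => simp [al] at h
  | succ n ih =>
    replace h := Bool.and_eq_false_iff.1 (show (f n && al f n) = false from h)
    exact h.elim (fun e => ⟨n, by simp, e⟩) fun e => let ⟨i, a, b⟩ := ih e; ⟨i, by omega, b⟩

/-- Digits as a vector. -/
def dg (q N i : ℕ) : ℕ := Nat.mod (Nat.div N (Nat.pow q i)) q

/-- Digits as a matrix. -/
def ent (q n N i j : ℕ) : ℕ := dg q N (Nat.add (Nat.mul n i) j)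

/-- Products. -/
def mm (n : ℕ) (A B : ℕ → ℕ → ℕ) (i j : ℕ) : ℕ := sm (fun k => Nat.mul (A i k) (B k j)) n

/-- The identity. -/
def idm (i j : ℕ) : ℕ := if i = j then 1 else 0

/-- Equality. -/
def eqm (q n : ℕ) (A B : ℕ → ℕ → ℕ) : Bool := al (fun i => al (fun j => Nat.beq (Nat.mod (A i j) q) (Nat.mod (B i j) q)) n) n

/-- The matrix over the field. -/
def toM (K : Type u) [Field K] (n : ℕ) (A : ℕ → ℕ → ℕ) : Matrix (Fin n) (Fin n) K := Matrix.of fun i j => (A i j : K)

theorem toM_mm (n : ℕ) (A B : ℕ → ℕ → ℕ) : toM K n (mm n A B) = toM K n A * toM K n B := by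
  ext i j; simp [toM, mm, sm_eq, Matrix.mul_apply]

theorem toM_idm (n : ℕ) : toM K n idm = 1 := by
  ext i j; simp [toM, idm, Matrix.one_apply, Fin.ext_iff]

theorem toM_eq {q n : ℕ} [CharP K q] {A B : ℕ → ℕ → ℕ} (h : eqm q n A B = true) : toM K n A = toM K n B := by
  ext i j
  exact (CharP.natCast_eq_natCast K q).2 (Nat.eq_of_beq_eq_true (al_true (al_true h i i.2) j j.2))

/-- `l = X D⁻¹` with `X` and `D` similar to `C`. -/
def Md {E V : Type*} [AddCommGroup E] [Module K E] [AddCommGroup V] [Module K V] (C : End K V) (l : E ≃ₗ[K] E) : Prop :=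
  ∃ e e' : V ≃ₗ[K] E, ∀ x, l (e (C (e.symm (e' x)))) = e' (C x)

section

variable {E E' V : Type*} [AddCommGroup E] [Module K E] [AddCommGroup E'] [Module K E'] [AddCommGroup V] [Module K V]

theorem Md.congr {C : End K V} {l : E ≃ₗ[K] E} {l' : E' ≃ₗ[K] E'} (h : Md C l) (f : E ≃ₗ[K] E')
    (hf : ∀ x, f (l x) = l' (f x)) : Md C l' :=
  let ⟨e, e', h⟩ := h; ⟨e.trans f, e'.trans f, fun x => by simp [← hf, h]⟩

theorem Md.neg {C : End K V} {l : E ≃ₗ[K] E} (h : Md C l) : Md (-C) l :=
  let ⟨e, e', h⟩ := h; ⟨e, e', fun x => by simp [h]⟩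

theorem Md.gc [FiniteDimensional K V] {C : End K V} {l : E ≃ₗ[K] E} (h : Md C l) {T : Set (Om K)} (hT : Kil T C) {δ : Kˣ}
    (hδ : LinearMap.det C = δ) (hz : ∀ γ : Kˣ, ∃ z : End K V, z * C = C * z ∧ LinearMap.det z = γ) (γ : Kˣ) :
    GC T l δ γ := by
  obtain ⟨e, e', h⟩ := h
  obtain ⟨z, h1, h2⟩ := hz (γ * (LinearEquiv.det (e'.symm.trans e))⁻¹)
  obtain ⟨C, rfl⟩ : ∃ C' : V ≃ₗ[K] V, C' = C := ⟨LinearMap.equivOfIsUnitDet (hδ ▸ δ.isUnit), by simp⟩
  obtain ⟨z, rfl⟩ : ∃ z' : V ≃ₗ[K] V, z' = z := ⟨LinearMap.equivOfIsUnitDet (h2 ▸ Units.isUnit _), by simp⟩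
  have h3 : ∀ x, z (C x) = C (z x) := fun x => LinearMap.congr_fun h1 x
  refine ⟨(e'.symm.trans C).trans e', (e.symm.trans z).trans e * e'.symm.trans e, comm_iff.2 fun x => ?_,
    hT.sim ⟨e', fun x => by simp⟩, (LinearEquiv.det_conj _ _).trans (Units.ext ((LinearEquiv.coe_det _).trans hδ)), ?_⟩
  · simpa [h3] using h (e'.symm (e (z (e'.symm x))))
  · rw [map_mul, LinearEquiv.det_conj, show LinearEquiv.det z = _ from Units.ext ((LinearEquiv.coe_det _).trans h2), inv_mul_cancel_right]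

end

/-- The check of one certificate. -/
def chk (q n : ℕ) (C M : ℕ → ℕ → ℕ) : List ℕ → Bool
  | [m, y, y', c, c', D, X] => eqm q n (mm n (ent q n y) (ent q n y')) idm && eqm q n (mm n (ent q n c) (ent q n c')) idm &&
      eqm q n (mm n (ent q n D) (ent q n y)) (mm n (ent q n y) C) && eqm q n (mm n (ent q n m) (ent q n D)) (ent q n X) &&
      eqm q n (mm n (ent q n X) (ent q n c)) (mm n (ent q n c) C) && eqm q n M (ent q n m)
  | _ => false

/-- The check that a matrix is excluded. -/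
def bad (q n : ℕ) (M : ℕ → ℕ → ℕ) : List ℕ → Bool
  | [z, μ] => eqm q n M (fun i j => idm i j + dg q z i * dg q μ j) && sm (fun i => dg q μ i * dg q z i) n % q == 0 &&
      !al (fun i => dg q z i % q == 0) n && !al (fun i => dg q μ i % q == 0) n
  | [c] => eqm q n M (fun i j => c * idm i j) && !(c % q == 1 % q)
  | _ => false

/-- The check of a table. -/
def tab (q n : ℕ) (C : ℕ → ℕ → ℕ) : List (List (List ℕ)) → List (List ℕ) → Bool
  | [], _ => true
  | L :: Ls, cs => if dt q L % q = 1 % q then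
      match cs with
      | [] => false
      | c :: cs => (chk q n C (qc L) c || bad q n (qc L) c) && tab q n C Ls cs
    else tab q n C Ls cs

theorem tab_spec {q n : ℕ} {C : ℕ → ℕ → ℕ} : ∀ (Ls : List (List (List ℕ))) (cs : List (List ℕ)), tab q n C Ls cs = true →
    ∀ L ∈ Ls, dt q L % q = 1 % q → ∃ c, chk q n C (qc L) c = true ∨ bad q n (qc L) c = true
  | [], _, _ => by simp
  | L :: Ls, cs, h => by
    unfold tab at h
    split_ifs at h with h1
    · rcases cs with _ | ⟨c, cs⟩
      · simp at h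
      · simp only [Bool.and_eq_true, Bool.or_eq_true] at h
        exact List.forall_mem_cons.2 ⟨fun _ => ⟨c, h.1⟩, tab_spec Ls cs h.2⟩
    · exact List.forall_mem_cons.2 ⟨fun e => absurd e h1, tab_spec Ls cs h⟩

theorem md_of_chk {q n : ℕ} [CharP K q] {C M : ℕ → ℕ → ℕ} {c : List ℕ} (h : chk q n C M c = true)
    {l : (Fin n → K) ≃ₗ[K] (Fin n → K)} (hl : ∀ x, l x = (toM K n M).mulVec x) : Md (Matrix.toLin' (toM K n C)) l := by
  unfold chk at h
  split at h
  · simp only [Bool.and_eq_true] at h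
    obtain ⟨⟨⟨⟨⟨h1, h2⟩, h3⟩, h4⟩, h5⟩, h6⟩ := h
    replace h1 := toM_eq (K := K) h1
    replace h2 := toM_eq (K := K) h2
    replace h3 := toM_eq (K := K) h3
    replace h4 := toM_eq (K := K) h4
    replace h5 := toM_eq (K := K) h5
    simp only [toM_mm, toM_idm] at h1 h2 h3 h4 h5
    refine ⟨Matrix.toLin'OfInv (mul_eq_one_comm.1 h1) h1, Matrix.toLin'OfInv (mul_eq_one_comm.1 h2) h2, fun x => ?_⟩
    rename_i m y y' c c' D X
    rw [hl]
    rw [← toM_eq h6] at h4
    change (toM K n M).mulVec ((toM K n (ent q n y)).mulVec ((toM K n C).mulVec ((toM K n (ent q n y')).mulVec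
      ((toM K n (ent q n c)).mulVec x)))) = (toM K n (ent q n c)).mulVec ((toM K n C).mulVec x)
    simp only [Matrix.mulVec_mulVec]
    rw [← h5, ← h4, ← mul_assoc _ (toM K n C), ← h3, mul_assoc (toM K n (ent q n D)), ← mul_assoc (toM K n (ent q n y)), h1,
      one_mul, mul_assoc]
  · simp at h

theorem not_nb_of_bad {q n : ℕ} [CharP K q] (h0 : 0 < n) {M : ℕ → ℕ → ℕ} {c : List ℕ} (h : bad q n M c = true)
    {l : (Fin n → K) ≃ₗ[K] (Fin n → K)} (hl : ∀ x, l x = (toM K n M).mulVec x) : ¬ NB l := by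
  have key : ∀ z, al (fun i => dg q z i % q == 0) n = false → (fun i : Fin n => (dg q z i : K)) ≠ 0 := fun z hz e => by
    obtain ⟨i, a, b⟩ := al_false hz
    have := (CharP.cast_eq_zero_iff K q _).1 (congrFun e ⟨i, a⟩)
    simp [Nat.mod_eq_zero_of_dvd this] at b
  unfold bad at h
  split at h
  · rename_i z μ
    simp only [Bool.and_eq_true, Bool.not_eq_true', beq_iff_eq] at h
    obtain ⟨⟨⟨h1, h2⟩, h3⟩, h4⟩ := h
    refine fun h => h.2 _ (dotProductBilin K K fun i : Fin n => (dg q μ i : K)) (key z h3)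
      (fun e => key μ h4 (dotProduct_eq_zero _ fun x => LinearMap.congr_fun e x)) ?_ fun x => ?_
    · simpa [sm_eq, dotProduct] using (CharP.cast_eq_zero_iff K q _).2 (Nat.dvd_of_mod_eq_zero h2)
    · rw [hl, toM_eq h1]
      ext i
      simp [toM, Matrix.mulVec, dotProduct, idm, mul_add, Finset.sum_add_distrib, Finset.mul_sum, mul_comm, mul_left_comm,
        ← Fin.ext_iff]
  · rename_i c
    simp only [Bool.and_eq_true, Bool.not_eq_true', beq_eq_false_iff_ne] at h
    have h1 : ∀ x, l x = (c : K) • x := fun x => by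
      rw [hl, toM_eq h.1]
      ext i
      simp [toM, Matrix.mulVec, dotProduct, idm, ← Fin.ext_iff]
    refine fun h' => h.2 ((CharP.natCast_eq_natCast K q).1 ?_)
    simpa [h1] using congrFun (h'.1 c h1 1) ⟨0, h0⟩
  · simp at h

theorem exists_mat {q : ℕ} (hq : ∀ x : K, ∃ m < q, (m : K) = x) (hc : ((q - 1 : ℕ) : K) = -1) {n : ℕ} (h0 : 0 < n)
    {E : Type u} [AddCommGroup E] [Module K E] [FiniteDimensional K E] (hn : finrank K E = n) (l : E ≃ₗ[K] E) :
    ∃ L ∈ allL q n n, (dt q L : K) = LinearEquiv.det l ∧ ∃ e : (Fin n → K) ≃ₗ[K] E,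
      ∀ x, l (e x) = e ((toM K n (qc L)).mulVec x) := by
  obtain ⟨L, h1, rfl, h2, b, h3, h4⟩ := exists_qc hq hc n E hn l l.injective
  have : Nonempty (Fin (tot L)) := ⟨⟨0, h0⟩⟩
  let β := basisOfTopLeSpanOfCardEqFinrank (fun i : Fin (tot L) => b i) (fun x _ => Submodule.span_mono
    (by rintro _ ⟨i, hi, rfl⟩; exact ⟨⟨i, hi⟩, rfl⟩) (h3 x)) (by simp [hn])
  have hβ : ∀ i, β i = b i := fun i => congrFun (coe_basisOfTopLeSpanOfCardEqFinrank _ _ _) i
  refine ⟨L, mem_allL L _ h1 le_rfl, h2.trans (LinearEquiv.coe_det _).symm, β.equivFun.symm, fun x => ?_⟩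
  simp only [Basis.equivFun_symm_apply, map_sum, map_smul, hβ, Matrix.mulVec, dotProduct, Finset.sum_smul]
  rw [Finset.sum_comm]
  refine Finset.sum_congr rfl fun j _ => ?_
  rw [show l (b j) = _ from h4 j j.2, ← Fin.sum_univ_eq_sum_range (fun i => (qc L i j : K) • b i), Finset.smul_sum]
  simp [toM, smul_smul, mul_comm]

theorem md_of_tab {q : ℕ} [CharP K q] (hq : ∀ x : K, ∃ m < q, (m : K) = x) (hc : ((q - 1 : ℕ) : K) = -1) {n : ℕ} (h0 : 0 < n)
    {C : ℕ → ℕ → ℕ} (h : ∀ L ∈ allL q n n, dt q L % q = 1 % q → ∃ c, chk q n C (qc L) c = true ∨ bad q n (qc L) c = true)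
    {E : Type u} [AddCommGroup E] [Module K E] [FiniteDimensional K E] (hn : finrank K E = n) {l : E ≃ₗ[K] E}
    (hl : NB l) (hd : LinearEquiv.det l = 1) : Md (Matrix.toLin' (toM K n C)) l := by
  obtain ⟨L, h1, h2, e, h3⟩ := exists_mat hq hc h0 hn l
  have h4 : ∀ x, ((e.trans l).trans e.symm) x = (toM K n (qc L)).mulVec x := fun x => by simp [h3]
  obtain ⟨c, h5 | h5⟩ := h L h1 ((CharP.natCast_eq_natCast K q).1 (by simp [h2, hd]))
  · exact (md_of_chk h5 h4).congr e fun x => by simp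
  · exact absurd (hl.congr e fun x => by simp) (not_nb_of_bad h0 h5 h4)

/-- The polynomial of a companion matrix. -/
noncomputable def pl (K : Type u) [Field K] (a : List ℕ) : K[X] :=
  X ^ a.length - ∑ i ∈ Finset.range a.length, C (a.getD i 0 : K) * X ^ i

theorem comp_spec {q : ℕ} (hc : ((q - 1 : ℕ) : K) = -1) {a : List ℕ} {n : ℕ} (hn : a.length = n + 1) :
    aeval (Matrix.toLin' (toM K (n + 1) (qc [a]))) (pl K a) = 0 ∧
      LinearMap.det (Matrix.toLin' (toM K (n + 1) (qc [a]))) = dt q [a] := by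
  set T := Matrix.toLin' (toM K (n + 1) (qc [a]))
  have h0 : ∀ (j : ℕ) (hj : j < n + 1) (i : Fin (n + 1)), T (bv K (n + 1) j) i = qc [a] i j := fun j hj i => by
    simp only [T, Matrix.toLin'_apply, Matrix.mulVec, dotProduct, toM, bv_apply, Matrix.of_apply]
    rw [Finset.sum_eq_single ⟨j, hj⟩ (fun b _ hb => by simp [show b.1 ≠ j from fun e => hb (Fin.ext e)]) (by simp)]
    simp
  have h1 : ∀ j < n + 1, (T ^ j) (bv K (n + 1) 0) = bv K (n + 1) j := fun j => by
    induction j with
    | zero => simp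
    | succ j ih =>
      intro hj
      ext i
      rw [pow_succ', End.mul_apply, ih (by omega), h0 j (by omega)]
      simp [qc, hn, bv_apply, show j < n + 1 by omega, show j < n by omega]
  have h2 : cyc T (bv K (n + 1) 0) = ⊤ := cyc_top_of_bv fun j => by
    rcases lt_or_ge j (n + 1) with h | h
    · exact ⟨X ^ j, by simp [ev_apply, h1 j h]⟩
    · rw [show bv K (n + 1) j = 0 from funext fun i => if_neg (by omega)]
      exact zero_mem _
  have h3 : aeval T (pl K a) (bv K (n + 1) 0) = 0 := by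
    ext i
    simp only [pl, hn, map_sub, map_sum, map_mul, map_pow, aeval_X, aeval_C, LinearMap.sub_apply, LinearMap.sum_apply,
      End.mul_apply, Module.algebraMap_end_apply]
    rw [Finset.sum_congr rfl fun j hj => by rw [h1 j (Finset.mem_range.1 hj)], pow_succ', End.mul_apply, h1 n (by omega)]
    simp [h0 n, qc, hn, bv_apply, i.2]
  have h4 : aeval T (pl K a) = 0 := LinearMap.ext fun x => by
    obtain ⟨p, rfl⟩ : x ∈ cyc T (bv K (n + 1) 0) := h2 ▸ Submodule.mem_top
    rw [ev_apply, ← End.mul_apply, ← map_mul, mul_comm, map_mul, End.mul_apply, h3, map_zero, LinearMap.zero_apply]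
  have h5 : (∑ i ∈ Finset.range a.length, C (a.getD i 0 : K) * X ^ i : K[X]).degree < (a.length : WithBot ℕ) :=
    (degree_sum_le _ _).trans_lt ((Finset.sup_lt_iff (by simp)).2 fun i hi =>
      (degree_C_mul_X_pow_le _ _).trans_lt (by simpa using hi))
  refine ⟨h4, ?_⟩
  rw [det_of_cyc h2 (monic_X_pow_sub h5) (by
    rw [natDegree_eq_of_degree_eq_some ((degree_sub_eq_left_of_degree_lt (h5.trans_eq (degree_X_pow _).symm)).trans
      (degree_X_pow _))]; simp [hn]) h4]
  simp [dt, hn, hc, coeff_X_pow, pow_succ]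

end CL.OreO
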