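/-
Commutators in general linear groups with a prescribed spectrum, part 4: scalar blocks from extension fields, and models.
-/
import Cfsg.Agent.Cls.OreGL3

set_option autoImplicit false

open Module Polynomial

namespace CL.OreO

open CL.Sp CL.Chev CL.GLn CL.SLn

universe u

variable {K : Type u} [Field K] {T T' : Set (Om K)}

/-- The elements whose order is in a list. -/
def Ol (K : Type u) [Field K] (s : List ℕ) : Set (Om K) := {x | orderOf x ∈ s}

theorem Ol_mono {s t : List ℕ} (h : ∀ d ∈ s, d ∈ t) : Ol K s ⊆ Ol K t := fun _ hx => h _ hx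

theorem far_Ol {o : ℕ} {s : List ℕ} (h : o ∉ s) (hT : T ⊆ Ol K [o]) : Far T (Ol K s) := fun x hx y hy => by
  have h1 : orderOf x = o := by simpa [Ol] using hT hx
  refine ⟨fun e => h (h1 ▸ e ▸ hy), fun e => h ?_⟩
  have h2 : orderOf x = orderOf y := orderOf_eq_orderOf_iff.2 fun n =>
    have h3 : x ^ n * y ^ n = 1 := by rw [← mul_pow, e, one_pow]
    ⟨fun a => by simpa [a] using h3, fun a => by simpa [a] using h3⟩
  exact h1 ▸ h2 ▸ hy

theorem mem_Ol {x : Om K} {N : ℕ} {s : List ℕ} (h : x ^ N = 1) (h0 : 0 < N)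
    (hs : ∀ d ≤ N, d ∣ N → d ∈ s) : x ∈ Ol K s :=
  hs _ (orderOf_le_of_pow_eq_one h0 h) (orderOf_dvd_of_pow_eq_one h)

theorem mem_Ol' {x : Om K} {N M : ℕ} {s : List ℕ} (h : x ^ N = 1) (h' : x ^ M ≠ 1) (h0 : 0 < N)
    (hs : ∀ d ≤ N, d ∣ N → d ∣ M ∨ d ∈ s) : x ∈ Ol K s :=
  (hs _ (orderOf_le_of_pow_eq_one h0 h) (orderOf_dvd_of_pow_eq_one h)).resolve_left (mt orderOf_dvd_iff_pow_eq_one.1 h')

/-- Scalar blocks whose eigenvalues have order `o`. -/
def LevO (K : Type u) [Field K] (o k : ℕ) (μ : Kˣ) : Prop := ∃ T ⊆ Ol K [o], Sig T ∧ Lev T k μ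

theorem LevO.step (hK : Small K) {o k r : ℕ} {s : List ℕ} {μ : Kˣ} (hL : LevO K o k μ) (ho : o ∉ s) (hU : Full (Ol K s) r)
    (hμ : μ ^ k = 1) (h0 : 0 < k) (h3 : 3 ≤ r) {E : Type u} [AddCommGroup E] [Module K E] [FiniteDimensional K E]
    (hn : finrank K E = k + r) {l : E ≃ₗ[K] E} (hl : NB l) (hd : LinearEquiv.det l = 1)
    (h : rk l μ < r ∨ k < r ∧ k ≤ rk l (2 * μ)) : Goal (Ol K (o :: s)) l :=
  let ⟨_, a, b, c⟩ := hL
  (goal_step hK c b (far_Ol ho a) hU hμ h0 h3 hn hl hd h).mono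
    (Set.union_subset (a.trans (Ol_mono (by simp))) (Ol_mono fun _ => List.mem_cons_of_mem _))

theorem lev_of {V : Type*} [AddCommGroup V] [Module K V] [FiniteDimensional K V] {μ : Kˣ} {D c : V ≃ₗ[K] V}
    (h : ∀ x, (μ : K) • c (D x) = D (c x)) (hT : Kil T (D : End K V)) : Lev T (finrank K V) μ := fun A _ _ _ hA m hm =>
  ⟨_, _, GC.congr (l := DistribMulAction.toLinearEquiv K V μ) ⟨D, c, comm_iff.2 h, hT, rfl, rfl⟩
    (LinearEquiv.ofFinrankEq V A hA.symm) fun x => by simp [hm, Units.smul_def]⟩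

theorem exists_prim [Finite K] (p : ℕ) [Fact p.Prime] [CharP K p] {k : ℕ} (hk : 5 < Nat.card K ^ k) :
    ∃ (L : Type) (_ : Field L) (_ : Algebra K L) (_ : FiniteDimensional K L) (β : Lˣ), finrank K L = k ∧
      ∀ x : Om K, aeval x (minpoly K (β : L)) = 0 → orderOf x = Nat.card K ^ k - 1 ∧
        ∀ y : Om K, aeval y (minpoly K (β : L)) = 0 → x * y ≠ 1 := by
  classical
  have : NeZero k := ⟨by rintro rfl; simp at hk⟩
  let L := FiniteField.Extension K p k
  obtain ⟨β, hβ⟩ := IsCyclic.exists_generator (α := Lˣ)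
  have h1 : ∀ x : Om K, aeval x (minpoly K (β : L)) = 0 → ∃ φ : L →ₐ[K] Om K, φ β = x := fun x hx =>
    (Algebra.IsAlgebraic.range_eval_eq_rootSet_minpoly (F := K) (Om K) (β : L)).ge
      (mem_rootSet.2 ⟨minpoly.ne_zero (Algebra.IsIntegral.isIntegral _), hx⟩)
  refine ⟨L, inferInstance, inferInstance, inferInstance, β, FiniteField.finrank_extension K p k, fun x hx => ?_⟩
  obtain ⟨φ, rfl⟩ := h1 x hx
  refine ⟨?_, fun y hy e => ?_⟩
  · rw [← FiniteField.natCard_extension K p k, ← Nat.card_units, ← orderOf_eq_card_of_forall_mem_zpowers hβ,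
      ← orderOf_units]
    exact orderOf_injective φ.toMonoidHom φ.injective _
  · obtain ⟨ψ, rfl⟩ := h1 y hy
    have h2 : ∀ z : L, z ≠ 0 → φ z * ψ z = 1 := fun z hz => by
      obtain ⟨n, hn⟩ := hβ (Units.mk0 z hz)
      rw [show z = (β : L) ^ n by simpa using (congrArg Units.val hn).symm, map_zpow₀, map_zpow₀, ← mul_zpow, e, one_zpow]
    have h3 : ∀ z : L, z ∈ (X ^ 4 - X : L[X]).roots.toFinset ∪ {-1} := fun z => by
      by_cases a : z = -1
      · simp [a]
      have h4 : z ^ 4 - z = 0 := by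
        by_cases b : z = 0
        · simp [b]
        have c1 := h2 z b
        have c2 := h2 (1 + z) fun e => a (by linear_combination e)
        refine φ.injective ?_
        simp only [map_add, map_one, map_sub, map_pow, map_zero, AlgHom.toRingHom_eq_coe, RingHom.coe_coe] at c2 ⊢
        linear_combination (φ z ^ 3 - φ z ^ 2) * c2 - (φ z ^ 3 - φ z) * c1
      simp [h4, FiniteField.X_pow_card_sub_X_ne_zero L (show 1 < 4 by norm_num)]
    have := Fintype.ofFinite L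
    have h4 := (Finset.card_le_card (fun z _ => h3 z : Finset.univ ⊆ _)).trans (Finset.card_union_le _ _)
    have h5 := (Multiset.toFinset_card_le _).trans (card_roots' (X ^ 4 - X : L[X]))
    rw [FiniteField.X_pow_card_sub_X_natDegree_eq L (show 1 < 4 by norm_num)] at h5
    rw [Finset.card_univ, ← Nat.card_eq_fintype_card, FiniteField.natCard_extension, Finset.card_singleton] at h4
    omega

theorem aeval_mulLeft {L : Type*} [Field L] [Algebra K L] (β : L) (P : K[X]) (x : L) :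
    aeval (Algebra.lmul K L β) P x = aeval β P * x := by rw [aeval_algHom_apply]; rfl

theorem levO_prim [Finite K] (p : ℕ) [Fact p.Prime] [CharP K p] {k : ℕ} (hk : 5 < Nat.card K ^ k) :
    LevO K (Nat.card K ^ k - 1) k 1 ∧ LevO K (Nat.card K ^ k - 1) (k + k) 1 := by
  obtain ⟨L, _, _, _, β, rfl, h⟩ := exists_prim (K := K) p hk
  have h1 : Kil {x | aeval x (minpoly K (β : L)) = 0} (DistribMulAction.toLinearEquiv K L β : End K L) :=
    ⟨_, LinearMap.ext fun x => (aeval_mulLeft (β : L) _ x).trans (by simp), fun _ h => h⟩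
  have h2 : {x | aeval x (minpoly K (β : L)) = 0} ⊆ Ol K [Nat.card K ^ finrank K L - 1] := fun x hx => by simp [Ol, (h x hx).1]
  have h3 : Sig {x : Om K | aeval x (minpoly K (β : L)) = 0} :=
    ⟨fun h0 => by have := (h 0 h0).1; rw [orderOf_zero] at this; omega, fun x hx => (h x hx).2⟩
  refine ⟨⟨_, h2, h3, lev_of (c := 1) (by simp) h1⟩, _, h2, h3, ?_⟩
  simpa using lev_of (c := 1) (μ := 1) (by simp) (h1.prod h1)

theorem levO_sqrt [Finite K] (p : ℕ) [Fact p.Prime] [CharP K p] {k : ℕ} (hk : 5 < Nat.card K ^ k)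
    (ho : Odd (Nat.card K)) {μ : Kˣ} (hμ : μ = 1 ∨ μ = -1) : LevO K (2 * (Nat.card K ^ k - 1)) (k + k) μ := by
  obtain ⟨L, _, _, _, β, rfl, h⟩ := exists_prim (K := K) p hk
  let D : (L × L) ≃ₗ[K] (L × L) := (LinearEquiv.prodComm K L L).trans
    ((DistribMulAction.toLinearEquiv K L β).prodCongr (LinearEquiv.refl K L))
  have h0 : (D : End K (L × L)) ^ 2 = (DistribMulAction.toLinearEquiv K L β).prodCongr (DistribMulAction.toLinearEquiv K L β) :=
    LinearMap.ext fun _ => rfl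
  have h1 : Kil {x | aeval (x ^ 2) (minpoly K (β : L)) = 0} (D : End K (L × L)) :=
    ⟨(minpoly K (β : L)).comp (X ^ 2), LinearMap.ext fun x => by
      rw [aeval_comp, map_pow, aeval_X, h0, aeval_prod]
      exact Prod.ext ((aeval_mulLeft (β : L) _ _).trans (by simp)) ((aeval_mulLeft (β : L) _ _).trans (by simp)),
      fun x hx => by simpa [aeval_comp] using hx⟩
  refine ⟨{x | aeval (x ^ 2) (minpoly K (β : L)) = 0}, fun x hx => ?_, ⟨fun h0 => ?_, fun x hx y hy e =>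
    (h _ hx).2 _ hy (by rw [← mul_pow, e, one_pow])⟩, ?_⟩
  · have a1 := (h _ hx).1
    obtain ⟨t, ht⟩ := ho.pow (n := finrank K L)
    rw [orderOf_pow' _ two_ne_zero] at a1
    rcases (Nat.dvd_prime Nat.prime_two).1 (Nat.gcd_dvd_right (orderOf x) 2) with e | e <;> rw [e] at a1
    · have := Nat.coprime_two_right.1 e
      rw [Nat.odd_iff] at this
      omega
    · have := Nat.gcd_dvd_left (orderOf x) 2
      rw [e] at this
      simp only [Ol, Set.mem_ofPred_eq, List.mem_singleton]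
      omega
  · have := (h _ h0).1
    rw [zero_pow two_ne_zero, orderOf_zero] at this
    omega
  · rw [← finrank_prod]
    rcases hμ with rfl | rfl
    · exact lev_of (c := 1) (by simp) h1
    · exact lev_of (c := (LinearEquiv.refl K L).prodCongr (LinearEquiv.neg K)) (fun x => by simp [D]) h1

section

variable {V E : Type*} [AddCommGroup V] [Module K V] [AddCommGroup E] [Module K E]

/-- A model for the first entry of the commutator. -/
def Mod (s : List ℕ) (C : End K V) (δ : Kˣ) : Prop := ∃ T ⊆ Ol K s, Sig T ∧ Kil T C ∧ LinearMap.det C = δ ∧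
  ∀ γ : Kˣ, ∃ z : End K V, z * C = C * z ∧ LinearMap.det z = γ

theorem Mod.gc [FiniteDimensional K V] {s : List ℕ} {C : End K V} {δ : Kˣ} (h : Mod s C δ) {l : E ≃ₗ[K] E} (hl : Md C l)
    (γ : Kˣ) : ∃ T ⊆ Ol K s, Sig T ∧ GC T l δ γ :=
  let ⟨T, a, b, c, d, e⟩ := h; ⟨T, a, b, hl.gc c d e γ⟩

theorem Small.units (hK : Small K) (γ : Kˣ) : γ = 1 ∨ γ = -1 :=
  ((hK.cases one_ne_zero γ).resolve_left γ.ne_zero).imp Units.ext Units.ext

theorem mod_of (hK : Small K) {q : ℕ} (hc : ((q - 1 : ℕ) : K) = -1) {a s : List ℕ} {n : ℕ} (hn : a.length = n + 1) {δ : Kˣ}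
    (hδ : (dt q [a] : K) = δ) (h1 : ∀ x : Om K, aeval x (pl K a) = 0 → x ≠ 0 ∧ x ∈ Ol K s ∧
      ∀ y : Om K, aeval y (pl K a) = 0 → x * y ≠ 1)
    (hz : ∃ z : Matrix (Fin (n + 1)) (Fin (n + 1)) K, z * toM K (n + 1) (qc [a]) = toM K (n + 1) (qc [a]) * z ∧ z.det = -1) :
    Mod s (Matrix.toLin' (toM K (n + 1) (qc [a]))) δ := by
  refine ⟨{x | aeval x (pl K a) = 0}, fun x hx => (h1 x hx).2.1, ⟨fun h => (h1 0 h).1 rfl, fun x hx => (h1 x hx).2.2⟩,
    ⟨_, (comp_spec hc hn).1, fun _ h => h⟩, (comp_spec hc hn).2.trans hδ, fun γ => ?_⟩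
  rcases hK.units γ with rfl | rfl
  · exact ⟨1, by simp, by simp⟩
  · obtain ⟨z, a, b⟩ := hz
    exact ⟨Matrix.toLin' z, by rw [End.mul_eq_comp, End.mul_eq_comp, ← Matrix.toLin'_mul, a, Matrix.toLin'_mul], by simp [b]⟩

theorem Mod.neg [FiniteDimensional K V] {s : List ℕ} {C : End K V} {δ : Kˣ} (h : Mod s C δ) (ho : Odd (finrank K V))
    (hs : ∀ x ∈ Ol K s, -x ∈ Ol K s) : Mod s (-C) (-δ) := by
  obtain ⟨T, a, b, ⟨P, c, c'⟩, d, e⟩ := h
  refine ⟨{x | -x ∈ T}, fun x hx => by simpa using hs _ (a hx), ⟨by simpa using b.1, fun x hx y hy => by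
    simpa using b.2 _ hx _ hy⟩, ⟨P.comp (-X), by simp [aeval_comp, c], fun x hx => c' _ (by simpa [aeval_comp] using hx)⟩,
    ?_, fun γ => let ⟨z, e1, e2⟩ := e γ; ⟨z, by simp [e1], e2⟩⟩
  rw [← neg_one_smul K C, LinearMap.det_smul, ho.neg_one_pow, d]
  simp

theorem hasZ_of {q n : ℕ} [CharP K q] (hc : ((q - 1 : ℕ) : K) = -1) {C : ℕ → ℕ → ℕ} {a : List ℕ} (hn : a.length = n + 1)
    (hd : (dt q [a] : K) = -1) {Z c c' : ℕ} (h : (eqm q (n + 1) (mm (n + 1) (ent q (n + 1) Z) C) (mm (n + 1) C (ent q (n + 1) Z)) &&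
      eqm q (n + 1) (mm (n + 1) (ent q (n + 1) Z) (ent q (n + 1) c)) (mm (n + 1) (ent q (n + 1) c) (qc [a])) &&
      eqm q (n + 1) (mm (n + 1) (ent q (n + 1) c) (ent q (n + 1) c')) idm) = true) :
    ∃ z : Matrix (Fin (n + 1)) (Fin (n + 1)) K, z * toM K (n + 1) C = toM K (n + 1) C * z ∧ z.det = -1 := by
  simp only [Bool.and_eq_true] at h
  have h1 := toM_eq (K := K) h.1.1
  have h2 := congrArg Matrix.det (toM_eq (K := K) h.1.2)
  have h3 := congrArg Matrix.det (toM_eq (K := K) h.2)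
  have h4 := (comp_spec hc hn).2
  simp only [toM_mm, toM_idm, Matrix.det_mul, Matrix.det_one, LinearMap.det_toLin'] at h1 h2 h3 h4
  exact ⟨_, h1, by rw [h4, hd, mul_comm] at h2; exact mul_left_cancel₀ (left_ne_zero_of_mul_eq_one h3) h2⟩

theorem exists_equiv_pair [FiniteDimensional K V] [FiniteDimensional K E] (h : finrank K V = finrank K E) {z : E} {z' : V}
    {μ : Dual K E} {μ' : Dual K V} (hz : z ≠ 0) (hz' : z' ≠ 0) (hμ : μ ≠ 0) (hμ' : μ' ≠ 0) (h0 : μ z = 0) (h0' : μ' z' = 0) :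
    ∃ e : V ≃ₗ[K] E, e z' = z ∧ ∀ x, μ (e x) = μ' x := by
  let e := LinearEquiv.ofFinrankEq V E h
  obtain ⟨u, h1, h2⟩ : ∃ u, μ (e u) = 1 ∧ μ' u ≠ 0 := by
    obtain ⟨a, ha⟩ := DFunLike.ne_iff.1 hμ
    obtain ⟨b, hb⟩ := DFunLike.ne_iff.1 hμ'
    obtain ⟨a, rfl⟩ := e.surjective a
    obtain ⟨u, h1, h2⟩ : ∃ u, μ (e u) ≠ 0 ∧ μ' u ≠ 0 := by
      by_cases a1 : μ' a = 0
      · by_cases a2 : μ (e b) = 0
        · exact ⟨a + b, by simpa [a2] using ha, by simpa [a1] using hb⟩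
        · exact ⟨b, a2, hb⟩
      · exact ⟨a, ha, a1⟩
    exact ⟨(μ (e u))⁻¹ • u, by simp [h1], by simp [h1, h2]⟩
  let e' := (LinearEquiv.dilatransvection (f := μ' - μ ∘ₗ e.toLinearMap) (v := u) (by simpa [h1] using h2)).trans e
  have h3 : ∀ x, μ (e' x) = μ' x := fun x => by simp [e', LinearEquiv.dilatransvection.apply, h1]
  obtain ⟨κ, k1, k2, -⟩ := exists_dual_of_notMem₂ (W := (⊥ : Submodule K E)) (u := e' z') (v := z) (by simpa) (by simpa)
  refine ⟨e'.trans (LinearEquiv.dilatransvection (f := (κ (e' z'))⁻¹ • κ) (v := z - e' z') (by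
    simp [mul_sub, k1, k2])), ?_, fun x => ?_⟩
  · simp [LinearEquiv.dilatransvection.apply, k1]
  · simp [LinearEquiv.dilatransvection.apply, h0, h3, h0']

end

end CL.OreO
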