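/-
Commutators in general linear groups with a prescribed spectrum, part 7: the field with three elements.
-/
import Cfsg.Agent.Cls.OreGL6

set_option autoImplicit false

open Module Polynomial

namespace CL.OreO

open CL.Sp CL.Chev CL.GLn CL.SLn

universe u

variable {K : Type u} [Field K]

theorem tab_b3 : tab 3 3 (ent 3 3 2466) (allL 3 3 3)
  [[6643, 6643, 6643, 6643, 6643, 2466, 2466], [13285, 16314, 11744, 15796, 4780, 8430, 14424], [2674, 11613, 7331, 7228, 7219, 12333, 18138],
   [9235, 13745, 13745, 9163, 18076, 12078, 16668], [15, 12], [13205, 8743, 3208, 13783, 13531, 11000, 15382],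
   [6725, 17995, 4951, 11194, 2773, 1870, 2030], [2432, 17935, 4346, 11275, 17920, 16105, 2078], [8993, 5288, 14757, 15814, 4786, 15426, 18810],
   [15554, 3778, 15243, 8992, 2593, 11616, 7698], [13152, 4105, 10477, 11599, 15652, 1364, 1859], [13233, 11970, 1438, 11443, 5032, 14552, 8368],
   [13314, 19233, 1382, 2848, 17743, 8718, 13930], [6594, 18363, 17530, 2779, 11203, 3127, 3515], [6675, 1294, 18126, 7225, 7225, 18016, 18209],
   [5, 4], [2223, 4908, 15089, 11275, 17920, 19030, 2078], [8784, 12221, 13060, 6649, 6646, 6034, 2546],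
   [15345, 2389, 11919, 5044, 11446, 14516, 6310], [2466, 2164, 6120, 15961, 9331, 3127, 5809], [9027, 14675, 10303, 9175, 18067, 16534, 9634],
   [15588, 2840, 17750, 11023, 8833, 6437, 19394], [2709, 13400, 13836, 17923, 11263, 9951, 12541], [9270, 7714, 14546, 6892, 7150, 12828, 16001],
   [15831, 18586, 9636, 6736, 6745, 7737, 4600]] = true := by
  decide +kernel

theorem tab_b4 : tab 3 4 (ent 3 4 19505988) (allL 3 4 4)
  [[14408200, 14408200, 14408200, 14408200, 14408200, 19505988, 19505988], [28816156, 42729375, 2472343, 21066463, 38658406, 18726270, 30896925],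
   [5137507, 10461973, 30549135, 24351304, 27263902, 14113162, 24000589], [19486414, 29703113, 11205426, 40098934, 22697467, 13099293, 21339909],
   [45, 36], [28757350, 21484974, 24551063, 27419395, 16379965, 39158683, 20560597],
   [14467492, 21325277, 17073749, 27521269, 3292972, 31651268, 31770338], [4960603, 26755127, 5067244, 39981280, 12876160, 33828334, 28051495],
   [19309510, 42075438, 23552653, 27246883, 13071961, 35792116, 7881217], [33658417, 38934969, 3800557, 33640465, 1797508, 4584262, 27158719],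
   [28718227, 9408333, 24944573, 35116738, 1851694, 12503519, 8893592], [28777276, 9376047, 1262786, 1756687, 32361079, 42711685, 21410953],
   [28836325, 33469657, 6054047, 5060545, 22502596, 33537074, 24243620], [14370049, 30687131, 19543777, 8191078, 27559621, 1162511, 1156517],
   [14429098, 29017382, 29017397, 14726788, 14804590, 8166194, 8494406], [15, 12],
   [4804840, 4582469, 30780197, 33839761, 9862954, 18566938, 40333258], [19153747, 15632848, 30698463, 17932258, 33975805, 2174334, 1273209],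
   [33502654, 1877281, 22545845, 33544696, 33544030, 33460132, 13212319], [4981987, 22344602, 3445316, 8407816, 8407855, 42396527, 33237938],
   [19330894, 9603988, 10985756, 1931122, 2088586, 41719623, 846132], [33679801, 38221704, 8128936, 36772462, 33978205, 32637213, 29798487],
   [5159134, 38146547, 12261134, 21202531, 27480463, 40755578, 29392898], [19508041, 16386544, 28482355, 22523215, 21223153, 33971305, 15580984],
   [33856948, 26372799, 22861746, 17858878, 36751570, 36365444, 41090498], [28757108, 34096954, 16290683, 18034735, 41928988, 18473117, 31759153],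
   [14467250, 27801714, 24288970, 25611757, 19569583, 20006176, 20111138], [4960361, 13116865, 2457310, 17582797, 24369064, 36566904, 34992258],
   [19309268, 38670644, 2534412, 23960581, 40174534, 20379172, 33730784], [33658175, 36525621, 26336399, 6753013, 41831278, 13557838, 27801746],
   [14408444, 34458878, 30108981, 16046809, 40375450, 34521583, 34522829], [2], [5137751, 18358009, 15851951, 17681197, 40117864, 37829084, 7764127],
   [19486658, 39247537, 37021811, 30688747, 19629082, 16499284, 18478256], [33835565, 8259301, 24610115, 5261029, 38446549, 7995784, 12894776],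
   [14369321, 36079288, 22758782, 19348894, 8287078, 24382059, 24032136], [14428370, 27194559, 15933358, 4807270, 8149492, 2096376, 1607061],
   [14487419, 22070980, 28042746, 38781109, 39960157, 30390171, 30719748], [28718957, 37025782, 9677375, 22679482, 9764515, 2164196, 4704877],
   [28778006, 30845812, 17584287, 1851721, 35116672, 14335414, 7154708], [28837055, 20869654, 31628141, 28975861, 29133325, 20899308, 41742159],
   [4807028, 20184814, 21355095, 14509099, 14843683, 22994571, 11553666], [19155935, 25392000, 35571951, 24291322, 8426320, 11132170, 35456477],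
   [33504842, 8527635, 12840641, 25570186, 25570168, 29463529, 32794244], [4984175, 17529245, 30768988, 26024395, 32123668, 10185935, 7119592],
   [19333082, 29812116, 32852795, 38520418, 31909111, 27283889, 41818618], [33681989, 38944916, 33468789, 29017435, 29017405, 31787270, 8217184],
   [5161322, 25894205, 16541530, 25612459, 19531873, 4202950, 39143348], [19510229, 36406418, 21620132, 23980024, 19194850, 12545334, 22400577],
   [33859136, 32523377, 38926924, 36925828, 25982113, 35961997, 14005484], [28756947, 38381631, 4109912, 22699384, 6615220, 602600, 1131881],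
   [14467089, 42209597, 18176496, 33581662, 27620884, 22329949, 22336190], [4960200, 10549965, 6761722, 14764216, 14591497, 37083359, 33935119],
   [19309107, 30462209, 18185547, 27401899, 32403367, 19564576, 10871491], [33658014, 10038093, 18423498, 17638186, 2031997, 19021704, 22024321],
   [28757190, 26816373, 678805, 32030332, 8410726, 29438663, 15620681], [14467332, 25418438, 11255095, 22580293, 32027950, 31467666, 31505044],
   [4960443, 42209173, 2031874, 22462489, 19511236, 8561210, 4358922], [19309350, 34281309, 26519646, 4961410, 4962859, 19236045, 27345023],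
   [33658257, 1988104, 38370918, 36733168, 25572379, 1787581, 18620235], [28757433, 12645251, 2043658, 27301840, 39901582, 12058322, 9398096],
   [14467575, 20995955, 38820672, 27405103, 30789352, 1537338, 1303396], [4960686, 1885325, 8807075, 38717698, 11618320, 14234550, 33657895],
   [19309593, 14816913, 14845051, 40271689, 22655452, 11407159, 16618659], [33658500, 2311581, 34405994, 41946694, 1873582, 39190502, 9516386],
   [14408043, 6888395, 38035013, 3563857, 38642161, 18847610, 18846783], [28815999, 24189512, 34797913, 24115585, 22423594, 1808119, 3591928],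
   [5137350, 40416746, 40561403, 35238478, 38544709, 23099022, 20169310], [19486257, 12738757, 7311990, 22656169, 6794554, 10521481, 29838360],
   [33835164, 16634797, 34040631, 2109997, 36750397, 32551111, 26254299], [14408286, 28569524, 8676525, 14625988, 14392483, 17948378, 17945378],
   [28816242, 30863360, 36834936, 20907055, 4884547, 37815678, 26204181], [5137593, 15296723, 40233498, 32242000, 10004095, 30346761, 4471861],
   [19486500, 14138233, 34891395, 8348041, 8308222, 9489208, 41071224], [33835407, 33309433, 9940630, 11481532, 33562726, 41201053, 40675961],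
   [5, 4], [28816485, 14142028, 10412220, 36930460, 41929435, 29520125, 15914812],
   [5137836, 17053357, 19271771, 20750329, 3504349, 35044497, 40696479], [19486743, 14019961, 36219521, 3410584, 33563938, 29339936, 37928543],
   [33835650, 42264061, 28248931, 33581443, 1795105, 24714746, 11589436], [14368680, 14715586, 14423949, 8271778, 40294297, 20502203, 20651563],
   [14427729, 40919922, 19677794, 39957253, 38285167, 23221596, 22867571], [14486778, 1969787, 23956445, 13011964, 19175911, 25012059, 25147346],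
   [14369409, 9419088, 37903057, 33875698, 22778608, 21013909, 21172795], [14428458, 28996286, 29175611, 38720620, 25785772, 33757019, 33752418],
   [14487507, 10897566, 25753916, 10004068, 32241970, 38464128, 38350047], [14370138, 32402843, 16241207, 40315936, 19389466, 36027397, 35680240],
   [14429187, 18687677, 27786900, 20829535, 35275831, 40660732, 40837811], [14488236, 12606183, 22306810, 40215106, 9961591, 29529194, 29487771],
   [28717596, 29832722, 26963323, 41890306, 19512187, 18498467, 31598713], [28776645, 40042899, 23660887, 20767303, 25668163, 17282101, 32669076],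
   [28835694, 18573608, 2409143, 25888537, 41595073, 2820157, 4243359], [28718325, 16626799, 17092239, 3523987, 35099164, 970500, 1550391],
   [28777374, 1000032, 31440501, 27582277, 30627976, 18225378, 31754932], [28836423, 21307580, 4628630, 6500020, 22441591, 19051922, 30865507],
   [28719054, 21178349, 7392658, 9847333, 17893792, 38486808, 19659972], [28778103, 4221995, 15349404, 11539603, 20867890, 14134924, 7432062],
   [28837152, 40908735, 22332193, 5000038, 8149315, 4893078, 9957353], [4802787, 19290631, 25608607, 27147493, 13149763, 9719446, 12434157],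
   [19151694, 38235830, 19243234, 20750533, 8228227, 39189244, 27666641], [33500601, 36717858, 33148969, 40156033, 37068448, 26732945, 31101559],
   [4979934, 40067775, 21778341, 40235005, 25924948, 19282386, 11718990], [19328841, 13848978, 37673354, 14689111, 14625466, 21997100, 36781936],
   [33677748, 13374321, 12525183, 29092984, 28740904, 20105694, 16412051], [5157081, 39672643, 34175282, 17677555, 2091070, 8675097, 13830368],
   [19505988, 16277252, 41156284, 11436367, 19526062, 7888913, 42298711], [33854895, 23183693, 38778073, 5239828, 22498669, 6795479, 32377263],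
   [4804974, 31885451, 23760601, 1871125, 8170690, 2506543, 30842702], [19153881, 4697416, 12434059, 12974326, 16222717, 16700163, 29951837],
   [33502788, 26278409, 4339105, 22424302, 24314884, 41725981, 42884031], [4982121, 26566690, 5556298, 8269081, 1738252, 32435606, 1281371],
   [19331028, 16324767, 914393, 24348661, 15965896, 21369965, 24237629], [33679935, 2975289, 27173830, 33835336, 9861493, 39116865, 30769994],
   [5159268, 41908899, 15176507, 1658047, 17598796, 37783517, 3745732], [19508175, 5913669, 2072673, 27381292, 1892782, 39299963, 21825812],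
   [33857082, 39651796, 31727654, 38680987, 19428118, 26707619, 31907995], [4807161, 11748341, 16952285, 13152679, 3643075, 29383018, 12456938],
   [19156068, 14358486, 14847147, 33979195, 27617029, 11515931, 39967845], [33504975, 33922770, 7175719, 38619085, 9983194, 15643683, 3369574],
   [4984308, 25161592, 8411043, 38541532, 1993858, 14252273, 35151664], [19333215, 25104739, 37047684, 25790098, 38426122, 23831502, 10313320],
   [33682122, 2057747, 11155953, 16122106, 5121244, 35087791, 27856680], [5161455, 8567646, 41517944, 17972353, 35314483, 17551315, 1427763],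
   [19510362, 5210081, 8683322, 22541956, 11456485, 16506039, 18895175], [33859269, 31797445, 2209467, 30337831, 38599888, 24084650, 32766588]] = true := by
  decide +kernel

theorem tab_b4x : tab 3 4 (ent 3 4 19151667) (allL 3 4 4)
  [[14408200, 14408200, 14408200, 14408200, 14408200, 19151667, 19151667], [28816156, 41664817, 20063235, 4963315, 4966198, 22793005, 40094362],
   [5137507, 705885, 39138984, 29032975, 29190391, 39249804, 36920649], [19486414, 25427282, 27339193, 21141076, 12797422, 36859243, 8824090],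
   [45, 36], [28757350, 38783320, 24699194, 8269792, 12858643, 12029963, 9374216],
   [14467492, 10026551, 11516225, 6557413, 4924210, 5359672, 5337073], [4960603, 18411807, 7207773, 11205232, 32360338, 30008447, 20033378],
   [19309510, 923841, 17418429, 27148942, 40056424, 17048622, 15627720], [33658417, 10908175, 12469835, 38701444, 39962869, 40613026, 35574340],
   [28718227, 37363871, 7869649, 32403607, 6678904, 42449654, 22319696], [28777276, 31856248, 17850862, 2090314, 8229703, 9123468, 11896179],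
   [28836325, 17610022, 16205944, 38580928, 1993399, 21083084, 41837390], [14370049, 38857412, 29823725, 32402401, 8272942, 33272042, 33047024],
   [14429098, 24559898, 25930123, 25650187, 24134764, 21296732, 21776576], [15, 12],
   [4804840, 6105005, 25295430, 9960139, 11515063, 9058257, 1923777], [19153747, 34512695, 11230448, 33957811, 19548442, 39187158, 25908747],
   [33502654, 19523526, 26678308, 32382916, 3705079, 22455257, 36423545], [4981987, 31990118, 23590780, 14390269, 14448841, 22066121, 22533815],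
   [19330894, 6940785, 22619309, 32046181, 1914154, 27180206, 18775160], [33679801, 19451650, 14082783, 27400009, 40296217, 33193666, 36654796],
   [5159134, 6161337, 13371871, 19195114, 23977309, 6302857, 36945886], [19508041, 26294848, 21112819, 19649290, 25613494, 31698244, 9898795],
   [33856948, 18570568, 10192138, 33757831, 31931932, 22539411, 9720270], [28757108, 11876313, 23786113, 38602276, 21062056, 36979828, 25819565],
   [14467250, 27338260, 10784624, 22797058, 27483370, 3076829, 2958763], [4960361, 36346686, 39250598, 20850421, 35198128, 16011902, 5514283],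
   [19309268, 21043672, 41334906, 35434033, 9784231, 35497345, 26475956], [33658175, 17932850, 33988936, 36689845, 39878506, 10413089, 17131567],
   [14408444, 31013525, 5547125, 33798190, 39998791, 30635921, 30638260], [2], [5137751, 18355294, 12108120, 4922944, 1774423, 1303981, 19140944],
   [19486658, 24976621, 6741898, 38559517, 24151597, 17582668, 16321298], [33835565, 39705453, 23144874, 8189152, 22716934, 35922910, 34893215],
   [14369321, 4650669, 1274438, 3389179, 19411876, 25138007, 25202776], [14428370, 37847193, 33756173, 22483375, 13152187, 23572843, 23497241],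
   [14487419, 35293607, 32129021, 37084516, 32344306, 1583053, 1285844], [28718957, 1882214, 4056911, 39959434, 38522098, 14193348, 7062384],
   [28778006, 5137759, 9743626, 14509306, 14727073, 3604362, 1670151], [28837055, 14148956, 18921916, 41831725, 16084249, 27988994, 36327142],
   [4807028, 7584647, 13724886, 6816412, 24056050, 33135099, 15046896], [19155935, 42350265, 16150224, 32025778, 39898717, 8384374, 36618689],
   [33504842, 10654481, 2349599, 5120083, 41632972, 14033724, 22826820], [4984175, 36429537, 34645938, 3448696, 13073905, 19741334, 5858431],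
   [19333082, 27334831, 5646821, 32221369, 32378839, 17423661, 7930671], [33681989, 6844076, 31430933, 13094314, 33915793, 17596591, 29916266],
   [5161322, 12583494, 9694025, 41511721, 41511727, 39464126, 10651558], [19510229, 22986609, 43010952, 27242791, 20766826, 8027881, 7704383],
   [33859136, 20400991, 13064264, 11338936, 4825045, 17783479, 7011785], [28756947, 35864115, 21926068, 32323210, 41945494, 30988527, 18767144],
   [14467089, 39525807, 42381593, 3313105, 22443025, 33304583, 33131036], [4960200, 37615364, 21041746, 16184545, 11321173, 27288123, 15217643],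
   [19309107, 40224038, 37627333, 17775955, 1697371, 35385669, 3090987], [33658014, 37526531, 23756238, 22404865, 30613444, 26223188, 9356458],
   [28757190, 42176749, 23778800, 27401416, 35454250, 7302855, 14216153], [14467332, 1957943, 37190013, 33623950, 26005906, 41725443, 41972062],
   [4960443, 22218073, 9496676, 14510038, 14571562, 31752482, 32274577], [19309350, 13206194, 35106387, 36692572, 17991043, 27961630, 34889923],
   [33658257, 13978124, 6898266, 24056587, 11657023, 7078120, 6468564], [28757433, 17255026, 27609742, 4963576, 4963576, 40096833, 22558612],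
   [14467575, 17043411, 24199446, 20785813, 25568731, 29255224, 29273234], [4960686, 40297409, 32717391, 19214065, 41888176, 12089528, 32031744],
   [19309593, 31602185, 3639763, 27202702, 27124903, 41180602, 4758472], [33658500, 11980352, 9284849, 19391719, 22463479, 29651219, 5146846],
   [14408043, 34098509, 29912424, 37084300, 12799108, 14331294, 14332883], [28815999, 802743, 30382236, 23974936, 19192675, 30393592, 17678891],
   [5137350, 41523514, 31610872, 11183119, 21140299, 30063829, 24632528], [19486257, 22706986, 31708687, 9965008, 21086149, 42392365, 25781667],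
   [33835164, 17779783, 16940850, 39918400, 31946791, 11251742, 10198430], [14408286, 25475073, 23291742, 22479241, 17637007, 36411828, 36409372],
   [28816242, 23772659, 40737029, 20748106, 1929727, 10942122, 5737989], [5137593, 35666437, 25043277, 13013917, 19586332, 30286939, 42705005],
   [19486500, 33669210, 23317043, 19252429, 19256116, 40037271, 11436890], [33835407, 14168210, 33635116, 32380735, 2091322, 36426112, 31702546],
   [5, 4], [28816485, 2937946, 36606826, 1811827, 19508098, 19080868, 31073229],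
   [5137836, 29720003, 6751632, 27576934, 16458424, 17828519, 23762864], [19486743, 25009663, 40998027, 21045814, 21142954, 21844838, 20183741],
   [33835650, 1525108, 35917722, 38524993, 11615944, 28457393, 10008821], [14368680, 5519086, 35567164, 27420373, 17993956, 15924896, 15521136],
   [14427729, 29513632, 2120367, 11518222, 9727588, 21467097, 21401284], [14486778, 28569524, 8676525, 38401834, 36807520, 18018922, 17962957],
   [14369409, 30939168, 28573315, 31990495, 8351695, 10796974, 10962403], [14428458, 34817926, 20307948, 3270325, 40098715, 26776442, 26858821],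
   [14487507, 20764594, 41315428, 1930642, 36888157, 15175022, 15149474], [14370138, 18838096, 6420923, 11382682, 40119349, 34240885, 34462051],
   [14429187, 12397194, 27987790, 4965016, 4962118, 12822549, 12992896], [14488236, 14199253, 16826474, 1718047, 41572732, 26417021, 26397309],
   [28717596, 34076222, 26635298, 33802030, 35156755, 22658621, 40140669], [28776645, 22011637, 24941381, 9847363, 17893861, 12889950, 6667201],
   [28835694, 25018639, 23548906, 17954797, 21042157, 3796603, 2936998], [28718325, 21215632, 12602578, 3704119, 37106887, 31286426, 18895001],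
   [28777374, 10897566, 25753916, 33561757, 1796746, 38464068, 19554513], [28836423, 18339235, 5620497, 33581209, 39996907, 30625386, 17887705],
   [28719054, 34551040, 35214435, 36928288, 21199882, 34450023, 25359045], [28778103, 3524954, 31510309, 40235275, 41870617, 13901161, 7329471],
   [28837152, 18477562, 10677736, 8154604, 4946764, 27834012, 36180816], [4802787, 632555, 21562470, 6594109, 6594064, 21325858, 5525738],
   [19151694, 13165442, 22671524, 18014383, 3331300, 27592173, 9291171], [33500601, 6556041, 4852399, 30374092, 11675941, 16073830, 42465120],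
   [4979934, 3840024, 23504973, 14433754, 14670226, 30258559, 40143223], [19328841, 20146713, 3627495, 38663743, 39959242, 26995643, 2044105],
   [33677748, 4607944, 9782837, 17793943, 17990815, 21693635, 15914798], [5157081, 24247452, 12196589, 30356290, 8034067, 11247786, 7187955],
   [19505988, 25138282, 37423468, 3367765, 5003875, 35306237, 6124542], [33854895, 27702494, 20346739, 13232140, 6481843, 35921613, 34882946],
   [4804974, 710770, 4874526, 40234258, 2008702, 4927935, 11742993], [19153881, 32000693, 17861482, 5140708, 9747223, 15056074, 27522155],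
   [33502788, 21818624, 23848053, 35530549, 35277088, 42433072, 13541621], [4982121, 39745515, 36647510, 30809284, 6754489, 30953475, 10368926],
   [19331028, 12820555, 10415787, 2092033, 6655072, 3417455, 16920012], [33679935, 18750072, 7829457, 16318723, 33526000, 9470389, 32683279],
   [5159268, 20489083, 20585569, 6422755, 36907129, 12470645, 20093038], [19508175, 10051298, 22144613, 24053185, 27261481, 11477516, 22609140],
   [33857082, 26820248, 27200269, 8016355, 22617301, 13085245, 18890427], [4807161, 39899680, 2107606, 12816853, 16008133, 2479349, 28640798],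
   [19156068, 17305561, 42982358, 32224795, 37104196, 5657488, 18754031], [33504975, 11460822, 39754014, 30629212, 18014833, 8813075, 21393095],
   [4984308, 37121926, 34392499, 20885140, 19172950, 35301087, 18142431], [19333215, 13425811, 21869547, 3644590, 22482418, 12484197, 18992491],
   [33682122, 26327853, 4269991, 22561636, 27600739, 9164629, 7915909], [5161455, 24051252, 13266453, 12973585, 13247884, 36233112, 7813555],
   [19510362, 21229564, 2798302, 16007632, 39922783, 12030836, 20121956], [33859269, 42646218, 20368025, 11185342, 41866474, 10191158, 11723627]] = true := by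
  decide +kernel

theorem mem_Ol_ne {x : Om K} (h : x ^ 80 = 1) (h' : x ^ 8 + 1 ≠ 0) : x ∈ Ol K [1, 2, 4, 5, 8, 10, 20, 40, 80] := by
  have h1 : x ∈ Ol K (16 :: [1, 2, 4, 5, 8, 10, 20, 40, 80]) := mem_Ol h (by decide) (by decide +kernel)
  refine (List.mem_cons.1 h1).resolve_left fun e => ?_
  have h2 : (x ^ 8 - 1) * (x ^ 8 + 1) = 0 := by
    have := pow_orderOf_eq_one x
    rw [e] at this
    linear_combination this
  exact absurd (e ▸ orderOf_dvd_of_pow_eq_one (sub_eq_zero.1 ((mul_eq_zero.1 h2).resolve_right h'))) (by decide)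

theorem roots_b3 (hq : (3 : Om K) = 0) (x : Om K) (h : aeval x (pl K [1, 1, 0]) = 0) :
    x ≠ 0 ∧ x ∈ Ol K [1, 2, 13, 26] ∧ ∀ y : Om K, aeval y (pl K [1, 1, 0]) = 0 → x * y ≠ 1 := by
  have key : ∀ x : Om K, aeval x (pl K [1, 1, 0]) = 0 → x ^ 3 = 1 + x := fun x h => by
    simp [pl, Finset.sum_range_succ] at h
    linear_combination h
  have hx := key x h
  have h0 : x ≠ 0 := fun e => one_ne_zero (α := Om K) (by
      linear_combination (2) * hx + (2 + x ^ 2) * e + (1 - x ^ 3) * hq)
  have h1 : x ^ 3 = 1 + x := by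
    linear_combination (1) * hx + (0) * hq
  have h2 : x ^ 9 = 2 + x := by
    rw [show 9 = 3 * 3 from rfl, pow_mul, h1]
    linear_combination (1) * hx + (x + x ^ 2) * hq
  have h3 : x ^ 27 = x := by
    rw [show 27 = 9 * 3 from rfl, pow_mul, h2]
    linear_combination (1) * hx + (3 + 4 * x + 2 * x ^ 2) * hq
  have hN : x ^ 26 = 1 := mul_left_cancel₀ h0 (by rw [← pow_succ', h3, mul_one])
  refine ⟨h0, mem_Ol hN (by decide) (by decide +kernel), fun y hy e => ?_⟩
  have hr : 1 - x ^ 2 - x ^ 3 = 0 := by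
    linear_combination x ^ 3 * key y hy - ((-1) * x ^ 2 * ((x * y) ^ 0) + (1) * x ^ 0 * ((x * y) ^ 0 + (x * y) ^ 1 + (x * y) ^ 2)) * e
  exact one_ne_zero (α := Om K) (by
      linear_combination (2 * x) * hx + (1 + 2 * x) * hr + (x ^ 2 + x ^ 3) * hq)

theorem roots_b4 (hq : (3 : Om K) = 0) (x : Om K) (h : aeval x (pl K [2, 0, 2, 1]) = 0) :
    x ≠ 0 ∧ x ∈ Ol K [5, 10, 20, 40, 80] ∧ ∀ y : Om K, aeval y (pl K [2, 0, 2, 1]) = 0 → x * y ≠ 1 := by
  have key : ∀ x : Om K, aeval x (pl K [2, 0, 2, 1]) = 0 → x ^ 4 = 2 + 2 * x ^ 2 + x ^ 3 := fun x h => by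
    simp [pl, Finset.sum_range_succ, map_ofNat] at h
    linear_combination h
  have hx := key x h
  have h0 : x ≠ 0 := fun e => one_ne_zero (α := Om K) (by
      linear_combination (1) * hx + (2 * x + x ^ 2 + 2 * x ^ 3) * e + (1 - x ^ 4) * hq)
  have h2 : x ^ 9 = 2 + 2 * x := by
    linear_combination (1 + x + 2 * x ^ 2 + x ^ 4 + x ^ 5) * hx + (2 * x ^ 2 + x ^ 3 + 2 * x ^ 4 + x ^ 5 + x ^ 7) * hq
  have h3 : x ^ 27 = 2 + 2 * x ^ 3 := by
    rw [show 27 = 9 * 3 from rfl, pow_mul, h2]
    linear_combination (0) * hx + (2 + 8 * x + 8 * x ^ 2 + 2 * x ^ 3) * hq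
  have h4 : x ^ 81 = x := by
    rw [show 81 = 27 * 3 from rfl, pow_mul, h3]
    linear_combination (2 + 2 * x + x ^ 2 + 2 * x ^ 4 + 2 * x ^ 5) * hx + (4 + x + 2 * x ^ 2 + 10 * x ^ 3 + 2 * x ^ 4 + x ^ 5 + 9 * x ^ 6 +
        2 * x ^ 7 + 2 * x ^ 9) * hq
  have hN : x ^ 80 = 1 := mul_left_cancel₀ h0 (by rw [← pow_succ', h4, mul_one])
  refine ⟨h0, mem_Ol' (M := 16) hN (fun e => one_ne_zero (α := Om K) (by
      linear_combination (2 + x + x ^ 2 + x ^ 4 + x ^ 6 + x ^ 7 + x ^ 8 + 2 * x ^ 10 + 2 * x ^ 13 + x ^ 14 + x ^ 15) * hx + (1 + x +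
        2 * x ^ 3) * e + (2 + x + 2 * x ^ 2 + 2 * x ^ 3 + x ^ 4 + x ^ 6 + x ^ 7 + x ^ 8 + x ^ 9 + 2 * x ^ 10 + x ^ 12 + 2 * x ^ 13 +
        2 * x ^ 15 + x ^ 16 - x ^ 19) * hq))
    (by decide) (by decide +kernel), fun y hy e => ?_⟩
  have hr : 1 - x - 2 * x ^ 2 - 2 * x ^ 4 = 0 := by
    linear_combination x ^ 4 * key y hy - ((-2) * x ^ 2 * ((x * y) ^ 0 + (x * y) ^ 1) + (-1) * x ^ 1 * ((x * y) ^ 0 + (x * y) ^ 1 +
        (x * y) ^ 2) + (1) * x ^ 0 * ((x * y) ^ 0 + (x * y) ^ 1 + (x * y) ^ 2 + (x * y) ^ 3)) * e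
  exact one_ne_zero (α := Om K) (by
      linear_combination (2 + 2 * x + 2 * x ^ 2 + 2 * x ^ 3) * hx + (2 + x ^ 3) * hr + (1 + 2 * x + 4 * x ^ 2 + 3 * x ^ 3 + 3 * x ^ 4 +
        2 * x ^ 5) * hq)

theorem roots_b4x (hq : (3 : Om K) = 0) (x : Om K) (h : aeval x (pl K [1, 0, 0, 1]) = 0) :
    x ≠ 0 ∧ x ∈ Ol K [5, 10, 20, 40, 80] ∧ ∀ y : Om K, aeval y (pl K [1, 0, 0, 1]) = 0 → x * y ≠ 1 := by
  have key : ∀ x : Om K, aeval x (pl K [1, 0, 0, 1]) = 0 → x ^ 4 = 1 + x ^ 3 := fun x h => by
    simp [pl, Finset.sum_range_succ] at h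
    linear_combination h
  have hx := key x h
  have h0 : x ≠ 0 := fun e => one_ne_zero (α := Om K) (by
      linear_combination (2) * hx + (2 * x ^ 2 + x ^ 3) * e + (1 - x ^ 4) * hq)
  have h2 : x ^ 9 = 2 * x + x ^ 2 + x ^ 3 := by
    linear_combination (2 * x + x ^ 2 + x ^ 3 + x ^ 4 + x ^ 5) * hx + (x ^ 4) * hq
  have h3 : x ^ 27 = 1 + 2 * x ^ 2 + x ^ 3 := by
    rw [show 27 = 9 * 3 from rfl, pow_mul, h2]
    linear_combination (1 + 2 * x ^ 2 + x ^ 3 + x ^ 4 + x ^ 5) * hx + (3 * x ^ 3 + 4 * x ^ 4 + 7 * x ^ 5 + 4 * x ^ 6 + 3 * x ^ 7 +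
        x ^ 8) * hq
  have h4 : x ^ 81 = x := by
    rw [show 81 = 27 * 3 from rfl, pow_mul, h3]
    linear_combination (2 + x + x ^ 3 + x ^ 4 + x ^ 5) * hx + (1 + 2 * x ^ 2 + 2 * x ^ 3 + 4 * x ^ 4 + 4 * x ^ 5 + 4 * x ^ 6 + 4 * x ^ 7 +
        2 * x ^ 8) * hq
  have hN : x ^ 80 = 1 := mul_left_cancel₀ h0 (by rw [← pow_succ', h4, mul_one])
  refine ⟨h0, mem_Ol' (M := 16) hN (fun e => one_ne_zero (α := Om K) (by
      linear_combination (2 + 2 * x + x ^ 2 + x ^ 5 + x ^ 6 + 2 * x ^ 8 + x ^ 10 + x ^ 11 + 2 * x ^ 12 + 2 * x ^ 13 + 2 * x ^ 15) * hx +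
        (x + 2 * x ^ 2 + x ^ 3) * e + (1 + x + x ^ 2 + x ^ 3 + x ^ 8 + x ^ 11 + x ^ 13 + x ^ 15 - x ^ 17 - x ^ 19) * hq))
    (by decide) (by decide +kernel), fun y hy e => ?_⟩
  have hr : 1 - x - x ^ 4 = 0 := by
    linear_combination x ^ 4 * key y hy - ((-1) * x ^ 1 * ((x * y) ^ 0 + (x * y) ^ 1 + (x * y) ^ 2) + (1) * x ^ 0 * ((x * y) ^ 0 +
        (x * y) ^ 1 + (x * y) ^ 2 + (x * y) ^ 3)) * e
  exact one_ne_zero (α := Om K) (by
      linear_combination (2 * x ^ 2 + 2 * x ^ 3) * hx + (1 + x + 2 * x ^ 3) * hr + (x ^ 2 + x ^ 4 + x ^ 5) * hq)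

theorem roots_b5 (hq : (3 : Om K) = 0) (x : Om K) (h : aeval x (pl K [1, 1, 0, 0, 0]) = 0) :
    x ≠ 0 ∧ x ∈ Ol K [1, 2, 11, 22, 121, 242] ∧ ∀ y : Om K, aeval y (pl K [1, 1, 0, 0, 0]) = 0 → x * y ≠ 1 := by
  have key : ∀ x : Om K, aeval x (pl K [1, 1, 0, 0, 0]) = 0 → x ^ 5 = 1 + x := fun x h => by
    simp [pl, Finset.sum_range_succ] at h
    linear_combination h
  have hx := key x h
  have h0 : x ≠ 0 := fun e => one_ne_zero (α := Om K) (by
      linear_combination (2) * hx + (2 + x ^ 4) * e + (1 - x ^ 5) * hq)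
  have h2 : x ^ 9 = 1 + x + x ^ 4 := by
    linear_combination (1 + x ^ 4) * hx + (0) * hq
  have h3 : x ^ 27 = 1 + x ^ 2 + x ^ 4 := by
    rw [show 27 = 9 * 3 from rfl, pow_mul, h2]
    linear_combination (x ^ 2 + x ^ 3 + x ^ 7) * hx + (x + x ^ 2 + x ^ 3 + x ^ 4 + 2 * x ^ 5 + x ^ 6 + x ^ 8 + x ^ 9) * hq
  have h4 : x ^ 81 = 1 + x + 2 * x ^ 2 + 2 * x ^ 3 + x ^ 4 := by
    rw [show 81 = 27 * 3 from rfl, pow_mul, h3]
    linear_combination (x + x ^ 2 + x ^ 3 + x ^ 7) * hx + (x ^ 2 + 2 * x ^ 4 + 2 * x ^ 6 + 2 * x ^ 8 + x ^ 10) * hq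
  have h5 : x ^ 243 = x := by
    rw [show 243 = 81 * 3 from rfl, pow_mul, h4]
    linear_combination (2 + 2 * x + x ^ 2 + x ^ 3 + 2 * x ^ 4 + x ^ 7) * hx + (1 + 2 * x + 4 * x ^ 2 + 7 * x ^ 3 + 12 * x ^ 4 +
        16 * x ^ 5 + 19 * x ^ 6 + 20 * x ^ 7 + 17 * x ^ 8 + 11 * x ^ 9 + 6 * x ^ 10 + 2 * x ^ 11) * hq
  have hN : x ^ 242 = 1 := mul_left_cancel₀ h0 (by rw [← pow_succ', h5, mul_one])
  refine ⟨h0, mem_Ol hN (by decide) (by decide +kernel), fun y hy e => ?_⟩
  have hr : 1 - x ^ 4 - x ^ 5 = 0 := by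
    linear_combination x ^ 5 * key y hy - ((-1) * x ^ 4 * ((x * y) ^ 0) + (1) * x ^ 0 * ((x * y) ^ 0 + (x * y) ^ 1 + (x * y) ^ 2 +
        (x * y) ^ 3 + (x * y) ^ 4)) * e
  exact one_ne_zero (α := Om K) (by
      linear_combination (1 + 2 * x ^ 2 + x ^ 3 + x ^ 4) * hx + (2 + x + 2 * x ^ 2 + x ^ 4) * hr + (x ^ 3 + x ^ 4 + x ^ 5 + x ^ 6) * hq)

theorem roots_b6m (hq : (3 : Om K) = 0) (x : Om K) (h : aeval x (pl K [1, 1, 0, 0, 2, 2]) = 0) :
    x ≠ 0 ∧ x ∈ Ol K [1, 2, 4, 5, 8, 10, 20, 40, 80] ∧ ∀ y : Om K, aeval y (pl K [1, 1, 0, 0, 2, 2]) = 0 → x * y ≠ 1 := by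
  have key : ∀ x : Om K, aeval x (pl K [1, 1, 0, 0, 2, 2]) = 0 → x ^ 6 = 1 + x + 2 * x ^ 4 + 2 * x ^ 5 := fun x h => by
    simp [pl, Finset.sum_range_succ, map_ofNat] at h
    linear_combination h
  have hx := key x h
  have h0 : x ≠ 0 := fun e => one_ne_zero (α := Om K) (by
      linear_combination (2) * hx + (2 + x ^ 3 + x ^ 4 + x ^ 5) * e + (1 + x ^ 4 + x ^ 5 - x ^ 6) * hq)
  have h2 : x ^ 9 = 1 + x + 2 * x ^ 2 + 2 * x ^ 5 := by
    linear_combination (1 + 2 * x ^ 2 + x ^ 3) * hx + (x ^ 3 + x ^ 4 + x ^ 6 + 2 * x ^ 7) * hq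
  have h3 : x ^ 27 = 1 + 2 * x ^ 2 + 2 * x ^ 4 := by
    rw [show 27 = 9 * 3 from rfl, pow_mul, h2]
    linear_combination (2 * x ^ 2 + 2 * x ^ 4 + x ^ 5 + 2 * x ^ 6 + x ^ 8 + 2 * x ^ 9) * hx + (x + 3 * x ^ 2 + 5 * x ^ 3 + 6 * x ^ 4 +
        7 * x ^ 5 + 9 * x ^ 6 + 12 * x ^ 7 + 9 * x ^ 8 + 11 * x ^ 9 + 6 * x ^ 10 + 5 * x ^ 11 + 8 * x ^ 12 + 2 * x ^ 13 + x ^ 14 +
        2 * x ^ 15) * hq
  have h4 : x ^ 81 = x := by
    rw [show 81 = 27 * 3 from rfl, pow_mul, h3]
    linear_combination (2 + 2 * x + x ^ 2 + 2 * x ^ 3 + x ^ 5 + 2 * x ^ 6) * hx + (1 + x + 3 * x ^ 2 + x ^ 3 + 8 * x ^ 4 + 3 * x ^ 5 +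
        13 * x ^ 6 + 2 * x ^ 7 + 13 * x ^ 8 + 10 * x ^ 10 + x ^ 11 + 2 * x ^ 12) * hq
  have hN : x ^ 80 = 1 := mul_left_cancel₀ h0 (by rw [← pow_succ', h4, mul_one])
  refine ⟨h0, mem_Ol_ne hN (fun e => one_ne_zero (α := Om K) (by
      linear_combination (x ^ 2 + 2 * x ^ 3 + x ^ 4 + x ^ 6 + 2 * x ^ 7) * hx + (1 + x ^ 2 + x ^ 5) * e + (x ^ 3 + x ^ 4 + x ^ 6 +
        3 * x ^ 7 + 2 * x ^ 8 + 2 * x ^ 11 + x ^ 12 - x ^ 13) * hq)), fun y hy e => ?_⟩
  have hr : 1 - 2 * x - 2 * x ^ 2 - x ^ 5 - x ^ 6 = 0 := by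
    linear_combination x ^ 6 * key y hy - ((-1) * x ^ 5 * ((x * y) ^ 0) + (-2) * x ^ 2 * ((x * y) ^ 0 + (x * y) ^ 1 + (x * y) ^ 2 +
        (x * y) ^ 3) + (-2) * x ^ 1 * ((x * y) ^ 0 + (x * y) ^ 1 + (x * y) ^ 2 + (x * y) ^ 3 + (x * y) ^ 4) + (1) * x ^ 0 * ((x * y) ^ 0 +
        (x * y) ^ 1 + (x * y) ^ 2 + (x * y) ^ 3 + (x * y) ^ 4 + (x * y) ^ 5)) * e
  exact one_ne_zero (α := Om K) (by
      linear_combination (2 * x + x ^ 2 + 2 * x ^ 4 + 2 * x ^ 5) * hx + (1 + x + x ^ 2 + 2 * x ^ 3 + 2 * x ^ 4 + 2 * x ^ 5) * hr + (x +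
        2 * x ^ 2 + x ^ 3 + 2 * x ^ 4 + 5 * x ^ 5 + 6 * x ^ 6 + 2 * x ^ 7 + 2 * x ^ 8 + 4 * x ^ 9 + 2 * x ^ 10) * hq)

theorem roots_b6p (hq : (3 : Om K) = 0) (x : Om K) (h : aeval x (pl K [2, 2, 1, 2, 0, 2]) = 0) :
    x ≠ 0 ∧ x ∈ Ol K [1, 2, 4, 5, 8, 10, 20, 40, 80] ∧ ∀ y : Om K, aeval y (pl K [2, 2, 1, 2, 0, 2]) = 0 → x * y ≠ 1 := by
  have key : ∀ x : Om K, aeval x (pl K [2, 2, 1, 2, 0, 2]) = 0 → x ^ 6 = 2 + 2 * x + x ^ 2 + 2 * x ^ 3 + 2 * x ^ 5 := fun x h => by
    simp [pl, Finset.sum_range_succ, map_ofNat] at h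
    linear_combination h
  have hx := key x h
  have h0 : x ≠ 0 := fun e => one_ne_zero (α := Om K) (by
      linear_combination (1) * hx + (2 + x + 2 * x ^ 2 + 2 * x ^ 4 + 2 * x ^ 5) * e + (1 - x ^ 6) * hq)
  have h2 : x ^ 9 = 2 + x + x ^ 2 + x ^ 5 := by
    linear_combination (1 + x + 2 * x ^ 2 + x ^ 3) * hx + (x + 2 * x ^ 2 + 3 * x ^ 3 + 2 * x ^ 4 + 2 * x ^ 5 + x ^ 6 + x ^ 7) * hq
  have h3 : x ^ 27 = 2 * x ^ 2 + x ^ 4 := by
    rw [show 27 = 9 * 3 from rfl, pow_mul, h2]
    linear_combination (2 + x + 2 * x ^ 2 + x ^ 3 + 2 * x ^ 4 + x ^ 5 + x ^ 6 + x ^ 7 + 2 * x ^ 8 + x ^ 9) * hx + (4 + 6 * x + 8 * x ^ 2 +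
        8 * x ^ 3 + 6 * x ^ 4 + 10 * x ^ 5 + 7 * x ^ 6 + 9 * x ^ 7 + 5 * x ^ 8 + 5 * x ^ 9 + 4 * x ^ 10 + 3 * x ^ 11 + 2 * x ^ 12 +
        x ^ 13) * hq
  have h4 : x ^ 81 = x := by
    rw [show 81 = 27 * 3 from rfl, pow_mul, h3]
    linear_combination (2 * x + x ^ 2 + x ^ 3 + x ^ 4 + 2 * x ^ 5 + x ^ 6) * hx + (x + 2 * x ^ 2 + 2 * x ^ 3 + 3 * x ^ 4 + 3 * x ^ 5 +
        7 * x ^ 6 + 2 * x ^ 7 + 6 * x ^ 8 + x ^ 9 + 3 * x ^ 10) * hq
  have hN : x ^ 80 = 1 := mul_left_cancel₀ h0 (by rw [← pow_succ', h4, mul_one])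
  refine ⟨h0, mem_Ol_ne hN (fun e => one_ne_zero (α := Om K) (by
      linear_combination (1 + 2 * x + 2 * x ^ 2 + x ^ 3 + 2 * x ^ 5 + x ^ 7) * hx + (x ^ 3 + 2 * x ^ 4 + 2 * x ^ 5) * e + (1 + 2 * x +
        3 * x ^ 2 + 3 * x ^ 3 + 2 * x ^ 4 + 3 * x ^ 5 + 3 * x ^ 6 + 2 * x ^ 7 + 2 * x ^ 8 + 2 * x ^ 10 - x ^ 11 -
        x ^ 13) * hq)), fun y hy e => ?_⟩
  have hr : 1 - 2 * x - 2 * x ^ 3 - x ^ 4 - 2 * x ^ 5 - 2 * x ^ 6 = 0 := by
    linear_combination x ^ 6 * key y hy - ((-2) * x ^ 5 * ((x * y) ^ 0) + (-1) * x ^ 4 * ((x * y) ^ 0 + (x * y) ^ 1) +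
        (-2) * x ^ 3 * ((x * y) ^ 0 + (x * y) ^ 1 + (x * y) ^ 2) + (-2) * x ^ 1 * ((x * y) ^ 0 + (x * y) ^ 1 + (x * y) ^ 2 + (x * y) ^ 3 +
        (x * y) ^ 4) + (1) * x ^ 0 * ((x * y) ^ 0 + (x * y) ^ 1 + (x * y) ^ 2 + (x * y) ^ 3 + (x * y) ^ 4 + (x * y) ^ 5)) * e
  exact one_ne_zero (α := Om K) (by
      linear_combination (2 + 2 * x + x ^ 2 + x ^ 3 + 2 * x ^ 4 + 2 * x ^ 5) * hx + (2 + 2 * x ^ 2 + x ^ 4 + x ^ 5) * hr + (1 + 4 * x +
        2 * x ^ 2 + 6 * x ^ 3 + 4 * x ^ 4 + 8 * x ^ 5 + 6 * x ^ 6 + 4 * x ^ 7 + 4 * x ^ 8 + 2 * x ^ 9 + 2 * x ^ 10) * hq)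

section

variable (h : Nat.card K = 3) (h3 : (3 : K) = 0)
include h h3

theorem md_tab3 {a : List ℕ} {n c : ℕ} (ht : ∀ L ∈ allL 3 (n + 1) (n + 1), dt 3 L % 3 = 1 % 3 →
      ∃ c', chk 3 (n + 1) (ent 3 (n + 1) c) (qc L) c' = true ∨ bad 3 (n + 1) (qc L) c' = true)
    (hc : eqm 3 (n + 1) (ent 3 (n + 1) c) (qc [a]) = true) {E : Type u} [AddCommGroup E] [Module K E] [FiniteDimensional K E]
    (hn : finrank K E = n + 1) {l : E ≃ₗ[K] E} (hl : NB l) (hd : LinearEquiv.det l = 1) :
    Md (Matrix.toLin' (toM K (n + 1) (qc [a]))) l := by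
  have hK : Small K := Or.inr ⟨h, h3⟩
  have : CharP K 3 := (CharP.charP_iff_prime_eq_zero Nat.prime_three).2 h3
  have h1 : ((2 : ℕ) : K) = -1 := by push_cast; linear_combination h3
  rw [← toM_eq hc]
  refine md_of_tab (fun x => ?_) h1 n.succ_pos ht hn hl hd
  rcases hK.cases one_ne_zero x with rfl | rfl | rfl
  exacts [⟨0, by simp, by simp⟩, ⟨1, by simp, by simp⟩, ⟨2, by simp, h1⟩]

theorem mods3 : Mod [1, 2, 13, 26] (Matrix.toLin' (toM K 3 (qc [[1, 1, 0]]))) 1 ∧
    Mod [5, 10, 20, 40, 80] (Matrix.toLin' (toM K 4 (qc [[2, 0, 2, 1]]))) 1 ∧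
    Mod [5, 10, 20, 40, 80] (Matrix.toLin' (toM K 4 (qc [[1, 0, 0, 1]]))) (-1) ∧
    Mod [1, 2, 11, 22, 121, 242] (Matrix.toLin' (toM K 5 (qc [[1, 1, 0, 0, 0]]))) 1 ∧
    Mod [1, 2, 4, 5, 8, 10, 20, 40, 80] (Matrix.toLin' (toM K 6 (qc [[2, 2, 1, 2, 0, 2]]))) 1 ∧
    Mod [1, 2, 4, 5, 8, 10, 20, 40, 80] (Matrix.toLin' (toM K 6 (qc [[1, 1, 0, 0, 2, 2]]))) (-1) := by
  have hK : Small K := Or.inr ⟨h, h3⟩
  have : CharP K 3 := (CharP.charP_iff_prime_eq_zero Nat.prime_three).2 h3
  have hc : ((3 - 1 : ℕ) : K) = -1 := by push_cast; linear_combination h3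
  have hq : (3 : Om K) = 0 := by simpa using CharP.cast_eq_zero (Om K) 3
  have hp : ∀ m : ℕ, m % 3 = 1 → (m : K) = 1 := fun m e => by simpa using (CharP.natCast_eq_natCast K 3 (b := 1)).2 e
  have hm : ∀ m : ℕ, m % 3 = 2 → (m : K) = -1 := fun m e => ((CharP.natCast_eq_natCast K 3 (b := 2)).2 e).trans hc
  have hs : ∀ {a : List ℕ} {n : ℕ}, a.length = n + 1 → dt 3 [a] % 3 = 2 → ∃ z : Matrix (Fin (n + 1)) (Fin (n + 1)) K,
      z * toM K (n + 1) (qc [a]) = toM K (n + 1) (qc [a]) * z ∧ z.det = -1 := fun a b =>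
    ⟨_, rfl, by simpa [hm _ b] using (comp_spec hc a).2⟩
  exact ⟨mod_of hK hc rfl (hp _ (by decide)) (roots_b3 hq) ⟨-1, by simp, by simp [Matrix.det_neg]; norm_num⟩,
    mod_of hK hc rfl (hp _ (by decide)) (roots_b4 hq)
      (hasZ_of (a := [1, 0, 0, 1]) (Z := 36215987) (c := 3411502) (c' := 33996967) hc rfl (hm _ (by decide)) (by decide +kernel)),
    mod_of hK hc rfl (hm _ (by decide)) (roots_b4x hq) (hs rfl (by decide)),
    mod_of hK hc rfl (hp _ (by decide)) (roots_b5 hq) ⟨-1, by simp, by simp [Matrix.det_neg]; norm_num⟩,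
    mod_of hK hc rfl (hp _ (by decide)) (roots_b6p hq)
      (hasZ_of (a := [1, 1, 2, 0, 0, 2]) (Z := 8319470932493503) (c := 8087588450056507) (c' := 111237333476457502) hc rfl (hm _ (by decide)) (by decide +kernel)),
    mod_of hK hc rfl (hm _ (by decide)) (roots_b6m hq) (hs rfl (by decide))⟩

theorem goal_of_md {V : Type*} [AddCommGroup V] [Module K V] [FiniteDimensional K V] {E : Type u} [AddCommGroup E] [Module K E]
    {s : List ℕ} {C C' : End K V} (a : Mod s C 1) (b : Mod s C' (-1)) {l : E ≃ₗ[K] E} (c : Md C l) (d : Md C' l) :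
    Goal (Ol K s) l := fun δ γ => by
  rcases Small.units (Or.inr ⟨h, h3⟩) δ with rfl | rfl
  exacts [a.gc c γ, b.gc d γ]

omit h h3 in
theorem neg_mem_Ol {N : ℕ} {s : List ℕ} (h0 : 0 < N) (hN : Even N) (h1 : ∀ d ∈ s, d ∣ N) (h2 : ∀ d ≤ N, d ∣ N → d ∈ s) :
    ∀ x ∈ Ol K s, -x ∈ Ol K s := fun _ hx => mem_Ol ((hN.neg_pow _).trans (orderOf_dvd_iff_pow_eq_one.1 (h1 _ hx))) h0 h2

theorem goal_six {E : Type u} [AddCommGroup E] [Module K E] [FiniteDimensional K E] (hn : finrank K E = 6) {l : E ≃ₗ[K] E}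
    (hl : NB l) (hd : LinearEquiv.det l = 1) (hr : rk l (-1) ≤ 1) : Goal (Ol K [1, 2, 4, 5, 8, 10, 20, 40, 80]) l := by
  have : CharP K 3 := (CharP.charP_iff_prime_eq_zero Nat.prime_three).2 h3
  have h2 : (2 : K) = -1 := by linear_combination h3
  obtain ⟨μ, z, e⟩ := (LinearEquiv.mem_dilatransvections_iff_finrank (e := l.trans (LinearEquiv.neg K))).2 (by
    rwa [← LinearMap.range_neg, show -(((l.trans (LinearEquiv.neg K) : E ≃ₗ[K] E) : End K E) - LinearMap.id) =
      (l : End K E) - (-1 : K) • 1 from LinearMap.ext fun x => by simp [add_comm]])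
  have h4 : ∀ x, l x = -(x + μ x • z) := fun x => neg_eq_iff_eq_neg.1 (LinearMap.congr_fun e x)
  have h5 : μ z = 0 := by
    have := congrArg LinearMap.det e
    rw [show ((l.trans (LinearEquiv.neg K) : E ≃ₗ[K] E) : End K E) = (-1 : K) • (l : End K E) from
      LinearMap.ext fun x => by simp, LinearMap.det_smul, hn, ← LinearEquiv.coe_det, hd] at this
    simpa [Even.neg_one_pow (show Even 6 by decide)] using this
  have h6 : ¬ ∀ x, μ x • z = 0 := fun a => by
    have : Nontrivial E := nontrivial_of_finrank_pos (R := K) (by omega)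
    obtain ⟨x, hx⟩ := exists_ne (0 : E)
    have := hl.1 (-1) (by simp [h4, a]) x
    rw [h4, a, add_zero] at this
    exact hx (by linear_combination (norm := module) this + h3 • x)
  obtain ⟨f, f1, f2⟩ := exists_equiv_pair (V := Fin 6 → K) (z := z) (μ := μ) (z' := Pi.single 0 1) (μ' := LinearMap.proj 1)
    (by simp [hn]) (fun e => h6 (by simp [e])) (by simp) (fun e => h6 (by simp [e]))
    (fun e => by simpa using LinearMap.congr_fun e 1) h5 (by simp)
  have h7 : ∀ x, ((f.trans l).trans f.symm) x = (toM K 6 fun i j => if i = j ∨ i = 0 ∧ j = 1 then 2 else 0).mulVec x :=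
    fun x => by
      rw [LinearEquiv.trans_apply, LinearEquiv.trans_apply, h4, f2, ← f1, ← map_smul, ← map_add, ← map_neg, f.symm_apply_apply]
      ext i
      fin_cases i <;> simp [toM, Matrix.mulVec, dotProduct, Fin.sum_univ_succ, h2]
      exact add_comm _ _
  obtain ⟨-, -, -, -, m1, m2⟩ := mods3 h h3
  exact goal_of_md h h3 m1 m2
    ((md_of_chk (q := 3) (C := qc [_]) (c := [100108864713186062, 2569075891651029, 23763036025107793, 139759645069907566, 113175064006459981, 94491398751470192, 130646882594110316])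
      (by decide +kernel) h7).congr f fun x => by simp)
    ((md_of_chk (q := 3) (C := qc [_]) (c := [100108864713186062, 95045045821403769, 126520821522428477, 14851434041756647, 97702610691988732, 148896129239551205, 75422164890664937])
      (by decide +kernel) h7).congr f fun x => by simp)

theorem step3 {o o' k k' r r' : ℕ} {s s' t : List ℕ} (hL : LevO K o k 1) (hL' : LevO K o' (k' + k') (-1)) (ho : o ∉ s)
    (ho' : o' ∉ s') (hU : Full (Ol K s) r) (hU' : Full (Ol K s') r') (h0 : 0 < k) (h0' : 0 < k') (hr : 3 ≤ r') (h1 : k < r)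
    (h2 : k ≤ r') (h4 : k' + k' + r' = k + r) (h5 : 3 ≤ r) (ht : ∀ d ∈ o :: s ++ o' :: s', d ∈ t) : Full (Ol K t) (k + r) :=
  fun E _ _ _ hE l hl hd => by
    have hK : Small K := Or.inr ⟨h, h3⟩
    by_cases e : k ≤ rk l (-1)
    · exact (hL.step hK ho hU (one_pow _) h0 h5 hE hl hd (Or.inr ⟨h1, by
        rwa [show (2 * (1 : Kˣ) : K) = -1 by simp; linear_combination h3]⟩)).mono
        (Ol_mono fun d hd => ht d (List.mem_append_left _ hd))
    · exact (hL'.step hK ho' hU' (Even.neg_one_pow ⟨_, rfl⟩) (by omega) hr (hE.trans h4.symm) hl hd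
        (Or.inl (by simpa using by omega))).mono (Ol_mono fun d hd => ht d (List.mem_append_right _ hd))

omit h h3 in
/-- The orders that occur. -/
def ords (m : ℕ) : List ℕ := [1, 2, 4, 5, 8, 10, 11, 13, 16, 20, 22, 26, 40, 80, 121, 242] ++
  (List.range (m + 1)).map fun i => 2 * (3 ^ i - 1)

theorem full_three (n : ℕ) (hn : 3 ≤ n) : Full (Ol K (ords ((n + 1) / 4))) n := by
  have hK : Small K := Or.inr ⟨h, h3⟩
  have := hK.finite
  have : Fact (Nat.Prime 3) := ⟨Nat.prime_three⟩
  have : CharP K 3 := (CharP.charP_iff_prime_eq_zero Nat.prime_three).2 h3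
  have hp : ∀ k, 2 ≤ k → 5 < Nat.card K ^ k := fun k hk =>
    h ▸ lt_of_lt_of_le (by norm_num) (Nat.pow_le_pow_right three_pos hk)
  have l1 : ∀ k, 2 ≤ k → LevO K (3 ^ k - 1) k 1 ∧ LevO K (3 ^ k - 1) (k + k) 1 := fun k hk => h ▸ levO_prim 3 (hp k hk)
  have l2 : ∀ k, 2 ≤ k → LevO K (2 * (3 ^ k - 1)) (k + k) 1 := fun k hk =>
    h ▸ levO_sqrt 3 (hp k hk) (h ▸ by decide) (Or.inl rfl)
  have l3 : ∀ k, 2 ≤ k → LevO K (2 * (3 ^ k - 1)) (k + k) (-1) := fun k hk =>
    h ▸ levO_sqrt 3 (hp k hk) (h ▸ by decide) (Or.inr rfl)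
  obtain ⟨m3, m4, m4', m5, -⟩ := mods3 h h3
  have f3 : Full (Ol K [1, 2, 13, 26]) 3 := fun E _ _ _ hE l hl hd =>
    have := md_tab3 h h3 (tab_spec _ _ tab_b3) (a := [1, 1, 0]) (by decide) hE hl hd
    goal_of_md h h3 m3 (m3.neg (by simp; decide) (neg_mem_Ol (N := 26) (by decide) (by decide) (by decide) (by decide))) this this.neg
  have f4 : Full (Ol K [5, 10, 20, 40, 80]) 4 := fun E _ _ _ hE l hl hd =>
    goal_of_md h h3 m4 m4' (md_tab3 h h3 (tab_spec _ _ tab_b4) (by decide) hE hl hd)
      (md_tab3 h h3 (tab_spec _ _ tab_b4x) (by decide) hE hl hd)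
  have f5 : Full (Ol K [1, 2, 11, 22, 121, 242]) 5 := fun E _ _ _ hE l hl hd =>
    have := md_tab3 h h3 tab_b5 (a := [1, 1, 0, 0, 0]) (by decide) hE hl hd
    goal_of_md h h3 m5 (m5.neg (by simp; decide) (neg_mem_Ol (N := 242) (by decide) (by decide) (by decide)
      (by decide +kernel))) this this.neg
  have f6 : Full (Ol K [1, 2, 4, 5, 8, 10, 20, 40, 80]) 6 := fun E _ _ _ hE l hl hd => by
    by_cases e : 2 ≤ rk l (-1)
    · exact ((l1 2 le_rfl).1.step hK (by decide) f4 (one_pow _) two_pos (by decide) hE hl hd (Or.inr ⟨by decide, by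
        rwa [show (2 * (1 : Kˣ) : K) = -1 by simp; linear_combination h3]⟩)).mono (Ol_mono (by decide))
    · exact goal_six h h3 hE hl hd (by omega)
  have f7 : Full (Ol K [1, 2, 5, 10, 13, 16, 20, 26, 40, 80]) 7 := step3 h h3 (l1 3 (by decide)).1 (l3 2 le_rfl) (by decide)
    (by decide) f4 f3 (by decide) (by decide) (by decide) (by decide) (by decide) rfl (by decide) (by decide)
  induction n using Nat.strong_induction_on with
  | _ n ih =>
  by_cases h13 : n < 13
  · interval_cases n
    · exact f3.mono (Ol_mono (by decide))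
    · exact f4.mono (Ol_mono (by decide))
    · exact f5.mono (Ol_mono (by decide))
    · exact f6.mono (Ol_mono (by decide))
    · exact f7.mono (Ol_mono (by decide))
    · exact step3 h h3 (l1 3 (by decide)).1 (l3 2 le_rfl) (by decide) (by decide) f5 f4 (by decide) (by decide) (by decide)
        (by decide) (by decide) rfl (by decide) (by decide)
    · exact step3 h h3 (l2 2 le_rfl) (l3 2 le_rfl) (by decide) (by decide) f5 f5 (by decide) (by decide) (by decide)
        (by decide) (by decide) rfl (by decide) (by decide)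
    · exact step3 h h3 (l2 2 le_rfl) (l3 2 le_rfl) (by decide) (by decide) f6 f6 (by decide) (by decide) (by decide)
        (by decide) (by decide) rfl (by decide) (by decide)
    · exact step3 h h3 (l1 2 le_rfl).2 (l3 3 (by decide)) (by decide) (by decide) f7 f5 (by decide) (by decide) (by decide)
        (by decide) (by decide) rfl (by decide) (by decide)
    · exact step3 h h3 (l1 5 (by decide)).1 (l3 3 (by decide)) (by decide) (by decide) f7 f6 (by decide) (by decide)
        (by decide) (by decide) (by decide) rfl (by decide) (by decide)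
  · obtain ⟨j, hj⟩ : ∃ j, j = (n - 1) / 4 := ⟨_, rfl⟩
    obtain ⟨r, rfl⟩ : ∃ r, n = j + j + r := ⟨n - (j + j), by omega⟩
    have a1 : 2 * (3 ^ j - 1) ∉ ords ((r + 1) / 4) := by
      simp only [ords, List.mem_append, List.mem_map, List.mem_range, not_or, not_exists, not_and]
      refine ⟨?_, fun i hi e => ?_⟩
      · rcases (show j = 3 ∨ j = 4 ∨ 5 ≤ j by omega) with rfl | rfl | e
        · decide
        · decide
        · have := Nat.pow_le_pow_right three_pos e
          simp only [List.mem_cons, List.not_mem_nil, or_false]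
          omega
      · have := Nat.pow_lt_pow_right (show 1 < 3 by decide) (show i < j by omega)
        have := Nat.pow_pos (n := i) three_pos
        omega
    have a2 := ih r (by omega) (by omega)
    refine step3 h h3 (l2 j (by omega)) (l3 j (by omega)) a1 a1 a2 a2 (by omega) (by omega) (by omega) (by omega) (by omega)
      rfl (by omega) fun d hd => ?_
    have a3 : d = 2 * (3 ^ j - 1) ∨ d ∈ ords ((r + 1) / 4) := by simpa [or_left_comm, or_assoc] using hd
    simp only [ords, List.mem_append, List.mem_map, List.mem_range] at a3 ⊢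
    rcases a3 with rfl | a | ⟨i, a, b⟩
    exacts [Or.inr ⟨j, by omega, rfl⟩, Or.inl a, Or.inr ⟨i, by omega, b⟩]

end

end CL.OreO
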