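/-
Commutators in general linear groups with a prescribed spectrum, part 8: fields with at least four elements, and the
final theorem.
-/
import Cfsg.Agent.Cls.OreGL5
import Cfsg.Agent.Cls.OreGL7
import Cfsg.Agent.Cls.ProdOre
import Cfsg.Agent.Cls.OrthOmega

set_option autoImplicit false

open Module Polynomial

namespace CL.OreO

open CL.Sp CL.Chev CL.GLn CL.SLn

universe u

variable {K : Type u} [Field K]

theorem tern [Finite K] (a b c d e f : K) : ∃ x y z : K, ¬ (x = 0 ∧ y = 0 ∧ z = 0) ∧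
    a * (x * x) + b * (y * y) + c * (z * z) + d * (x * y) + e * (x * z) + f * (y * z) = 0 := by
  obtain ⟨v, -, h0, h⟩ := CL.Cls.exists_singular_in_of_three_le (F := K) (V := Fin 3 → K)
    (a • QuadraticMap.proj 0 0 + b • QuadraticMap.proj 1 1 + c • QuadraticMap.proj 2 2 + d • QuadraticMap.proj 0 1 +
      e • QuadraticMap.proj 0 2 + f • QuadraticMap.proj 1 2) ⊤ (by simp)
  exact ⟨v 0, v 1, v 2, fun ⟨a, b, c⟩ => h0 (funext fun i => by fin_cases i <;> assumption), by simpa using h⟩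

theorem exists_rootless [Finite K] {a ν : K} (ha : a ≠ 0) (ha1 : a * a ≠ 1) (hν : ν ≠ 0) :
    ∃ t : K, t ≠ 0 ∧ ∀ μ : K, μ * μ - t * μ + ν ≠ 0 := by
  by_contra h
  push Not at h
  choose σ hσ using h
  have h0 : ∀ t ht, σ t ht ≠ 0 := fun t ht e => hν (by simpa [e] using hσ t ht)
  let f : {x : K // x ≠ 0} → {x : K // x ≠ 0} := fun t => ⟨σ t t.2, h0 _ _⟩
  have hf : Function.Injective f := fun s t e => Subtype.ext <| mul_right_cancel₀ (h0 t t.2) <| by
    have e' : σ s s.2 = σ t t.2 := congrArg Subtype.val e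
    have := hσ s s.2
    rw [e'] at this
    linear_combination hσ t t.2 - this
  have key : ∀ s : K, s ≠ 0 → s * s = ν := fun s hs => by
    obtain ⟨t, ht⟩ := Finite.surjective_of_injective hf ⟨s, hs⟩
    obtain ⟨t', ht'⟩ := Finite.surjective_of_injective hf ⟨ν / s, div_ne_zero hν hs⟩
    have e1 : σ t t.2 = s := congrArg Subtype.val ht
    have e2 : σ t' t'.2 = ν / s := congrArg Subtype.val ht'
    have a1 := hσ t t.2
    have a2 := hσ t' t'.2
    rw [e1] at a1
    rw [e2] at a2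
    have e3 : t = t' := Subtype.ext <| mul_right_cancel₀ (mul_ne_zero hν hs) <| by
      field_simp at a2
      linear_combination a2 - ν * a1
    subst e3
    rw [← eq_div_iff hs, ← e2, e1]
  exact ha1 ((key a ha).trans ((key 1 one_ne_zero).symm.trans (one_mul _)))

/-- The polynomial `X² - t X + ν`. -/
noncomputable def pq (t ν : K) : K[X] := C 1 * X ^ 2 + C (-t) * X + C ν

/-- Its companion matrix. -/
noncomputable def cq (t ν : K) : End K (Fin 2 → K) := Matrix.toLin' !![0, -ν; 1, t]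

variable {t ν : K}

theorem natDegree_pq : (pq t ν).natDegree = 2 := natDegree_quadratic one_ne_zero

theorem monic_pq : (pq t ν).Monic := leadingCoeff_quadratic one_ne_zero

theorem eval_pq (a : K) : (pq t ν).eval a = a * a - t * a + ν := by simp [pq]; ring

theorem aeval_pq {V : Type*} [AddCommGroup V] [Module K V] {T : End K V} :
    aeval T (pq t ν) = 0 ↔ ∀ x, T (T x) = t • T x - ν • x := by
  rw [LinearMap.ext_iff]
  refine forall_congr' fun x ↦ ?_
  simp only [pq, map_add, map_mul, aeval_C, aeval_X, Algebra.algebraMap_eq_smul_one, pow_two,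
    LinearMap.add_apply, End.mul_apply, LinearMap.smul_apply, End.one_apply, LinearMap.zero_apply]
  exact ⟨fun h ↦ by linear_combination (norm := module) h, fun h ↦ by linear_combination (norm := module) h⟩

theorem aeval_pq_mat (M : Matrix (Fin 2) (Fin 2) K) (h1 : M 0 0 + M 1 1 = t) (h2 : M 0 0 * M 1 1 - M 0 1 * M 1 0 = ν) :
    aeval (Matrix.toLin' M) (pq t ν) = 0 := aeval_pq.2 fun x => by
  subst h1 h2
  ext i
  fin_cases i <;> simp [Matrix.mulVec, dotProduct, Fin.sum_univ_two] <;> ring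

theorem cyc_pq (ht : ∀ μ : K, μ * μ - t * μ + ν ≠ 0) {V : Type*} [AddCommGroup V] [Module K V] [FiniteDimensional K V]
    (h2 : finrank K V = 2) {T : End K V} (h : aeval T (pq t ν) = 0) : ∃ u, cyc T u = ⊤ := by
  have : Nontrivial V := nontrivial_of_finrank_eq_succ h2
  obtain ⟨u, hu⟩ := exists_ne (0 : V)
  exact ⟨u, cyc_top_of_two h2 (fun a e ↦ hu (inj_of_eval_ne_zero h (by rw [eval_pq]; exact ht a) u e.symm)) hu⟩

theorem exists_conic [Finite K] {τ : K} (hτ : τ ≠ 2) (ht : t ≠ 0) (ν : K) :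
    ∃ u z : K, u * u - τ * (u * z) + z * z - t * u + t * z + ν = 0 := by
  obtain ⟨u, z, w, h0, h⟩ := tern 1 1 ν (-τ) (-t) t
  by_cases hw : w = 0
  · subst hw
    have huz : u - z ≠ 0 := fun e => by
      obtain rfl := sub_eq_zero.1 e
      have : (2 - τ) * (u * u) = 0 := by linear_combination h
      rw [mul_eq_zero, mul_self_eq_zero, sub_eq_zero] at this
      exact this.elim (fun e => hτ e.symm) fun e => h0 ⟨e, e, rfl⟩
    obtain ⟨s, hs⟩ : ∃ s, s * (t * (u - z)) = ν := ⟨_, div_mul_cancel₀ _ (mul_ne_zero ht huz)⟩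
    exact ⟨s * u, s * z, by linear_combination s * s * h - hs⟩
  · refine ⟨u / w, z / w, ?_⟩
    field_simp
    linear_combination h

theorem res_pq [Finite K] (ht0 : t ≠ 0) (ht : ∀ μ : K, μ * μ - t * μ + ν ≠ 0) {V : Type*} [AddCommGroup V] [Module K V]
    [FiniteDimensional K V] (h2 : finrank K V = 2) {g : End K V} (hg : LinearMap.det g = 1) {v : V} (hv : cyc g v = ⊤)
    (hB : ∃ x, g (g x - x) ≠ g x - x) (c : V) (r : Dual K V) :
    Res 1 (pq t ν) (fun u => LinearMap.det (aeval (cq t ν) u)) g c r := by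
  obtain ⟨τ, hτ⟩ := exists_ch_two (g := g) h2
  simp only [hg, one_smul] at hτ
  obtain ⟨e, he⟩ := exists_equiv_cmp h2 hv hτ
  obtain ⟨u, z, h⟩ := exists_conic (τ := τ) (fun e => let ⟨x, hx⟩ := hB; hx (by
    rw [map_sub, hτ, e]; module)) ht0 ν
  let M : Matrix (Fin 2) (Fin 2) K := !![t - u, z + t - τ * u; z, u]
  have s1 : Sim (Matrix.toLin' M) (e.symm.conj (Matrix.toLin' M)) := ⟨e.symm, fun x => by simp [LinearEquiv.conj_apply]⟩
  have s2 : Sim (Matrix.toLin' (!![0, -1; 1, τ] * M)) (g * e.symm.conj (Matrix.toLin' M)) :=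
    ⟨e.symm, fun x => e.injective (by simp [LinearEquiv.conj_apply, he, SLn.cmp, -Matrix.cons_mul])⟩
  have h1 := (s1.aeval_eq_zero_iff _).1 (aeval_pq_mat (t := t) (ν := ν) M (by simp [M]) (by simp [M]; linear_combination -h))
  have h3 := (s2.aeval_eq_zero_iff _).1 (aeval_pq_mat (t := t) (ν := ν) _ (by simp [M])
    (by simp [M]; linear_combination -h))
  have h0 : aeval (cq t ν) (pq t ν) = 0 := aeval_pq_mat _ (by simp) (by simp)
  have e1 : (pq t ν).eval 1 ≠ 0 := by rw [eval_pq]; exact ht 1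
  obtain ⟨w, hw⟩ := cyc_pq ht h2 h3
  obtain ⟨w', hw'⟩ := cyc_pq ht (by simp) h0
  exact ⟨_, cyc_pq ht h2 h1, ⟨w, hw⟩, h1, h3, Or.inl (surj_of_inj (T := g * _) (inj_of_eval_ne_zero h3 e1)),
    Or.inl (inj_of_eval_ne_zero h1 e1), fun p => (Sim.aeval (exists_equiv_of_cyc hw hw' monic_pq.ne_zero h3 h0
      (natDegree_pq.trans h2.symm) (by simp [natDegree_pq])) p).det⟩

theorem exists_det_pq [Finite K] (ht : ∀ μ : K, μ * μ - t * μ + ν ≠ 0) (k : ℕ) (δ : K) :
    ∃ u : K[X], u.eval 1 ^ k * LinearMap.det (aeval (cq t ν) u) = δ := by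
  obtain ⟨x, y, z, h0, h⟩ := tern 1 ν (-δ) t 0 0
  have hz : z ≠ 0 := fun hz => by
    subst hz
    by_cases hy : y = 0
    · exact h0 ⟨mul_self_eq_zero.1 (by linear_combination h - (ν * y + t * x) * hy), hy, rfl⟩
    · refine ht (-x / y) ?_
      field_simp
      linear_combination h
  have e1 : (pq t ν).eval 1 ≠ 0 := by rw [eval_pq]; exact ht 1
  have h1 : aeval (cq t ν) (pq t ν) = 0 := aeval_pq_mat _ (by simp) (by simp)
  refine ⟨C (x / z) + C (y / z) * X + C ((1 - (x / z + y / z)) / (pq t ν).eval 1) * pq t ν, ?_⟩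
  have e2 : aeval (cq t ν) (C (x / z) + C (y / z) * X) = Matrix.toLin' !![x / z, -ν * (y / z); y / z, x / z + t * (y / z)] := by
    ext i j
    fin_cases i <;> fin_cases j <;> simp [cq, Algebra.algebraMap_eq_smul_one]
    exacts [mul_comm _ _, mul_comm _ _]
  rw [map_add, map_mul, h1, mul_zero, add_zero, e2]
  simp [div_mul_cancel₀ _ e1]
  field_simp
  linear_combination h

theorem sig_pq {a : K} (ha : a ≠ 0) (ha1 : a * a ≠ 1) (hν : ν ≠ 0) (hν1 : a * a * ν ≠ 1)
    (ht : ∀ μ : K, μ * μ - t * μ + ν ≠ 0) (k : ℕ) :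
    Sig {x : Om K | aeval x (((X - C 1) ^ k * pq t ν).comp (C a⁻¹ * X)) = 0} := by
  have hi := (algebraMap K (Om K)).injective
  have h1 : ∀ x : Om K, aeval x (((X - C 1) ^ k * pq t ν).comp (C a⁻¹ * X)) = 0 → ∃ y, x = algebraMap K _ a * y ∧
      (y = 1 ∨ y * y - algebraMap K _ t * y + algebraMap K _ ν = 0) := fun x hx => by
    refine ⟨algebraMap K _ a⁻¹ * x, by rw [← mul_assoc, ← map_mul, mul_inv_cancel₀ ha, map_one, one_mul], ?_⟩
    rw [aeval_comp, map_mul, mul_eq_zero, map_mul, aeval_C, aeval_X] at hx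
    refine hx.imp (fun h => ?_) fun h => ?_
    · rw [map_pow] at h
      simpa [sub_eq_zero] using pow_eq_zero_iff'.1 h |>.1
    · simp only [pq, map_add, map_mul, aeval_C, aeval_X, map_pow, map_one, map_neg] at h
      linear_combination h
  have h2 : ∀ (b : K) (y : Om K), algebraMap K _ b * y = 1 → y * y - algebraMap K _ t * y + algebraMap K _ ν ≠ 0 :=
    fun b y h e => ht b⁻¹ (hi (by rw [eq_inv_of_mul_eq_one_right h] at e; simpa using e))
  refine ⟨fun h => ?_, fun x hx x' hx' h => ?_⟩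
  · obtain ⟨y, e, h⟩ := h1 _ h
    obtain rfl : y = 0 := by simpa [ha] using e
    simp [hν] at h
  obtain ⟨y, rfl, b | b⟩ := h1 _ hx <;> obtain ⟨y', rfl, b' | b'⟩ := h1 _ hx'
  · exact ha1 (hi (by simpa [b, b'] using h))
  · exact h2 (a * a) y' (by rw [map_mul, ← h, b]; ring) b'
  · exact h2 (a * a) y (by rw [map_mul, ← h, b']; ring) b
  · have e : (y - y') * (y + y' - algebraMap K _ t) = 0 := by linear_combination b - b'
    rcases mul_eq_zero.1 e with e | e
    · obtain rfl := sub_eq_zero.1 e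
      exact (mul_self_eq_one_iff.1 h).elim (fun e => h2 a y e b) fun e => h2 (-a) y (by rw [map_neg, neg_mul, e, neg_neg]) b
    · refine hν1 (hi ?_)
      rw [map_mul, map_mul, map_one]
      linear_combination h + algebraMap K (Om K) a * algebraMap K (Om K) a * (b - y * e)

variable {E : Type u} [AddCommGroup E] [Module K E] [FiniteDimensional K E]

theorem exists_cyc_pq [Finite K] (h4 : ∀ a b c : K, ∃ x, x ≠ a ∧ x ≠ b ∧ x ≠ c) {m : ℕ} (hm : finrank K E = m + 1 + 2)
    (ht0 : t ≠ 0) (ht : ∀ μ : K, μ * μ - t * μ + ν ≠ 0) {l : E ≃ₗ[K] E} (hl : NB l) (hd : LinearEquiv.det l = 1) :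
    ∃ D : End K E, (∃ u, cyc D u = ⊤) ∧ (∃ u, cyc ((l : End K E) * D) u = ⊤) ∧
      aeval D ((X - C 1) ^ (m + 1) * pq t ν) = 0 ∧ aeval ((l : End K E) * D) ((X - C 1) ^ (m + 1) * pq t ν) = 0 ∧
      ∀ δ, ∃ u : K[X], LinearMap.det (aeval ((l : End K E) * D) u) = δ := by
  have hP : ((X - C 1) ^ (m + 1) * pq t ν).Monic := ((monic_X_sub_C _).pow _).mul monic_pq
  have hdP : ((X - C 1) ^ (m + 1) * pq t ν).natDegree = finrank K E := by
    rw [natDegree_peel monic_pq.ne_zero natDegree_pq, hm]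
  have key : ∀ g : End K E, LinearMap.det g = 1 → (∀ c : K, g ≠ c • 1) → (∀ (z : E) (μ : Dual K E), z ≠ 0 → μ ≠ 0 →
      μ z = 0 → ¬ ∀ x, g x = x + μ x • z) → ∃ D : End K E, (∃ u, cyc D u = ⊤) ∧ (∃ u, cyc (g * D) u = ⊤) ∧
      aeval D ((X - C 1) ^ (m + 1) * pq t ν) = 0 ∧ aeval (g * D) ((X - C 1) ^ (m + 1) * pq t ν) = 0 ∧
      ∀ δ, ∃ u : K[X], LinearMap.det (aeval (g * D) u) = δ := fun g h1 h2 h3 => by
    rcases res_top h4 (fun V _ _ _ g v c r b1 b2 b3 _ _ b4 => res_pq ht0 ht b1 b2 b3 b4 c r) hm h1 h2 with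
      ⟨c, r, D, b1, b2, b3, b4, -, -, b5⟩ | ⟨z, μ, b1, b2, b3, b4⟩
    · exact ⟨D, b1, b2, b3, b4, fun δ => let ⟨u, hu⟩ := exists_det_pq ht (m + 1) δ; ⟨u, (b5 u).trans hu⟩⟩
    · exact absurd b4 (h3 z μ b1 b2 b3)
  by_cases hns : ∃ c : K, (l : End K E) = c • 1
  · obtain ⟨c, hc⟩ := hns
    obtain rfl : l = 1 := LinearEquiv.ext (hl.1 c fun x => LinearMap.congr_fun hc x)
    obtain ⟨a, ha, ha1⟩ := exists_split_elt h4
    let b := Module.finBasisOfFinrankEq K E hm
    let d : Fin (m + 1 + 2) → K := fun i => if i = 0 then a else if i = 1 then a⁻¹ else 1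
    let g : End K E := b.constr K fun i => d i • b i
    have hg : ∀ i, g (b i) = d i • b i := fun i => b.constr_basis _ _ i
    have h0 : g (b 0) = a • b 0 := by simp [hg, d]
    have h1 : g (b 1) = a⁻¹ • b 1 := by rw [hg]; rfl
    have h2 : a ≠ 1 := fun e => ha1 (by rw [e, one_mul])
    obtain ⟨D, -, b2, -, b4, b5⟩ := key g (by
      rw [← LinearMap.det_toMatrix b, show LinearMap.toMatrix b b g = Matrix.diagonal d by
        ext i j
        rw [LinearMap.toMatrix_apply, hg, Matrix.diagonal_apply]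
        split_ifs with h <;> simp [h], Matrix.det_diagonal, Fin.prod_univ_succ, Fin.prod_univ_succ]
      exact (congrArg (a * ·) ((congrArg (a⁻¹ * ·) (Finset.prod_eq_one fun i _ => if_neg (Fin.succ_ne_zero _) |>.trans
        (if_neg fun e => Fin.succ_ne_zero _ (Fin.succ_injective _ e)))).trans (mul_one _))).trans (mul_inv_cancel₀ ha))
      (fun c e => by
        rw [e] at h0 h1
        have a0 : c = a := smul_left_injective K (b.ne_zero 0) h0
        have a1 : c = a⁻¹ := smul_left_injective K (b.ne_zero 1) h1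
        exact ha1 ((congrArg (a * ·) (a0.symm.trans a1)).trans (mul_inv_cancel₀ ha))) fun z μ c1 c2 c3 e => by
        rw [e] at h0
        have a0 : μ (b 0) = 0 := by
          have := congrArg μ h0
          simp only [map_add, map_smul, c3, smul_eq_mul, mul_zero, add_zero] at this
          exact (mul_eq_zero.1 (show (a - 1) * μ (b 0) = 0 by linear_combination -this)).resolve_left (sub_ne_zero.2 h2)
        rw [a0, zero_smul, add_zero] at h0
        exact h2 (smul_left_injective K (b.ne_zero 0) (h0.symm.trans (one_smul K _).symm))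
    exact ⟨g * D, b2, b2, b4, b4, b5⟩
  · exact key l (by rw [← LinearEquiv.coe_det, hd, Units.val_one]) (not_exists.1 hns) hl.2

theorem gc_four [Finite K] (h4 : ∀ a b c : K, ∃ x, x ≠ a ∧ x ≠ b ∧ x ≠ c) (h3 : 3 ≤ finrank K E) {l : E ≃ₗ[K] E}
    (hl : NB l) (hd : LinearEquiv.det l = 1) : ∃ T, Sig T ∧ ∃ δ : Kˣ, IsSquare (δ : K) ∧ GC T l δ 1 := by
  obtain ⟨a, ha, ha1⟩ := exists_split_elt h4
  obtain ⟨m, hm⟩ : ∃ m, finrank K E = m + 1 + 2 := ⟨finrank K E - 3, by omega⟩
  obtain ⟨ν, hν, hν1, hν2⟩ : ∃ ν : K, ν ≠ 0 ∧ a * a * ν ≠ 1 ∧ IsSquare (a ^ (m + 1 + 2) * ν) := by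
    rcases Nat.even_or_odd' m with ⟨k, rfl | rfl⟩
    · exact ⟨a⁻¹, inv_ne_zero ha, fun e => ha1 (by rw [mul_inv_cancel_right₀ ha] at e; rw [e, one_mul]),
        a ^ (k + 1), by field_simp; ring⟩
    · exact ⟨1, one_ne_zero, by simpa, a ^ (k + 2), by ring⟩
  obtain ⟨t, ht0, ht⟩ := exists_rootless ha ha1 hν
  have hP : ((X - C 1) ^ (m + 1) * pq t ν).Monic := ((monic_X_sub_C _).pow _).mul monic_pq
  have hdP : ((X - C 1) ^ (m + 1) * pq t ν).natDegree = finrank K E := by
    rw [natDegree_peel monic_pq.ne_zero natDegree_pq, hm]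
  obtain ⟨D, ⟨w, a1⟩, ⟨w', a2⟩, a3, a4, a5⟩ := exists_cyc_pq h4 hm ht0 ht hl hd
  obtain ⟨e, he⟩ := exists_equiv_of_cyc a2 a1 hP.ne_zero a4 a3 hdP hdP
  refine ⟨_, sig_pq ha ha1 hν hν1 ht (m + 1), Units.mk0 _ (mul_ne_zero (pow_ne_zero (m + 1 + 2) ha) hν), hν2,
    Md.gc (C := a • ((l : End K E) * D)) ⟨e, 1, fun x => ?_⟩ ⟨_, ?_, fun _ h => h⟩ ?_ (fun γ => ?_) 1⟩
  · simp only [LinearMap.smul_apply, map_smul, he, LinearEquiv.apply_symm_apply]
    rfl
  · rw [aeval_comp, map_mul (aeval _) (C _), aeval_C, aeval_X, ← Algebra.smul_def, inv_smul_smul₀ ha, a4]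
  · rw [LinearMap.det_smul, det_of_cyc a2 hP hdP a4, hm, coeff_zero_eq_eval_zero]
    simp [eval_pq, ← mul_assoc, pow_add, ← mul_pow]
  · obtain ⟨u, hu⟩ := a5 γ
    exact ⟨_, LinearMap.ext fun x => (LinearMap.map_smul _ a _).trans
      (congrArg (a • ·) (aeval_comm_apply ((l : End K E) * D) u x)), hu⟩

/-- An element of `SL(E)` that is not a nontrivial scalar nor a transvection is a commutator of two elements of square
determinant, the first of them having no two eigenvalues inverse to each other. -/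
theorem gl_main [Finite K] (h3 : 3 ≤ finrank K E) {l : E ≃ₗ[K] E} (hl : NB l) (hd : LinearEquiv.det l = 1) :
    ∃ T, Sig T ∧ ∃ δ : Kˣ, IsSquare (δ : K) ∧ GC T l δ 1 := by
  have := Fintype.ofFinite K
  by_cases h : 4 ≤ Fintype.card K
  · exact gc_four ((four_or_small K).1 h) h3 hl hd
  have h1 : 1 < Fintype.card K := Fintype.one_lt_card
  have h2 := FiniteField.cast_card_eq_zero K
  obtain e | e : Fintype.card K = 2 ∨ Fintype.card K = 3 := by omega
  · obtain ⟨T, -, a, b⟩ := full_two (Nat.card_eq_fintype_card.trans e) (by simpa [e] using h2) _ h3 E rfl l hl hd 1 1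
    exact ⟨T, a, 1, by simp, b⟩
  · obtain ⟨T, -, a, b⟩ := full_three (Nat.card_eq_fintype_card.trans e) (by simpa [e] using h2) _ h3 E rfl l hl hd 1 1
    exact ⟨T, a, 1, by simp, b⟩

end CL.OreO
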