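/-
Products of two cyclic maps with prescribed characteristic polynomials: a triangularisable map with two different
eigenvalues is `A * D⁻¹` with `A`, `D` cyclic and arbitrary characteristic polynomials of the right determinant.
-/
import Cfsg.Agent.Cls.ProdCyc
import Cfsg.Agent.Known.UniClass1

set_option autoImplicit false

open Module Polynomial

namespace CL.OreH

open CL.SLn

variable {K W : Type*} [Field K] [AddCommGroup W] [Module K W]

/-- A full flag with vectors and functionals for the successive quotients. -/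
structure Flag (m : ℕ) (U : ℕ → Submodule K W) (e : ℕ → W) (φ : ℕ → Dual K W) : Prop where
  bot : U 0 = ⊥
  top : ∀ k, m ≤ k → U k = ⊤
  mono : Monotone U
  mem : ∀ k < m, e k ∈ U (k + 1)
  one : ∀ k < m, φ k (e k) = 1
  zero : ∀ k < m, ∀ v ∈ U k, φ k v = 0
  low : ∀ k < m, ∀ v ∈ U (k + 1), φ k v = 0 → v ∈ U k

/-- Hessenberg maps with subdiagonal `s`. -/
def Hess (m : ℕ) (U : ℕ → Submodule K W) (φ : ℕ → Dual K W) (s : ℕ → K) (D : End K W) : Prop :=
  ∀ k, ∀ v ∈ U (k + 1), D v ∈ U (k + 2) ∧ (k + 1 < m → φ (k + 1) (D v) = s k * φ k v)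

/-- Degree less than `n`. -/
def Lo (n : ℕ) (f : K[X]) : Prop := ∀ i, n ≤ i → f.coeff i = 0

variable {m : ℕ} {U : ℕ → Submodule K W} {e : ℕ → W} {φ : ℕ → Dual K W} {s : ℕ → K} {D : End K W}

theorem aeval_divX (D : End K W) (Q : K[X]) (x : W) : aeval D Q x = D (aeval D Q.divX x) + Q.coeff 0 • x := by
  conv_lhs => rw [← X_mul_divX_add Q, map_add, map_mul, aeval_X, aeval_C]
  rfl

theorem natDegree_divX_le' {Q : K[X]} {k : ℕ} (h : Q.natDegree ≤ k + 1) : Q.divX.natDegree ≤ k := by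
  rw [natDegree_divX_eq_natDegree_tsub_one]; omega

theorem Hess.aeval_mem (hF : Flag m U e φ) (h : Hess m U φ s D) (hm : 0 < m) (k : ℕ) : ∀ Q : K[X], Q.natDegree ≤ k →
    aeval D Q (e 0) ∈ U (k + 1) ∧ (k < m → φ k (aeval D Q (e 0)) = Q.coeff k * ∏ j ∈ Finset.range k, s j) := by
  induction k with
  | zero =>
    intro Q hQ
    rw [eq_C_of_natDegree_le_zero hQ]
    simp [Module.algebraMap_end_apply, hF.one 0 hm, Submodule.smul_mem _ _ (hF.mem 0 hm)]
  | succ k ih =>
    intro Q hQ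
    obtain ⟨h1, h2⟩ := ih _ (natDegree_divX_le' hQ)
    have h3 : e 0 ∈ U (k + 1) := hF.mono (by omega) (hF.mem 0 hm)
    rw [aeval_divX]
    refine ⟨add_mem (h k _ h1).1 (Submodule.smul_mem _ _ (hF.mono (by omega) h3)), fun hk => ?_⟩
    rw [map_add, map_smul, hF.zero _ hk _ h3, (h k _ h1).2 hk, h2 (by omega), coeff_divX, Finset.prod_range_succ]
    simp only [smul_eq_mul]; ring

theorem Hess.eq_zero (hF : Flag m U e φ) (h : Hess m U φ s D) (hs : ∀ k, s k ≠ 0) (hm : 0 < m) {Q : K[X]} (hQ : Lo m Q)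
    (h0 : aeval D Q (e 0) = 0) : Q = 0 := by
  by_contra hne
  have hd : Q.natDegree < m := by
    by_contra hd
    exact hne (leadingCoeff_eq_zero.1 (hQ _ (by omega)))
  have := (h.aeval_mem hF hm _ Q le_rfl).2 hd
  rw [h0, map_zero, eq_comm, mul_eq_zero, Finset.prod_eq_zero_iff] at this
  exact this.elim (fun e => hne (leadingCoeff_eq_zero.1 e)) fun ⟨j, _, e⟩ => hs j e

theorem Hess.exists_poly (hF : Flag m U e φ) (h : Hess m U φ s D) (hs : ∀ k, s k ≠ 0) (k : ℕ) (hk : k < m) :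
    ∀ v ∈ U (k + 1), ∃ Q : K[X], Q.natDegree ≤ k ∧ aeval D Q (e 0) = v := by
  have key : ∀ k < m, ∀ v ∈ U (k + 1), ∃ c : K, v - aeval D (C c * X ^ k : K[X]) (e 0) ∈ U k := fun k hk v hv => by
    obtain ⟨h1, h2⟩ := h.aeval_mem hF (by omega) k (C (φ k v / ∏ j ∈ Finset.range k, s j) * X ^ k)
      ((natDegree_C_mul_le _ _).trans (natDegree_X_pow_le k))
    refine ⟨_, hF.low k hk _ (sub_mem hv h1) ?_⟩
    rw [map_sub, h2 hk, coeff_C_mul_X_pow, if_pos rfl,
      div_mul_cancel₀ _ (Finset.prod_ne_zero_iff.2 fun j _ => hs j), sub_self]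
  induction k with
  | zero =>
    intro v hv
    obtain ⟨c, hc⟩ := key 0 hk v hv
    rw [hF.bot, Submodule.mem_bot, sub_eq_zero] at hc
    exact ⟨_, (natDegree_C_mul_le _ _).trans (natDegree_X_pow_le 0), hc.symm⟩
  | succ k ih =>
    intro v hv
    obtain ⟨c, hc⟩ := key _ hk v hv
    obtain ⟨Q, h1, h2⟩ := ih (by omega) _ hc
    exact ⟨Q + C c * X ^ (k + 1), natDegree_add_le_of_degree_le (by omega)
      ((natDegree_C_mul_le _ _).trans (natDegree_X_pow_le _)), by rw [map_add, LinearMap.add_apply, h2, sub_add_cancel]⟩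

theorem Hess.cyc_eq (hF : Flag m U e φ) (h : Hess m U φ s D) (hs : ∀ k, s k ≠ 0) (hm : 0 < m) : cyc D (e 0) = ⊤ := by
  refine eq_top_iff.2 fun v _ => ?_
  obtain ⟨Q, -, hQ⟩ := h.exists_poly hF hs (m - 1) (by omega) v (by rw [hF.top _ (by omega)]; trivial)
  exact mem_cyc.2 ⟨Q, hQ⟩

theorem Hess.update (hF : Flag m U e φ) (h : Hess m U φ s D) {a b : ℕ} (hab : a ≤ b) (hb : b < m) {w : W}
    (hw : w ∈ U (a + 1)) : Hess m U φ s (D + (φ b).smulRight w) := fun k v hv => by
  simp only [LinearMap.add_apply, LinearMap.smulRight_apply]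
  rcases Nat.lt_or_ge k b with hk | hk
  · rw [hF.zero b hb v (hF.mono (by omega) hv), zero_smul, add_zero]
    exact h k v hv
  · refine ⟨add_mem (h k v hv).1 (Submodule.smul_mem _ _ (hF.mono (by omega) hw)), fun hk' => ?_⟩
    rw [map_add, map_smul, hF.zero _ hk' w (hF.mono (by omega) hw), smul_zero, add_zero, (h k v hv).2 hk']

theorem Hess.update_low (hF : Flag m U e φ) (h : Hess m U φ s D) {b : ℕ} (hb : b < m) (w : W) (k : ℕ) (hk : k ≤ b) :
    ∀ Q : K[X], Q.natDegree ≤ k → aeval (D + (φ b).smulRight w) Q (e 0) = aeval D Q (e 0) := by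
  induction k with
  | zero =>
    intro Q hQ
    rw [eq_C_of_natDegree_le_zero hQ]
    simp [Module.algebraMap_end_apply]
  | succ k ih =>
    intro Q hQ
    rw [aeval_divX, aeval_divX D, ih (by omega) _ (natDegree_divX_le' hQ), LinearMap.add_apply, LinearMap.smulRight_apply,
      hF.zero b hb _ (hF.mono (by omega) (h.aeval_mem hF (by omega) k _ (natDegree_divX_le' hQ)).1), zero_smul, add_zero]

theorem Hess.update_high (hF : Flag m U e φ) (h : Hess m U φ s D) {b : ℕ} (hb : b < m) (w : W) (j : ℕ) :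
    ∀ Q : K[X], Q.natDegree ≤ b + j + 1 → ∃ R : K[X], R.natDegree ≤ j ∧
      R.coeff j = Q.coeff (b + j + 1) * ∏ i ∈ Finset.range b, s i ∧
      aeval (D + (φ b).smulRight w) Q (e 0) = aeval D Q (e 0) + aeval D R w := by
  induction j with
  | zero =>
    intro Q hQ
    have h1 := natDegree_divX_le' hQ
    refine ⟨C _, (natDegree_C _).le, coeff_C_zero, ?_⟩
    rw [aeval_divX, aeval_divX D Q, h.update_low hF hb w b le_rfl _ h1, LinearMap.add_apply, LinearMap.smulRight_apply,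
      (h.aeval_mem hF (by omega) b _ h1).2 hb, coeff_divX]
    simp only [aeval_C, Module.algebraMap_end_apply, add_zero]
    abel
  | succ j ih =>
    intro Q hQ
    obtain ⟨R, h1, h2, h3⟩ := ih _ (natDegree_divX_le' hQ)
    refine ⟨X * R + C (φ b (aeval (D + (φ b).smulRight w) Q.divX (e 0))), natDegree_add_le_of_degree_le
      (natDegree_mul_le.trans (by have := natDegree_X_le (R := K); omega)) (by simp), ?_, ?_⟩
    · rw [coeff_add, coeff_X_mul, coeff_C_succ, add_zero, h2, coeff_divX, add_assoc b]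
    · rw [aeval_divX, aeval_divX D Q, LinearMap.add_apply, LinearMap.smulRight_apply]
      generalize φ b (aeval (D + (φ b).smulRight w) Q.divX (e 0)) = c
      rw [h3]
      simp only [map_add, map_mul, aeval_X, aeval_C, Module.algebraMap_end_apply, LinearMap.add_apply, End.mul_apply]
      abel

variable [FiniteDimensional K W]

theorem lo_charpoly_sub (hm : finrank K W = m) (D : End K W) {P : K[X]} (hP : P.Monic) (hd : P.natDegree = m) :
    Lo m (D.charpoly - P) := fun i hi => by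
  have h1 : D.charpoly.natDegree = m := by rw [LinearMap.charpoly_natDegree, hm]
  rcases hi.eq_or_lt with rfl | hi
  · rw [coeff_sub, ← h1, D.charpoly_monic.coeff_natDegree, h1, ← hd, hP.coeff_natDegree, sub_self]
  · rw [coeff_sub, coeff_eq_zero_of_natDegree_lt (h1 ▸ hi), coeff_eq_zero_of_natDegree_lt (hd ▸ hi), sub_self]

theorem Hess.charpoly_update (hF : Flag m U e φ) (hm : finrank K W = m) (h : Hess m U φ s D) (hs : ∀ k, s k ≠ 0)
    {a b n : ℕ} (hab : a ≤ b) (hb : b < m) (hn : n + b + 1 = m + a) {w : W} (hw : w ∈ U (a + 1)) {c : K}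
    (hc : c * ∏ i ∈ Finset.range a, s i = φ a w * ∏ i ∈ Finset.range b, s i) :
    Lo n (D.charpoly - (D + (φ b).smulRight w).charpoly - C c * X ^ n) := by
  obtain ⟨j, rfl⟩ : ∃ j, m = b + j + 1 := ⟨m - b - 1, by omega⟩
  obtain rfl : n = a + j := by omega
  set P := (D + (φ b).smulRight w).charpoly
  have hP : P.natDegree = b + j + 1 := by rw [LinearMap.charpoly_natDegree, hm]
  obtain ⟨R, h1, h2, h3⟩ := h.update_high hF hb w j P hP.le
  obtain ⟨Q, h4, h5⟩ := h.exists_poly hF hs a (by omega) w hw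
  have h6 := (h.aeval_mem hF (by omega) a Q h4).2 (by omega)
  have h7 : (Q * R).natDegree ≤ a + j := natDegree_mul_le.trans (by omega)
  have h8 : D.charpoly - P - Q * R = 0 := h.eq_zero hF hs (by omega) (fun i hi => by
      rw [coeff_sub, lo_charpoly_sub hm D (LinearMap.charpoly_monic _) hP i hi,
        coeff_eq_zero_of_natDegree_lt (p := Q * R) (by omega), sub_self]) (by
    rw [LinearMap.aeval_self_charpoly, ← h5, ← End.mul_apply, ← map_mul, mul_comm R] at h3
    rw [map_sub, map_sub, LinearMap.aeval_self_charpoly, LinearMap.sub_apply, LinearMap.sub_apply, sub_sub, ← h3, sub_self])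
  rw [sub_eq_zero.1 h8]
  intro i hi
  rw [coeff_sub, coeff_C_mul_X_pow]
  rcases hi.eq_or_lt with rfl | hi
  · rw [if_pos rfl, coeff_mul_add_eq_of_natDegree_le h4 h1, h2, ← hP, (LinearMap.charpoly_monic _).coeff_natDegree,
      one_mul, sub_eq_zero]
    refine mul_right_cancel₀ (Finset.prod_ne_zero_iff.2 fun j (_ : j ∈ Finset.range a) => hs j) ?_
    rw [hc, ← h5, h6]; ring
  · rw [if_neg hi.ne', coeff_eq_zero_of_natDegree_lt (by omega), sub_self]

theorem exists_hess (hF : Flag m U e φ) : ∃ D, Hess m U φ (fun _ => 1) D := by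
  refine ⟨∑ j ∈ Finset.range (m - 1), (φ j).smulRight (e (j + 1)), fun k v hv => ?_⟩
  have h0 : ∀ j ∈ Finset.range (m - 1), k < j → φ j v = 0 := fun j hj h =>
    hF.zero j (by have := Finset.mem_range.1 hj; omega) v (hF.mono (by omega) hv)
  simp only [LinearMap.sum_apply, LinearMap.smulRight_apply]
  refine ⟨Submodule.sum_mem _ fun j hj => ?_, fun hk => ?_⟩
  · rcases Nat.lt_or_ge k j with h | h
    · rw [h0 j hj h, zero_smul]; exact zero_mem _
    · exact Submodule.smul_mem _ _ (hF.mono (by omega) (hF.mem _ (by have := Finset.mem_range.1 hj; omega)))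
  · rw [map_sum, Finset.sum_eq_single k (fun j hj hjk => ?_) (fun h => absurd (Finset.mem_range.2 (by omega)) h),
      map_smul, hF.one _ hk, one_mul, smul_eq_mul, mul_one]
    rcases Nat.lt_or_ge k j with h | h
    · rw [h0 j hj h, zero_smul, map_zero]
    · rw [map_smul, hF.zero _ hk _ (hF.mono (by omega) (hF.mem (j + 1) (by omega))), smul_zero]

variable {l : End K W} {γ : ℕ → K}

omit [FiniteDimensional K W] in
theorem Flag.tri (hF : Flag m U e φ) (ht : ∀ k < m, ∀ v ∈ U (k + 1), l v - γ k • v ∈ U k) (k : ℕ) (v : W)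
    (hv : v ∈ U (k + 1)) : l v ∈ U (k + 1) ∧ (k < m → φ k (l v) = γ k * φ k v) := by
  rcases Nat.lt_or_ge k m with hk | hk
  · refine ⟨by simpa using add_mem (hF.mono k.le_succ (ht k hk v hv)) (Submodule.smul_mem _ (γ k) hv), fun _ => ?_⟩
    simpa [sub_eq_zero] using hF.zero k hk _ (ht k hk v hv)
  · exact ⟨by rw [hF.top _ (by omega)]; trivial, fun h => by omega⟩

omit [FiniteDimensional K W] in
theorem Hess.mul (hF : Flag m U e φ) (ht : ∀ k < m, ∀ v ∈ U (k + 1), l v - γ k • v ∈ U k)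
    (h : Hess m U φ (fun _ => 1) D) : Hess m U φ (fun k => γ (k + 1)) (l * D) := fun k v hv =>
  ⟨(hF.tri ht _ _ (h k v hv).1).1, fun hk => by
    rw [End.mul_apply, (hF.tri ht _ _ (h k v hv).1).2 hk, (h k v hv).2 hk, one_mul]⟩

theorem Hess.upd (hF : Flag m U e φ) (hm : finrank K W = m) (ht : ∀ k < m, ∀ v ∈ U (k + 1), l v - γ k • v ∈ U k)
    (hγ : ∀ k, γ k ≠ 0) (h : Hess m U φ (fun _ => 1) D) {a b n : ℕ} (hab : a ≤ b) (hb : b < m) (hn : n + b + 1 = m + a)
    (t : K) : ∃ D', Hess m U φ (fun _ => 1) D' ∧ Lo n (D.charpoly - D'.charpoly - C t * X ^ n) ∧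
      Lo n ((l * D).charpoly - (l * D').charpoly -
        C (t * (γ a * (∏ i ∈ Finset.range b, γ (i + 1)) / ∏ i ∈ Finset.range a, γ (i + 1))) * X ^ n) := by
  have hw : t • e a ∈ U (a + 1) := Submodule.smul_mem _ _ (hF.mem a (by omega))
  refine ⟨_, h.update hF hab hb hw, h.charpoly_update hF hm (fun _ => one_ne_zero) hab hb hn hw
    (by simp [hF.one a (by omega)]), ?_⟩
  have : l * (D + (φ b).smulRight (t • e a)) = l * D + (φ b).smulRight (l (t • e a)) := by ext; simp
  rw [this]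
  refine (h.mul hF ht).charpoly_update hF hm (fun _ => hγ _) hab hb hn (hF.tri ht _ _ hw).1 ?_
  have := Finset.prod_ne_zero_iff.2 fun j (_ : j ∈ Finset.range a) => hγ (j + 1)
  rw [(hF.tri ht _ _ hw).2 (by omega), map_smul, hF.one a (by omega)]
  simp only [smul_eq_mul]
  field_simp

theorem Lo.step {n : ℕ} {f g : K[X]} (hf : Lo (n + 1) f) (hg : Lo n (g - C (f.coeff n) * X ^ n)) : Lo n (f - g) :=
  fun i hi => by
    have := hg i hi
    rw [coeff_sub, coeff_C_mul_X_pow, sub_eq_zero] at this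
    rw [coeff_sub, this]
    rcases hi.eq_or_lt with rfl | hi
    · simp
    · rw [if_neg hi.ne', hf i hi, sub_self]

theorem Lo.add {n : ℕ} {f g : K[X]} (hf : Lo n f) (hg : Lo n g) : Lo n (f + g) := fun i hi => by
  rw [coeff_add, hf i hi, hg i hi, add_zero]

theorem exists_hess_charpoly (hF : Flag m U e φ) (hm : finrank K W = m)
    (ht : ∀ k < m, ∀ v ∈ U (k + 1), l v - γ k • v ∈ U k) (hγ : ∀ k, γ k ≠ 0) (h0 : 0 < m) {P P' : K[X]} (hP : P.Monic)
    (hd : P.natDegree = m) (hP' : P'.Monic) (hd' : P'.natDegree = m) (hc : P'.coeff 0 = LinearMap.det l * P.coeff 0)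
    (hs : (l = 1 ∧ P' = P) ∨ ∀ i, 0 < i → i < m → ∃ a, a + i < m ∧ γ a ≠ γ (a + i)) :
    ∃ D, Hess m U φ (fun _ => 1) D ∧ D.charpoly = P ∧ (l * D).charpoly = P' := by
  have key : ∀ i n, n + i + 1 = m → ∃ D, Hess m U φ (fun _ => 1) D ∧ Lo (n + 1) (D.charpoly - P) ∧
      Lo (n + 1) ((l * D).charpoly - P') := fun i => by
    induction i with
    | zero =>
      rintro n rfl
      obtain ⟨D, hD⟩ := exists_hess hF
      exact ⟨D, hD, lo_charpoly_sub hm _ hP hd, lo_charpoly_sub hm _ hP' hd'⟩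
    | succ i ih =>
      intro n hn
      obtain ⟨D, hD, h1, h2⟩ := ih (n + 1) (by omega)
      rcases hs with ⟨rfl, rfl⟩ | hs
      · obtain ⟨D', h3, h4, -⟩ := hD.upd hF hm ht hγ (a := n + 1) (b := m - 1) (n := n + 1) (by omega) (by omega)
          (by omega) ((D.charpoly - P').coeff (n + 1))
        have := h1.step h4
        rw [sub_sub_sub_cancel_left] at this
        exact ⟨D', h3, this, by rwa [one_mul]⟩
      obtain ⟨a, ha, hne⟩ := hs (i + 1) (by omega) (by omega)
      have hp : ∀ k, ∏ i ∈ Finset.range k, γ (i + 1) ≠ 0 := fun k => Finset.prod_ne_zero_iff.2 fun j _ => hγ _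
      obtain ⟨r, hr⟩ : ∃ r, r = (∏ j ∈ Finset.range (a + i), γ (j + 1)) / ∏ i ∈ Finset.range a, γ (i + 1) := ⟨_, rfl⟩
      have hr0 : (γ a - γ (a + (i + 1))) * r ≠ 0 := mul_ne_zero (sub_ne_zero.2 hne) (hr ▸ div_ne_zero (hp _) (hp _))
      set u := (D.charpoly - P).coeff (n + 1)
      set u' := ((l * D).charpoly - P').coeff (n + 1)
      obtain ⟨t, ht'⟩ : ∃ t, t = (u' - γ (a + (i + 1)) * r * u) / ((γ a - γ (a + (i + 1))) * r) := ⟨_, rfl⟩
      obtain ⟨D1, h3, h4, h5⟩ := hD.upd hF hm ht hγ (a := a) (b := a + i) (n := n + 1) (by omega) (by omega) (by omega) t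
      obtain ⟨D2, h6, h7, h8⟩ := h3.upd hF hm ht hγ (a := a + 1) (b := a + i + 1) (n := n + 1) (by omega) (by omega)
        (by omega) (u - t)
      refine ⟨D2, h6, ?_, ?_⟩
      · have := h1.step (g := D.charpoly - D2.charpoly) (by convert h4.add h7 using 1; rw [C_sub]; ring)
        rwa [sub_sub_sub_cancel_left] at this
      · have := h2.step (g := (l * D).charpoly - (l * D2).charpoly) (by
          convert h5.add h8 using 1
          have : u' = t * (γ a * r) + (u - t) * (γ (a + (i + 1)) * r) := by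
            have := (eq_div_iff hr0).1 ht'
            linear_combination -this
          rw [Finset.prod_range_succ, Finset.prod_range_succ, mul_div_assoc, ← hr, show γ (a + 1) *
            ((∏ j ∈ Finset.range (a + i), γ (j + 1)) * γ (a + i + 1)) / ((∏ j ∈ Finset.range a, γ (j + 1)) * γ (a + 1)) =
            γ (a + (i + 1)) * r by have := hγ (a + 1); have := hp a; rw [hr, add_assoc]; field_simp]
          change _ - C u' * _ = _
          rw [this, C_add]; ring)
        rwa [sub_sub_sub_cancel_left] at this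
  obtain ⟨D, hD, h1, h2⟩ := key (m - 1) 0 (by omega)
  obtain ⟨D', h3, h4, h5⟩ := hD.upd hF hm ht hγ (a := 0) (b := m - 1) (n := 0) (by omega) (by omega) (by omega)
    ((D.charpoly - P).coeff 0)
  have h6 : D'.charpoly = P := by
    have := h1.step h4
    rw [sub_sub_sub_cancel_left] at this
    exact sub_eq_zero.1 (Polynomial.ext fun i => this i i.zero_le)
  refine ⟨D', h3, h6, Polynomial.ext fun i => ?_⟩
  rcases i with - | i
  · have := LinearMap.det_eq_sign_charpoly_coeff (l * D')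
    rw [map_mul, LinearMap.det_eq_sign_charpoly_coeff D', h6] at this
    refine mul_left_cancel₀ (pow_ne_zero (finrank K W) (neg_ne_zero.2 one_ne_zero)) ?_
    rw [← this, hc]; ring
  · have a1 := h2 (i + 1) (by omega)
    have a2 := h5 (i + 1) (by omega)
    rw [coeff_sub, coeff_C_mul_X_pow, if_neg i.succ_ne_zero] at a2
    simp only [coeff_sub] at a1 a2
    linear_combination a1 - a2

theorem exists_flag (l : End K W) (S : List K) (hS : aeval l (S.map fun c => X - C c).prod = 0) (g : K) :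
    ∃ (U : ℕ → Submodule K W) (e : ℕ → W) (φ : ℕ → Dual K W) (γ : ℕ → K), Flag (finrank K W) U e φ ∧
      (∀ k < finrank K W, ∀ v ∈ U (k + 1), l v - γ k • v ∈ U k) ∧ (∀ k < finrank K W, γ k ∈ S ∨ γ k = g) ∧
      ∀ k < finrank K W, γ k = g ↔ ∃ v ∈ U (k + 1), v ≠ 0 ∧ l v = g • v := by
  have key : ∀ Y : Submodule K W, ∃ (c : K) (x : W) (ψ : Dual K W), (∀ v ∈ Y, l v ∈ Y) → Y ≠ ⊥ → x ∈ Y ∧ ψ x = 1 ∧
      (∀ v ∈ Y, ψ (l v - c • v) = 0) ∧ (c ∈ S ∨ c = g) ∧ (c = g ↔ ∃ v ∈ Y, v ≠ 0 ∧ l v = g • v) := fun Y => by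
    by_cases hY : (∀ v ∈ Y, l v ∈ Y) ∧ Y ≠ ⊥
    swap
    · exact ⟨0, 0, 0, fun a b => absurd ⟨a, b⟩ hY⟩
    have inv : ∀ c : K, ∀ v ∈ Y, (l - c • (1 : End K W)) v ∈ Y := fun c v hv =>
      sub_mem (hY.1 v hv) (Submodule.smul_mem _ _ hv)
    have iff : ∀ c : K, Y ≤ Y.map (l - c • (1 : End K W)) ↔ ¬ ∃ v ∈ Y, v ≠ 0 ∧ l v = c • v := fun c => by
      have : Function.Surjective ((l - c • (1 : End K W)).restrict (inv c)) ↔ Y ≤ Y.map (l - c • (1 : End K W)) :=
        ⟨fun h v hv => let ⟨x, hx⟩ := h ⟨v, hv⟩; ⟨x, x.2, congrArg Subtype.val hx⟩,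
          fun h v => let ⟨x, hx, e⟩ := h v.2; ⟨⟨x, hx⟩, Subtype.ext e⟩⟩
      rw [← this, ← LinearMap.injective_iff_surjective, injective_iff_map_eq_zero]
      exact ⟨fun h ⟨v, hv, h0, e⟩ => h0 (congrArg Subtype.val (h ⟨v, hv⟩ (Subtype.ext (sub_eq_zero.2 e)))),
        fun h v e => Subtype.ext (by_contra fun h0 => h ⟨v, v.2, h0, sub_eq_zero.1 (congrArg Subtype.val e)⟩)⟩
    obtain ⟨c, h1, h2, h3⟩ : ∃ c, ¬ Y ≤ Y.map (l - c • (1 : End K W)) ∧ (c ∈ S ∨ c = g) ∧
        (c = g ↔ ∃ v ∈ Y, v ≠ 0 ∧ l v = g • v) := by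
      by_cases hg : ∃ v ∈ Y, v ≠ 0 ∧ l v = g • v
      · exact ⟨g, fun h => (iff g).1 h hg, Or.inr rfl, iff_of_true rfl hg⟩
      by_contra hc
      have h1 : ∀ c ∈ S, Y ≤ Y.map (l - c • (1 : End K W)) := fun c hc' => by_contra fun h =>
        hc ⟨c, h, Or.inl hc', iff_of_false (fun e => h (e ▸ (iff g).2 hg)) hg⟩
      have h2 : ∀ T : List K, (∀ c ∈ T, c ∈ S) → Y ≤ Y.map (aeval l (T.map fun c => X - C c).prod) := fun T => by
        induction T with
        | nil => intro _ v hv; exact ⟨v, hv, by simp⟩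
        | cons c T ih =>
          intro hT v hv
          obtain ⟨x, hx, rfl⟩ := h1 c (hT c List.mem_cons_self) hv
          obtain ⟨y, hy, rfl⟩ := ih (fun d hd => hT d (List.mem_cons_of_mem _ hd)) hx
          exact ⟨y, hy, by simp [Module.algebraMap_end_apply]⟩
      exact hY.2 (eq_bot_iff.2 (by simpa [hS] using h2 S fun _ h => h))
    obtain ⟨x, hx, hx'⟩ := SetLike.not_le_iff_exists.1 h1
    obtain ⟨f, hf, hf'⟩ := Submodule.exists_le_ker_of_notMem hx'
    refine ⟨c, x, (f x)⁻¹ • f, fun _ _ => ⟨hx, by simp [hf], fun v hv => ?_, h2, h3⟩⟩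
    rw [LinearMap.smul_apply, show f (l v - c • v) = 0 from hf' ⟨v, hv, rfl⟩, smul_zero]
  choose c x ψ H using key
  let Y : ℕ → Submodule K W := fun j => (fun Z => Z ⊓ LinearMap.ker (ψ Z))^[j] ⊤
  have hY : ∀ j, Y (j + 1) = Y j ⊓ LinearMap.ker (ψ (Y j)) := fun j => Function.iterate_succ_apply' _ _ _
  have h1 : ∀ j ≤ finrank K W, (∀ v ∈ Y j, l v ∈ Y j) ∧ finrank K (Y j) + j = finrank K W := fun j => by
    induction j with
    | zero => exact fun _ => ⟨fun _ _ => trivial, finrank_top K W⟩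
    | succ j ih =>
      intro hj
      obtain ⟨a1, a2⟩ := ih (by omega)
      obtain ⟨b1, b2, b3, -⟩ := H _ a1 (fun e => by rw [e, finrank_bot] at a2; omega)
      have a3 : Y j = Y (j + 1) ⊔ K ∙ x (Y j) := by
        rw [hY]
        refine le_antisymm (fun v hv => Submodule.mem_sup.2 ⟨v - ψ (Y j) v • x (Y j),
          Submodule.mem_inf.2 ⟨sub_mem hv (Submodule.smul_mem _ _ b1), by simp [b2]⟩, _, Submodule.smul_mem _ (ψ (Y j) v)
            (Submodule.mem_span_singleton_self _), sub_add_cancel _ _⟩)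
          (sup_le inf_le_left ((Submodule.span_singleton_le_iff_mem _ _).2 b1))
      refine ⟨fun v hv => ?_, ?_⟩
      · rw [hY] at hv ⊢
        exact ⟨a1 v hv.1, by simpa [show ψ (Y j) v = 0 from hv.2] using b3 v hv.1⟩
      · rw [a3, Submodule.finrank_sup_span_singleton (fun h => by
          rw [hY] at h; exact one_ne_zero (b2.symm.trans h.2))] at a2
        omega
  have h2 : ∀ k < finrank K W, Y (finrank K W - k) = Y (finrank K W - (k + 1)) ⊓
      LinearMap.ker (ψ (Y (finrank K W - (k + 1)))) := fun k hk => by rw [← hY]; congr 1; omega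
  have h3 := fun k (hk : k < finrank K W) => H _ (h1 (finrank K W - (k + 1)) (by omega)).1 fun e => by
    have := (h1 (finrank K W - (k + 1)) (by omega)).2
    rw [e, finrank_bot] at this; omega
  refine ⟨fun k => Y (finrank K W - k), fun k => x (Y (finrank K W - (k + 1))), fun k => ψ (Y (finrank K W - (k + 1))),
    fun k => c (Y (finrank K W - (k + 1))), ⟨Submodule.finrank_eq_zero.1 (by simpa using (h1 _ le_rfl).2),
      fun k hk => by rw [Nat.sub_eq_zero_of_le hk]; rfl, fun a b hab => antitone_nat_of_succ_le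
        (fun j => (hY j).le.trans inf_le_left) (by omega), fun k hk => (h3 k hk).1, fun k hk => (h3 k hk).2.1,
      fun k hk v hv => ((h2 k hk).le hv).2, fun k hk v hv h0 => (h2 k hk).ge ⟨hv, h0⟩⟩,
    fun k hk v hv => (h2 k hk).ge ⟨sub_mem ((h1 _ (by omega)).1 v hv) (Submodule.smul_mem _ _ hv), (h3 k hk).2.2.1 v hv⟩,
    fun k hk => (h3 k hk).2.2.2.1, fun k hk => (h3 k hk).2.2.2.2⟩

/-- A triangularisable map with two different eigenvalues is a quotient of cyclic maps with prescribed characteristic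
polynomials. -/
theorem exists_mul_cyc (l : End K W) (S : List K) (hS : aeval l (S.map fun c => X - C c).prod = 0) (hS0 : ∀ c ∈ S, c ≠ 0)
    (h0 : 0 < finrank K W) {P P' : K[X]} (hP : P.Monic) (hd : P.natDegree = finrank K W) (hP' : P'.Monic)
    (hd' : P'.natDegree = finrank K W) (hc : P'.coeff 0 = LinearMap.det l * P.coeff 0)
    (hs : (l = 1 ∧ P' = P) ∨ ∃ (g g' : K) (v v' : W), g ≠ g' ∧ v ≠ 0 ∧ v' ≠ 0 ∧ l v = g • v ∧ l v' = g' • v') :
    ∃ (D : End K W) (x : W), cyc D x = ⊤ ∧ cyc (l * D) x = ⊤ ∧ D.charpoly = P ∧ (l * D).charpoly = P' := by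
  obtain ⟨g, hg, hs⟩ : ∃ g : K, g ≠ 0 ∧ ((l = 1 ∧ P' = P) ∨
      ∃ (g' : K) (v v' : W), g ≠ g' ∧ v ≠ 0 ∧ v' ≠ 0 ∧ l v = g • v ∧ l v' = g' • v') := by
    rcases hs with hs | ⟨g, g', v, v', h1, h2, h3, h4, h5⟩
    · exact ⟨1, one_ne_zero, Or.inl hs⟩
    · by_cases hg : g = 0
      · exact ⟨g', hg ▸ h1.symm, Or.inr ⟨g, v', v, h1.symm, h3, h2, h5, h4⟩⟩
      · exact ⟨g, hg, Or.inr ⟨g', v, v', h1, h2, h3, h4, h5⟩⟩
  obtain ⟨U, e, φ, γ, hF, ht, h1, h2⟩ := exists_flag l S hS g
  have ht' : ∀ k < finrank K W, ∀ v ∈ U (k + 1), l v - (if k < finrank K W then γ k else 1) • v ∈ U k :=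
    fun k hk v hv => by rw [if_pos hk]; exact ht k hk v hv
  have hγ : ∀ k, (if k < finrank K W then γ k else 1) ≠ 0 := fun k => by
    split_ifs with hk
    · exact (h1 k hk).elim (hS0 _) fun e => e ▸ hg
    · exact one_ne_zero
  obtain ⟨D, hD, a1, a2⟩ := exists_hess_charpoly hF rfl ht' hγ h0 hP hd hP' hd' hc (hs.imp id
    fun ⟨g', v, v', b1, b2, b3, b4, b5⟩ i hi hi' => by
      have hex : ∃ k, ∃ v ∈ U (k + 1), v ≠ 0 ∧ l v = g • v :=
        ⟨finrank K W - 1, v, by rw [hF.top _ (by omega)]; trivial, b2, b4⟩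
      classical
      have c1 : Nat.find hex ≤ finrank K W - 1 := Nat.find_min' hex ⟨v, by rw [hF.top _ (by omega)]; trivial, b2, b4⟩
      have c2 : ∀ k < finrank K W, Nat.find hex ≤ k → γ k = g := fun k hk hk' =>
        let ⟨w, hw, hw'⟩ := Nat.find_spec hex
        (h2 k hk).2 ⟨w, hF.mono (by omega) hw, hw'⟩
      have c3 : 0 < Nat.find hex := Nat.pos_of_ne_zero fun e => by
        have : ∀ j k, k + j = finrank K W → v' ∈ U k := fun j => by
          induction j with
          | zero => intro k hk; rw [hF.top k (by omega)]; trivial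
          | succ j ih =>
            intro k hk
            have := ht k (by omega) v' (ih (k + 1) (by omega))
            rwa [c2 k (by omega) (by omega), b5, ← sub_smul, Submodule.smul_mem_iff _ (sub_ne_zero.2 b1.symm)] at this
        exact b3 (by simpa [hF.bot] using this _ 0 (zero_add _))
      refine ⟨Nat.find hex - i, by omega, ?_⟩
      rw [if_pos (by omega), if_pos (by omega), c2 (_ + i) (by omega) (by omega)]
      exact fun e => Nat.find_min hex (by omega) ((h2 _ (by omega)).1 e))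
  exact ⟨D, e 0, hD.cyc_eq hF (fun _ => one_ne_zero) h0, (hD.mul hF ht').cyc_eq hF (fun _ => hγ _) h0, a1, a2⟩

/-- The centraliser of a cyclic map whose polynomial has a simple factor has all determinants. -/
theorem exists_det_cent [Finite K] {A : End K W} {x : W} (hx : cyc A x = ⊤) {p P : K[X]} (hp : Irreducible p)
    (hc : IsCoprime p P) (hA : A.charpoly = p * P) (β : K) : ∃ f : K[X], LinearMap.det (aeval A f) = β := by
  have h0 : aeval A (p * P) = 0 := hA ▸ A.aeval_self_charpoly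
  have hP : p * P ≠ 0 := hA ▸ A.charpoly_monic.ne_zero
  have h1 := aeval_eq_zero_iff_of_cyc hx hP h0 (by rw [← hA, LinearMap.charpoly_natDegree])
  let Y := cyc A (aeval A P x)
  have inv : ∀ v ∈ Y, A v ∈ Y := fun v => apply_mem_cyc
  have h2 : aeval A P x ≠ 0 := fun e => hp.not_isUnit (hc.isUnit_of_dvd' dvd_rfl ((dvd_mul_right _ _).trans ((h1 _).1 e)))
  haveI : Nontrivial Y := ⟨⟨⟨_, self_mem_cyc _ _⟩, 0, fun e => h2 (congrArg Subtype.val e)⟩⟩
  have res : ∀ (Q : K[X]) (v : Y), ((aeval (A.restrict inv) Q v : Y) : W) = aeval A Q v := fun Q v =>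
    CL.GLn.aeval_intertwine Y.subtype (fun _ => rfl) Q v
  have kill : ∀ v ∈ Y, aeval A p v = 0 := fun v hv => by
    obtain ⟨Q, rfl⟩ := mem_cyc.1 hv
    rw [← End.mul_apply, ← End.mul_apply, ← map_mul, ← map_mul, mul_comm p, mul_assoc, map_mul, h0, mul_zero,
      LinearMap.zero_apply]
  obtain ⟨Q, hQ⟩ := CL.Known.exists_det_aeval_of_simple (A.restrict inv) (fun Z hZ => by
    refine or_iff_not_imp_left.2 fun hne => eq_top_iff.2 fun v _ => ?_
    obtain ⟨z, hz, hz0⟩ := Submodule.exists_mem_ne_zero_of_ne_bot hne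
    obtain ⟨R, hR⟩ := mem_cyc.1 z.2
    obtain ⟨T, hT⟩ := mem_cyc.1 v.2
    obtain ⟨a, b, hab⟩ := hp.coprime_iff_not_dvd.2 (show ¬ p ∣ R from fun ⟨c, hc⟩ => hz0 (Subtype.ext (by
      rw [← hR, hc, mul_comm, map_mul, End.mul_apply, kill _ (self_mem_cyc _ _), map_zero]; rfl)))
    have : v = aeval (A.restrict inv) (T * b) z := Subtype.ext (by
      rw [res, ← hR, ← End.mul_apply, ← map_mul, mul_assoc, eq_sub_of_add_eq' hab, map_mul, map_sub, map_mul, map_one,
        End.mul_apply, LinearMap.sub_apply, End.mul_apply, kill _ (self_mem_cyc _ _), map_zero, sub_zero, End.one_apply, hT])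
    exact this ▸ aeval_mem hZ _ hz) β
  obtain ⟨a, b, hab⟩ := hc
  refine ⟨1 + (Q - 1) * b * P, ?_⟩
  rw [CL.Known.det_eq_det_restrict _ Y (fun v => ?_) fun v hv => aeval_mem inv _ hv, ← hQ]
  · congr 1
    ext v
    rw [res, LinearMap.restrict_coe_apply, show 1 + (Q - 1) * b * P = Q + (1 - Q) * a * p by
      linear_combination (Q - 1) * hab, map_add, map_mul, LinearMap.add_apply, End.mul_apply, kill _ v.2, map_zero, add_zero]
  · obtain ⟨T, rfl⟩ := mem_cyc.1 (show v ∈ cyc A x by rw [hx]; trivial)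
    refine mem_cyc.2 ⟨(Q - 1) * b * T, ?_⟩
    rw [map_add, map_one, LinearMap.add_apply, End.one_apply, add_sub_cancel_left, ← End.mul_apply, ← End.mul_apply,
      ← map_mul, ← map_mul, mul_right_comm]

/-- Commutators with prescribed characteristic polynomial of the first and determinant of the second factor. -/
theorem exists_comm [Finite K] (l : W ≃ₗ[K] W) (S : List K) (hS : aeval (l : End K W) (S.map fun c => X - C c).prod = 0)
    (hS0 : ∀ c ∈ S, c ≠ 0) (hl : LinearMap.det (l : End K W) = 1) {p P : K[X]} (hp : Irreducible p) (hc : IsCoprime p P)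
    (hm : (p * P).Monic) (hd : (p * P).natDegree = finrank K W) (h0 : (p * P).coeff 0 ≠ 0)
    (hs : l = 1 ∨ ∃ (g g' : K) (v v' : W), g ≠ g' ∧ v ≠ 0 ∧ v' ≠ 0 ∧ l v = g • v ∧ l v' = g' • v') {β : K} (hβ : β ≠ 0) :
    ∃ A B : W ≃ₗ[K] W, l = A * (B * A⁻¹ * B⁻¹) ∧ (A : End K W).charpoly = p * P ∧ LinearMap.det (B : End K W) = β := by
  have hpos : 0 < finrank K W := by
    rw [← hd, natDegree_mul hp.ne_zero (right_ne_zero_of_mul hm.ne_zero)]
    have := hp.natDegree_pos
    omega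
  obtain ⟨D, x, h1, h2, h3, h4⟩ := exists_mul_cyc (l : End K W) S hS hS0 hpos hm hd hm hd (by rw [hl, one_mul])
    (hs.imp (fun e => ⟨by rw [e]; rfl, rfl⟩) id)
  have hD : IsUnit (LinearMap.det D) := by
    rw [LinearMap.det_eq_sign_charpoly_coeff, h3]
    exact (mul_ne_zero (pow_ne_zero _ (neg_ne_zero.2 one_ne_zero)) h0).isUnit
  obtain ⟨D', rfl⟩ : ∃ D' : W ≃ₗ[K] W, (D' : End K W) = D := ⟨LinearMap.equivOfIsUnitDet hD, by simp⟩
  obtain ⟨e, he⟩ := exists_equiv_of_cyc h2 h1 hm.ne_zero (h4 ▸ LinearMap.aeval_self_charpoly _)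
    (h3 ▸ LinearMap.aeval_self_charpoly _) hd hd
  have he0 : LinearMap.det (e : End K W) ≠ 0 := (LinearEquiv.isUnit_det' e).ne_zero
  obtain ⟨f, hf⟩ := exists_det_cent h2 hp hc h4 (β / LinearMap.det (e : End K W))
  obtain ⟨z, hz⟩ : ∃ z : W ≃ₗ[K] W, (z : End K W) = aeval ((l : End K W) * D') f :=
    ⟨LinearMap.equivOfIsUnitDet (hf ▸ (div_ne_zero hβ he0).isUnit), by simp⟩
  refine ⟨l * D', e * z, ?_, h4, ?_⟩
  · have : e * z * (l * D') = D' * (e * z) := LinearEquiv.ext fun v => by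
      have h5 := aeval_comm_apply ((l : End K W) * (D' : End K W)) f v
      rw [← hz] at h5
      exact (congrArg e h5).trans (he _)
    rw [← mul_inv_eq_iff_eq_mul] at this
    rw [show e * z * (l * D')⁻¹ * (e * z)⁻¹ = (e * z * (l * D') * (e * z)⁻¹)⁻¹ by group, this, mul_inv_cancel_right]
  · rw [LinearEquiv.coe_toLinearMap_mul, map_mul, hz, hf, mul_div_cancel₀ _ he0]

end CL.OreH
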