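/-
Commutators in orthogonal groups, part 1: the model `(E* × E) × W`, its Levi subgroup and the two unipotent radicals.
-/
import Cfsg.Agent.Cls.OreGL8
import Cfsg.Agent.Cls.OrthSimple

set_option autoImplicit false

open Module Polynomial QuadraticMap

namespace CL.OreO

open CL.Sp CL.Chev CL.GLn CL.SLn CL.Cls CL.Ore

universe u

variable {K : Type u} [Field K] {E : Type u} [AddCommGroup E] [Module K E] {W : Type*} [AddCommGroup W] [Module K W]

/-- The hyperbolic form on `E* × E` plus the form `Q0`. -/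
def QM (E : Type u) [AddCommGroup E] [Module K E] (Q0 : QuadraticForm K W) : QuadraticForm K ((Dual K E × E) × W) :=
  (QuadraticForm.dualProd K E).prod Q0

variable {Q0 : QuadraticForm K W}

theorem QM_apply (p : (Dual K E × E) × W) : QM E Q0 p = p.1.1 p.1.2 + Q0 p.2 := rfl

theorem polar_QM (p q : (Dual K E × E) × W) : polar (QM E Q0) p q = p.1.1 q.1.2 + q.1.1 p.1.2 + polar Q0 p.2 q.2 := by
  simp only [polar, QM_apply, Prod.fst_add, Prod.snd_add, LinearMap.add_apply, map_add]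
  ring

/-- The Levi subgroup. -/
def lev (Q0 : QuadraticForm K W) : (E ≃ₗ[K] E) →* OG (QM E Q0) where
  toFun A := ⟨(A.symm.dualMap.prodCongr A).prodCongr 1, fun v => by simp [QM_apply]⟩
  map_one' := OG.ext' fun _ => rfl
  map_mul' _ _ := OG.ext' fun _ => rfl

theorem lev_app (A : E ≃ₗ[K] E) (p : (Dual K E × E) × W) :
    (lev Q0 A).1 p = ((p.1.1 ∘ₗ A.symm.toLinearMap, A p.1.2), p.2) := rfl

/-- The isometries of the last summand. -/
def mid (E : Type u) [AddCommGroup E] [Module K E] : OG Q0 →* OG (QM E Q0) :=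
  (OG.prodMap _ _).comp (MonoidHom.inr _ _)

theorem mid_app (h : OG Q0) (p : (Dual K E × E) × W) : (mid E h).1 p = (p.1, h.1 p.2) := rfl

theorem mid_refl (w : W) : mid E (refl Q0 w) = refl (QM E Q0) ((0, 0), w) := prodMap_refl_right w

/-- The inclusion of `E`. -/
def iE (W : Type*) [AddCommGroup W] [Module K W] : E →ₗ[K] (Dual K E × E) × W :=
  LinearMap.inl K _ _ ∘ₗ LinearMap.inr K _ _

/-- The inclusion of `E*`. -/
def iF (W : Type*) [AddCommGroup W] [Module K W] : Dual K E →ₗ[K] (Dual K E × E) × W :=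
  LinearMap.inl K _ _ ∘ₗ LinearMap.inl K _ _

theorem mem_iE {p : (Dual K E × E) × W} : p ∈ LinearMap.range (iE W) ↔ p.1.1 = 0 ∧ p.2 = 0 :=
  ⟨fun ⟨_, h⟩ => h ▸ ⟨rfl, rfl⟩, fun h => ⟨p.1.2, Prod.ext (Prod.ext h.1.symm rfl) h.2.symm⟩⟩

theorem mem_iF {p : (Dual K E × E) × W} : p ∈ LinearMap.range (iF W) ↔ p.1.2 = 0 ∧ p.2 = 0 :=
  ⟨fun ⟨_, h⟩ => h ▸ ⟨rfl, rfl⟩, fun h => ⟨p.1.1, Prod.ext (Prod.ext rfl h.1.symm) h.2.symm⟩⟩

/-- The unipotent radical of the stabiliser of `E`. -/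
def RE (E : Type u) [AddCommGroup E] [Module K E] (Q0 : QuadraticForm K W) : Subgroup (OG (QM E Q0)) :=
  (Rad (polarBilin (QM E Q0)) (LinearMap.range (iE W))).comap (OG _).subtype

/-- The unipotent radical of the stabiliser of `E*`. -/
def RF (E : Type u) [AddCommGroup E] [Module K E] (Q0 : QuadraticForm K W) : Subgroup (OG (QM E Q0)) :=
  (Rad (polarBilin (QM E Q0)) (LinearMap.range (iF W))).comap (OG _).subtype

theorem perp_iE {p : (Dual K E × E) × W} :
    (∀ e ∈ LinearMap.range (iE W), polarBilin (QM E Q0) e p = 0) ↔ p.1.1 = 0 := by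
  simp [polar_QM, iE, LinearMap.ext_iff]

theorem perp_iF {p : (Dual K E × E) × W} :
    (∀ e ∈ LinearMap.range (iF W), polarBilin (QM E Q0) e p = 0) ↔ p.1.2 = 0 := by
  simp [polar_QM, iF, forall_dual_apply_eq_zero_iff]

theorem mem_RE {u : OG (QM E Q0)} : u ∈ RE E Q0 ↔ (∀ x, u.1 ((0, x), 0) = ((0, x), 0)) ∧
    ∀ w, ∃ x, u.1 ((0, 0), w) = ((0, x), w) := by
  refine ⟨fun h => ⟨fun x => h.2.1 _ ⟨x, rfl⟩, fun w => ?_⟩, fun h => ⟨OG.polar_app u, ?_, fun p hp => ?_⟩⟩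
  · obtain ⟨x, e⟩ := h.2.2 ((0, 0), w) (perp_iE.2 rfl)
    exact ⟨x, (sub_eq_iff_eq_add.1 e.symm).trans (by simp [iE])⟩
  · rintro _ ⟨x, rfl⟩
    exact h.1 x
  · obtain ⟨⟨ξ, y⟩, w⟩ := p
    obtain rfl : ξ = 0 := perp_iE.1 hp
    obtain ⟨x, e⟩ := h.2 w
    have : u.1 ((0, y), w) = u.1 ((0, y), 0) + u.1 ((0, 0), w) := by rw [← map_add]; simp
    exact mem_iE.2 (by simp [this, e, h.1])

theorem mem_RF {u : OG (QM E Q0)} : u ∈ RF E Q0 ↔ (∀ ξ, u.1 ((ξ, 0), 0) = ((ξ, 0), 0)) ∧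
    ∀ w, ∃ ξ, u.1 ((0, 0), w) = ((ξ, 0), w) := by
  refine ⟨fun h => ⟨fun x => h.2.1 _ ⟨x, rfl⟩, fun w => ?_⟩, fun h => ⟨OG.polar_app u, ?_, fun p hp => ?_⟩⟩
  · obtain ⟨x, e⟩ := h.2.2 ((0, 0), w) (perp_iF.2 rfl)
    exact ⟨x, (sub_eq_iff_eq_add.1 e.symm).trans (by simp [iF])⟩
  · rintro _ ⟨x, rfl⟩
    exact h.1 x
  · obtain ⟨⟨ξ, y⟩, w⟩ := p
    obtain rfl : y = 0 := perp_iF.1 hp
    obtain ⟨x, e⟩ := h.2 w
    have : u.1 ((ξ, 0), w) = u.1 ((ξ, 0), 0) + u.1 ((0, 0), w) := by rw [← map_add]; simp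
    exact mem_iF.2 (by simp [this, e, h.1])

theorem inDual_QM : InDual (polarBilin (QM E Q0)) (LinearMap.range (iE W)) (LinearMap.range (iF W)) where
  refl x y h := (polar_comm _ _ _).trans h
  isoE x hx y hy := perp_iE.2 (mem_iE.1 hy).1 x hx
  isoF x hx y hy := perp_iF.2 (mem_iF.1 hy).1 x hx
  EF y hy h := Prod.ext (Prod.ext (perp_iE.1 h) (mem_iF.1 hy).1) (mem_iF.1 hy).2
  FE y hy h := Prod.ext (Prod.ext (mem_iE.1 hy).1 (perp_iF.1 h)) (mem_iE.1 hy).2
  dec v := ⟨_, ⟨v.1.2, rfl⟩, _, ⟨v.1.1, rfl⟩, (0, v.2), ⟨perp_iE.2 rfl, perp_iF.2 rfl⟩, by simp [iE, iF]⟩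

theorem Fpf.comap {G : Type*} [Group G] {H R : Subgroup G} {a : H} (h : Fpf R (a : G)) : Fpf (R.comap H.subtype) a :=
  h.of_map (f := H.subtype) Subtype.val_injective (Subgroup.mem_normalizer_iff.2 fun x =>
    Subgroup.mem_normalizer_iff.1 h.1 x) fun _ hy => hy

theorem lev_norm (A : E ≃ₗ[K] E) : lev Q0 A ∈ Subgroup.normalizer (RE E Q0 : Set (OG (QM E Q0))) := by
  have key : ∀ (A : E ≃ₗ[K] E), ∀ u ∈ RE E Q0, lev Q0 A * u * (lev Q0 A)⁻¹ ∈ RE E Q0 := fun A u hu => by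
    rw [mem_RE] at hu ⊢
    rw [← map_inv]
    refine ⟨fun x => ?_, fun w => ?_⟩
    · change (lev Q0 A).1 (u.1 ((0, A⁻¹ x), 0)) = _
      simp [hu.1, lev_app]
    · obtain ⟨x, e⟩ := hu.2 w
      refine ⟨A x, (congrArg (fun y => (lev Q0 A).1 (u.1 ((0, y), w))) (map_zero A⁻¹)).trans ?_⟩
      simp only [e, lev_app, LinearMap.zero_comp]
  exact Subgroup.mem_normalizer_iff.2 fun u => ⟨key A u, fun h => by simpa [mul_assoc] using key A⁻¹ _ h⟩

variable [FiniteDimensional K E]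

theorem fpf_lev {T : Set (Om K)} {D : E ≃ₗ[K] E} (h : Kil T (D : End K E)) (hT : Sig T) :
    Fpf (RE E Q0) (lev Q0 D) ∧ Fpf (RF E Q0) (lev Q0 D) := by
  obtain ⟨P, h0, h1, h2⟩ := h.exists_poly hT
  have e1 := aeval_intertwine (f := (D : End K E)) (g := ((lev Q0 D).1 : End K _)) (iE W) (fun x => rfl) P
  have e2 := aeval_intertwine (f := ((D⁻¹ : E ≃ₗ[K] E) : End K E)) (g := (((lev Q0 D).1⁻¹ : _ ≃ₗ[K] _) : End K _)) (iE W)
    (fun x => rfl) P
  have e3 : ∀ a : End K ((Dual K E × E) × W), (∀ w, a ((0, 0), w) = ((0, 0), w)) → ∀ w, Ore.Perp (polarBilin (QM E Q0))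
      (LinearMap.range (iE W)) (LinearMap.range (iF W)) w → aeval a P w = 0 → w = 0 := fun a ha w hw e => by
    obtain ⟨⟨ξ, x⟩, w⟩ := w
    obtain rfl : ξ = 0 := perp_iE.1 hw.1
    obtain rfl : x = 0 := perp_iF.1 hw.2
    rw [aeval_eigen (β := 1) ((ha w).trans (one_smul _ _).symm), smul_eq_zero] at e
    exact e.resolve_left h2
  refine (inDual_QM.fpf_of_poly (OG.polar_app (lev Q0 D)) (fun x => by
    rw [mem_iE, mem_iE]
    exact and_congr_left' ⟨fun h => LinearMap.ext fun y => by simpa [lev_app] using LinearMap.congr_fun h (D y),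
      fun h => by simp [lev_app, h]⟩) (fun x => by
    rw [mem_iF, mem_iF]; simp [lev_app]) P ?_ ?_ ?_ (e3 _ fun _ => by simp [lev_app])
    (e3 _ fun w => (lev Q0 D).1.injective ((apply_inv_apply _ _).trans (by simp [lev_app])))).imp Fpf.comap Fpf.comap
  · rintro _ ⟨x, rfl⟩
    simp [← e1, h0]
  · rintro _ ⟨x, rfl⟩ e
    rw [h1 x (congrArg (·.1.2) ((e2 x).trans e)), map_zero]
  · rintro _ ⟨x, rfl⟩
    obtain ⟨y, rfl⟩ := LinearMap.surjective_of_injective (LinearMap.ker_eq_bot.1 (LinearMap.ker_eq_bot'.2 h1)) x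
    exact ⟨_, ⟨y, rfl⟩, (e2 y).symm⟩

variable [Finite K]

theorem lev_mem_of_det (h3 : 3 ≤ finrank K E) {l : E ≃ₗ[K] E} (hl : LinearEquiv.det l = 1) :
    lev Q0 l ∈ commutator (OG (QM E Q0)) := by
  have := Fintype.ofFinite K
  have hg : LinearMap.det (l : End K E) = 1 := by rw [← LinearEquiv.coe_det, hl, Units.val_one]
  obtain ⟨a, b, h1, h2, h⟩ : IsComm 1 (l : End K E) := by
    by_cases h : 4 ≤ Fintype.card K
    · exact isComm_of_four ((four_or_small K).1 h) (by omega) hg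
    · exact isComm_small ((four_or_small K).2 (by omega)) (finrank K E - 3) _ _ (by omega) hg
  rw [comm_iff.2 (show ∀ x, l (LinearMap.equivOfDetNeZero b (h2 ▸ one_ne_zero) (LinearMap.equivOfDetNeZero a
    (h1 ▸ one_ne_zero) x)) = _ from h), ← commutatorElement_def, map_commutatorElement]
  exact Subgroup.commutator_mem_commutator trivial trivial

variable [FiniteDimensional K W]

instance finite_OG {V : Type*} [AddCommGroup V] [Module K V] [FiniteDimensional K V] (Q : QuadraticForm K V) :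
    Finite (OG Q) :=
  have := Module.finite_of_finite K (M := V)
  Finite.of_injective (fun g : OG Q => (g.1 : V → V)) fun _ _ h => OG.ext' (congrFun h)

theorem Fpf.le_commutator {G : Type*} [Group G] {R : Subgroup G} [Finite R] {a : G} (h : Fpf R a) : R ≤ commutator G :=
  fun u hu => by
    obtain ⟨y, -, e⟩ := h.exists_mul_eq hu
    rw [eq_mul_inv_of_mul_eq e, ← commutatorElement_def]
    exact Subgroup.commutator_mem_commutator trivial trivial

theorem rad_le_commutator (h3 : 3 ≤ finrank K E) :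
    RE E Q0 ≤ commutator (OG (QM E Q0)) ∧ RF E Q0 ≤ commutator (OG (QM E Q0)) := by
  obtain ⟨T, hT, δ, -, D, -, -, h, -⟩ := gl_main h3 nb_one (map_one _)
  exact (fpf_lev h hT).imp Fpf.le_commutator Fpf.le_commutator

variable (hM : (polarBilin (QM E Q0)).Nondegenerate) (h3 : 3 ≤ finrank K E)

omit [Finite K] in
theorem five_le_QM (h3 : 3 ≤ finrank K E) : 5 ≤ finrank K ((Dual K E × E) × W) := by
  simp only [finrank_prod, Subspace.dual_finrank_eq]
  omega

include h3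

omit [FiniteDimensional K W] in
/-- A Levi element is a product of two reflections modulo the commutator subgroup. -/
theorem lev_eq_refl (l : E ≃ₗ[K] E) : ∃ a b, QM E Q0 a = -1 ∧ QM E Q0 b = -LinearEquiv.det l ∧
    lev Q0 l * (refl _ b * refl _ a) ∈ commutator (OG (QM E Q0)) := by
  have : Nontrivial E := nontrivial_of_finrank_pos (R := K) (by omega)
  obtain ⟨e, he⟩ := exists_ne (0 : E)
  obtain ⟨φ, hφ⟩ := exists_dual_eq_one (F := K) he
  obtain ⟨t, ht⟩ : ∃ t, t = LinearEquiv.det l := ⟨_, rfl⟩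
  have hd : LinearMap.det (LinearMap.transvection ((((t⁻¹ : Kˣ) : K) - 1) • φ) e) = (t⁻¹ : Kˣ) := by
    simp [LinearMap.transvection.det, hφ]
  let A := LinearMap.equivOfDetNeZero _ (hd ▸ Units.ne_zero _)
  have hA : ∀ x, A x = x + ((((t⁻¹ : Kˣ) : K) - 1) * φ x) • e := fun x => rfl
  have hA' : ∀ x, A.symm x = x + (((t : K) - 1) * φ x) • e := fun x => A.injective <| by
    simp only [A.apply_symm_apply, hA, map_add, map_smul, hφ, smul_eq_mul]
    linear_combination (norm := module) (-φ x * t.inv_mul) • e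
  refine ⟨((-φ, e), 0), ((-(t : K) • φ, e), 0), by simp [QM_apply, hφ], by simp [QM_apply, hφ, ht], ?_⟩
  have : refl (QM E Q0) ((-(t : K) • φ, e), 0) * refl _ ((-φ, e), 0) = lev Q0 A := OG.ext' fun p => by
    have h0 := t.ne_zero
    refine Prod.ext (Prod.ext (LinearMap.ext fun x => ?_) ?_) ?_ <;>
      simp only [OG.mul_app, refl_app, map_sub, map_smul, lev_app] <;> simp [QM_apply, polar_QM, hφ, hA, hA']
    · field_simp
      ring
    · match_scalars <;> (field_simp; try ring)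
  rw [this, ← map_mul]
  exact lev_mem_of_det h3 (by rw [map_mul, ← ht, mul_eq_one_iff_inv_eq]; exact Units.ext (hd.symm.trans (LinearEquiv.coe_det A).symm))

include hM

theorem lev_mul_mem_iff (l : E ≃ₗ[K] E) (L : List ((Dual K E × E) × W)) (hL : ∀ v ∈ L, QM E Q0 v ≠ 0) :
    lev Q0 l * (L.map (refl _)).prod ∈ commutator (OG (QM E Q0)) ↔
      Even L.length ∧ IsSquare (LinearEquiv.det l * (L.map (QM E Q0)).prod) := by
  obtain ⟨a, b, ha, hb, h⟩ := lev_eq_refl (Q0 := Q0) h3 l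
  have := prod_refl_mem_commutator_iff hM (Or.inr (by have := five_le_QM (W := W) h3; omega)) (a :: b :: L)
    (List.forall_mem_cons.2 ⟨by simp [ha], List.forall_mem_cons.2 ⟨hb ▸ neg_ne_zero.2 (Units.ne_zero _), hL⟩⟩)
  simp only [List.map_cons, List.prod_cons, List.length_cons, ha, hb, Nat.even_add_one, not_not, neg_mul, one_mul,
    neg_neg] at this
  refine Iff.trans ?_ ((mul_mem_cancel_left h).trans this)
  rw [mul_assoc, mul_assoc, ← mul_assoc (refl _ a), refl_mul_self, one_mul, ← mul_assoc (refl _ b), refl_mul_self, one_mul]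

theorem lev_mem_iff (l : E ≃ₗ[K] E) : lev Q0 l ∈ commutator (OG (QM E Q0)) ↔ IsSquare (LinearEquiv.det l : K) := by
  simpa using lev_mul_mem_iff hM h3 l [] (by simp)

theorem dickson_lev (l : E ≃ₗ[K] E) : dickson hM (lev Q0 l) = 1 := by
  obtain ⟨a, b, ha, hb, h⟩ := lev_eq_refl (Q0 := Q0) h3 l
  simpa [dickson_refl hM (v := a) (by simp [ha]), dickson_refl hM (hb ▸ neg_ne_zero.2 (Units.ne_zero _) : QM E Q0 b ≠ 0)]
    using dickson_eq_one_of_mem_commutator hM h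

end CL.OreO
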