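/-
Commutators in orthogonal groups, part 2: elements of the big cell of the model.
-/
import Cfsg.Agent.Cls.OreO1
import Cfsg.Agent.Cls.Witt

set_option autoImplicit false

open Module Polynomial QuadraticMap

namespace CL.OreO

open CL.Sp CL.Chev CL.GLn CL.SLn CL.Cls CL.Ore

universe u

variable {K : Type u} [Field K]

section

variable {V : Type*} [AddCommGroup V] [Module K V] {Q : QuadraticForm K V}

theorem exists_OG [FiniteDimensional K V] (f : End K V) (hi : ∀ x, f x = 0 → x = 0) (hf : ∀ x, Q (f x) = Q x) :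
    ∃ g : OG Q, ∀ x, g.1 x = f x :=
  ⟨⟨LinearEquiv.ofInjectiveEndo f (LinearMap.ker_eq_bot.1 (LinearMap.ker_eq_bot'.2 hi)), hf⟩, fun _ => rfl⟩

/-- A commutator of two elements of the commutator subgroup. -/
def Com {G : Type*} [Group G] (g : G) : Prop := ∃ x ∈ commutator G, ∃ y ∈ commutator G, g = x * y * x⁻¹ * y⁻¹

theorem Com.map {G H : Type*} [Group G] [Group H] (e : G ≃* H) {g : G} (h : Com g) : Com (e g) :=
  let ⟨x, hx, y, hy, h⟩ := h
  ⟨e x, (mem_commutator_congr e x).2 hx, e y, (mem_commutator_congr e y).2 hy, by simp [h]⟩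

theorem Com.of_conj {G : Type*} [Group G] {g k : G} (h : Com (k * g * k⁻¹)) : Com g := by
  simpa [mul_assoc] using h.map (MulAut.conj k⁻¹)

theorem mem_comm_iff {G : Type*} [Group G] {x : G} : x ∈ commutator G ↔ Abelianization.of x = 1 :=
  (QuotientGroup.eq_one_iff x).symm

theorem mem_comm_aux {G : Type*} [Group G] {k v a u b : G} (hv : v ∈ commutator G) (hu : u ∈ commutator G) :
    k * (v * a * u * b) ∈ commutator G ↔ a * (k * b) ∈ commutator G := by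
  simp only [mem_comm_iff, map_mul, mem_comm_iff.1 hv, mem_comm_iff.1 hu, one_mul, mul_one, mul_left_comm]

theorem eq_refl_of_resid [FiniteDimensional K V] (hV : ∀ x, Q x = 0 → x = 0) {k : OG Q} (h : finrank K (resid k) = 1) :
    ∃ z, Q z ≠ 0 ∧ k = refl Q z := by
  obtain ⟨⟨_, x0, rfl⟩, h0, h⟩ := finrank_eq_one_iff'.1 h
  obtain ⟨z, hz⟩ : ∃ z, z = k.1 x0 - x0 := ⟨_, rfl⟩
  have hz0 : z ≠ 0 := fun e => h0 (Subtype.ext (hz.symm.trans e))
  have hq : Q z ≠ 0 := mt (hV z) hz0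
  have key : ∀ x, k.1 x ≠ x → k.1 x = (refl Q z).1 x := fun x hx => by
    obtain ⟨c, hc⟩ := h ⟨_, mem_resid.2 ⟨x, rfl⟩⟩
    have e : k.1 x = x + c • z := eq_add_of_sub_eq' (hz ▸ (congrArg Subtype.val hc).symm)
    have h1 := OG.map_app k x
    rw [e, map_add', map_smul', polar_smul_right, polar_comm, smul_eq_mul] at h1
    have h2 : c ≠ 0 := fun h => hx (by simp [e, h])
    rw [e, refl_app, show c = -((Q z)⁻¹ * polar Q z x) from mul_left_cancel₀ (mul_ne_zero h2 hq) (by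
      linear_combination h1 + c * polar Q z x * mul_inv_cancel₀ hq), neg_smul, sub_eq_add_neg]
  have h1 : k.1 x0 ≠ x0 := sub_ne_zero.1 (hz ▸ hz0)
  refine ⟨z, hq, OG.ext' fun x => by_contra fun hx => hx ?_⟩
  have h2 : k.1 x = x := not_not.1 (mt (key x) hx)
  simpa [key x0 h1] using key (x + x0) (by simpa [h2])

end

variable {E : Type u} [AddCommGroup E] [Module K E] {W : Type*} [AddCommGroup W] [Module K W] {Q0 : QuadraticForm K W}
  {g u : OG (QM E Q0)} {l : E ≃ₗ[K] E} {h : OG Q0}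

/-- `g` lies in the big cell, with Levi components `l` and `h`. -/
def Cl (g : OG (QM E Q0)) (l : E ≃ₗ[K] E) (h : OG Q0) : Prop :=
  (∀ x, (g.1 ((0, x), 0)).1.2 = l x) ∧ ∀ w, ∃ x ξ, g.1 ((0, x), w) = ((ξ, 0), h.1 w)

theorem app_add (g : OG (QM E Q0)) (x y : E) (w : W) : g.1 ((0, x + y), w) = g.1 ((0, x), w) + g.1 ((0, y), 0) := by
  rw [← map_add]; simp

theorem app_smul (g : OG (QM E Q0)) (c : K) (x : E) : g.1 ((0, c • x), 0) = c • g.1 ((0, x), 0) := by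
  rw [← map_smul]; simp

theorem polar_app (g : OG (QM E Q0)) (x y : E) (w : W) : polar (QM E Q0) (g.1 ((0, x), 0)) (g.1 ((0, y), w)) = 0 := by
  simp [OG.polar_app, polar_QM]

theorem Cl.mul_RE (hg : Cl g l h) (hu : u ∈ RE E Q0) : Cl (g * u) l h := by
  rw [mem_RE] at hu
  refine ⟨fun x => by rw [OG.mul_app, hu.1, hg.1], fun w => ?_⟩
  obtain ⟨x, ξ, e⟩ := hg.2 w
  obtain ⟨y, e'⟩ := hu.2 w
  exact ⟨0 + (x - y), ξ, by rw [OG.mul_app, app_add, e', hu.1, ← e]; simp⟩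

theorem exists_cl [FiniteDimensional K W] (hW : ∀ w, Q0 w = 0 → w = 0) (hl : ∀ x, (g.1 ((0, x), 0)).1.2 = l x) :
    ∃ h, Cl g l h := by
  let j : W →ₗ[K] (Dual K E × E) × W := g.1.toLinearMap ∘ₗ LinearMap.inr K _ _
  let f : W →ₗ[K] (Dual K E × E) × W := j - g.1.toLinearMap ∘ₗ iE W ∘ₗ l.symm.toLinearMap ∘ₗ LinearMap.snd K _ _ ∘ₗ
    LinearMap.fst K _ _ ∘ₗ j
  have h1 : ∀ w, f w = g.1 ((0, -l.symm (j w).1.2), w) := fun w =>
    (map_sub g.1 _ _).symm.trans (congrArg g.1 (by simp [iE]))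
  have h2 : ∀ w, (f w).1.2 = 0 := fun w => sub_eq_zero.2 ((l.apply_symm_apply _).symm.trans (hl _).symm)
  have h3 : ∀ w, Q0 (f w).2 = Q0 w := fun w => by
    have := OG.map_app g ((0, -l.symm (j w).1.2), w)
    simpa [← h1, QM_apply, h2] using this
  obtain ⟨h, hh⟩ := exists_OG (Q := Q0) (LinearMap.snd K _ _ ∘ₗ f) (fun w e => hW w ((h3 w).symm.trans
    ((congrArg Q0 e).trans (map_zero _)))) h3
  exact ⟨h, hl, fun w => ⟨_, (f w).1.1, (h1 w).symm.trans (Prod.ext (Prod.ext rfl (h2 w)) (hh w).symm)⟩⟩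

/-- The intersection of `E` and its image. -/
def DD (g : OG (QM E Q0)) : Submodule K E := (LinearMap.range (g.1.toLinearMap ∘ₗ iE W)).comap (iE W)

theorem mem_DD {d : E} : d ∈ DD g ↔ ∃ x, g.1 ((0, x), 0) = ((0, d), 0) := Iff.rfl

/-- The standing hypotheses on `g`. -/
def St (g : OG (QM E Q0)) : Prop := g ∈ commutator (OG (QM E Q0)) ∧ DD g ≠ ⊥ ∧ DD g ≠ ⊤

theorem eich_mem_RE (e : E) {y : (Dual K E × E) × W} (hy : y.1.1 = 0) : eich (QM E Q0) ((0, e), 0) y ∈ RE E Q0 :=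
  mem_RE.2 ⟨fun x => eich_app_of_polar (by simp [polar_QM]) (by simp [polar_QM, hy]), fun w => ⟨_, by
    rw [eich_app_of_perp (by simp [QM_apply]) (by simp [polar_QM, hy]) (by simp [polar_QM])]
    simp only [Prod.smul_mk, Prod.mk_add_mk, smul_zero, add_zero, zero_add]
    rfl⟩⟩

theorem St.move (hg : St g) (hu : u ∈ RE E Q0) : ∃ g' : OG (QM E Q0), St g' ∧ (Com g' → Com g) ∧
    (∀ x, g'.1 ((0, x), 0) = u.1 (g.1 ((0, x), 0))) ∧ ∀ l h, Cl (u * g) l h → Cl g' l h := by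
  have h1 : ∀ x, (u * g * u⁻¹).1 ((0, x), 0) = u.1 (g.1 ((0, x), 0)) := fun x => by
    rw [OG.mul_app, (mem_RE.1 (inv_mem hu)).1, OG.mul_app]
  have h2 : DD (u * g * u⁻¹) = DD g := Submodule.ext fun d => exists_congr fun x =>
    (h1 x).symm ▸ by rw [← u.1.injective.eq_iff (a := g.1.toLinearMap.comp _ x)]; exact (mem_RE.1 hu).1 d ▸ Iff.rfl
  exact ⟨_, ⟨Subgroup.Normal.conj_mem inferInstance _ hg.1 u, h2 ▸ hg.2⟩, Com.of_conj, h1,
    fun l h a => a.mul_RE (inv_mem hu)⟩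

theorem St.exists_ne (hg : St g) (hc : Cl g l h) (h0 : ∀ x, (g.1 ((0, x), 0)).2 = 0) :
    ∃ x e, (g.1 ((0, x), 0)).1.1 e = 1 := by
  obtain ⟨d, hd⟩ := not_forall.1 (mt Submodule.eq_top_iff'.2 hg.2.2)
  obtain ⟨e, he⟩ := DFunLike.ne_iff.1 (show (g.1 ((0, l.symm d), 0)).1.1 ≠ 0 from fun e =>
    hd ⟨l.symm d, Prod.ext (Prod.ext e ((hc.1 _).trans (l.apply_symm_apply d))) (h0 _)⟩)
  exact ⟨_, _ • e, (map_smul _ _ _).trans (inv_mul_cancel₀ he)⟩

variable [FiniteDimensional K E]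

theorem exists_upd (l : E ≃ₗ[K] E) (μ : Dual K E) (x0 : E) (h : 1 + μ x0 ≠ 0) : ∃ l' : E ≃ₗ[K] E,
    (∀ x, l' x = l x + μ x • l x0) ∧ (LinearEquiv.det l' : K) = LinearEquiv.det l * (1 + μ x0) :=
  ⟨l * LinearMap.equivOfDetNeZero (LinearMap.transvection μ x0) (by rwa [LinearMap.transvection.det]),
    fun x => (map_add l _ _).trans (congrArg _ (map_smul l _ _)), by
      rw [map_mul, Units.val_mul, LinearEquiv.coe_det (LinearMap.equivOfDetNeZero _ _)]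
      exact congrArg _ (LinearMap.transvection.det μ x0)⟩

variable [FiniteDimensional K W]

theorem Cl.dec (hg : Cl g l h) : ∃ v ∈ RF E Q0, ∃ u ∈ RE E Q0, g = v * lev Q0 l * u * mid E h := by
  let φ : E →ₗ[K] (Dual K E × E) × W := g.1.toLinearMap ∘ₗ iE W ∘ₗ l.symm.toLinearMap
  have h1 : ∀ x, (φ x).1.2 = x := fun x => (hg.1 _).trans (l.apply_symm_apply x)
  have h2 : ∀ x, QM E Q0 (φ x) = 0 := fun x => (OG.map_app g _).trans (by simp [QM_apply, iE])
  let Λ : W →ₗ[K] Dual K E := (polarBilin Q0).compl₂ (LinearMap.snd K _ _ ∘ₗ φ)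
  let f : End K ((Dual K E × E) × W) := φ ∘ₗ LinearMap.snd K _ _ ∘ₗ LinearMap.fst K _ _ +
    ((LinearMap.fst K _ _ ∘ₗ LinearMap.fst K _ _ - Λ ∘ₗ LinearMap.snd K _ _).prod 0).prod (LinearMap.snd K _ _)
  have hf : ∀ p, f p = φ p.1.2 + ((p.1.1 - Λ p.2, 0), p.2) := fun _ => rfl
  obtain ⟨v, hv⟩ := exists_OG (Q := QM E Q0) f (fun p e => by
    have a1 : p.1.2 = 0 := by simpa [hf, h1] using congrArg (·.1.2) e
    have a2 : p.2 = 0 := by simpa [hf, a1] using congrArg (·.2) e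
    exact Prod.ext (Prod.ext (by simpa [hf, a1, a2] using congrArg (·.1.1) e) a1) a2) fun p => by
      rw [hf, map_add', h2]
      simp [QM_apply, polar_QM, h1, Λ, polar_comm Q0 p.2, add_comm]
  refine ⟨v, mem_RF.2 ⟨fun ξ => by simp [hv, hf], fun w => ⟨-Λ w, by simp [hv, hf]⟩⟩,
    (v * lev Q0 l)⁻¹ * g * (mid E h)⁻¹, mem_RE.2 ⟨fun x => ?_, fun w => ?_⟩, by group⟩
  · refine (v * lev Q0 l).1.injective ((OG.app_inv_app _ _).trans ?_)
    simp [← map_inv, mid_app, lev_app, hv, hf, φ, iE]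
  · obtain ⟨x, ξ, e⟩ := hg.2 (h⁻¹.1 w)
    refine ⟨-x, (v * lev Q0 l).1.injective ((OG.app_inv_app _ _).trans ?_)⟩
    have e1 : ξ = -Λ w := LinearMap.ext fun y => by
      have := polar_app g (l.symm y) x (h⁻¹.1 w)
      rw [e, polar_QM, hg.1, OG.app_inv_app, polar_comm] at this
      simpa [Λ, φ, iE, eq_neg_iff_add_eq_zero] using this
    have := app_add g x (-x) (h⁻¹.1 w)
    rw [add_neg_cancel, e, OG.app_inv_app] at this
    simpa [← map_inv, mid_app, lev_app, hv, hf, φ, iE, e1, add_comm] using this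

variable [Finite K] (hM : (polarBilin (QM E Q0)).Nondegenerate) (h3 : 3 ≤ finrank K E)

include h3

theorem Cl.mem_iff (hg : Cl g l h) (k : OG (QM E Q0)) : k * g ∈ commutator (OG (QM E Q0)) ↔
    lev Q0 l * (k * mid E h) ∈ commutator (OG (QM E Q0)) := by
  obtain ⟨v, hv, u, hu, rfl⟩ := hg.dec
  exact mem_comm_aux ((rad_le_commutator h3).2 hv) ((rad_le_commutator h3).1 hu)

include hM

theorem Cl.com (hg : Cl g l 1) (hl : NB l) (hd : LinearEquiv.det l = 1) : Com g := by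
  obtain ⟨v, hv, u, hu, rfl⟩ := hg.dec
  obtain ⟨T, hT, δ, hδ, D, c, rfl, a1, a2, a3⟩ := gl_main h3 hl hd
  have := comm_of_fpf (rad_le_commutator h3).2 (rad_le_commutator h3).1 ((lev_mem_iff hM h3 D).2 (a2 ▸ hδ))
    ((lev_mem_iff hM h3 c).2 (by simp [a3])) (fpf_lev a1 hT).2 ((fpf_lev a1 hT).1.inv.conj (lev_norm c)) hv hu
  simpa [Com, mul_assoc] using this

theorem St.com_of_one (hs : St g) (hg : Cl g l 1) (hd : LinearEquiv.det l = 1) : Com g := by
  obtain ⟨d, ⟨d0, hd0⟩, κ, h1, h2⟩ := exists_avoid h3 hs.2.1 hs.2.2 l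
  have hd1 : g.1 ((0, d0), 0) = ((0, d), 0) := hd0
  let π : ((Dual K E × E) × W) →ₗ[K] Dual K E × W := (LinearMap.fst K _ _).prodMap LinearMap.id
  obtain ⟨lam, hl⟩ : κ ∘ₗ l.toLinearMap ∈ LinearMap.range (π ∘ₗ g.1.toLinearMap ∘ₗ iE W).dualMap := by
    rw [LinearMap.range_dualMap_eq_dualAnnihilator_ker, Submodule.mem_dualAnnihilator]
    exact fun x hx => h1 _ ⟨x, Prod.ext (Prod.ext (congrArg (·.1) hx) (hg.1 x)) (congrArg (·.2) hx)⟩
  obtain ⟨y, hy⟩ := exists_repr_of_nondeg (σ := RingHom.id K) (fun _ => rfl) (polarBilin (QM E Q0)) (nondeg_iff.1 hM)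
    (lam ∘ₗ π)
  have hy0 : y.1.1 = 0 := LinearMap.ext fun x => by
    simpa [polar_QM, π, ← Prod.zero_eq_mk] using LinearMap.congr_fun hy ((0, x), 0)
  have hy1 : ∀ x, polar (QM E Q0) y (g.1 ((0, x), 0)) = κ (l x) := fun x =>
    (LinearMap.congr_fun hy _).trans (LinearMap.congr_fun hl x)
  have key : ∀ x w, (eich (QM E Q0) ((0, d), 0) y).1 (g.1 ((0, x), w)) =
      g.1 ((0, x), w) + polar (QM E Q0) y (g.1 ((0, x), w)) • ((0, d), 0) := fun x w =>
    eich_app_of_perp (by simp [QM_apply]) (by simp [polar_QM, hy0]) (hd1 ▸ polar_app g _ _ _)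
  have hd2 : l d0 = d := (hg.1 d0).symm.trans (congrArg (·.1.2) hd1)
  obtain ⟨l', a1, a2⟩ := exists_upd l (κ ∘ₗ l.toLinearMap) d0 (by simp [hd2, h1 d ⟨d0, hd0⟩])
  obtain ⟨g', -, b1, -, b2⟩ := hs.move (eich_mem_RE d hy0)
  refine b1 ((b2 l' 1 ⟨fun x => by simp [key, hy1, a1, hg.1, hd2], fun w => ?_⟩).com hM h3
    (h2 l' fun x => hd2 ▸ a1 x) (Units.ext (by simp [a2, hd, hd2, h1 d ⟨d0, hd0⟩])))
  obtain ⟨x, ξ, e⟩ := hg.2 w
  refine ⟨x + (-polar (QM E Q0) y (g.1 ((0, x), w))) • d0, ξ, ?_⟩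
  rw [OG.mul_app, app_add, app_smul, hd1, map_add, map_smul, eich_app_self, key]
  exact Eq.trans (by module) e

theorem St.com_of_ne (hW : ∀ w, Q0 w = 0 → w = 0) (hs : St g) (hg : Cl g l h) {e0 : E} (h0 : (g.1 ((0, e0), 0)).2 ≠ 0) :
    Com g := by
  let c : E →ₗ[K] Dual K E := LinearMap.fst K _ _ ∘ₗ LinearMap.fst K _ _ ∘ₗ g.1.toLinearMap ∘ₗ iE W
  let α : E →ₗ[K] W := LinearMap.snd K _ _ ∘ₗ g.1.toLinearMap ∘ₗ iE W
  have hx : ∀ x, g.1 ((0, x), 0) = ((c x, l x), α x) := fun x => Prod.ext (Prod.ext rfl (hg.1 x)) rfl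
  have hq : Q0 (α e0) ≠ 0 := mt (hW _) h0
  have h1 : c e0 (l e0) = -Q0 (α e0) := by
    simpa [hx, QM_apply, ← eq_neg_iff_add_eq_zero] using OG.map_app g ((0, e0), 0)
  have hm : lev Q0 l * mid E h ∈ commutator (OG (QM E Q0)) := by simpa using (hg.mem_iff h3 1).1 (by simpa using hs.1)
  obtain ⟨z, hz, e⟩ : ∃ z, Q0 z ≠ 0 ∧ refl Q0 (α e0) * h = refl Q0 z := by
    refine eq_refl_of_resid hW ?_
    have a1 : finrank K W < 3 := not_le.1 fun h => by
      obtain ⟨x, -, a, b⟩ := exists_singular_in_of_three_le Q0 ⊤ (by simpa)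
      exact a (hW x b)
    have a2 := (resid (refl Q0 (α e0) * h)).finrank_le
    have a3 := dickson_eq_one_of_mem_commutator hM hm
    rw [map_mul, dickson_lev hM h3, one_mul] at a3
    have a4 : ¬ dickson hM (mid E (refl Q0 (α e0) * h)) = 1 := by
      rw [map_mul, map_mul, a3, mid_refl, dickson_refl hM (by simpa [QM_apply])]
      decide
    rw [dickson_eq_one_iff, show finrank K (resid (mid E (refl Q0 (α e0) * h))) = _ from finrank_resid_prodMap (1, _),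
      finrank_resid_one, zero_add, Nat.not_even_iff_odd, Nat.odd_iff] at a4
    dsimp only at a4
    omega
  obtain ⟨r, hr⟩ : IsSquare (LinearEquiv.det l * (Q0 (α e0) * Q0 z)) := by
    have := (lev_mul_mem_iff hM h3 l [((0, 0), α e0), ((0, 0), z)] (by simp [QM_apply, hq, hz])).1 (by
      rwa [List.map_cons, List.map_singleton, List.prod_cons, List.prod_singleton, ← mid_refl, ← mid_refl, ← map_mul, ← e,
        ← mul_assoc, refl_mul_self, one_mul])
    simpa [QM_apply] using this.2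
  have hr0 : r ≠ 0 := fun e => mul_ne_zero (Units.ne_zero _) (mul_ne_zero hq hz) (by rw [hr, e, mul_zero])
  obtain ⟨y', hy'⟩ : ∃ y', y' = r⁻¹ • z := ⟨_, rfl⟩
  have hq' : LinearEquiv.det l * (Q0 (α e0) * Q0 y') = 1 := by
    rw [hy', map_smul']
    field_simp
    linear_combination hr
  have hq0 : Q0 y' ≠ 0 := fun e => by simp [e] at hq'
  obtain ⟨y, hy⟩ : ∃ y, y = y' - (Q0 (α e0))⁻¹ • α e0 := ⟨_, rfl⟩
  have b1 : ∀ x, polar Q0 y x = polar Q0 y' x - (Q0 (α e0))⁻¹ * polar Q0 (α e0) x := fun x => by simp [hy]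
  have b2 : Q0 y = Q0 y' + (Q0 (α e0))⁻¹ - (Q0 (α e0))⁻¹ * polar Q0 y' (α e0) := by
    rw [hy, Cls.map_sub', map_smul', polar_smul_right, smul_eq_mul]
    field_simp
  have key := eich_app (Q := QM E Q0) (u := ((0, l e0), 0)) (v := ((0, 0), y)) (by simp [QM_apply]) (by simp [polar_QM])
  let μ : Dual K E := polarBilin Q0 y ∘ₗ α - Q0 y • c.flip (l e0)
  have hμ : 1 + μ e0 = Q0 (α e0) * Q0 y' := by
    simp only [μ, LinearMap.sub_apply, LinearMap.comp_apply, LinearMap.smul_apply, LinearMap.flip_apply, h1, b1, b2,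
      polarBilin_apply_apply, polar_self', smul_eq_mul]
    field_simp
    ring
  obtain ⟨l', a1, a2⟩ := exists_upd l μ e0 (hμ ▸ mul_ne_zero hq hq0)
  obtain ⟨g', b0, b3, -, b4⟩ := hs.move (eich_mem_RE (l e0) (y := ((0, 0), y)) rfl)
  refine b3 (b0.com_of_one hM h3 (b4 l' 1 ⟨fun x => ?_, fun w => ?_⟩) (Units.ext (by rw [a2, hμ, hq', Units.val_one])))
  · simp [key, hx, a1, polar_QM, QM_apply, μ, sub_smul, add_sub_assoc]
  obtain ⟨x, ξ, e'⟩ := hg.2 w
  have b5 : ξ (l e0) = -polar Q0 (α e0) (h.1 w) := by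
    simpa [e', hx, polar_QM, ← eq_neg_iff_add_eq_zero] using polar_app g e0 x w
  have b6 : w = (refl Q0 y').1 ((refl Q0 (α e0)).1 (h.1 w)) := by
    rw [hy', refl_smul (inv_ne_zero hr0), ← OG.mul_app (refl Q0 _) h, e, refl_app_refl_app]
  obtain ⟨t, ht⟩ : ∃ t, t = (-polar Q0 (α e0) (h.1 w) - (Q0 y')⁻¹ * (polar Q0 y' (h.1 w) -
    (Q0 (α e0))⁻¹ * polar Q0 (α e0) (h.1 w) * polar Q0 y' (α e0))) / Q0 (α e0) := ⟨_, rfl⟩
  refine ⟨x + t • e0, ξ + t • c e0, ?_⟩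
  rw [OG.mul_app, app_add, app_smul, e', hx, key]
  refine Prod.ext (Prod.ext (by simp) ?_) (Eq.trans ?_ b6.symm)
  · simp [polar_QM, QM_apply, h1, b1, b2, b5]
    match_scalars
    rw [ht]
    field_simp
    ring
  · simp [polar_QM, QM_apply, h1, b5, refl_app]
    rw [hy]
    match_scalars <;> simp only [ht] <;> field_simp <;> ring

theorem St.com (hW : ∀ w, Q0 w = 0 → w = 0) (hs : St g) (hl : ∀ x, (g.1 ((0, x), 0)).1.2 = l x) : Com g := by
  obtain ⟨h, hg⟩ := exists_cl hW hl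
  by_cases h0 : ∃ x, (g.1 ((0, x), 0)).2 ≠ 0
  · exact let ⟨_, h0⟩ := h0; hs.com_of_ne hM h3 hW hg h0
  push Not at h0
  let c : E →ₗ[K] Dual K E := LinearMap.fst K _ _ ∘ₗ LinearMap.fst K _ _ ∘ₗ g.1.toLinearMap ∘ₗ iE W
  have hx : ∀ x, g.1 ((0, x), 0) = ((c x, l x), 0) := fun x => Prod.ext (Prod.ext rfl (hg.1 x)) (h0 x)
  have h1 : ∀ x, c x (l x) = 0 := fun x => by simpa [hx, QM_apply] using OG.map_app g ((0, x), 0)
  have h2 : ∀ x y, c x (l y) = -c y (l x) := fun x y => by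
    simpa [hx, polar_QM, ← eq_neg_iff_add_eq_zero] using polar_app g x y 0
  obtain ⟨x1, e2, h4⟩ := hs.exists_ne hg h0
  obtain ⟨x2, rfl⟩ := l.surjective e2
  replace h4 : c x1 (l x2) = 1 := h4
  rcases subsingleton_or_nontrivial W with hs' | hs'
  · obtain rfl : h = 1 := OG.ext' fun _ => Subsingleton.elim _ _
    obtain ⟨r, hr⟩ := (lev_mem_iff hM h3 l).1 (by simpa using (hg.mem_iff h3 1).1 (by simpa using hs.1))
    have hr0 : r ≠ 0 := fun e => Units.ne_zero _ (by rw [hr, e, mul_zero])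
    have h5 : c x2 (l x1) = -1 := by rw [h2, h4]
    obtain ⟨l1, a1, a2⟩ := exists_upd l ((r⁻¹ - 1) • c.flip (l x2)) x1 (by simp [h4, hr0])
    obtain ⟨l2, a3, a4⟩ := exists_upd l1 (-(r⁻¹ - 1) • c.flip (l x1)) x2 (by simp [h5, hr0])
    obtain ⟨g', b0, b3, b4, -⟩ := hs.move (eich_mem_RE (l x1) (y := ((0, (r⁻¹ - 1) • l x2), 0)) rfl)
    obtain ⟨h', hg'⟩ := exists_cl (g := g') (l := l2) hW fun x => by
      rw [b4, eich_app (by simp [QM_apply]) (by simp [polar_QM])]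
      simp [hx, a1, a3, polar_QM, QM_apply, h1]
      module
    obtain rfl : h' = 1 := OG.ext' fun _ => Subsingleton.elim _ _
    refine b3 (b0.com_of_one hM h3 hg' (Units.ext ?_))
    rw [a4, a2, hr]
    simp [h4, h5, hr0]
  · obtain ⟨y, hy⟩ := _root_.exists_ne (0 : W)
    obtain ⟨l1, a1, -⟩ := exists_upd l (-Q0 y • c.flip (l x2)) x2 (by simp [h1])
    obtain ⟨g', b0, b3, b4, -⟩ := hs.move (eich_mem_RE (l x2) (y := ((0, 0), y)) rfl)
    obtain ⟨h', hg'⟩ := exists_cl (g := g') (l := l1) hW fun x => by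
      rw [b4, eich_app (by simp [QM_apply]) (by simp [polar_QM])]
      simp [hx, a1, polar_QM, QM_apply, sub_eq_add_neg]
    refine b3 (b0.com_of_ne hM h3 hW hg' (e0 := x1) ?_)
    rw [b4, eich_app (by simp [QM_apply]) (by simp [polar_QM])]
    simpa [hx, polar_QM, h4]

theorem not_cell [Subsingleton W] {v : (Dual K E × E) × W} (hv : QM E Q0 v ≠ 0) (hg : g ∈ commutator (OG (QM E Q0)))
    (hl : ∀ x, ((refl _ v * g).1 ((0, x), 0)).1.2 = l x) : False := by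
  obtain ⟨h, hc⟩ := exists_cl (fun _ _ => Subsingleton.elim _ _) hl
  obtain rfl : h = 1 := OG.ext' fun _ => Subsingleton.elim _ _
  have := (hc.mem_iff h3 (refl _ v)).1 (by rwa [← mul_assoc, refl_mul_self, one_mul])
  simpa using ((lev_mul_mem_iff hM h3 l [v] (by simpa)).1 (by simpa using this)).1

end CL.OreO
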