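/-
Commutators in orthogonal groups, part 3: totally singular subspaces in good position with respect to an isometry.
-/
import Cfsg.Agent.Cls.OreO2

set_option autoImplicit false

open Module QuadraticMap

namespace CL.OreO

open CL.Cls

variable {K V : Type*} [Field K] [AddCommGroup V] [Module K V] {Q : QuadraticForm K V} {E E' F T : Submodule K V}

/-- Totally singular subspaces. -/
def TS (Q : QuadraticForm K V) (E : Submodule K V) : Prop := ∀ x ∈ E, Q x = 0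

/-- Maximal totally singular subspaces. -/
def Mx (Q : QuadraticForm K V) (E : Submodule K V) : Prop := TS Q E ∧ ∀ x, Q x = 0 → (∀ e ∈ E, polar Q e x = 0) → x ∈ E

/-- `F` meets the orthogonal complement of `E` trivially. -/
def Opp (Q : QuadraticForm K V) (E F : Submodule K V) : Prop := ∀ f ∈ F, (∀ e ∈ E, polar Q e f = 0) → f = 0

/-- The orthogonal complement. -/
abbrev Pp (Q : QuadraticForm K V) (E : Submodule K V) : Submodule K V := LinearMap.BilinForm.orthogonal (polarBilin Q) E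

theorem mem_Pp {x : V} : x ∈ Pp Q E ↔ ∀ e ∈ E, polar Q e x = 0 := Iff.rfl

theorem TS.polar (h : TS Q E) {x y : V} (hx : x ∈ E) (hy : y ∈ E) : polar Q x y = 0 := by
  simpa [h x hx, h y hy, h _ (add_mem hx hy)] using (Cls.map_add' Q x y).symm

theorem TS.mono (h : TS Q E) (hT : T ≤ E) : TS Q T := fun x hx => h x (hT hx)

theorem TS.sup (h : TS Q E) {x : V} (hx : Q x = 0) (hp : x ∈ Pp Q E) : TS Q (E ⊔ K ∙ x) := fun y hy => by
  obtain ⟨a, ha, c, rfl⟩ := mem_sup_one hy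
  simp [Cls.map_add', Cls.map_smul', h a ha, hx, mem_Pp.1 hp a ha]

theorem TS.map (h : TS Q E) (g : OG Q) : TS Q (E.map g.1.toLinearMap) := by
  rintro _ ⟨x, hx, rfl⟩
  exact (OG.map_app g x).trans (h x hx)

theorem ts_span {x : V} (hx : Q x = 0) : TS Q (K ∙ x) := fun y hy => by
  obtain ⟨c, rfl⟩ := Submodule.mem_span_singleton.1 hy
  simp [Cls.map_smul', hx]

theorem mem_Pp_span {x y : V} (h : polar Q x y = 0) : y ∈ Pp Q (K ∙ x) := fun e he => by
  obtain ⟨c, rfl⟩ := Submodule.mem_span_singleton.1 he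
  simp [h]

theorem mem_sup_self (E : Submodule K V) (x : V) : x ∈ E ⊔ K ∙ x :=
  Submodule.mem_sup_right (Submodule.mem_span_singleton_self x)

theorem Opp.sup (h : Opp Q E F) {e f : V} (he : e ∈ E) (hp : e ∈ Pp Q F) (hf : polar Q e f ≠ 0) :
    Opp Q E (F ⊔ K ∙ f) := fun y hy h0 => by
  obtain ⟨a, ha, c, rfl⟩ := mem_sup_one hy
  obtain rfl : c = 0 := by simpa [polar_comm Q e a, mem_Pp.1 hp a ha, hf] using h0 e he
  simpa using h a ha (by simpa using h0)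

theorem sing_adj {z y : V} (hz : Q z = 0) (h : polar Q z y ≠ 0) : Q (y - (Q y / polar Q z y) • z) = 0 := by
  rw [Cls.map_sub', Cls.map_smul', hz, polar_smul_right, polar_comm Q y z, smul_eq_mul, div_mul_cancel₀ _ h]
  ring

theorem polar_adj {z y x : V} (h : polar Q x z = 0) (c : K) : polar Q x (y - c • z) = polar Q x y := by simp [h]

variable [FiniteDimensional K V]

theorem Opp.finrank_le (h : Opp Q E F) : finrank K F ≤ finrank K E :=
  (LinearMap.finrank_le_finrank_of_injective (f := (polarBilin Q).domRestrict₁₂ F E) (LinearMap.ker_eq_bot.1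
    (LinearMap.ker_eq_bot'.2 fun f e => Subtype.ext (h f f.2 fun x hx =>
      (polar_comm _ _ _).trans (LinearMap.congr_fun e ⟨x, hx⟩))))).trans Subspace.dual_finrank_eq.le

theorem Opp.bij (h : Opp Q E F) (hd : finrank K F = finrank K E) :
    Function.Bijective ((polarBilin Q).domRestrict₁₂ F E) := by
  have := LinearMap.ker_eq_bot.1 (LinearMap.ker_eq_bot'.2 fun (f : F) (e : (polarBilin Q).domRestrict₁₂ F E f = 0) =>
    Subtype.ext (h f f.2 fun x hx => (polar_comm _ _ _).trans (LinearMap.congr_fun e ⟨x, hx⟩)))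
  exact ⟨this, (LinearMap.injective_iff_surjective_of_finrank_eq_finrank (by simp [hd])).1 this⟩

theorem Opp.symm (h : Opp Q E F) (hd : finrank K F = finrank K E) : Opp Q F E := fun e he h0 =>
  congrArg Subtype.val ((forall_dual_apply_eq_zero_iff K (⟨e, he⟩ : E)).1 fun ξ => by
    obtain ⟨f, rfl⟩ := (h.bij hd).2 ξ
    exact h0 f f.2)

theorem TS.exists_mx (h : TS Q T) : ∃ E, T ≤ E ∧ Mx Q E := by
  obtain ⟨E, ⟨h1, h2⟩, h3⟩ := (wellFounded_gt (α := Submodule K V)).has_min {E | T ≤ E ∧ TS Q E} ⟨T, le_rfl, h⟩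
  exact ⟨E, h1, h2, fun x hx hp => by_contra fun hn => h3 _ ⟨h1.trans le_sup_left, h2.sup hx hp⟩
    (lt_of_le_of_ne le_sup_left fun e => hn (e ▸ mem_sup_self E x))⟩

variable (hQ : (polarBilin Q).Nondegenerate)

include hQ

theorem finrank_Pp (E : Submodule K V) : finrank K (Pp Q E) + finrank K E = finrank K V := by
  have := E.finrank_le
  rw [LinearMap.BilinForm.finrank_orthogonal hQ]
  omega

theorem finrank_inf_Pp (E F : Submodule K V) : finrank K E ≤ finrank K ↥(E ⊓ Pp Q F) + finrank K F := by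
  have := Submodule.finrank_sup_add_finrank_inf_eq E (Pp Q F)
  have := finrank_Pp hQ F
  have := (E ⊔ Pp Q F).finrank_le
  omega

theorem exists_Pp {x : V} (hx : x ∉ F) : ∃ y ∈ Pp Q F, polar Q x y ≠ 0 := by
  by_contra h
  push Not at h
  exact hx (LinearMap.BilinForm.orthogonal_orthogonal hQ (polarBilin_isRefl Q) F ▸ fun y hy =>
    (polar_comm _ _ _).trans (h y hy))

theorem exists_opp (hE : TS Q E) (hE' : TS Q E') (hd : finrank K E' = finrank K E) :
    (∃ F, TS Q F ∧ finrank K F = finrank K E ∧ Opp Q E F ∧ Opp Q E' F) ∨ finrank K V ≤ 2 * finrank K E ∧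
      ∃ v, Q v ≠ 0 ∧ ∃ F, TS Q F ∧ finrank K F = finrank K E ∧ Opp Q E F ∧ Opp Q (E'.map (refl Q v).1.toLinearMap) F := by
  obtain ⟨F, ⟨h1, h2, h3⟩, h4⟩ := (wellFounded_gt (α := Submodule K V)).has_min {F | TS Q F ∧ Opp Q E F ∧ Opp Q E' F}
    ⟨⊥, fun x hx => by simp [show x = 0 from hx], fun x hx _ => hx, fun x hx _ => hx⟩
  rcases h2.finrank_le.eq_or_lt with h5 | h5
  · exact Or.inl ⟨F, h1, h5, h2, h3⟩
  have hlt : ∀ {e f}, e ∈ Pp Q F → polar Q e f ≠ 0 → F < F ⊔ K ∙ f := fun {e f} he h =>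
    lt_of_le_of_ne le_sup_left fun e0 => h ((polar_comm _ _ _).trans (he f (e0 ▸ mem_sup_self F f)))
  have key : ∀ e ∈ E ⊓ Pp Q F, ∀ e' ∈ E' ⊓ Pp Q F, ∀ f ∈ Pp Q F, Q f = 0 → polar Q e f ≠ 0 → polar Q e' f = 0 :=
    fun e he e' he' f hf a b => by_contra fun c =>
      h4 _ ⟨h1.sup a hf, h2.sup he.1 he.2 b, h3.sup he'.1 he'.2 c⟩ (hlt he.2 b)
  have k1 : ∀ e ∈ E ⊓ Pp Q F, ∀ e' ∈ E' ⊓ Pp Q F, e ≠ 0 → e' ≠ 0 → polar Q e e' ≠ 0 := fun e he e' he' a b c => by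
    obtain ⟨y1, a1, a2⟩ := exists_Pp hQ fun h : e ∈ F => a (h2 e h fun x hx => hE.polar hx he.1)
    obtain ⟨y2, b1, b2⟩ := exists_Pp hQ fun h : e' ∈ F => b (h3 e' h fun x hx => hE'.polar hx he'.1)
    obtain ⟨y, c1, c2, c3⟩ : ∃ y ∈ Pp Q F, polar Q e y ≠ 0 ∧ polar Q e' y ≠ 0 := by
      by_cases d1 : polar Q e' y1 = 0
      · by_cases d2 : polar Q e y2 = 0
        · exact ⟨_, add_mem a1 b1, by simpa [d2], by simpa [d1]⟩
        · exact ⟨_, b1, d2, b2⟩
      · exact ⟨_, a1, a2, d1⟩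
    exact c3 ((polar_adj ((polar_comm _ _ _).trans c) _).symm.trans (key e he e' he' _ (sub_mem c1
      (Submodule.smul_mem _ _ he.2)) (sing_adj (hE e he.1) c2) (by rwa [polar_adj (hE.polar he.1 he.1)])))
  have d1 := finrank_inf_Pp hQ E F
  have d2 := finrank_inf_Pp hQ E' F
  obtain ⟨e, he, he0⟩ := exists_mem_ne_zero_of_finrank_pos (W := E ⊓ Pp Q F) (by omega)
  obtain ⟨e', he', he1⟩ : ∃ e' ∈ E' ⊓ Pp Q F, polar Q e e' = 1 := by
    obtain ⟨e', he', h⟩ := exists_mem_ne_zero_of_finrank_pos (W := E' ⊓ Pp Q F) (by omega)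
    exact ⟨_, Submodule.smul_mem _ (polar Q e e')⁻¹ he', by simp [k1 e he e' he' he0 h]⟩
  have he2 : polar Q e' e = 1 := (polar_comm _ _ _).trans he1
  have d3 := finrank_le_finrank_inf_perp_succ (Q := Q) (E ⊓ Pp Q F) e'
  rw [show E ⊓ Pp Q F ⊓ perp Q e' = ⊥ from (Submodule.eq_bot_iff _).2 fun x hx => by_contra fun h => k1 x hx.1 e' he' h
    (fun h => by simp [h] at he1) ((polar_comm _ _ _).trans hx.2), finrank_bot] at d3
  have q1 := hE e he.1
  have q2 := hE' e' he'.1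
  have p1 := hE.polar he.1 he.1
  have p2 := hE'.polar he'.1 he'.1
  have k2 : TS Q (Pp Q F ⊓ perp Q e ⊓ perp Q e') := fun w hw => by
    have a1 : polar Q e w = 0 := hw.1.2
    have a2 : polar Q e' w = 0 := hw.2
    simpa [he2, p2, a2] using key e he e' he' (Q w • e - e' + w) (add_mem (sub_mem (Submodule.smul_mem _ _ he.2) he'.2)
      hw.1.1) (by simp [Cls.map_add', Cls.map_sub', Cls.map_smul', q1, q2, he1, a1, a2]) (by simp [p1, he1, a1])
  have k3 : Pp Q F ⊓ perp Q e ⊓ perp Q e' ≤ F := fun w hw => by_contra fun h => by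
    obtain ⟨y, a1, a2⟩ := exists_Pp hQ h
    refine a2 ?_
    simpa [polar_comm Q w e, polar_comm Q w e', show polar Q e w = 0 from hw.1.2, show polar Q e' w = 0 from hw.2] using
      k2.polar hw (y := y - polar Q e' y • e - polar Q e y • e') ⟨⟨sub_mem (sub_mem a1 (Submodule.smul_mem _ _ he.2))
        (Submodule.smul_mem _ _ he'.2), by simp [mem_perp, p1, he1]⟩, by simp [mem_perp, p2, he2]⟩
  have d4 := Submodule.finrank_mono k3
  have d5 := finrank_le_finrank_inf_perp_succ (Q := Q) (Pp Q F) e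
  have d6 := finrank_le_finrank_inf_perp_succ (Q := Q) (Pp Q F ⊓ perp Q e) e'
  have d7 := finrank_Pp hQ F
  have hv : Q (e' - e) ≠ 0 := by simp [Cls.map_sub', q1, q2, he2]
  have o1 := h2.sup he.1 he.2 (he1 ▸ one_ne_zero)
  have d8 := o1.finrank_le
  have d9 := Submodule.finrank_lt_finrank_of_lt (hlt he.2 (he1 ▸ one_ne_zero))
  refine Or.inr ⟨by omega, e' - e, hv, _, h1.sup q2 he'.2, by omega, o1, Opp.sup (fun f hf h => h3 f hf fun x hx => ?_)
    ⟨e', he'.1, refl_sub_app (q2.trans q1.symm) hv⟩ he.2 (he1 ▸ one_ne_zero)⟩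
  rw [← OG.polar_app (refl Q (e' - e)), refl_app_of_polar (x := f) ((polar_comm _ _ _).trans (sub_mem he'.2 he.2 f hf))]
  exact h _ ⟨x, hx, rfl⟩

variable [Finite K]

theorem Mx.three_le (h : Mx Q E) (h7 : 7 ≤ finrank K V) : 3 ≤ finrank K E := by
  by_contra h3
  obtain ⟨C, hC⟩ := E.exists_isCompl
  have := finrank_inf_Pp hQ C E
  have := Submodule.finrank_add_eq_of_isCompl hC
  obtain ⟨x, a, b, c⟩ := exists_singular_in_of_three_le Q (C ⊓ Pp Q E) (by omega)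
  exact b (Submodule.disjoint_def.1 hC.disjoint x (h.2 x c a.2) a.1)

omit [Finite K] in
theorem inv_of_mx {g : OG Q} (H : ∀ E, Mx Q E → ∀ x ∈ E, x ≠ 0 → g.1 x ∈ E → ∀ y ∈ E, g.1 y ∈ E) (T : Submodule K V)
    (a : TS Q T) (x : V) (b : x ∈ T) (c : x ≠ 0) (d : g.1 x ∈ T) (y : V) (e : y ∈ T) : g.1 y ∈ T := by
  by_contra f
  obtain ⟨E, a1, a2⟩ := a.exists_mx
  have hz := H E a2 x (a1 b) c (a1 d) y (a1 e)
  obtain ⟨w, b1, b2⟩ := exists_Pp hQ f
  obtain ⟨E', c1, c2⟩ := (a.sup (sing_adj (a2.1 _ hz) b2) (sub_mem b1 (Submodule.smul_mem _ _ fun t ht =>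
    a2.1.polar (a1 ht) hz))).exists_mx
  have c3 := le_sup_left.trans c1
  exact b2 ((polar_adj (a2.1.polar hz hz) _).symm.trans
    (c2.1.polar (H E' c2 x (c3 b) c (c3 d) y (c3 e)) (c1 (mem_sup_self _ _))))

theorem eigen_of_inv (h7 : 7 ≤ finrank K V) {g : OG Q}
    (k1 : ∀ T, TS Q T → ∀ x ∈ T, x ≠ 0 → g.1 x ∈ T → ∀ y ∈ T, g.1 y ∈ T) (x : V) (a : x ≠ 0) (b : Q x = 0)
    (c : polar Q x (g.1 x) = 0) : ∃ c : K, g.1 x = c • x := by
  obtain ⟨E, a1, a2⟩ := ((ts_span b).sup ((OG.map_app g x).trans b) (mem_Pp_span c)).exists_mx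
  have hx : x ∈ (K ∙ x) ⊔ K ∙ g.1 x := Submodule.mem_sup_left (Submodule.mem_span_singleton_self x)
  obtain ⟨y, b1, b2⟩ : ∃ y ∈ E, y ∉ (K ∙ x) ⊔ K ∙ g.1 x := SetLike.exists_of_lt (lt_of_le_of_ne a1 fun e => by
    have := a2.three_le hQ h7
    have := Submodule.finrank_add_le_finrank_add_finrank (K ∙ x) (K ∙ g.1 x)
    rw [e, finrank_span_singleton a, finrank_span_singleton (OG.app_ne_zero g a)] at this
    omega)
  obtain ⟨s, hs, c, e⟩ := mem_sup_one (k1 _ (a2.1.mono (sup_le a1 ((Submodule.span_singleton_le_iff_mem _ _).2 b1))) x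
    (Submodule.mem_sup_left hx) a (Submodule.mem_sup_left (mem_sup_self _ _)) y (mem_sup_self _ _))
  obtain ⟨s, hs', d, rfl⟩ := mem_sup_one hs
  obtain ⟨t, rfl⟩ := Submodule.mem_span_singleton.1 hs'
  obtain ⟨y', hy'⟩ : ∃ y', y' = y - d • x := ⟨_, rfl⟩
  have hy : y' ∉ (K ∙ x) ⊔ K ∙ g.1 x := fun h => b2 (by
    rw [← sub_add_cancel y (d • x), ← hy']; exact add_mem h (Submodule.smul_mem _ d hx))
  have h0 : x ∈ (K ∙ x) ⊔ K ∙ y' := Submodule.mem_sup_left (Submodule.mem_span_singleton_self x)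
  have h1 : g.1 y' = (t + c * d) • x + c • y' := by rw [hy', map_sub, map_smul, e]; module
  have h2 : TS Q ((K ∙ x) ⊔ K ∙ y') := a2.1.mono (sup_le (le_sup_left.trans a1)
    ((Submodule.span_singleton_le_iff_mem _ _).2 (hy' ▸ sub_mem b1 (E.smul_mem d (a1 hx)))))
  obtain ⟨s, hs, r, e'⟩ := mem_sup_one (k1 _ h2 y' (mem_sup_self _ _) (fun h => hy (by rw [h]; exact zero_mem _))
    (by rw [h1]; exact add_mem (Submodule.smul_mem _ _ h0) (Submodule.smul_mem _ _ (mem_sup_self _ _))) x h0)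
  obtain rfl : r = 0 := by_contra fun h => hy ((Submodule.smul_mem_iff _ h).1 (by
    rw [← sub_eq_of_eq_add' e']
    exact sub_mem (mem_sup_self _ _) (Submodule.mem_sup_left hs)))
  obtain ⟨t, rfl⟩ := Submodule.mem_span_singleton.1 hs
  exact ⟨t, by simpa using e'⟩

theorem exists_mx_mixed (h7 : 7 ≤ finrank K V) {g : OG Q} (h1 : g ≠ 1) (h2 : g ≠ negOG Q) :
    ∃ E, Mx Q E ∧ (∃ x ∈ E, x ≠ 0 ∧ g.1 x ∈ E) ∧ ∃ x ∈ E, g.1 x ∉ E := by
  by_contra H
  have H : ∀ E, Mx Q E → ∀ x ∈ E, x ≠ 0 → g.1 x ∈ E → ∀ y ∈ E, g.1 y ∈ E := fun E a x b c d y e =>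
    by_contra fun f => H ⟨E, a, ⟨x, b, c, d⟩, y, e, f⟩
  have k1 := inv_of_mx hQ H
  have k2 := eigen_of_inv hQ h7 k1
  have k3 : ∀ x, x ≠ 0 → Q x = 0 → polar Q x (g.1 x) = 0 → ∀ y, Q y = 0 → polar Q x y = 0 → polar Q y (g.1 y) = 0 :=
    fun x a b c y d e => by
      obtain ⟨t, ht⟩ := k2 x a b c
      have hT := (ts_span b).sup d (mem_Pp_span e)
      have hx : x ∈ (K ∙ x) ⊔ K ∙ y := Submodule.mem_sup_left (Submodule.mem_span_singleton_self x)
      exact hT.polar (mem_sup_self _ _) (k1 _ hT x hx a (ht ▸ Submodule.smul_mem _ _ hx) y (mem_sup_self _ _))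
  obtain ⟨E, -, hE⟩ := TS.exists_mx (Q := Q) (T := ⊥) fun x hx => by simp [show x = 0 from hx]
  obtain ⟨x, a1, a2, a3⟩ := exists_singular_in_of_three_le (LinearMap.BilinMap.toQuadraticMap
    ((polarBilin Q).compl₂ g.1.toLinearMap)) E (hE.three_le hQ h7)
  obtain ⟨e, f, hef⟩ := exists_isHyp hQ (by omega)
  refine (eq_one_or_negOG_of_fix_points hQ (by omega) hef g fun y hy => ?_).elim h1 h2
  by_cases h0 : y = 0
  · exact ⟨0, by simp [h0]⟩
  have d1 := finrank_le_finrank_inf_perp_succ (Q := Q) ⊤ x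
  have d2 := finrank_le_finrank_inf_perp_succ (Q := Q) (⊤ ⊓ perp Q x) y
  obtain ⟨z, b1, b2, b3⟩ := exists_singular_in_of_three_le Q (⊤ ⊓ perp Q x ⊓ perp Q y) (by rw [finrank_top] at d1; omega)
  exact k2 y h0 hy (k3 z b2 b3 (k3 x a2 (hE.1 x a1) a3 z b3 b1.1.2) y hy ((polar_comm _ _ _).trans b1.2))

end CL.OreO
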