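/-
Commutators in orthogonal groups, part 4: every element of `Ω(V)`, `dim V ≥ 7`, is a commutator.
-/
import Cfsg.Agent.Cls.OreO3
import Cfsg.Agent.Cls.OrthNeg

set_option autoImplicit false

open Module QuadraticMap

namespace CL.OreO

open CL.Cls

universe u

variable {K : Type u} [Field K] {V : Type u} [AddCommGroup V] [Module K V] {Q : QuadraticForm K V}
  {E F W W' : Submodule K V}

/-- `-1` on `W` is a commutator of two elements with the given classes. -/
def NC (W : Submodule K V) (a b : Abelianization (OG Q)) : Prop := ∃ x ∈ movIn Q W, ∃ y ∈ movIn Q W,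
  (∀ w ∈ W, x.1 (y.1 w) = -y.1 (x.1 w)) ∧ Abelianization.of x = a ∧ Abelianization.of y = b

/-- Orthonormal lists. -/
def ON (Q : QuadraticForm K V) (l : List V) : Prop := (∀ v ∈ l, Q v = 1) ∧ l.Pairwise fun u v => polar Q u v = 0

theorem movIn_mono (h : W ≤ W') : movIn Q W ≤ movIn Q W' := fun _ hg x => h (hg x)

section

variable (hQ : (polarBilin Q).Nondegenerate)

include hQ

theorem fix_of_movIn {g : OG Q} (hg : g ∈ movIn Q W) {w : V} (hw : w ∈ Pp Q W) : g.1 w = w :=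
  sub_eq_zero.1 (nondeg_iff.1 hQ _ fun z => by
    obtain ⟨z, rfl⟩ := g.1.surjective z
    have : polar Q (g.1 z - z) w = 0 := hw _ (hg z)
    rw [polar_sub_left, polar_comm, polar_comm Q z] at this
    rw [polar_sub_left, OG.polar_app, ← neg_sub, this, neg_zero])

theorem NC.sup {a b a' b' : Abelianization (OG Q)} (h : NC W a b) (h' : NC W' a' b') (hW : W' ≤ Pp Q W) :
    NC (W ⊔ W') (a * a') (b * b') := by
  obtain ⟨x, hx, y, hy, h, rfl, rfl⟩ := h
  obtain ⟨x', hx', y', hy', h', rfl, rfl⟩ := h'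
  have hW' : W ≤ Pp Q W' := fun w hw z hz => (polar_comm _ _ _).trans (hW hz w hw)
  have key : ∀ g ∈ movIn Q W, ∀ g' ∈ movIn Q W', ∀ w ∈ W, ∀ w' ∈ W', (g * g').1 (w + w') = g.1 w + g'.1 w' :=
    fun g hg g' hg' w hw w' hw' => by
      rw [OG.mul_app, map_add, map_add, fix_of_movIn hQ hg' (hW' hw), fix_of_movIn hQ hg (hW (movIn_app_mem hg' hw'))]
  refine ⟨x * x', mul_mem (movIn_mono le_sup_left hx) (movIn_mono le_sup_right hx'), y * y',
    mul_mem (movIn_mono le_sup_left hy) (movIn_mono le_sup_right hy'), fun w h0 => ?_, map_mul _ _ _, map_mul _ _ _⟩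
  obtain ⟨w, hw, w', hw', rfl⟩ := Submodule.mem_sup.1 h0
  rw [key y hy y' hy' w hw w' hw', key x hx x' hx' w hw w' hw', key x hx x' hx' _ (movIn_app_mem hy hw) _
    (movIn_app_mem hy' hw'), key y hy y' hy' _ (movIn_app_mem hx hw) _ (movIn_app_mem hx' hw'), h w hw, h' w' hw', neg_add]

variable (h2 : (2 : K) ≠ 0) {α β : Abelianization (OG Q)} (hα : ∀ u, Q u = 1 → Abelianization.of (refl Q u) = α)
  (hβ : ∀ u, Q u = 2 → Abelianization.of (refl Q u) = β)

include h2 hα hβ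

theorem NC.cons {u v : V} {l : List V} (hl : ON Q (u :: v :: l)) {a b : Abelianization (OG Q)}
    (h : NC (Submodule.span K {x | x ∈ l}) a b) : NC (Submodule.span K {x | x ∈ u :: v :: l}) (α * a) (β * b) ∧
      NC (Submodule.span K {x | x ∈ u :: v :: l}) (β * a) (α * β * b) ∧
      NC (Submodule.span K {x | x ∈ u :: v :: l}) (α * β * a) (α * b) := by
  have hu := hl.1 u (by simp)
  have hv := hl.1 v (by simp)
  obtain ⟨h1, h3, -⟩ : (polar Q u v = 0 ∧ ∀ x ∈ l, polar Q u x = 0) ∧ (∀ x ∈ l, polar Q v x = 0) ∧ _ := by simpa using hl.2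
  have hq : Q (u - v) = 2 := by rw [Cls.map_sub', hu, hv, h1.1]; norm_num
  have e : Submodule.span K {x | x ∈ u :: v :: l} = Submodule.span K {u, v} ⊔ Submodule.span K {x | x ∈ l} := by
    rw [← Submodule.span_union]; congr 1; ext; simp [or_assoc]
  have hp : Submodule.span K {x | x ∈ l} ≤ Pp Q (Submodule.span K {u, v}) := Submodule.span_le.2 fun x hx z hz => by
    obtain ⟨c, d, rfl⟩ := Submodule.mem_span_pair.1 hz
    simp [h1.2 x hx, h3 x hx]
  have m1 : u ∈ Submodule.span K {u, v} := Submodule.subset_span (by simp)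
  have m2 : v ∈ Submodule.span K {u, v} := Submodule.subset_span (by simp)
  have a1 := refl_mem_movIn (Q := Q) m1
  have a2 := refl_mem_movIn (Q := Q) (sub_mem m1 m2)
  have b1 := refl_sub_app (hu.trans hv.symm) (hq ▸ h2)
  have b2 : (refl Q (u - v)).1 v = u := (congrArg _ b1.symm).trans (refl_app_refl_app _ _)
  have key : ∀ w ∈ Submodule.span K {u, v}, (refl Q u).1 ((refl Q (u - v)).1 w) = -(refl Q (u - v)).1 ((refl Q u).1 w) :=
    fun w hw => by
      obtain ⟨c, d, rfl⟩ := Submodule.mem_span_pair.1 hw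
      simp [b1, b2, refl_app_self (hu ▸ one_ne_zero : Q u ≠ 0), refl_app_of_polar h1.1, add_comm]
  rw [e, ← hα u hu, ← hβ _ hq]
  refine ⟨NC.sup hQ ⟨_, a1, _, a2, key, rfl, rfl⟩ h hp, NC.sup hQ ⟨_, a2, _, mul_mem a1 a2, fun w hw => ?_, rfl,
    map_mul _ _ _⟩ h hp, NC.sup hQ ⟨_, mul_mem a1 a2, _, a1, fun w hw => ?_, map_mul _ _ _, rfl⟩ h hp⟩
  · rw [OG.mul_app, OG.mul_app, key _ (movIn_app_mem a2 hw), neg_neg]
  · rw [OG.mul_app, OG.mul_app, key w hw, map_neg, neg_neg]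

theorem nc_pow (k : ℕ) : ∀ l : List V, ON Q l → l.length = 2 * k → NC (Submodule.span K {x | x ∈ l}) (α ^ k) (β ^ k) := by
  induction k with
  | zero =>
    intro l _ h
    obtain rfl := List.length_eq_zero_iff.1 h
    exact ⟨1, one_mem _, 1, one_mem _, by simp, by simp, by simp⟩
  | succ k ih =>
    rintro (_ | ⟨u, _ | ⟨v, l⟩⟩) hl h
    · simp at h
    · simp at h; omega
    · rw [pow_succ', pow_succ']
      exact (NC.cons hQ h2 hα hβ hl (ih l ⟨fun x hx => hl.1 x (by simp [hx]), hl.2.of_cons.of_cons⟩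
        (by simp at h; omega))).1

end

variable [FiniteDimensional K V]

theorem exists_model (hE : TS Q E) (hF : TS Q F) (ho : Opp Q E F) (hd : finrank K F = finrank K E) :
    ∃ φ : ((Dual K E × E) × Pp Q (E ⊔ F)) ≃ₗ[K] V, (∀ p, Q (φ p) = QM E (Q.comp (Pp Q (E ⊔ F)).subtype) p) ∧
      (∀ x : E, φ ((0, x), 0) = x) ∧ ∀ p, p.1.2 = 0 → φ p ∈ Pp Q F := by
  let ψ := LinearEquiv.ofBijective _ (ho.bij hd)
  have h1 : ∀ ξ (x : E), polar Q (ψ.symm ξ : V) x = ξ x := fun ξ x => LinearMap.congr_fun (ψ.apply_symm_apply ξ) x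
  let f : ((Dual K E × E) × Pp Q (E ⊔ F)) →ₗ[K] V := ((F.subtype ∘ₗ ψ.symm.toLinearMap).coprod E.subtype).coprod
    (Submodule.subtype _)
  have hf : ∀ p, f p = ψ.symm p.1.1 + p.1.2 + p.2 := fun _ => rfl
  have h2 : ∀ (w : Pp Q (E ⊔ F)), ∀ x ∈ E, polar Q x w = 0 := fun w x hx => w.2 x (Submodule.mem_sup_left hx)
  have h3 : ∀ (w : Pp Q (E ⊔ F)), ∀ x ∈ F, polar Q x w = 0 := fun w x hx => w.2 x (Submodule.mem_sup_right hx)
  refine ⟨LinearEquiv.ofBijective f ⟨LinearMap.ker_eq_bot.1 (LinearMap.ker_eq_bot'.2 fun p e => ?_), fun v => ?_⟩,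
    fun p => (congrArg Q (hf p)).trans ?_, fun x => (hf _).trans (by simp), fun p hp x hx =>
      (congrArg (polar Q x) (hf p)).trans ?_⟩
  · have a1 : p.1.1 = 0 := LinearMap.ext fun x => by
      simpa [hf, h2, hE.polar x.2 p.1.2.2, polar_comm Q (x : V) (ψ.symm _ : V), h1] using congrArg (polar Q x) e
    have a2 : p.1.2 = 0 := Subtype.ext (ho.symm hd _ p.1.2.2 fun x hx => by
      simpa [hf, a1, h3 _ x hx] using congrArg (polar Q x) e)
    exact Prod.ext (Prod.ext a1 a2) (by simpa [hf, a1, a2] using e)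
  · obtain ⟨x, hx⟩ := ((ho.symm hd).bij hd.symm).2 (polarBilin Q v ∘ₗ F.subtype)
    refine ⟨((polarBilin Q v ∘ₗ E.subtype, x), ⟨v - (ψ.symm (polarBilin Q v ∘ₗ E.subtype) + x), fun y h0 => ?_⟩),
      add_sub_cancel _ _⟩
    obtain ⟨y, hy, z, hz, rfl⟩ := Submodule.mem_sup.1 h0
    have a1 := h1 (polarBilin Q v ∘ₗ E.subtype) ⟨y, hy⟩
    have a2 : polar Q x z = polar Q v z := LinearMap.congr_fun hx ⟨z, hz⟩
    simp [polar_comm Q y, polar_comm Q z, hE.polar x.2 hy, hF.polar (ψ.symm _).2 hz, a2] at a1 ⊢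
    simp [a1]
  · simp [Cls.map_add', QM_apply, hE _ p.1.2.2, hF _ (ψ.symm _).2, h1, h2, h3]
  · simp [hp, h3 _ x hx, hF.polar hx (ψ.symm _).2]

variable [Finite K] (hQ : (polarBilin Q).Nondegenerate)

theorem exists_on (h2 : (2 : K) ≠ 0) (n : ℕ) : ∀ W : Submodule K V, NDon Q W → finrank K W = n + 1 →
    ∃ (l : List V) (z : V), ON Q l ∧ l.length = n ∧ Q z ≠ 0 ∧ (∀ x ∈ l, polar Q z x = 0) ∧
      Submodule.span K {x | x ∈ z :: l} = W := by
  induction n with
  | zero =>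
    intro W hW hd
    obtain ⟨z, hz, h⟩ := hW.exists_nonsingular fun e => by subst e; simp at hd
    have h0 : z ≠ 0 := fun e => h (by simp [e])
    refine ⟨[], z, ⟨by simp, by simp⟩, rfl, h, by simp, ?_⟩
    rw [show {x | x ∈ [z]} = {z} by simp]
    exact Submodule.eq_of_le_of_finrank_eq ((Submodule.span_singleton_le_iff_mem _ _).2 hz)
      ((finrank_span_singleton h0).trans hd.symm)
  | succ n ih =>
    intro W hW hd
    obtain ⟨u, hu, h⟩ := hW.exists_map_eq (by omega) 1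
    have h1 : polar Q u u = 2 := by rw [polar_self', h, mul_one]
    obtain ⟨l, z, a1, a2, a3, a4, a5⟩ := ih _ (hW.inf_perp hu (h1 ▸ h2)) (by
      have := finrank_inf_perp hu (h1 ▸ h2 : polar Q u u ≠ 0); omega)
    have h3 : ∀ x ∈ z :: l, x ∈ W ⊓ perp Q u := fun x hx => a5 ▸ Submodule.subset_span hx
    refine ⟨u :: l, z, ⟨List.forall_mem_cons.2 ⟨h, a1.1⟩, List.pairwise_cons.2 ⟨fun x hx => (h3 x (by simp [hx])).2, a1.2⟩⟩,
      by simp [a2], a3, List.forall_mem_cons.2 ⟨(polar_comm _ _ _).trans (h3 z (by simp)).2, a4⟩,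
      le_antisymm (Submodule.span_le.2 fun x hx => ?_) fun w hw => ?_⟩
    · rcases (by simpa using hx : x = z ∨ x = u ∨ x ∈ l) with rfl | rfl | hx
      exacts [(h3 _ (by simp)).1, hu, (h3 _ (by simp [hx])).1]
    · rw [← sub_add_cancel w ((polar Q u w / 2) • u)]
      refine add_mem (Submodule.span_mono (fun x hx => ?_) (a5.ge ⟨sub_mem hw (W.smul_mem _ hu), ?_⟩))
        (Submodule.smul_mem _ _ (Submodule.subset_span (by simp)))
      · simp at hx ⊢; tauto
      · simp [mem_perp, h, div_mul_cancel₀ _ h2]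

include hQ

theorem com_neg (h7 : 7 ≤ finrank K V) (h2 : (2 : K) ≠ 0) (hg : negOG Q ∈ commutator (OG Q)) : Com (negOG Q) := by
  obtain ⟨l, z, a1, a2, a3, a4, a5⟩ := exists_on h2 (finrank K V - 1) ⊤ (ndon_top hQ) (by rw [finrank_top]; omega)
  have b1 : ∀ v ∈ z :: l, Q v ≠ 0 := List.forall_mem_cons.2 ⟨a3, fun x hx => a1.1 x hx ▸ one_ne_zero⟩
  have e : ((z :: l).map (refl Q)).prod = negOG Q := Subtype.ext (LinearEquiv.toLinearMap_injective
    (LinearMap.ext_on a5 fun x hx => prod_refl_app_of_mem _ b1 (List.pairwise_cons.2 ⟨a4, a1.2⟩) hx))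
  obtain ⟨⟨m, hm⟩, r, hr⟩ := (prod_refl_mem_commutator_iff hQ (Or.inr (by omega)) _ b1).1 (e ▸ hg)
  rw [List.map_cons, List.prod_cons, List.prod_eq_one (by simpa using a1.1), mul_one] at hr
  have hr0 : r ≠ 0 := fun e => a3 (by rw [hr, e, mul_zero])
  have b2 : ON Q (r⁻¹ • z :: l) := ⟨List.forall_mem_cons.2 ⟨by rw [Cls.map_smul', hr]; field_simp, a1.1⟩,
    List.pairwise_cons.2 ⟨fun x hx => by simp [a4 x hx], a1.2⟩⟩
  have b3 : Submodule.span K {x | x ∈ r⁻¹ • z :: l} = ⊤ := eq_top_iff.2 (a5.ge.trans (Submodule.span_le.2 fun x hx => by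
    rcases List.mem_cons.1 hx with rfl | hx
    · exact (Submodule.smul_mem_iff _ (inv_ne_zero hr0)).1 (Submodule.subset_span (by simp))
    · exact Submodule.subset_span (by simp [hx])))
  have key : ∀ c : K, c ≠ 0 → ∃ α : Abelianization (OG Q), α * α = 1 ∧ ∀ u, Q u = c → Abelianization.of (refl Q u) = α :=
    fun c hc => by
      obtain ⟨w, rfl⟩ := exists_map_eq hQ (by omega) c
      exact ⟨Abelianization.of (refl Q w), by rw [← map_mul, refl_mul_self, map_one], fun u hu => isConj_iff_eq.1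
        (Abelianization.of.map_isConj (isConj_refl hQ one_ne_zero (hu ▸ hc) (by simp [hu])))⟩
  obtain ⟨α, c1, hα⟩ := key 1 one_ne_zero
  obtain ⟨β, c2, hβ⟩ := key 2 h2
  obtain ⟨x, -, y, -, h, hx, hy⟩ : NC (Q := Q) ⊤ 1 1 := by
    have b4 : (r⁻¹ • z :: l).length = m + m := hm
    have b5 : 7 ≤ m + m := by rw [← b4, List.length_cons]; omega
    rw [← b3]
    generalize r⁻¹ • z :: l = L at b2 b4
    rcases Nat.even_or_odd' m with ⟨k, rfl | rfl⟩
    · simpa [pow_mul, pow_two, c1, c2] using nc_pow hQ h2 hα hβ (2 * k) L b2 (by omega)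
    obtain ⟨k, rfl⟩ : ∃ j, k = j + 1 := ⟨k - 1, by omega⟩
    rcases L with _ | ⟨u, _ | ⟨v, _ | ⟨u', _ | ⟨v', L⟩⟩⟩⟩ <;> simp only [List.length_cons, List.length_nil] at b4 <;>
      try omega
    have b6 : ON Q (u' :: v' :: L) := ⟨fun x hx => b2.1 x (by simp [hx]), b2.2.of_cons.of_cons⟩
    have := (NC.cons hQ h2 hα hβ b2 (NC.cons hQ h2 hα hβ b6 (nc_pow hQ h2 hα hβ (2 * k + 1) L
      ⟨fun x hx => b6.1 x (by simp [hx]), b6.2.of_cons.of_cons⟩ (by omega))).2.1).2.2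
    rwa [pow_succ, pow_succ, pow_mul, pow_mul, pow_two, pow_two, c1, c2, one_pow, one_mul, one_mul, mul_assoc, ← mul_assoc β, c2,
      one_mul, c1, mul_assoc, c2, mul_one, c1] at this
  exact ⟨x, mem_comm_iff.2 hx, y, mem_comm_iff.2 hy, by
    rw [eq_mul_inv_iff_mul_eq, eq_mul_inv_iff_mul_eq]
    exact OG.ext' fun w => (h w trivial).symm⟩

theorem com_of_ne (h7 : 7 ≤ finrank K V) {g : OG Q} (hg : g ∈ commutator (OG Q)) (h1 : g ≠ 1) (h2 : g ≠ negOG Q) :
    Com g := by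
  obtain ⟨E, hE, ⟨x, a1, a2, a3⟩, y, a4, a5⟩ := exists_mx_mixed hQ h7 (inv_ne_one.2 h1) fun e =>
    h2 (inv_injective (e.trans (eq_inv_of_mul_eq_one_left negOG_mul_self)))
  have h3 := hE.three_le hQ h7
  have key : ∀ F, TS Q F → finrank K F = finrank K E → Opp Q E F → ∀ k : OG Q, Opp Q (E.map k.1.toLinearMap) F →
      (k = g → Com g) ∧ ∀ v, Q v ≠ 0 → k = refl Q v * g → 2 * finrank K E < finrank K V := fun F hF hd ho k hk => by
    obtain ⟨φ, b1, b2, b3⟩ := exists_model hE.1 hF ho hd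
    have hM := nondeg_congrSim φ.symm 1 one_ne_zero (Q' := QM E (Q.comp (Pp Q (E ⊔ F)).subtype))
      (fun v => by rw [← b1, φ.apply_symm_apply, one_mul]) hQ
    let e := OG.congr φ b1
    have he : ∀ k p, φ ((e.symm k).1 p) = k.1 (φ p) := fun k p => by
      obtain ⟨k, rfl⟩ := e.surjective k
      rw [e.symm_apply_apply, OG.congr_app, φ.symm_apply_apply]
    have hW : ∀ w, (Q.comp (Pp Q (E ⊔ F)).subtype) w = 0 → w = 0 := fun w hw => Subtype.ext (ho.symm hd _
      (hE.2 _ hw fun x hx => w.2 x (Submodule.mem_sup_left hx)) fun x hx => w.2 x (Submodule.mem_sup_right hx))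
    let l := LinearEquiv.ofInjectiveEndo (LinearMap.snd K _ _ ∘ₗ LinearMap.fst K _ _ ∘ₗ (e.symm k).1.toLinearMap ∘ₗ iE _)
      (LinearMap.ker_eq_bot.1 (LinearMap.ker_eq_bot'.2 fun x hx => Subtype.ext (k.1.map_eq_zero_iff.1
        (hk.symm (hd.trans (LinearEquiv.finrank_map_eq _ _).symm) _ ⟨x, x.2, rfl⟩ (b2 x ▸ he k _ ▸ b3 _ hx)))))
    have hl : ∀ x, ((e.symm k).1 ((0, x), 0)).1.2 = l x := fun _ => rfl
    have hg' := (mem_commutator_congr e.symm g).2 hg
    refine ⟨fun e1 => ?_, fun v hv e1 => not_le.1 fun hn => ?_⟩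
    · subst e1
      have := St.com hM h3 hW ⟨hg', fun h => a2 (congrArg Subtype.val ((Submodule.eq_bot_iff _).1 h ⟨x, a1⟩
        ⟨⟨_, a3⟩, φ.injective ((he _ _).trans ?_)⟩)), fun h => ?_⟩ hl
      · simpa using this.map e
      · exact (congrArg k.1 (b2 _)).trans ((OG.app_inv_app k x).trans (b2 ⟨x, a1⟩).symm)
      · obtain ⟨z, hz⟩ := mem_DD.1 (h.ge (Submodule.mem_top (x := (⟨y, a4⟩ : E))))
        have := congrArg φ hz
        rw [he, b2, b2] at this
        exact a5 (by rw [← show k.1 z = y from this, OG.inv_app_app]; exact z.2)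
    · have : Subsingleton (Pp Q (E ⊔ F)) := (finrank_zero_iff (R := K)).1 (by
        have := φ.finrank_eq
        rw [finrank_prod, finrank_prod, Subspace.dual_finrank_eq] at this
        omega)
      refine not_cell hM h3 (v := φ.symm v) (by rwa [← b1, φ.apply_symm_apply]) hg' (l := l) fun x => (hl x).symm ▸ ?_
      refine congrArg (fun p => p.1.2) (φ.injective ?_)
      rw [he, e1, OG.mul_app, OG.mul_app, refl_app, refl_app, map_sub, map_smul, he, ← b1, φ.apply_symm_apply]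
      congr 3
      simp only [polar, ← b1, map_add, he, φ.apply_symm_apply]
  rcases exists_opp hQ hE.1 (hE.1.map g) (LinearEquiv.finrank_map_eq _ _) with ⟨F, b1, b2, b3, b4⟩ |
    ⟨h, v, hv, F, b1, b2, b3, b4⟩
  · exact (key F b1 b2 b3 g b4).1 rfl
  · exact absurd ((key F b1 b2 b3 (refl Q v * g) (by rwa [← Submodule.map_comp] at b4)).2 v hv rfl) (not_lt.2 h)

/-- Every element of `Ω(V)` is a commutator if `dim V ≥ 7`. -/
theorem ore_omega (h7 : 7 ≤ finrank K V) (g : commutator (OG Q)) : ∃ a b, g = a * b * a⁻¹ * b⁻¹ := by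
  obtain ⟨x, hx, y, hy, h⟩ : Com (g : OG Q) := by
    by_cases h1 : (g : OG Q) = 1
    · exact ⟨1, one_mem _, 1, one_mem _, by simp [h1]⟩
    by_cases h2 : (g : OG Q) = negOG Q
    · exact h2 ▸ com_neg hQ h7 (fun h => h1 (h2.trans (negOG_eq_one_of_two_eq_zero h))) (h2 ▸ g.2)
    exact com_of_ne hQ h7 g.2 h1 h2
  exact ⟨⟨x, hx⟩, ⟨y, hy⟩, Subtype.ext h⟩

omit hQ in
theorem ore_Omega {ι : Type} [Fintype ι] [DecidableEq ι] (Q : QuadraticForm K (ι → K)) (hQ : (polarBilin Q).Nondegenerate)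
    (h7 : 7 ≤ Fintype.card ι) (g : Cfsg.Omega K ⇑Q) : ∃ a b, g = a * b * a⁻¹ * b⁻¹ := by
  obtain ⟨a, b, h⟩ := ore_omega hQ (by simpa) (omegaEquiv Q g)
  exact ⟨(omegaEquiv Q).symm a, (omegaEquiv Q).symm b, (omegaEquiv Q).injective (by simp [h])⟩

end CL.OreO
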