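/-
Commutators in symplectic groups, part 1: products of two elements of opposite abelian unipotent radicals.
-/
import Cfsg.Agent.Cls.OreCore

set_option autoImplicit false

open Module Polynomial

namespace CL.Ore

open CL.Sp CL.Chev CL.GLn CL.Known CL.Known.Trip CL.ClassNo

universe u

variable {K : Type u} [Field K] {T S : Trip K}

/-- The isometry is a commutator of isometries. -/
def Comm (T : Trip K) : Prop := ∃ a ∈ Isom T.B, ∃ b ∈ Isom T.B, T.g = a * b * a⁻¹ * b⁻¹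

/-- A Lagrangian subspace `E` such that `(g - 1) E` is isotropic and meets `E` trivially. -/
def Good (T : Trip K) : Prop := ∃ E : Submodule K T.V, (∀ x ∈ E, ∀ y ∈ E, T.B x y = 0) ∧
  (∀ x ∈ E, ∀ y ∈ E, T.B (T.g x - x) (T.g y - y) = 0) ∧ (∀ x ∈ E, T.g x ∈ E → T.g x = x) ∧
    finrank K T.V ≤ 2 * finrank K E

/-- A symplectic space with an isometry. -/
def Alt (T : Trip K) : Prop := T.OK (-1) ∧ ∀ x, T.B x x = 0

theorem comm_iff : Comm T ↔ ∃ a ∈ Isom T.B, ∃ b ∈ Isom T.B, ∀ x, T.g (b (a x)) = a (b x) := by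
  refine exists_congr fun a => and_congr_right fun _ => exists_congr fun b => and_congr_right fun _ => ?_
  rw [eq_mul_inv_iff_mul_eq, eq_mul_inv_iff_mul_eq, LinearEquiv.ext_iff]
  rfl

theorem Comm.iso (h : Comm T) (e : iso K T S) : Comm S := by
  obtain ⟨e, h1, h2⟩ := e
  obtain ⟨a, ha, b, hb, h⟩ := comm_iff.1 h
  have key : ∀ a ∈ Isom T.B, e.symm ≪≫ₗ a ≪≫ₗ e ∈ Isom S.B := fun a ha x y => by
    simp only [LinearEquiv.trans_apply]
    rw [h2, ha, ← h2, e.apply_symm_apply, e.apply_symm_apply]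
  exact comm_iff.2 ⟨_, key a ha, _, key b hb, fun x => by simp [← h1, h]⟩

theorem Comm.sum (h : Comm T) (h' : Comm S) : Comm (tsum T S) := by
  obtain ⟨a, ha, b, hb, h⟩ := comm_iff.1 h
  obtain ⟨a', ha', b', hb', h'⟩ := comm_iff.1 h'
  exact comm_iff.2 ⟨a.prodCongr a', fun _ _ => congrArg₂ (· + ·) (ha _ _) (ha' _ _), b.prodCongr b',
    fun _ _ => congrArg₂ (· + ·) (hb _ _) (hb' _ _), fun x => Prod.ext (h _) (h' _)⟩

theorem comm_of_zero (h : finrank K T.V = 0) : Comm T :=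
  have := finrank_zero_iff.1 h
  comm_iff.2 ⟨1, one_mem _, 1, one_mem _, fun _ => Subsingleton.elim _ _⟩

theorem finrank_iso (e : iso K T S) : finrank K T.V = finrank K S.V := let ⟨e, _⟩ := e; e.finrank_eq

theorem finrank_tsum (T S : Trip K) : finrank K (tsum T S).V = finrank K T.V + finrank K S.V := finrank_prod

theorem Good.iso (h : Good T) (e : iso K T S) : Good S := by
  obtain ⟨e, h1, h2⟩ := e
  obtain ⟨E, a1, a2, a3, a4⟩ := h
  refine ⟨E.map e.toLinearMap, ?_, ?_, ?_, by rwa [← e.finrank_eq, LinearEquiv.finrank_map_eq]⟩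
  · rintro _ ⟨x, hx, rfl⟩ _ ⟨y, hy, rfl⟩
    exact (h2 x y).trans (a1 x hx y hy)
  · rintro _ ⟨x, hx, rfl⟩ _ ⟨y, hy, rfl⟩
    simpa only [LinearEquiv.coe_coe, ← h1, ← map_sub, h2] using a2 x hx y hy
  · rintro _ ⟨x, hx, rfl⟩ ⟨y, hy, e'⟩
    have : y = T.g x := e.injective (e'.trans (h1 x).symm)
    exact (h1 x).symm.trans (congrArg e (a3 x hx (this ▸ hy)))

theorem Good.sum (h : Good T) (h' : Good S) : Good (tsum T S) := by
  obtain ⟨E, a1, a2, a3, a4⟩ := h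
  obtain ⟨E', b1, b2, b3, b4⟩ := h'
  refine ⟨E.prod E', fun x hx y hy => ?_, fun x hx y hy => ?_,
    fun x hx hy => Prod.ext (a3 _ hx.1 hy.1) (b3 _ hx.2 hy.2), ?_⟩
  · exact (congrArg₂ (· + ·) (a1 _ hx.1 _ hy.1) (b1 _ hx.2 _ hy.2)).trans (add_zero _)
  · exact (congrArg₂ (· + ·) (a2 _ hx.1 _ hy.1) (b2 _ hx.2 _ hy.2)).trans (add_zero _)
  · have h1 := LinearMap.finrank_le_finrank_of_injective (f := (E.subtype.prodMap E'.subtype).codRestrict (E.prod E')
      fun x => ⟨x.1.2, x.2.2⟩) fun x y e =>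
        Prod.ext (Subtype.ext (congrArg (·.1.1) e)) (Subtype.ext (congrArg (·.1.2) e))
    rw [finrank_prod] at h1
    rw [finrank_tsum]
    exact (Nat.add_le_add a4 b4).trans ((mul_add _ _ _).ge.trans (Nat.mul_le_mul_left 2 h1))

theorem good_of_zero (h : finrank K T.V = 0) : Good T :=
  ⟨⊥, by simp, by simp, by simp, by simp [h]⟩

theorem Alt.sum (h : Alt T) (h' : Alt S) : Alt (tsum T S) :=
  ⟨ok_tsum h.1 h'.1, fun _ => (congrArg₂ (· + ·) (h.2 _) (h'.2 _)).trans (add_zero _)⟩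

theorem Alt.neg (h : Alt T) : Alt (tneg T) := ⟨ok_tneg h.1, h.2⟩

theorem Alt.left (h : Alt T) {A C : Trip K} (hA : A.OK (-1)) (e : iso K (tsum A C) T) : Alt A :=
  ⟨hA, fun x => let ⟨e, _, h2⟩ := e; by
    have h3 : A.B x x + C.B 0 0 = 0 := (h2 (x, 0) (x, 0)).symm.trans (h.2 _)
    simpa using h3⟩

theorem Alt.right (h : Alt T) {A C : Trip K} (hC : C.OK (-1)) (e : iso K (tsum A C) T) : Alt C :=
  h.left hC ((iso K).trans (iso_tsum_comm _ _) e)

theorem ok_refl {ε : K} (h : T.OK ε) : T.B.IsRefl := fun x y e => by rw [h.symm, e, mul_zero]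

theorem ok_nondeg {ε : K} (h : T.OK ε) : T.B.Nondegenerate :=
  ⟨h.nondeg, fun y hy => h.nondeg y fun x => ok_refl h _ _ (hy x)⟩

theorem mem_sup_single {V : Type*} [AddCommGroup V] [Module K V] {F : Submodule K V} {x y : V} (h : x ∈ F ⊔ K ∙ y) :
    ∃ a ∈ F, ∃ c : K, x = a + c • y := by
  obtain ⟨a, ha, z, hz, rfl⟩ := Submodule.mem_sup.1 h
  obtain ⟨c, rfl⟩ := Submodule.mem_span_singleton.1 hz
  exact ⟨a, ha, c, rfl⟩

theorem Alt.compl (h : Alt T) {E D : Submodule K T.V} (hE : ∀ x ∈ E, ∀ y ∈ E, T.B x y = 0)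
    (hd : finrank K T.V ≤ 2 * finrank K E) (hD : ∀ x ∈ D, ∀ y ∈ D, T.B x y = 0) (hDE : Disjoint E D) :
    ∃ F, D ≤ F ∧ InDual T.B E F ∧ ∀ w, (∀ x ∈ E, T.B x w = 0) → w ∈ E := by
  have hN := ok_nondeg h.1
  have hE' : T.B.orthogonal E = E := by
    refine (Submodule.eq_of_le_of_finrank_le (fun x hx => mem_orth.2 fun w hw => hE w hw x hx) ?_).symm
    rw [LinearMap.BilinForm.finrank_orthogonal hN]
    omega
  obtain ⟨F, ⟨h1, h2, h3⟩, hmax⟩ := set_has_maximal_iff_noetherian.2 (inferInstance : IsNoetherian K T.V)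
    {F | D ≤ F ∧ (∀ x ∈ F, ∀ y ∈ F, T.B x y = 0) ∧ Disjoint E F} ⟨D, le_rfl, hD, hDE⟩
  have h4 : T.B.orthogonal F ≤ E ⊔ F := fun y hy => by
    by_contra hn
    refine hmax (F ⊔ K ∙ y) ⟨h1.trans le_sup_left, fun a' ha' b' hb' => ?_,
      Submodule.disjoint_def.2 fun x hx ha' => ?_⟩
      (left_lt_sup.2 fun hy' => hn (Submodule.mem_sup_right (hy' (Submodule.mem_span_singleton_self y))))
    · obtain ⟨a, ha, c, rfl⟩ := mem_sup_single ha'
      obtain ⟨b, hb, d, rfl⟩ := mem_sup_single hb'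
      simp [h2 a ha b hb, mem_orth.1 hy a ha, ok_refl h.1 _ _ (mem_orth.1 hy b hb), h.2]
    · obtain ⟨a, ha, c, rfl⟩ := mem_sup_single ha'
      by_cases hc : c = 0
      · exact Submodule.disjoint_def.1 h3 _ hx (by simpa [hc] using ha)
      · refine absurd ?_ hn
        rw [← Submodule.smul_mem_iff _ hc]
        simpa using sub_mem (Submodule.mem_sup_left hx) (Submodule.mem_sup_right ha : a ∈ E ⊔ F)
  have h5 : E ⊔ F = ⊤ := by
    rw [← orth_orth h.2 hN (E ⊔ F), eq_top_iff]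
    refine fun x _ => mem_orth.2 fun w hw => ?_
    have a1 : w ∈ E := hE' ▸ mem_orth.2 fun z hz => mem_orth.1 hw z (Submodule.mem_sup_left hz)
    have a2 : w ∈ F := orth_orth h.2 hN F ▸ mem_orth.2 fun z hz => ok_refl h.1 _ _ (ok_refl h.1 _ _ (mem_orth.1 hw z (h4 hz)))
    simp [Submodule.disjoint_def.1 h3 w a1 a2]
  have h6 : ∀ v, ∃ e ∈ E, ∃ f ∈ F, e + f = v := fun v => Submodule.mem_sup.1 (h5 ▸ Submodule.mem_top)
  refine ⟨F, h1, ⟨ok_refl h.1, hE, h2, fun y hy e => Submodule.disjoint_def.1 h3 y (hE' ▸ mem_orth.2 e) hy,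
    fun x hx e => hN.2 x fun v => ?_, fun v => ?_⟩, fun w hw => hE' ▸ mem_orth.2 hw⟩
  · obtain ⟨a, ha, b, hb, rfl⟩ := h6 v
    simp [hE a ha x hx, e b hb]
  · obtain ⟨a, ha, b, hb, rfl⟩ := h6 v
    exact ⟨a, ha, b, hb, 0, ⟨by simp, by simp⟩, by simp⟩

theorem Good.factor (h : Alt T) (hg : Good T) : ∃ E F : Submodule K T.V, InDual T.B E F ∧
    finrank K T.V = 2 * finrank K E ∧ (∀ w, Perp T.B E F w → w = 0) ∧
    ∃ v ∈ Rad T.B F, ∃ u ∈ Rad T.B E, T.g = v * u := by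
  obtain ⟨E, a1, a2, a3, a4⟩ := hg
  obtain ⟨F, b1, b2, b3⟩ := h.compl (D := E.map ((T.g : End K T.V) - 1)) a1 a4
    (by rintro _ ⟨x, hx, rfl⟩ _ ⟨y, hy, rfl⟩; exact a2 x hx y hy) (Submodule.disjoint_def.2 (by
      rintro _ h1 ⟨x, hx, rfl⟩
      exact sub_eq_zero.2 (a3 x hx (by simpa using add_mem h1 hx))))
  have hW : ∀ w, Perp T.B E F w → w = 0 := fun w hw => b2.FE w (b3 w hw.1) hw.2
  have hW' : ∀ w : perp T.B E F, (w : T.V) = 0 := fun w => hW w w.2
  have hF : ∀ x ∈ E, T.g x - x ∈ F := fun x hx => b1 ⟨x, hx, rfl⟩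
  have c1 : ∀ (x : E) (y : F), T.B (T.g x) y = T.B x y := fun x y => by
    simpa [sub_eq_zero] using b2.isoF _ (hF x x.2) y y.2
  have c2 : ∀ (x : E) (y : F), T.B y (T.g x) = T.B y x := fun x y => by rw [h.1.symm, c1, ← h.1.symm]
  obtain ⟨v, hv, e⟩ := b2.exists_isom h.1.nondeg ((T.g.toLinearMap ∘ₗ E.subtype).coprod (F.subtype.coprod 0))
    fun p q => by simp [hW', h.1.isom, c1, c2]
  have vE : ∀ x ∈ E, v x = T.g x := fun x hx => by simpa using e (⟨x, hx⟩, 0, 0)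
  have vF : ∀ x ∈ F, v x = x := fun x hx => by simpa using e (0, ⟨x, hx⟩, 0)
  have uE : ∀ x ∈ E, (v⁻¹ * T.g) x = x := fun x hx => by rw [LinearEquiv.mul_apply, ← vE x hx, inv_apply_apply]
  have hu : v⁻¹ * T.g ∈ Isom T.B := mul_mem (inv_mem hv) h.1.isom
  refine ⟨E, F, b2, le_antisymm a4 ?_, hW, v, ⟨hv, vF, fun x _ => ?_⟩, v⁻¹ * T.g, ⟨hu, uE, fun x _ => b3 _ fun y hy => ?_⟩,
    by group⟩
  · have := LinearMap.BilinForm.finrank_orthogonal (ok_nondeg h.1) E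
    have h1 := Submodule.finrank_mono (show E ≤ T.B.orthogonal E from fun x hx => mem_orth.2 fun w hw => a1 w hw x hx)
    have := Submodule.finrank_le E
    omega
  · obtain ⟨a, ha, b, hb, w, hw, rfl⟩ := b2.dec x
    simpa [hW w hw, vE a ha, vF b hb] using hF a ha
  · rw [map_sub, ← hu y x, uE y hy, sub_self]

theorem exists_fpf {ε : K} (h : T.OK ε) {E F : Submodule K T.V} (hD : InDual T.B E F) (hW : ∀ w, Perp T.B E F w → w = 0)
    (A : E ≃ₗ[K] E) (p : K[X]) (h0 : aeval (A : End K E) p = 0)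
    (h1 : Function.Bijective (aeval ((A⁻¹ : E ≃ₗ[K] E) : End K E) p)) :
    ∃ a ∈ Isom T.B, (∀ x : E, a x = A x) ∧ (∀ x, a x ∈ F ↔ x ∈ F) ∧ Fpf (Rad T.B E) a ∧ Fpf (Rad T.B F) a := by
  obtain ⟨a, ha, aE, hE, hF, -⟩ := hD.exists_levi h.nondeg h.symm A
  have e1 := aeval_intertwine (f := (A : End K E)) (g := (a : End K T.V)) E.subtype (fun x => (aE x).symm) p
  have e2 := aeval_intertwine (f := ((A⁻¹ : E ≃ₗ[K] E) : End K E)) (g := ((a⁻¹ : T.V ≃ₗ[K] T.V) : End K T.V)) E.subtype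
    (fun x => a.injective ((aE _).trans ((congrArg _ (apply_inv_apply A x)).trans (apply_inv_apply a _).symm))) p
  refine ⟨a, ha, aE, hF, hD.fpf_of_poly ha hE hF p (fun x hx => ?_) (fun x hx e => ?_) (fun x hx => ?_)
    (fun w hw _ => hW w hw) fun w hw _ => hW w hw⟩
  · simpa [h0] using (e1 ⟨x, hx⟩).symm
  · exact congrArg Subtype.val (h1.1 (a₁ := ⟨x, hx⟩) (a₂ := 0) (Subtype.ext (((e2 _).trans e).trans (by simp))))
  · obtain ⟨y, hy⟩ := h1.2 ⟨x, hx⟩
    exact ⟨y, y.2, (e2 y).symm.trans (congrArg Subtype.val hy)⟩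

variable [Finite K]

instance finite_equiv (T : Trip K) : Finite (T.V ≃ₗ[K] T.V) :=
  have := Module.finite_of_finite K (M := T.V)
  DFunLike.finite _

theorem Good.comm (h : Alt T) (hg : Good T) {p : K[X]} (hm : p.Monic) (hd : 2 * p.natDegree = finrank K T.V)
    (h0 : p.coeff 0 ≠ 0) (hp : ∀ (L : Type u) [Field L] [Algebra K L] (x : L), aeval x p = 0 → aeval x⁻¹ p ≠ 0) :
    Comm T := by
  obtain ⟨E, F, hD, hn, hW, v, hv, u, hu, e⟩ := hg.factor h
  obtain ⟨A, h1, h2⟩ := exists_of_poly (W := E) hm (by omega) h0 hp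
  obtain ⟨a, ha, -, -, f1, f2⟩ := exists_fpf h.1 hD hW A p h1 h2
  simpa [Comm, e] using comm_of_fpf rad_le rad_le ha (one_mem _) f2 (by simpa using f1.inv) hv hu

omit [Finite K] in
theorem exists_anti (h3 : (3 : K) = 0) {W : Type*} [AddCommGroup W] [Module K W] [FiniteDimensional K W] {j : ℕ}
    (hd : finrank K W = j + j) : ∃ (s : LinearMap.BilinForm K W) (A : End K W), (∀ x, (∀ y, s x y = 0) → x = 0) ∧
      (∀ x y, s x y = s y x) ∧ (∀ x y, s (A x) (A y) = -s x y) ∧ ∀ x, A (A x) + A x = x := by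
  obtain ⟨e⟩ : Nonempty (W ≃ₗ[K] (Fin j → K) × (Fin j → K)) :=
    FiniteDimensional.nonempty_linearEquiv_of_finrank_eq (by simp [hd])
  let d : LinearMap.BilinForm K (Fin j → K) := dotProductBilin K K
  have hd : ∀ x, (∀ y, d x y = 0) → x = 0 := fun x hx => dotProduct_eq_zero x hx
  have hs : ∀ x y, d x y = d y x := dotProduct_comm
  let A : End K ((Fin j → K) × (Fin j → K)) :=
    LinearMap.prod (LinearMap.fst K _ _ - LinearMap.snd K _ _) (LinearMap.fst K _ _ + LinearMap.snd K _ _)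
  refine ⟨(prodForm d d).compl₁₂ e.toLinearMap e.toLinearMap, e.symm.toLinearMap ∘ₗ A ∘ₗ e.toLinearMap,
    fun x hx => e.map_eq_zero_iff.1 (prodForm_nondeg hd hd _ fun y => by simpa using hx (e.symm y)),
    fun x y => congrArg₂ (· + ·) (hs _ _) (hs _ _), fun x y => ?_, fun x => e.injective ?_⟩
  · simp [prodForm_apply, A]
    linear_combination (d (e x).1 (e y).1 + d (e x).2 (e y).2) * h3
  · ext i <;> simp [A]
    · linear_combination (-(e x).2 i) * h3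
    · linear_combination (e x).1 i * h3

theorem Good.comm_neg (h : Alt T) (hg : Good (tneg T)) (h3 : (3 : K) = 0) (hd : 4 ∣ finrank K T.V) : Comm T := by
  have h2 : (2 : K) ≠ 0 := fun e => one_ne_zero (α := K) (by linear_combination h3 - e)
  obtain ⟨E, F, hD, hn, hW, v, hv, u, hu, e⟩ : ∃ E F : Submodule K T.V, InDual T.B E F ∧
    finrank K T.V = 2 * finrank K E ∧ (∀ w, Perp T.B E F w → w = 0) ∧
    ∃ v ∈ Rad T.B F, ∃ u ∈ Rad T.B E, T.g.trans (LinearEquiv.neg K) = v * u := hg.factor h.neg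
  obtain ⟨j, hj⟩ := hd
  obtain ⟨s, A, s1, s2, s3, s4⟩ := exists_anti h3 (W := E) (j := j) (by omega)
  have hA : Function.Injective A := (injective_iff_map_eq_zero A).2 fun x hx => by simpa [hx] using (s4 x).symm
  obtain ⟨A', rfl⟩ : ∃ A' : E ≃ₗ[K] E, A' = A := ⟨LinearEquiv.ofInjectiveEndo A hA, rfl⟩
  simp only [LinearEquiv.coe_coe] at s3 s4 hA
  have h1 : Function.Injective (aeval ((A'⁻¹ : E ≃ₗ[K] E) : End K E) (X ^ 2 + X - 1 : K[X])) :=
    (injective_iff_map_eq_zero _).2 fun x hx => by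
      obtain ⟨y, rfl⟩ := (A' * A').surjective x
      have h4 : y + A' y - A' (A' y) = 0 := by simpa [sq, inv_apply_apply] using hx
      have h5 : (2 : K) • A' y = 0 := by linear_combination (norm := module) h4 + s4 y
      rw [hA (((smul_eq_zero_iff_right h2).1 h5).trans (map_zero A').symm), map_zero]
  obtain ⟨a, ha, aE, aF, f1, f2⟩ := exists_fpf h.1 hD hW A' (X ^ 2 + X - 1)
    (LinearMap.ext fun x => by simpa [sq, sub_eq_zero] using s4 x) ⟨h1, LinearMap.injective_iff_surjective.1 h1⟩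
  let σ : E ≃ₗ[K] F := (s.toDual ⟨s1, fun y hy => s1 y fun x => (s2 _ _).trans (hy x)⟩).trans
    (LinearEquiv.ofBijective _ hD.bij).symm
  have c1 : ∀ x y : E, T.B x (σ y) = s x y := fun x y =>
    (LinearMap.congr_fun ((LinearEquiv.ofBijective _ hD.bij).apply_symm_apply (s y)) x).trans (s2 _ _)
  have c2 : ∀ (x : E) (y : F), T.B (σ x) (σ.symm y) = -T.B x y := fun x y => by
    rw [h.1.symm, c1, s2, ← c1, σ.apply_symm_apply, neg_one_mul]
  have c3 : ∀ (x : E) (y : F), T.B (σ.symm y) (σ x) = -T.B y x := fun x y => by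
    rw [h.1.symm, c2, h.1.symm x, mul_neg]
  have hW' : ∀ w : perp T.B E F, (w : T.V) = 0 := fun w => hW w w.2
  have e5 := fun x y : E => hD.isoE x x.2 y y.2
  have e6 := fun x y : F => hD.isoF x x.2 y y.2
  obtain ⟨τ, hτ, e'⟩ := hD.exists_isom h.1.nondeg ((F.subtype ∘ₗ σ.toLinearMap).coprod
    ((-(E.subtype ∘ₗ σ.symm.toLinearMap)).coprod 0)) fun p q => by simp [hW', c2, c3, e5, e6]
  have τE : ∀ x : E, τ x = σ x := fun x => by simpa using e' (x, 0, 0)
  have τF : ∀ x : E, τ (σ x) = -x := fun x => by simpa using e' (0, σ x, 0)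
  have c4 : ∀ x : E, a (σ x) = -σ (A' x) := fun x => eq_neg_of_add_eq_zero_left
    (hD.EF _ (add_mem ((aF _).2 (σ x).2) (σ _).2) fun z hz => by
      obtain ⟨z, e⟩ := A'.surjective ⟨z, hz⟩
      obtain rfl := congrArg Subtype.val e
      rw [map_add, c1, ← aE, ha, c1]
      exact add_eq_zero_iff_eq_neg'.2 (s3 z x))
  have hz : ∀ x : T.V ≃ₗ[K] T.V, Commute (LinearEquiv.neg K) x := fun x => LinearEquiv.ext fun y => (map_neg x y).symm
  have c5 : τ * a⁻¹ * τ⁻¹ = LinearEquiv.neg K * a⁻¹ := by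
    have : a * τ = LinearEquiv.neg K * τ * a := LinearEquiv.ext fun y => by
      obtain ⟨x, hx, f, hf, w, hw, rfl⟩ := hD.dec y
      obtain ⟨z, e⟩ := σ.surjective ⟨f, hf⟩
      obtain rfl := congrArg Subtype.val e
      lift x to E using hx
      simp [hW w hw, τE, τF, c4, aE, add_comm]
    rw [mul_inv_eq_iff_eq_mul, mul_inv_eq_iff_eq_mul, (hz _).eq, mul_assoc, mul_assoc, eq_inv_mul_iff_mul_eq, this,
      mul_assoc]
  have c6 : T.g = v * (a * (τ * a⁻¹ * τ⁻¹)) * u := by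
    rw [c5, (hz _).eq, mul_inv_cancel_left, mul_assoc, (hz _).eq, ← mul_assoc, ← e]
    exact LinearEquiv.ext fun y => by simp
  rw [Comm, c6]
  simpa using comm_of_fpf rad_le rad_le ha hτ f2 (c5 ▸ Fpf.of_comm f1.inv hz) hv hu

end CL.Ore
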