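/-
Commutators in symplectic groups, part 2: orthogonal blocks.
-/
import Cfsg.Agent.Cls.OreSp1

set_option autoImplicit false

open Module Polynomial

namespace CL.Ore

open CL.Sp CL.Chev CL.GLn CL.Known CL.Known.Trip CL.ClassNo

universe u

variable {K : Type u} [Field K] {T : Trip K} {ε : K}

theorem inv_mem_of_mem {V : Type*} [AddCommGroup V] [Module K V] [FiniteDimensional K V] {g : V ≃ₗ[K] V}
    {X : Submodule K V} (hX : ∀ x ∈ X, g x ∈ X) {x : V} (hx : x ∈ X) : g⁻¹ x ∈ X := by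
  obtain ⟨y, hy⟩ := (LinearMap.injective_iff_surjective (f := (g : End K V).restrict hX)).1
    (fun _ _ h => Subtype.ext (g.injective (congrArg Subtype.val h))) ⟨x, hx⟩
  rw [show x = g y from (congrArg Subtype.val hy).symm, inv_apply_apply]
  exact y.2

theorem split (h : T.OK ε) {X : Submodule K T.V} (hX : ∀ x ∈ X, T.g x ∈ X)
    (hn : ∀ x ∈ X, (∀ y ∈ X, T.B x y = 0) → x = 0) :
    (tres T X hX).OK ε ∧ ∃ C : Trip K, C.OK ε ∧ iso K (tsum (tres T X hX) C) T := by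
  have hc : IsCompl X (T.B.orthogonal X) := LinearMap.BilinForm.isCompl_orthogonal_of_restrict_nondegenerate (ok_refl h)
    ⟨fun x hx => Subtype.ext (hn x x.2 fun y hy => hx ⟨y, hy⟩),
      fun x hx => Subtype.ext (hn x x.2 fun y hy => ok_refl h _ _ (hx ⟨y, hy⟩))⟩
  obtain ⟨a, b, c⟩ := iso_of_isCompl h hc hX (fun w hw => mem_orth.2 fun x hx => by
    rw [isom_right h.isom, mem_orth.1 hw _ (inv_mem_of_mem hX hx)]) fun u hu w hw => mem_orth.1 hw u hu
  exact ⟨a, _, b, c⟩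

theorem exists_inj {A C : Trip K} (e : iso K (tsum A C) T) :
    ∃ f : C.V →ₗ[K] T.V, Function.Injective f ∧ ∀ v, f (C.g v) = T.g (f v) :=
  let ⟨e, h1, _⟩ := e
  ⟨e.toLinearMap ∘ₗ LinearMap.inr K A.V C.V, e.injective.comp LinearMap.inr_injective,
    fun v => (congrArg e (Prod.ext (map_zero A.g).symm rfl : ((0, C.g v) : A.V × C.V) = (tsum A C).g (0, v))).trans
      (h1 (0, v))⟩

/-- A good orthogonal summand of positive dimension. -/
def Blk (T : Trip K) : Prop :=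
  ∃ A C : Trip K, Good A ∧ A.OK (-1) ∧ C.OK (-1) ∧ iso K (tsum A C) T ∧ finrank K C.V < finrank K T.V

theorem blk_of (h : Alt T) {X E : Submodule K T.V} (hX : ∀ x ∈ X, T.g x ∈ X)
    (hn : ∀ x ∈ X, (∀ y ∈ X, T.B x y = 0) → x = 0) (h0 : X ≠ ⊥) (hE : E ≤ X) (a1 : ∀ x ∈ E, ∀ y ∈ E, T.B x y = 0)
    (a2 : ∀ x ∈ E, ∀ y ∈ E, T.B (T.g x - x) (T.g y - y) = 0) (a3 : ∀ x ∈ E, T.g x ∈ E → T.g x = x)
    (a4 : finrank K X ≤ 2 * finrank K E) : Blk T := by
  obtain ⟨b1, C, b2, b3⟩ := split h.1 hX hn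
  refine ⟨_, C, ⟨E.comap X.subtype, fun x hx y hy => a1 _ hx _ hy, fun x hx y hy => a2 _ hx _ hy,
    fun x hx hy => Subtype.ext (a3 _ hx hy), (Submodule.comapSubtypeEquivOfLe hE).finrank_eq ▸ a4⟩, b1, b2, b3, ?_⟩
  rw [← finrank_iso b3, finrank_tsum]
  exact Nat.lt_add_of_pos_left (Nat.pos_of_ne_zero (mt Submodule.finrank_eq_zero.1 h0))

theorem good_or_of_blk (P Q : Trip K → Prop) (hP : ∀ T A C, P T → iso K (tsum A C) T → P C)
    (hQ : ∀ T A C, Q C → A.OK (-1) → iso K (tsum A C) T → Q T)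
    (hB : ∀ T, Alt T → P T → 0 < finrank K T.V → Blk T ∨ Q T) (h : Alt T) (hT : P T) : Good T ∨ Q T := by
  induction hn : finrank K T.V using Nat.strong_induction_on generalizing T with
  | _ n ih =>
    rcases Nat.eq_zero_or_pos (finrank K T.V) with h0 | h0
    · exact Or.inl (good_of_zero h0)
    · obtain ⟨A, C, a1, a2, a3, a4, a5⟩ | hq := hB T h hT h0
      · exact (ih _ (hn ▸ a5) (h.right a3 a4) (hP _ _ _ hT a4) rfl).imp (fun b => (a1.sum b).iso a4)
          fun b => hQ _ _ _ b a2 a4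
      · exact Or.inr hq

theorem good_of_blk (P : Trip K → Prop) (hP : ∀ T A C, P T → iso K (tsum A C) T → P C)
    (hB : ∀ T, Alt T → P T → 0 < finrank K T.V → Blk T) (h : Alt T) (hT : P T) : Good T :=
  (good_or_of_blk P (fun _ => False) hP (fun _ _ _ h _ _ => h) (fun T a b c => Or.inl (hB T a b c)) h hT).resolve_right id

section Orb

variable {V : Type*} [AddCommGroup V] [Module K V]

/-- The smallest invariant subspace that contains `y`. -/
noncomputable def orb (f : End K V) (y : V) : Submodule K V := (LinearMap.applyₗ y ∘ₗ (aeval f).toLinearMap).range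

theorem mem_orb {f : End K V} {y x : V} : x ∈ orb f y ↔ ∃ p : K[X], aeval f p y = x := Iff.rfl

theorem self_mem_orb (f : End K V) (y : V) : y ∈ orb f y := ⟨1, by simp⟩

theorem map_mem_orb {f : End K V} {y x : V} (h : x ∈ orb f y) : f x ∈ orb f y :=
  let ⟨p, e⟩ := mem_orb.1 h; mem_orb.2 ⟨X * p, by simp [← e]⟩

theorem orb_le {f : End K V} {y : V} {W : Submodule K V} (hW : ∀ x ∈ W, f x ∈ W) (hy : y ∈ W) : orb f y ≤ W := by
  rintro _ ⟨p, rfl⟩
  exact aeval_mem hW p hy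

theorem dvd_of_functional {φ a : K[X]} (hφ : Prime φ) {k : ℕ} (c : K[X] →ₗ[K] K) (h0 : ∀ r, c (φ ^ (k + 1) * r) = 0)
    (h1 : c (φ ^ k) ≠ 0) (ha : ∀ r, c (a * r) = 0) : φ ^ (k + 1) ∣ a := by
  classical
  obtain ⟨j, hj, e⟩ := (dvd_prime_pow hφ _).1 (EuclideanDomain.gcd_dvd_right a (φ ^ (k + 1)))
  rcases hj.eq_or_lt with rfl | hj
  · exact e.symm.dvd.trans (EuclideanDomain.gcd_dvd_left _ _)
  · obtain ⟨r, hr⟩ := e.dvd.trans (pow_dvd_pow φ (Nat.lt_succ_iff.1 hj))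
    rw [hr, EuclideanDomain.gcd_eq_gcd_ab, add_mul, map_add, mul_assoc, mul_assoc, ha, h0, add_zero] at h1
    exact absurd rfl h1

end Orb

/-- `g + g⁻¹` -/
def hh (T : Trip K) : End K T.V := (T.g : End K T.V) + ((T.g⁻¹ : T.V ≃ₗ[K] T.V) : End K T.V)

theorem hh_apply (x : T.V) : hh T x = T.g x + T.g⁻¹ x := rfl

theorem hh_comm (p : K[X]) (x : T.V) : aeval (hh T) p (T.g x) = T.g (aeval (hh T) p x) :=
  (aeval_intertwine (T.g : End K T.V) (fun v => by simp [hh_apply, inv_apply_apply]) p x).symm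

theorem hh_adj (h : T.OK ε) (p : K[X]) (x y : T.V) : T.B (aeval (hh T) p x) y = T.B x (aeval (hh T) p y) :=
  form_aeval (fun x y => by
    rw [hh_apply, hh_apply, map_add, map_add, LinearMap.add_apply, isom_left h.isom, ← isom_right h.isom, add_comm]) p x y

theorem Alt.hh_alt (h : Alt T) (p : K[X]) (x : T.V) : T.B (aeval (hh T) p x) x = 0 := by
  have h1 : ∀ x, T.B (hh T x) x = 0 := fun x => by
    rw [hh_apply, map_add, LinearMap.add_apply, ← isom_right h.1.isom, h.1.symm x, neg_one_mul, neg_add_cancel]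
  have h2 : ∀ (n : ℕ) x, T.B (aeval (hh T) (X ^ n * X ^ n : K[X]) x) x = 0 := fun n x => by
    rw [map_mul, End.mul_apply, hh_adj h.1, h.2]
  have h3 : ∀ (n : ℕ) x, T.B (aeval (hh T) (X ^ n * (X * X ^ n) : K[X]) x) x = 0 := fun n x => by
    rw [map_mul, End.mul_apply, hh_adj h.1, map_mul, End.mul_apply, aeval_X, h1]
  induction p using Polynomial.induction_on' with
  | add p q hp hq => simp [hp, hq]
  | monomial n c =>
    have : T.B (aeval (hh T) (X ^ n : K[X]) x) x = 0 := by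
      obtain ⟨k, rfl | rfl⟩ := Nat.even_or_odd' n
      · rw [two_mul, pow_add, h2]
      · rw [two_mul, add_assoc, pow_add, pow_succ', h3]
    simpa [aeval_monomial] using Or.inr this

theorem Alt.hh_alt' (h : Alt T) (p q : K[X]) (x : T.V) : T.B (aeval (hh T) p x) (aeval (hh T) q x) = 0 := by
  rw [← hh_adj h.1, ← End.mul_apply, ← map_mul, h.hh_alt]

/-- An isotropic subspace that is invariant under `g + g⁻¹`. -/
theorem iso_sub (h : T.OK ε) {E : Submodule K T.V} (hE : ∀ x ∈ E, hh T x ∈ E) (a1 : ∀ x ∈ E, ∀ y ∈ E, T.B x y = 0)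
    (x : T.V) (hx : x ∈ E) (y : T.V) (hy : y ∈ E) : T.B (T.g x - x) (T.g y - y) = 0 := by
  have h1 := a1 _ (hE x hx) y hy
  rw [hh_apply, map_add, LinearMap.add_apply, ← isom_right h.isom] at h1
  simp only [map_sub, LinearMap.sub_apply, h.isom, a1 x hx y hy]
  linear_combination -h1

theorem sup_map_inv {E : Submodule K T.V} (hE : ∀ x ∈ E, hh T x ∈ E) (x : T.V)
    (hx : x ∈ E ⊔ E.map (T.g : End K T.V)) : T.g x ∈ E ⊔ E.map (T.g : End K T.V) := by
  obtain ⟨a, ha, _, ⟨b, hb, rfl⟩, rfl⟩ := Submodule.mem_sup.1 hx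
  have : T.g (a + T.g b) = -b + T.g (a + hh T b) := by simp [hh_apply]; abel
  exact this ▸ Submodule.add_mem_sup (neg_mem hb) ⟨_, add_mem ha (hE b hb), rfl⟩

theorem finrank_sup_map (E : Submodule K T.V) :
    finrank K ↥(E ⊔ E.map (T.g : End K T.V)) + finrank K ↥(E ⊓ E.map (T.g : End K T.V)) = 2 * finrank K E := by
  rw [Submodule.finrank_sup_add_finrank_inf_eq, LinearEquiv.finrank_map_eq, two_mul]

theorem Alt.blk_cyc (h : Alt T) {φ : K[X]} (hφ : Prime φ) {k : ℕ} {y : T.V} (h0 : aeval (hh T) (φ ^ (k + 1)) y = 0)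
    (h1 : T.B (aeval (hh T) (φ ^ k) (T.g y)) y ≠ 0) : Blk T := by
  let c : K[X] →ₗ[K] K := T.B.flip y ∘ₗ LinearMap.applyₗ (T.g y) ∘ₗ (aeval (hh T)).toLinearMap
  have hc : ∀ p, c p = T.B (T.g (aeval (hh T) p y)) y := fun p => congrArg (T.B · y) (hh_comm p y)
  have hz : ∀ a, (∀ r, c (a * r) = 0) → aeval (hh T) a y = 0 := fun a ha => by
    obtain ⟨r, rfl⟩ := dvd_of_functional hφ c (fun r => by
      rw [hc, mul_comm, map_mul, End.mul_apply, h0]; simp) h1 ha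
    rw [mul_comm, map_mul, End.mul_apply, h0, map_zero]
  have hE : ∀ x ∈ orb (hh T) y, hh T x ∈ orb (hh T) y := fun x => map_mem_orb
  have a1 : ∀ x ∈ orb (hh T) y, ∀ z ∈ orb (hh T) y, T.B x z = 0 := by
    rintro _ ⟨p, rfl⟩ _ ⟨q, rfl⟩
    exact h.hh_alt' p q y
  have key : ∀ a ∈ orb (hh T) y, ∀ b ∈ orb (hh T) y,
      (∀ z ∈ orb (hh T) y ⊔ (orb (hh T) y).map (T.g : End K T.V), T.B (a + T.g b) z = 0) → a = 0 ∧ b = 0 := by
    intro _ ha _ hb hz'
    obtain ⟨a, rfl⟩ := mem_orb.1 ha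
    obtain ⟨b, rfl⟩ := mem_orb.1 hb
    refine ⟨hz a fun r => ?_, hz b fun r => ?_⟩
    · have := hz' _ (Submodule.mem_sup_right ⟨_, mem_orb.2 ⟨r, rfl⟩, rfl⟩)
      rw [map_add, LinearMap.add_apply, LinearEquiv.coe_coe, h.1.isom, h.hh_alt', add_zero, hh_adj h.1, hh_comm] at this
      rw [hc, map_mul, End.mul_apply, ok_refl h.1 _ _ this]
    · have := hz' _ (Submodule.mem_sup_left (mem_orb.2 ⟨r, rfl⟩))
      rw [map_add, LinearMap.add_apply, h.hh_alt', zero_add, ← hh_adj h.1, hh_comm] at this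
      rwa [hc, mul_comm, map_mul, End.mul_apply]
  refine blk_of h (sup_map_inv hE) (fun x hx hx' => ?_) (fun e => h1 ?_) le_sup_left a1 (iso_sub h.1 hE a1)
    (fun x hx hy => ?_) ((Nat.le_add_right _ _).trans (finrank_sup_map _).le)
  · obtain ⟨a, ha, _, ⟨b, hb, rfl⟩, rfl⟩ := Submodule.mem_sup.1 hx
    obtain ⟨rfl, rfl⟩ := key a ha b hb hx'
    simp
  · rw [(Submodule.eq_bot_iff _).1 e y (Submodule.mem_sup_left (self_mem_orb _ _)), map_zero (T.B _)]
  · obtain ⟨-, rfl⟩ := key _ (neg_mem hy) x hx (by simp)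
    simp

theorem Alt.polar (h : Alt T) {f : End K T.V} (hf : ∀ x, f (T.g x) = T.g (f x)) (hf' : ∀ x y, T.B (f x) y = T.B x (f y))
    {P : Submodule K T.V} (h0 : ∀ y ∈ P, T.B (f (T.g y)) y = 0) {y z : T.V} (hy : y ∈ P) (hz : z ∈ P) :
    T.B (f (T.g y - T.g⁻¹ y)) z = 0 := by
  have h1 := h0 _ (add_mem hy hz)
  simp only [map_add, LinearMap.add_apply, h0 y hy, h0 z hz] at h1
  have h2 : T.B (f (T.g z)) y = -T.B (f (T.g⁻¹ y)) z := by
    rw [hf', isom_left h.1.isom, h.1.symm, neg_one_mul, ← apply_inv_apply T.g y, hf, inv_apply_apply, inv_apply_apply]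
  rw [map_sub, map_sub, LinearMap.sub_apply]
  linear_combination h1 - h2

/-- Isometries without the eigenvalues `1` and `-1`. -/
theorem Alt.good_tame (h : Alt T) (ht : ∀ v, T.g (T.g v) = v → v = 0) : Good T := by
  refine good_of_blk (fun T => ∀ v, T.g (T.g v) = v → v = 0) (fun T A C hT e v hv => ?_) (fun T h ht h0 => ?_) h ht
  · obtain ⟨f, hf, e⟩ := exists_inj e
    exact hf ((hT _ (by rw [← e, ← e, hv])).trans (map_zero f).symm)
  have := finrank_pos_iff.1 h0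
  have hi := LinearMap.isIntegral (hh T)
  obtain ⟨φ, hφ, hd⟩ := WfDvdMonoid.exists_irreducible_factor (minpoly.not_isUnit K (hh T)) (minpoly.ne_zero hi)
  obtain ⟨k, ψ, h1, h2⟩ := WfDvdMonoid.max_power_factor (minpoly.ne_zero hi) hφ
  obtain _ | k := k
  · exact absurd (by simpa [h2] using hd) h1
  by_cases hy : ∃ x, T.B (aeval (hh T) (φ ^ k) (T.g (aeval (hh T) ψ x))) (aeval (hh T) ψ x) ≠ 0
  · obtain ⟨x, hx⟩ := hy
    exact h.blk_cyc hφ.prime (by rw [← End.mul_apply, ← map_mul, ← h2, minpoly.aeval, LinearMap.zero_apply]) hx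
  have h3 : aeval (hh T) (ψ * ψ * φ ^ k) = 0 := LinearMap.ext fun x => by
    have h4 : ∀ z, T.B (aeval (hh T) (φ ^ k) (T.g (aeval (hh T) ψ x) - T.g⁻¹ (aeval (hh T) ψ x))) (aeval (hh T) ψ z) = 0 :=
      fun z => h.polar (P := LinearMap.range (aeval (hh T) ψ)) (hh_comm _) (hh_adj h.1 _)
        (by rintro _ ⟨x, rfl⟩; exact not_not.1 (not_exists.1 hy x)) ⟨x, rfl⟩ ⟨z, rfl⟩
    have h5 := h.1.nondeg _ fun z => (hh_adj h.1 ψ _ z).trans (h4 z)
    refine ht _ ?_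
    obtain ⟨x', hx'⟩ := T.g.surjective (aeval (hh T) ψ x)
    have h6 : aeval (hh T) (ψ * ψ * φ ^ k) x = T.g (aeval (hh T) (ψ * φ ^ k) x') := by
      rw [← hh_comm, hx', ← End.mul_apply, ← map_mul]
      congr 2
      ring
    rw [← hx', inv_apply_apply, ← End.mul_apply, ← map_mul, map_sub, hh_comm, hh_comm, sub_eq_zero] at h5
    rw [h6, h5, ← h6]
  have h4 := minpoly.dvd K _ h3
  rw [h2, pow_succ, mul_assoc, mul_comm _ (φ ^ k), mul_dvd_mul_iff_left (pow_ne_zero k hφ.ne_zero)] at h4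
  exact absurd ((hφ.prime.dvd_or_dvd ((dvd_mul_right φ ψ).trans h4)).elim id id) h1

end CL.Ore
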