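/-
Commutators in symplectic groups, part 3: unipotent elements.
-/
import Cfsg.Agent.Cls.OreSp2

set_option autoImplicit false

open Module Polynomial

namespace CL.Ore

open CL.Sp CL.Chev CL.GLn CL.Known CL.Known.Trip CL.ClassNo

universe u

variable {K : Type u} [Field K] {T : Trip K} {ε : K}

section Nil

variable {V : Type*} [AddCommGroup V] [Module K V] {f : End K V} {n : ℕ}

theorem pow_apply_eq_zero_iff {v : V} (h0 : (f ^ (n + 1)) v = 0) (h1 : (f ^ n) v ≠ 0) (s : ℕ) :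
    (f ^ s) v = 0 ↔ n + 1 ≤ s := by
  refine ⟨fun h => not_lt.1 fun hs => h1 ?_, fun h => ?_⟩
  · rw [← Nat.sub_add_cancel (Nat.lt_succ_iff.1 hs), pow_add, End.mul_apply, h, map_zero]
  · rw [← Nat.sub_add_cancel h, pow_add, End.mul_apply, h0, map_zero]

theorem top_aeval (hf : f ^ (n + 1) = 0) {j : ℕ} (hj : j ≤ n) (a : K[X]) (v : V) :
    (f ^ (n - j)) (aeval f (X ^ j * a) v) = a.coeff 0 • (f ^ n) v := by
  conv_lhs => rw [← a.X_mul_divX_add, map_mul, map_pow, aeval_X, End.mul_apply, ← End.mul_apply, ← pow_add,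
    Nat.sub_add_cancel hj, ← End.mul_apply, map_add, map_mul, aeval_X, mul_add, ← mul_assoc, ← pow_succ, hf]
  simp

theorem pair_dvd {B : LinearMap.BilinForm K V} (hf : f ^ (n + 1) = 0) {v w : V} (h1 : B ((f ^ n) v) v = 0)
    (h2 : B ((f ^ n) w) w = 0) (h3 : B ((f ^ n) v) w ≠ 0) (h4 : B ((f ^ n) w) v ≠ 0) {a b : K[X]}
    (hv : ∀ j, B ((f ^ j) (aeval f a v + aeval f b w)) v = 0) (hw : ∀ j, B ((f ^ j) (aeval f a v + aeval f b w)) w = 0) :
    X ^ (n + 1) ∣ a ∧ X ^ (n + 1) ∣ b := by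
  have key : ∀ j ≤ n + 1, X ^ j ∣ a ∧ X ^ j ∣ b := fun j => by
    induction j with
    | zero => simp
    | succ j ih =>
      intro hj
      obtain ⟨⟨a, rfl⟩, ⟨b, rfl⟩⟩ := ih (by omega)
      have e1 := hv (n - j)
      have e2 := hw (n - j)
      rw [map_add, top_aeval hf (by omega), top_aeval hf (by omega)] at e1 e2
      simp only [map_add, map_smul, LinearMap.add_apply, LinearMap.smul_apply, h1, h2, smul_eq_mul, mul_zero, zero_add,
        add_zero, mul_eq_zero, h3, h4, or_false] at e1 e2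
      exact ⟨pow_succ (X : K[X]) j ▸ mul_dvd_mul_left _ (X_dvd_iff.2 e2),
        pow_succ (X : K[X]) j ▸ mul_dvd_mul_left _ (X_dvd_iff.2 e1)⟩
  exact key _ le_rfl

theorem pair_free {B : LinearMap.BilinForm K V} (hf : f ^ (n + 1) = 0) {v w : V} (h1 : B ((f ^ n) v) v = 0)
    (h2 : B ((f ^ n) w) w = 0) (h3 : B ((f ^ n) v) w ≠ 0) (h4 : B ((f ^ n) w) v ≠ 0) {x y : V} (hx : x ∈ orb f v)
    (hy : y ∈ orb f w) (hv : ∀ j, B ((f ^ j) (x + y)) v = 0) (hw : ∀ j, B ((f ^ j) (x + y)) w = 0) : x = 0 ∧ y = 0 := by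
  obtain ⟨a, rfl⟩ := mem_orb.1 hx
  obtain ⟨b, rfl⟩ := mem_orb.1 hy
  obtain ⟨⟨a, rfl⟩, ⟨b, rfl⟩⟩ := pair_dvd hf h1 h2 h3 h4 hv hw
  simp [hf]

theorem pow_mem {W : Submodule K V} (hW : ∀ x ∈ W, f x ∈ W) (j : ℕ) {x : V} (hx : x ∈ W) : (f ^ j) x ∈ W := by
  simpa using aeval_mem hW (X ^ j) hx

end Nil

/-- `g - 1` -/
def nn (T : Trip K) : End K T.V := (T.g : End K T.V) - 1

/-- `g⁻¹ - 1` -/
def nn' (T : Trip K) : End K T.V := ((T.g⁻¹ : T.V ≃ₗ[K] T.V) : End K T.V) - 1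

theorem nn_apply (x : T.V) : nn T x = T.g x - x := rfl

theorem nn_adj (h : T.OK ε) (j : ℕ) (x y : T.V) : T.B ((nn T ^ j) x) y = T.B x ((nn' T ^ j) y) := by
  simpa using form_aeval (f := nn T) (f' := nn' T) (fun x y => by simp [nn, nn', isom_left h.isom]) (X ^ j) x y

theorem nn_comm (p : K[X]) (j : ℕ) (x : T.V) : (nn T ^ j) (aeval (hh T) p x) = aeval (hh T) p ((nn T ^ j) x) :=
  have h : Commute (T.g : End K T.V) (aeval (hh T) p) := LinearMap.ext fun x => (hh_comm p x).symm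
  LinearMap.congr_fun ((h.sub_left (Commute.one_left _)).pow_left j).eq x

theorem hh_pow (k : ℕ) (x : T.V) : aeval (hh T) ((X - C 2) ^ k : K[X]) x = (T.g⁻¹ ^ k) ((nn T ^ (2 * k)) x) := by
  have h1 : aeval (hh T) (X - C 2 : K[X]) = ((T.g⁻¹ : T.V ≃ₗ[K] T.V) : End K T.V) * nn T ^ 2 := LinearMap.ext fun x => by
    simp [hh_apply, sq, nn_apply, two_smul]
    abel
  have h2 : Commute ((T.g⁻¹ : T.V ≃ₗ[K] T.V) : End K T.V) (nn T) := LinearMap.ext fun x => by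
    simp [nn_apply]
  rw [map_pow, h1, (h2.pow_right 2).mul_pow, ← pow_mul, End.mul_apply, End.pow_apply, LinearEquiv.pow_apply]
  rfl

theorem hh_pow' {k : ℕ} {x : T.V} (h : (nn T ^ (2 * k + 1)) x = 0) :
    aeval (hh T) ((X - C 2) ^ k : K[X]) x = (nn T ^ (2 * k)) x := by
  rw [pow_succ', End.mul_apply, nn_apply, sub_eq_zero] at h
  rw [hh_pow, LinearEquiv.pow_apply]
  exact Function.iterate_fixed (by conv_lhs => rw [← h, inv_apply_apply]) k

theorem orb_ht (hu : IsNilpotent (nn T)) {a y : T.V} (ha : a ∈ orb (hh T) y) (h0 : a ≠ 0) :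
    ∃ i, ∀ t, (nn T ^ t) a = 0 ↔ (nn T ^ (2 * i + t)) y = 0 := by
  obtain ⟨r, rfl⟩ := mem_orb.1 ha
  obtain ⟨q, e, hq⟩ := exists_eq_pow_rootMultiplicity_mul_and_not_dvd r (fun e => h0 (by simp [e])) 2
  obtain ⟨M, hM⟩ := hu
  obtain ⟨c, d, hc⟩ := ((irreducible_X_sub_C (2 : K)).coprime_iff_not_dvd.2 hq).pow_left (m := M)
  have h1 : ∀ z, aeval (hh T) q z = 0 → z = 0 := fun z hz => by
    have := LinearMap.congr_fun (congrArg (aeval (hh T)) hc) z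
    rw [map_add, map_mul, map_mul, LinearMap.add_apply, End.mul_apply, End.mul_apply, hz, hh_pow, two_mul, pow_add, hM] at this
    simpa using this.symm
  generalize r.rootMultiplicity 2 = i at e
  refine ⟨i, fun t => ?_⟩
  rw [nn_comm, e, mul_comm, map_mul, End.mul_apply, hh_pow, ← End.mul_apply (nn T ^ _), ← pow_add]
  exact ⟨fun h => (LinearEquiv.map_eq_zero_iff _).1 (h1 _ h), fun h => by rw [h, map_zero, map_zero]⟩

theorem exists_top {V : Type*} [AddCommGroup V] [Module K V] {f : End K V} {y : V} (h : ∃ m, (f ^ m) y = 0) (hy : y ≠ 0) :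
    ∃ n, (f ^ (n + 1)) y = 0 ∧ (f ^ n) y ≠ 0 := by
  classical
  obtain ⟨n, hn⟩ := Nat.exists_eq_add_one.2 ((Nat.find_pos h).2 (by simpa using hy))
  exact ⟨n, hn ▸ Nat.find_spec h, Nat.find_min h (by omega)⟩

theorem nn_eq_zero (hu : IsNilpotent (nn T)) {a y : T.V} (ha : a ∈ orb (hh T) y) (hb : nn T a ∈ orb (hh T) y) :
    nn T a = 0 := by
  by_contra h0
  obtain ⟨i, hi⟩ := orb_ht hu ha fun e => h0 (by simp [e])
  obtain ⟨j, hj⟩ := orb_ht hu hb h0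
  obtain ⟨n, h1, h2⟩ := exists_top (f := nn T) (y := y) (hu.imp fun m hm => by simp [hm]) fun e => h0 ((hj 0).2 (by simp [e]))
  have h3 : ∀ t, n + 1 ≤ 2 * j + t ↔ n + 1 ≤ 2 * i + (t + 1) := fun t => by
    rw [← pow_apply_eq_zero_iff h1 h2, ← pow_apply_eq_zero_iff h1 h2, ← hi, ← hj, pow_succ, End.mul_apply]
  have h4 := mt ((pow_apply_eq_zero_iff h1 h2 _).symm.trans (hj 0).symm).1 h0
  have h5 := h3 (n - 2 * j)
  have h6 := h3 (n - 2 * j + 1)
  omega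

theorem orb_nn_g {y x : T.V} (hx : x ∈ orb (nn T) y) : T.g x ∈ orb (nn T) y := by
  simpa [nn_apply] using add_mem (map_mem_orb hx) hx

theorem Alt.blk_pair (h : Alt T) {n : ℕ} (h0 : nn T ^ (n + 1) = 0) (h1 : nn T ^ n ≠ 0)
    (hβ : ∀ y, T.B ((nn T ^ n) y) y = 0) : Blk T := by
  have hu : IsNilpotent (nn T) := ⟨_, h0⟩
  obtain ⟨v, hv⟩ : ∃ v, (nn T ^ n) v ≠ 0 := not_forall.1 fun e => h1 (LinearMap.ext e)
  have H := pow_apply_eq_zero_iff (by rw [h0, LinearMap.zero_apply]) hv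
  obtain ⟨e, he, he'⟩ : ∃ e, (e = 0 ∨ e = 1) ∧ (n + e) % 2 = 1 := ⟨(n + 1) % 2, by omega, by omega⟩
  obtain ⟨w, hw, h3⟩ := exists_orth_ne_zero h.2 (ok_nondeg h.1) (W := orb (hh T) ((nn T ^ e) v)) (x := (nn T ^ n) v)
    fun hm => by
      obtain ⟨i, hi⟩ := orb_ht hu hm hv
      have a := hi 0
      have b := hi 1
      simp only [← End.mul_apply, ← pow_add, H] at a b
      omega
  have h4 : T.B ((nn T ^ n) w) v ≠ 0 := fun e => h3 (by simpa [hβ, e] using hβ (v + w))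
  have c1 : ∀ y, ∀ x ∈ orb (nn T) y, nn' T x ∈ orb (nn T) y := fun y x hx =>
    sub_mem (inv_mem_of_mem (fun _ => orb_nn_g) hx) hx
  have c2 : ∀ y z, z ∈ orb (nn T) y → orb (hh T) z ≤ orb (nn T) y := fun y z =>
    orb_le fun x hx => add_mem (orb_nn_g hx) (inv_mem_of_mem (fun _ => orb_nn_g) hx)
  have c3 := c2 v v (self_mem_orb _ _)
  have c4 := c2 w _ (pow_mem (c1 w) e (self_mem_orb _ _))
  have c5 : ∀ x ∈ orb (hh T) v, ∀ y ∈ orb (hh T) ((nn' T ^ e) w), T.B x y = 0 := fun _ hx _ hy => by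
    obtain ⟨p, rfl⟩ := mem_orb.1 hx
    obtain ⟨q, rfl⟩ := mem_orb.1 hy
    rw [← hh_adj h.1, ← nn_adj h.1, ← End.mul_apply (aeval _ q), ← map_mul, nn_comm]
    exact hw _ (mem_orb.2 ⟨_, rfl⟩)
  have c6 : ∀ y, ∀ x ∈ orb (hh T) y, ∀ z ∈ orb (hh T) y, T.B x z = 0 := by
    rintro y _ ⟨p, rfl⟩ _ ⟨q, rfl⟩
    exact h.hh_alt' p q y
  obtain ⟨E, hE⟩ : ∃ E, E = orb (hh T) v ⊔ orb (hh T) ((nn' T ^ e) w) := ⟨_, rfl⟩
  have a0 : ∀ x ∈ E, hh T x ∈ E := fun x hx => by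
    obtain ⟨a, ha, b, hb, rfl⟩ := Submodule.mem_sup.1 (hE ▸ hx)
    exact hE ▸ map_add (hh T) a b ▸ Submodule.add_mem_sup (map_mem_orb ha) (map_mem_orb hb)
  have a1 : ∀ x ∈ E, ∀ y ∈ E, T.B x y = 0 := fun x hx y hy => by
    obtain ⟨a, ha, b, hb, rfl⟩ := Submodule.mem_sup.1 (hE ▸ hx)
    obtain ⟨c, hc, d, hd, rfl⟩ := Submodule.mem_sup.1 (hE ▸ hy)
    simp [c6 _ a ha c hc, c6 _ b hb d hd, c5 a ha d hd, ok_refl h.1 _ _ (c5 c hc b hb)]
  have vE : v ∈ E := hE ▸ Submodule.mem_sup_left (self_mem_orb _ _)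
  have wE : (nn' T ^ e) w ∈ E := hE ▸ Submodule.mem_sup_right (self_mem_orb _ _)
  refine blk_of h (X := orb (nn T) v ⊔ orb (nn T) w) (fun x hx => ?_) (fun x hx hx' => ?_) (fun e => hv ?_)
    (hE ▸ sup_le_sup c3 c4) a1 (iso_sub h.1 a0 a1) (fun x hx hx' => ?_) ?_
  · obtain ⟨a, ha, b, hb, rfl⟩ := Submodule.mem_sup.1 hx
    exact map_add T.g a b ▸ Submodule.add_mem_sup (orb_nn_g ha) (orb_nn_g hb)
  · obtain ⟨a, ha, b, hb, rfl⟩ := Submodule.mem_sup.1 hx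
    obtain ⟨rfl, rfl⟩ := pair_free h0 (hβ v) (hβ w) h3 h4 ha hb
      (fun j => (nn_adj h.1 _ _ _).trans (hx' _ (Submodule.mem_sup_left (pow_mem (c1 v) j (self_mem_orb _ _)))))
      fun j => (nn_adj h.1 _ _ _).trans (hx' _ (Submodule.mem_sup_right (pow_mem (c1 w) j (self_mem_orb _ _))))
    exact add_zero _
  · rw [(Submodule.eq_bot_iff _).1 e v (Submodule.mem_sup_left (self_mem_orb _ _)), map_zero]
  · obtain ⟨c, hc, d, hd, e⟩ := Submodule.mem_sup.1 (hE ▸ sub_mem hx' hx)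
    obtain ⟨a, ha, b, hb, rfl⟩ := Submodule.mem_sup.1 (hE ▸ hx)
    have e' : nn T a - c + (nn T b - d) = 0 := by rw [sub_add_sub_comm, e, ← map_add, nn_apply, sub_self]
    obtain ⟨e1, e2⟩ := pair_free h0 (hβ v) (hβ w) h3 h4 (sub_mem (map_mem_orb (c3 ha)) (c3 hc))
      (sub_mem (map_mem_orb (c4 hb)) (c4 hd)) (by simp [e']) (by simp [e'])
    rw [← sub_eq_zero, ← nn_apply, map_add, nn_eq_zero hu ha (sub_eq_zero.1 e1 ▸ hc),
      nn_eq_zero hu hb (sub_eq_zero.1 e2 ▸ hd), add_zero]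
  have d1 := finrank_sup_map E
  have d2 : ∀ W : Submodule K T.V, (∀ x ∈ W, T.g x ∈ W) → v ∈ W → w ∈ W →
      finrank K ↥(orb (nn T) v ⊔ orb (nn T) w) ≤ finrank K W := fun W hW a b => Submodule.finrank_mono
    (sup_le (orb_le (fun x hx => sub_mem (hW x hx) hx) a) (orb_le (fun x hx => sub_mem (hW x hx) hx) b))
  rcases he with rfl | rfl
  · have := d2 _ (sup_map_inv a0) (Submodule.mem_sup_left vE) (Submodule.mem_sup_left wE)
    omega
  · have d3 := d2 ((E ⊔ E.map (T.g : End K T.V)) ⊔ K ∙ w) (fun x hx => by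
      obtain ⟨a, ha, c, rfl⟩ := mem_sup_single hx
      have : T.g (a + c • w) = T.g a - c • T.g ((nn' T ^ 1) w) + c • w := by
        simp [nn', smul_sub]; abel
      exact this ▸ Submodule.add_mem_sup (sub_mem (sup_map_inv a0 a ha) (Submodule.smul_mem _ _
        (Submodule.mem_sup_right ⟨_, wE, rfl⟩))) (Submodule.smul_mem _ _ (Submodule.mem_span_singleton_self w)))
      (Submodule.mem_sup_left (Submodule.mem_sup_left vE)) (Submodule.mem_sup_right (Submodule.mem_span_singleton_self w))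
    have d4 := (Submodule.finrank_add_le_finrank_add_finrank (E ⊔ E.map (T.g : End K T.V)) (K ∙ w)).trans
      (Nat.add_le_add_left (finrank_span_le_card {w}) _)
    obtain ⟨k, rfl⟩ : ∃ k, n = 2 * k := ⟨n / 2, by omega⟩
    have d5 : (nn T ^ (2 * k)) v ∈ E := hE ▸ Submodule.mem_sup_left (mem_orb.2 ⟨_, hh_pow' ((H _).2 le_rfl)⟩)
    have d6 : finrank K ↥(E ⊓ E.map (T.g : End K T.V)) ≠ 0 := fun e => hv ((Submodule.eq_bot_iff _).1
      (Submodule.finrank_eq_zero.1 e) _ ⟨d5, _, d5, sub_eq_zero.1 ((H (2 * k + 1)).2 le_rfl ▸ by rw [pow_succ']; rfl)⟩)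
    simp only [Set.toFinset_singleton, Finset.card_singleton] at d4
    omega

theorem Alt.unip_cases (h : Alt T) (hu : IsNilpotent (nn T)) (h0 : 0 < finrank K T.V) :
    (∃ n, nn T ^ (n + 1) = 0 ∧ nn T ^ n ≠ 0 ∧ ∀ y, T.B ((nn T ^ n) y) y = 0) ∨ ∃ k y,
      aeval (hh T) ((X - C 2) ^ (k + 1) : K[X]) y = 0 ∧ T.B (aeval (hh T) ((X - C 2) ^ k : K[X]) (T.g y)) y ≠ 0 := by
  have := finrank_pos_iff.1 h0
  obtain ⟨n, h1, h2⟩ : ∃ n, nn T ^ (n + 1) = 0 ∧ nn T ^ n ≠ 0 := by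
    classical
    obtain ⟨n, hn⟩ := Nat.exists_eq_add_one.2 ((Nat.find_pos hu).2 (by simp))
    exact ⟨n, hn ▸ Nat.find_spec hu, Nat.find_min hu (by omega)⟩
  by_cases hβ : ∀ y, T.B ((nn T ^ n) y) y = 0
  · exact Or.inl ⟨n, h1, h2, hβ⟩
  obtain ⟨y, hy⟩ := not_forall.1 hβ
  obtain ⟨k, rfl | rfl⟩ := Nat.even_or_odd' n
  · exact absurd (by rw [← hh_pow' (by rw [h1, LinearMap.zero_apply]), h.hh_alt]) hy
  · refine Or.inr ⟨k, y, by rw [hh_pow, mul_add, h1]; simp, ?_⟩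
    rwa [← sub_add_cancel (T.g y) y, ← nn_apply, map_add, map_add, LinearMap.add_apply, h.hh_alt, add_zero,
      hh_pow' (by rw [← End.mul_apply, ← pow_succ, h1, LinearMap.zero_apply]), ← End.mul_apply, ← pow_succ]

theorem nil_right {A C : Trip K} (hT : IsNilpotent (nn T)) (e : iso K (tsum A C) T) : IsNilpotent (nn C) := by
  obtain ⟨f, hf, e⟩ := exists_inj e
  exact hT.imp fun k hk => LinearMap.ext fun v => hf ((sub_one_pow_intertwine f e k v).trans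
    ((LinearMap.congr_fun hk _).trans (map_zero f).symm))

/-- Unipotent isometries. -/
theorem Alt.good_unip (h : Alt T) (hu : IsNilpotent (nn T)) : Good T :=
  good_of_blk (fun T => IsNilpotent (nn T)) (fun _ _ _ => nil_right) (fun _ h hu h0 => (h.unip_cases hu h0).elim
    (fun ⟨_, a, b, c⟩ => h.blk_pair a b c) fun ⟨_, _, a, b⟩ => h.blk_cyc (prime_X_sub_C 2) a b) h hu

end CL.Ore
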