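/-
Commutators in symplectic groups, part 4: the negatives of unipotent elements in odd characteristic.
-/
import Cfsg.Agent.Cls.OreSp3

set_option autoImplicit false

open Module Polynomial

namespace CL.Ore

open CL.Sp CL.Chev CL.GLn CL.Known CL.Known.Trip CL.ClassNo

universe u

variable {K : Type u} [Field K] {T : Trip K} {ε : K}

theorem comm_group {G : Type*} [Group G] {H : Subgroup G} {u I b : G} (hu : u ∈ H) (hI : I ∈ H) {k : ℕ}
    (hk : u ^ (2 * k + 1) = 1) (h1 : Commute I u) (h2 : u * b * u = b) :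
    ∃ a ∈ H, u * (I * b * I⁻¹ * b⁻¹) = a * b * a⁻¹ * b⁻¹ := by
  have h3 : SemiconjBy b u⁻¹ u := by rw [SemiconjBy, mul_inv_eq_iff_eq_mul, h2]
  have h4 : u ^ (k + 1) * u ^ (k + 1) = u := by rw [← pow_add, show k + 1 + (k + 1) = 2 * k + 1 + 1 by omega, pow_succ, hk, one_mul]
  refine ⟨I * u ^ (k + 1), mul_mem hI (H.pow_mem hu _), ?_⟩
  calc _ = I * (u ^ (k + 1) * u ^ (k + 1)) * b * I⁻¹ * b⁻¹ := by rw [h4, h1.eq]; simp only [mul_assoc]
    _ = I * u ^ (k + 1) * (b * u⁻¹ ^ (k + 1)) * I⁻¹ * b⁻¹ := by rw [(h3.pow_right _).eq]; simp only [mul_assoc]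
    _ = _ := by rw [mul_inv_rev, inv_pow]; simp only [mul_assoc]

section Lin

variable {V : Type*} [AddCommGroup V] [Module K V] {B : LinearMap.BilinForm K V} {f f' : End K V} {n : ℕ}

theorem exists_odd_pow [Finite K] (h2 : (2 : K) ≠ 0) {u : V ≃ₗ[K] V} (hu : IsNilpotent ((u : End K V) - 1)) :
    ∃ k, u ^ (2 * k + 1) = 1 := by
  rcases subsingleton_or_nontrivial V with h | h
  · exact ⟨0, LinearEquiv.ext fun _ => Subsingleton.elim _ _⟩
  obtain ⟨p, hp⟩ := CharP.exists K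
  have := Fact.mk (CharP.char_is_prime K p)
  have := charP_of_injective_algebraMap (algebraMap K (End K V)).injective p
  obtain ⟨m, hm⟩ := hu
  obtain ⟨k, hk⟩ : Odd (p ^ m) := ((Fact.out : p.Prime).odd_of_ne_two fun e => h2 (by
    simpa [e] using CharP.cast_eq_zero K p)).pow
  have h3 := pow_eq_zero_of_le (Nat.lt_pow_self (Fact.out : p.Prime).one_lt).le hm
  rw [sub_pow_char_pow_of_commute _ _ (Commute.one_right _), one_pow, sub_eq_zero, hk] at h3
  exact ⟨k, LinearEquiv.ext fun x => (LinearEquiv.pow_apply ..).trans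
    ((End.pow_apply ..).symm.trans (LinearMap.congr_fun h3 x))⟩

theorem skew_pow (hs : ∀ x y, B (f x) y = -B x (f y)) (j : ℕ) (x y : V) :
    B x ((f ^ j) y) = (-1) ^ j * B ((f ^ j) x) y := by
  induction j generalizing x with
  | zero => simp
  | succ j ih => rw [pow_succ' f, End.mul_apply, ← neg_neg (B x _), ← hs, ih, ← End.mul_apply, ← pow_succ, ← pow_succ']; ring

theorem gram_eq (hs : ∀ x y, B (f x) y = -B x (f y)) (hs' : ∀ x y, B (f' x) y = -B x (f' y)) {x y x' y' : V}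
    (h : ∀ i : ℕ, B ((f' ^ i) x') y' = B ((f ^ i) x) y) (p q : K[X]) :
    B (aeval f' p x') (aeval f' q y') = B (aeval f p x) (aeval f q y) := by
  have h1 : ∀ {f : End K V}, (∀ x y, B (f x) y = -B x (f y)) → ∀ x y,
      B (aeval f p x) (aeval f q y) = B (aeval f (q.comp (-X) * p) x) y := fun {f} hs x y => by
    rw [← form_aeval (f := -f) (fun x y => by simp [hs]), map_mul, aeval_comp, map_neg, aeval_X, End.mul_apply]
  rw [h1 hs, h1 hs']
  induction q.comp (-X) * p using Polynomial.induction_on' with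
  | add p q hp hq => simp [hp, hq]
  | monomial n c => simp [aeval_monomial, h]

/-- The space is generated by two vectors. -/
def Gen (f : End K V) (v w : V) : Prop := ∀ x, ∃ a b : K[X], x = aeval f a v + aeval f b w

theorem Gen.ext {v w : V} (h : Gen f v w) {a b : End K V} (ha : ∀ x, a (f x) = f' (a x)) (hb : ∀ x, b (f x) = f' (b x))
    (hv : a v = b v) (hw : a w = b w) (x : V) : a x = b x := by
  obtain ⟨p, q, rfl⟩ := h x
  simp only [map_add, aeval_intertwine a ha, aeval_intertwine b hb, hv, hw]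

theorem Gen.finrank_eq {v w : V} (h : Gen f v w) (hf : f ^ (n + 1) = 0) (h1 : B ((f ^ n) v) v = 0)
    (h2 : B ((f ^ n) w) w = 0) (h3 : B ((f ^ n) v) w ≠ 0) (h4 : B ((f ^ n) w) v ≠ 0) : finrank K V = 2 * (n + 1) := by
  let π : V → degreeLT K (n + 1) →ₗ[K] V := fun v =>
    LinearMap.applyₗ v ∘ₗ (aeval f).toLinearMap ∘ₗ (degreeLT K (n + 1)).subtype
  have hm : ∀ a : K[X], a %ₘ X ^ (n + 1) ∈ degreeLT K (n + 1) := fun a =>
    mem_degreeLT.2 ((degree_modByMonic_lt a (monic_X_pow _)).trans_eq (degree_X_pow _))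
  have hz : ∀ a : degreeLT K (n + 1), X ^ (n + 1) ∣ a.1 → a = 0 := fun a ha =>
    Subtype.ext (eq_zero_of_dvd_of_degree_lt ha ((mem_degreeLT.1 a.2).trans_eq (degree_X_pow _).symm))
  rw [← (LinearEquiv.ofBijective ((π v).coprod (π w)) ⟨(injective_iff_map_eq_zero _).2 fun p hp => ?_, fun x => ?_⟩).finrank_eq,
    finrank_prod, (degreeLTEquiv K (n + 1)).finrank_eq, finrank_fin_fun, two_mul]
  · have hp' : aeval f p.1.1 v + aeval f p.2.1 w = 0 := hp
    obtain ⟨a, b⟩ := pair_dvd hf h1 h2 h3 h4 (a := p.1) (b := p.2) (by simp [hp']) (by simp [hp'])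
    exact Prod.ext (hz _ a) (hz _ b)
  · obtain ⟨a, b, rfl⟩ := h x
    refine ⟨(⟨_, hm a⟩, ⟨_, hm b⟩), ?_⟩
    change aeval f (a %ₘ _) v + aeval f (b %ₘ _) w = _
    rw [aeval_modByMonic_eq_self_of_root (by simp [hf]), aeval_modByMonic_eq_self_of_root (by simp [hf])]

theorem exists_normal (h2 : (2 : K) ≠ 0) (hB : ∀ x, (∀ y, B x y = 0) → x = 0) (ha : ∀ x y, B y x = -1 * B x y)
    (hs : ∀ x y, B (f x) y = -B x (f y)) (hf : f ^ (n + 1) = 0) (h1 : f ^ n ≠ 0) (hβ : ∀ y, B ((f ^ n) y) y = 0) :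
    Even n ∧ ∃ v w, B ((f ^ n) v) w = 1 ∧ ∀ i, B ((f ^ i) v) v = 0 ∧ B ((f ^ i) w) w = 0 ∧
      (i ≠ n → B ((f ^ i) v) w = 0) := by
  obtain ⟨v, hv⟩ : ∃ v, (f ^ n) v ≠ 0 := not_forall.1 fun e => h1 (LinearMap.ext e)
  obtain ⟨w, hw⟩ := not_forall.1 (mt (hB _) hv)
  have hp : ∀ x y, B ((f ^ n) y) x = -B ((f ^ n) x) y := fun x y => by
    have := hβ (x + y)
    simp only [map_add, LinearMap.add_apply, hβ] at this
    linear_combination this
  have hq : ∀ (i : ℕ) x y, B ((f ^ i) y) x = -(-1) ^ i * B ((f ^ i) x) y := fun i x y => by rw [ha, skew_pow hs]; ring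
  have hn : Even n := by
    refine Nat.not_odd_iff_even.1 fun ho => hw (mul_left_cancel₀ h2 ?_)
    have := hq n v w
    rw [ho.neg_one_pow] at this
    linear_combination hp v w - this
  have hz : ∀ i, n + 1 ≤ i → ∀ x, (f ^ i) x = 0 := fun i hi x => by rw [pow_eq_zero_of_le hi hf, LinearMap.zero_apply]
  have ex : ∀ i j : ℕ, n + 1 ≤ i + j + j → ∀ x x' y y', B ((f ^ i) (x + (f ^ j) x')) (y + (f ^ j) y') =
      B ((f ^ i) x) y + B ((f ^ (i + j)) x') y + (-1) ^ j * B ((f ^ (i + j)) x) y' := fun i j hij x x' y y' => by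
    simp only [map_add, LinearMap.add_apply, skew_pow hs j, ← End.mul_apply, ← pow_add]
    rw [hz (j + (i + j)) (by omega), add_comm j i]
    simp
  have key : ∀ j ≤ n, ∃ v w, B ((f ^ n) v) w = 1 ∧ ∀ i, n ≤ i + j → B ((f ^ i) v) v = 0 ∧ B ((f ^ i) w) w = 0 ∧
      (i ≠ n → B ((f ^ i) v) w = 0) := fun j => by
    induction j with
    | zero =>
      refine fun _ => ⟨v, (B ((f ^ n) v) w)⁻¹ • w, by simp [hw], fun i hi => ?_⟩
      rcases (show i = n ∨ n + 1 ≤ i by omega) with rfl | hi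
      · simp [hβ]
      · simp [hz i hi]
    | succ j ih =>
      intro hj
      obtain ⟨v, w, a1, a2⟩ := ih (by omega)
      obtain ⟨k, rfl⟩ := Nat.exists_eq_add_of_le' hj
      have s1 : (-1 : K) ^ (j + 1) = (-1) ^ k := by
        have := hn.neg_one_pow (α := K)
        rw [pow_add] at this
        have h3 : ((-1 : K) ^ k) * (-1) ^ k = 1 := by rw [← mul_pow]; simp
        linear_combination (-1) ^ k * this - (-1) ^ (j + 1) * h3
      have s2 : ((-1 : K) ^ k) * (-1) ^ k = 1 := by rw [← mul_pow]; simp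
      refine ⟨v + (f ^ (j + 1)) ((B ((f ^ k) v) v / 2) • w), w + (f ^ (j + 1)) ((-B ((f ^ k) w) w / 2) • v +
        (-(-1) ^ k * B ((f ^ k) v) w) • w), ?_, fun i hi => ?_⟩
      · rw [ex _ _ (by omega)]
        simp [hz (k + (j + 1) + (j + 1)) (by omega), a1]
      rcases (show i = k ∨ k + 1 ≤ i by omega) with rfl | hi
      · have b1 := hq i v v
        have b2 := hq i w w
        simp only [ex i (j + 1) (by omega)]
        simp only [map_add, map_smul, LinearMap.add_apply, LinearMap.smul_apply, smul_eq_mul, hβ, hp v w, a1, s1]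
        refine ⟨?_, ?_, fun _ => ?_⟩
        · field_simp
          linear_combination b1
        · field_simp
          linear_combination b2
        · linear_combination (-B ((f ^ i) v) w) * s2
      · simp only [ex i (j + 1) (by omega)]
        simpa [hz (i + (j + 1)) (by omega)] using a2 i (by omega)
  obtain ⟨v, w, a1, a2⟩ := key n le_rfl
  exact ⟨hn, v, w, a1, fun i => a2 i (by omega)⟩

variable [FiniteDimensional K V]

theorem exists_isom_of_surj {U : Type*} [AddCommGroup U] [Module K U] (hB : ∀ x, (∀ y, B x y = 0) → x = 0)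
    {π π' : U →ₗ[K] V} (hπ : Function.Surjective π) (h1 : ∀ p q, B (π' p) (π' q) = B (π p) (π q)) :
    ∃ a ∈ Isom B, ∀ p, a (π p) = π' p := by
  obtain ⟨ρ, hρ⟩ := π.exists_rightInverse_of_surjective (LinearMap.range_eq_top.2 hπ)
  have h0 : ∀ x, π (ρ x) = x := LinearMap.congr_fun hρ
  have h2 : ∀ x y, B (π' (ρ x)) (π' (ρ y)) = B x y := fun x y => by rw [h1, h0, h0]
  obtain ⟨a, ha⟩ : ∃ a : V ≃ₗ[K] V, ∀ x, a x = π' (ρ x) :=
    ⟨LinearEquiv.ofInjectiveEndo (π' ∘ₗ ρ) ((injective_iff_map_eq_zero _).2 fun x hx =>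
      hB x fun y => by rw [← h2, show π' (ρ x) = 0 from hx, map_zero, LinearMap.zero_apply]), fun _ => rfl⟩
  refine ⟨a, fun x y => by rw [ha, ha, h2], fun p => sub_eq_zero.1 (hB _ fun y => ?_)⟩
  obtain ⟨y, rfl⟩ := a.surjective y
  rw [map_sub, LinearMap.sub_apply, ha, ha, h1, h1, h0, sub_self]

theorem Gen.exists_isom (hB : ∀ x, (∀ y, B x y = 0) → x = 0) (ha : ∀ x y, B y x = ε * B x y)
    (hs : ∀ x y, B (f x) y = -B x (f y)) (hs' : ∀ x y, B (f' x) y = -B x (f' y)) {v w v' w' : V} (h : Gen f v w)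
    (m1 : ∀ i : ℕ, B ((f' ^ i) v') v' = B ((f ^ i) v) v) (m2 : ∀ i : ℕ, B ((f' ^ i) v') w' = B ((f ^ i) v) w)
    (m3 : ∀ i : ℕ, B ((f' ^ i) w') w' = B ((f ^ i) w) w) :
    ∃ a ∈ Isom B, a v = v' ∧ a w = w' ∧ ∀ x, a (f x) = f' (a x) := by
  obtain ⟨π, hπ⟩ : ∃ π : End K V → V → V → (K[X] × K[X] →ₗ[K] V), ∀ f v w p,
      π f v w p = aeval f p.1 v + aeval f p.2 w := ⟨fun f v w =>
    (LinearMap.applyₗ v ∘ₗ (aeval f).toLinearMap).coprod (LinearMap.applyₗ w ∘ₗ (aeval f).toLinearMap), fun _ _ _ _ => rfl⟩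
  obtain ⟨a, h2, h3⟩ := exists_isom_of_surj hB (π := π f v w) (π' := π f' v' w')
    (fun x => let ⟨a, b, e⟩ := h x; ⟨(a, b), (hπ ..).trans e.symm⟩) fun p q => by
      simp only [hπ, map_add, LinearMap.add_apply, gram_eq hs hs' m1, gram_eq hs hs' m2, gram_eq hs hs' m3]
      rw [ha (aeval f' q.1 v'), gram_eq hs hs' m2, ← ha]
  refine ⟨a, h2, by simpa [hπ] using h3 (1, 0), by simpa [hπ] using h3 (0, 1), fun x => ?_⟩
  obtain ⟨p, q, rfl⟩ := h x
  rw [← hπ f v w (p, q), h3]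
  have e : ∀ (f : End K V) v w, π f v w (X * p, X * q) = f (π f v w (p, q)) := fun _ _ _ => by
    rw [hπ, hπ, map_mul, map_mul, aeval_X, map_add, End.mul_apply, End.mul_apply]
  rw [← e, h3, e]

end Lin

theorem comm_model [Finite K] (h2 : (2 : K) ≠ 0) (h : T.OK (-1)) (hu : IsNilpotent (nn T)) {f : End K T.V} {n : ℕ}
    (hs : ∀ x y, T.B (f x) y = -T.B x (f y)) (hg : ∀ x, T.g (x - f x) = x + f x) (hf : IsNilpotent f) (hn : Even n) {v w : T.V}
    (hG : Gen f v w) (m : ∀ i, T.B ((f ^ i) v) v = 0 ∧ T.B ((f ^ i) w) w = 0 ∧ (i ≠ n → T.B ((f ^ i) v) w = 0)) :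
    Comm T ∧ Comm (tneg T) := by
  obtain ⟨k, hk⟩ := exists_odd_pow h2 hu
  obtain ⟨p, hp⟩ := CharP.exists K
  have := NeZero.mk (CharP.char_ne_zero_of_finite K p)
  obtain ⟨x, y, hxy⟩ := CharP.sq_add_sq K p (-1)
  have m1 : ∀ i : ℕ, (-1 : K) ^ i * T.B ((f ^ i) v) w = T.B ((f ^ i) v) w := fun i => by
    by_cases e : i = n
    · rw [e, hn.neg_one_pow, one_mul]
    · rw [(m i).2.2 e, mul_zero]
  have m2 : ∀ i : ℕ, T.B ((f ^ i) w) v = -T.B ((f ^ i) v) w := fun i => by rw [h.symm, skew_pow hs, m1, neg_one_mul]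
  have m3 : ∀ (i : ℕ) z, ((-f) ^ i) z = ((-1 : K) ^ i) • (f ^ i) z := fun i z => by
    rw [← neg_one_smul K f, _root_.smul_pow, LinearMap.smul_apply]
  obtain ⟨I, hI, I1, I2, I3⟩ := hG.exists_isom h.nondeg h.symm hs hs (v' := (x : K) • v + (y : K) • w)
    (w' := (y : K) • v - (x : K) • w) (fun i => by simp [(m i).1, (m i).2.1, m2]; ring)
    (fun i => by
      simp only [map_add, map_sub, map_smul, LinearMap.add_apply, LinearMap.smul_apply, smul_eq_mul, (m i).1, (m i).2.1, m2]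
      push_cast at hxy
      linear_combination (-T.B ((f ^ i) v) w) * hxy) (fun i => by simp [(m i).1, (m i).2.1, m2]; ring)
  obtain ⟨b, hb, b1, b2, b3⟩ := hG.exists_isom h.nondeg h.symm hs (f' := -f) (fun x y => by simp [hs]) (v' := -w) (w' := v)
    (fun i => by simp [m3, (m i).1, (m i).2.1]) (fun i => by simp [m3, m1, m2]) (fun i => by simp [m3, (m i).1, (m i).2.1])
  have hsu : ∀ z, ∃ y, y - f y = z := ((End.isUnit_iff _).1 hf.isUnit_one_sub).2
  have c1 : Commute I T.g := LinearEquiv.ext fun z => by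
    obtain ⟨z, rfl⟩ := hsu z
    simp only [LinearEquiv.mul_apply, hg, map_add, I3, map_sub I]
  have c2 : T.g * b * T.g = b := LinearEquiv.ext fun z => by
    obtain ⟨z, rfl⟩ := hsu z
    simp only [LinearEquiv.mul_apply, hg, map_add b, map_sub b, b3, LinearMap.neg_apply, ← sub_eq_add_neg, sub_neg_eq_add]
  have c3 : I * b * I⁻¹ * b⁻¹ = LinearEquiv.neg K := by
    rw [mul_inv_eq_iff_eq_mul, mul_inv_eq_iff_eq_mul]
    exact LinearEquiv.ext (hG.ext (a := (I * b : T.V ≃ₗ[K] T.V)) (b := (LinearEquiv.neg K * b * I : T.V ≃ₗ[K] T.V)) (f' := -f)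
      (fun x => by simp [I3, b3]) (fun x => by simp [I3, b3]) (by simp [I1, I2, b1, b2]; abel) (by simp [I1, I2, b1, b2]))
  obtain ⟨a, ha, e⟩ := comm_group (show T.g ∈ Isom T.B from h.isom) (one_mem _) hk (Commute.one_left _) c2
  obtain ⟨a', ha', e'⟩ := comm_group (show T.g ∈ Isom T.B from h.isom) hI hk c1 c2
  exact ⟨⟨a, ha, b, hb, by simpa using e⟩, a', ha', b, hb, (LinearEquiv.ext fun z => (map_neg T.g z).symm).trans (c3 ▸ e')⟩

/-- The blocks without a good Lagrangian subspace. -/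
def Bad (T : Trip K) : Prop := Comm T ∧ Comm (tneg T) ∧ Good (tneg T) ∧ finrank K T.V % 4 = 2

/-- There is a bad orthogonal summand. -/
def HasBad (T : Trip K) : Prop := ∃ A C : Trip K, Bad A ∧ A.OK (-1) ∧ C.OK (-1) ∧ iso K (tsum A C) T

theorem cayley (h2 : (2 : K) ≠ 0) (h : T.OK ε) {n : ℕ} (h0 : nn T ^ (n + 1) = 0) : ∃ f : End K T.V,
    (∀ x y, T.B (f x) y = -T.B x (f y)) ∧ (∀ x, T.g (x - f x) = x + f x) ∧ f ^ (n + 1) = 0 ∧
      ∀ x, (2 : K) ^ n • (f ^ n) x = (nn T ^ n) x := by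
  obtain ⟨U, hU⟩ : IsUnit (nn T + algebraMap K _ 2) := IsNilpotent.isUnit_add_right_of_commute ⟨_, h0⟩
    (h2.isUnit.map _) (Algebra.commutes _ _).symm
  have h1 : ∀ x, (U : End K T.V) x = T.g x + x := fun x => by simp [hU, nn_apply, two_smul]
  have h3 : Commute (nn T) (U⁻¹ : (End K T.V)ˣ) := Commute.units_inv_right
    (hU ▸ (Commute.refl _).add_right (Algebra.commutes _ _).symm)
  have h4 : ∀ x, (nn T * (U⁻¹ : (End K T.V)ˣ)) (T.g x + x) = T.g x - x := fun x => by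
    rw [← h1, ← End.mul_apply, Units.inv_mul_cancel_right, nn_apply]
  have h5 : ∀ x, ∃ y, T.g y + y = x := fun x => (((End.isUnit_iff _).1 U.isUnit).2 x).imp fun y e => (h1 y).symm.trans e
  refine ⟨nn T * (U⁻¹ : (End K T.V)ˣ), fun x y => ?_, fun x => ?_, by rw [h3.mul_pow, h0, zero_mul], fun x => ?_⟩
  · obtain ⟨x, rfl⟩ := h5 x
    obtain ⟨y, rfl⟩ := h5 y
    simp only [h4]
    simp [h.isom]
    ring
  · obtain ⟨x, rfl⟩ := h5 x
    rw [h4]
    simp
  · have h6 : ∀ (j : ℕ) z, nn T z = 0 → (2 : K) ^ j • (((U⁻¹ : (End K T.V)ˣ) : End K T.V) ^ j) z = z := fun j z hz => by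
      induction j with
      | zero => simp
      | succ j ih =>
        have : (U : End K T.V) z = (2 : K) • z := by simp [hU, hz]
        rw [pow_succ, pow_succ, mul_smul, End.mul_apply, ← map_smul _ (2 : K), ← map_smul _ (2 : K), ← this, ← End.mul_apply (↑U⁻¹ : End K T.V),
          Units.inv_mul, End.one_apply, ih]
    rw [h3.eq, h3.symm.mul_pow, End.mul_apply, h6 _ _ (by rw [← End.mul_apply, ← pow_succ', h0, LinearMap.zero_apply])]

theorem Alt.hasBad [Finite K] (h2 : (2 : K) ≠ 0) (h : Alt T) {n : ℕ} (h0 : nn T ^ (n + 1) = 0) (h1 : nn T ^ n ≠ 0)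
    (hβ : ∀ y, T.B ((nn T ^ n) y) y = 0) : HasBad (tneg T) := by
  obtain ⟨f, hs, hg, hf, hc⟩ := cayley h2 h.1 h0
  obtain ⟨hn, v, w, a1, m⟩ := exists_normal h2 h.1.nondeg h.1.symm hs hf
    (fun e => h1 (LinearMap.ext fun x => by simp [← hc, e])) fun y => by simpa [← hc, h2] using hβ y
  have a2 : T.B ((f ^ n) w) v ≠ 0 := by simp [h.1.symm v, skew_pow hs, a1]
  have a3 : T.B ((f ^ n) v) w ≠ 0 := a1 ▸ one_ne_zero
  obtain ⟨X, hX⟩ : ∃ X, X = orb f v ⊔ orb f w := ⟨_, rfl⟩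
  have vX : v ∈ X := hX ▸ Submodule.mem_sup_left (self_mem_orb _ _)
  have wX : w ∈ X := hX ▸ Submodule.mem_sup_right (self_mem_orb _ _)
  have fX : ∀ x ∈ X, f x ∈ X := fun x hx => by
    obtain ⟨a, ha, b, hb, rfl⟩ := Submodule.mem_sup.1 (hX ▸ hx)
    exact hX ▸ map_add f a b ▸ Submodule.add_mem_sup (map_mem_orb ha) (map_mem_orb hb)
  have tr : ∀ (i : ℕ) (x : X), (((f.restrict fX) ^ i) x : T.V) = (f ^ i) x := fun i x => by
    simpa using aeval_intertwine (f := f.restrict fX) X.subtype (fun _ => rfl) (Polynomial.X ^ i) x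
  have hf' : f.restrict fX ^ (n + 1) = 0 := LinearMap.ext fun x => Subtype.ext ((tr _ x).trans (by simp [hf]))
  have gX : ∀ x ∈ X, T.g x ∈ X := fun x hx => by
    obtain ⟨y, hy⟩ := ((End.isUnit_iff _).1 (IsNilpotent.isUnit_one_sub ⟨_, hf'⟩)).2 ⟨x, hx⟩
    rw [show x = y - f y from (congrArg Subtype.val hy).symm, hg]
    exact add_mem y.2 (fX _ y.2)
  obtain ⟨b1, C, b2, b3⟩ := split h.1 gX fun x hx hx' => by
    obtain ⟨a, ha, b, hb, rfl⟩ := Submodule.mem_sup.1 (hX ▸ hx)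
    have : ∀ y ∈ X, ∀ j : ℕ, T.B ((f ^ j) (a + b)) y = 0 := fun y hy j => by
      simpa [skew_pow hs, -map_add] using hx' _ (pow_mem fX j hy)
    obtain ⟨rfl, rfl⟩ := pair_free hf (m n).1 (m n).2.1 a3 a2 ha hb (this v vX) (this w wX)
    exact add_zero _
  have hG : Gen (f.restrict fX) ⟨v, vX⟩ ⟨w, wX⟩ := fun x => by
    obtain ⟨_, ha, _, hb, e⟩ := Submodule.mem_sup.1 (hX.le x.2)
    obtain ⟨a, rfl⟩ := mem_orb.1 ha
    obtain ⟨b, rfl⟩ := mem_orb.1 hb
    exact ⟨a, b, Subtype.ext (e.symm.trans (congrArg₂ (· + ·)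
      (aeval_intertwine (f := f.restrict fX) X.subtype (fun _ => rfl) a ⟨v, vX⟩).symm
      (aeval_intertwine (f := f.restrict fX) X.subtype (fun _ => rfl) b ⟨w, wX⟩).symm))⟩
  have tB : ∀ (i : ℕ) (x y : X), (tres T X gX).B (((f.restrict fX) ^ i) x) y = T.B ((f ^ i) x) y := fun i x y =>
    congrArg (T.B · y) (tr i x)
  have hu := nil_right ⟨_, h0⟩ ((iso K).trans (iso_tsum_comm _ _) b3)
  obtain ⟨c1, c2⟩ := comm_model h2 b1 hu (f := f.restrict fX) (fun x y : X => hs x y) (fun x : X => Subtype.ext (hg x)) ⟨_, hf'⟩ hn hG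
    fun i => ⟨(tB ..).trans (m i).1, (tB ..).trans (m i).2.1, fun e => (tB ..).trans ((m i).2.2 e)⟩
  have c3 := hG.finrank_eq (B := (tres T X gX).B) hf' ((tB _ _ _).trans (m n).1) ((tB _ _ _).trans (m n).2.1)
    ((tB _ _ _).trans_ne a3) ((tB _ _ _).trans_ne a2)
  refine ⟨tneg (tres T X gX), tneg C, ⟨c2, c1.iso ((iso K).symm (iso_tneg_tneg _)),
    ((h.left b1 b3).good_unip hu).iso ((iso K).symm (iso_tneg_tneg _)), ?_⟩, ok_tneg b1, ok_tneg b2,
    (iso K).trans (iso_tneg_tsum _ _) (iso_tneg b3)⟩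
  obtain ⟨k, rfl⟩ := hn
  exact (congrArg (· % 4) c3).trans (by omega)

theorem iso_tsum_left_comm (A C S : Trip K) : iso K (tsum A (tsum C S)) (tsum C (tsum A S)) :=
  ⟨(LinearEquiv.prodAssoc K _ _ _).symm ≪≫ₗ (LinearEquiv.prodComm K _ _).prodCongr (LinearEquiv.refl K _) ≪≫ₗ
    LinearEquiv.prodAssoc K _ _ _, fun _ => rfl, fun _ _ => add_left_comm _ _ _⟩

theorem HasBad.sum {A C : Trip K} (h : HasBad C) (hA : A.OK (-1)) (e : iso K (tsum A C) T) : HasBad T :=
  let ⟨X, D, a1, a2, a3, a4⟩ := h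
  ⟨X, tsum A D, a1, a2, ok_tsum hA a3, (iso K).trans (iso_tsum_left_comm _ _ _) ((iso K).trans (iso_tsum ((iso K).refl _) a4) e)⟩

theorem hh_tneg (T : Trip K) : hh (tneg T) = -hh T := LinearMap.ext fun x : T.V => by
  have : (tneg T).g⁻¹ x = -T.g⁻¹ x := (tneg T).g.injective ((apply_inv_apply _ _).trans
    (show x = -T.g (-T.g⁻¹ x) by simp))
  exact (congrArg (-T.g x + ·) this).trans (neg_add _ _).symm

theorem Alt.good_or [Finite K] (h : Alt T) : Good T ∨ (2 : K) ≠ 0 ∧ HasBad T := by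
  obtain ⟨A, C, S, a1, a2, a3, a4, a5, a6, a7, a8⟩ := exists_decomp h.1
  have b1 := h.right (ok_tsum (ok_tneg a2) a3) a4
  have b2 := b1.left (ok_tneg a2) ((iso K).refl _)
  have b3 := (b1.right a3 ((iso K).refl _)).good_tame fun v hv => by
    have := a8 (S.g v - v) (by simp [hv])
    exact congrArg Prod.snd (a7 (0, v) (Prod.ext (map_zero (tneg C).g) (sub_eq_zero.1 this)))
  have b4 : Good (tneg C) → Good T := fun hC => (((h.left a1 a4).good_unip a5).sum (hC.sum b3)).iso a4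
  by_cases h2 : (2 : K) = 0
  · refine Or.inl (b4 (b2.good_unip (a6.imp fun k hk => ?_)))
    have : nn (tneg C) = nn C := LinearMap.ext fun x : C.V => show -C.g x - x = C.g x - x by
      rw [neg_eq_of_add_eq_zero_left (by rw [← two_smul K, h2, zero_smul])]
    exact (congrArg (· ^ k) this).trans hk
  refine (good_or_of_blk (fun T => IsNilpotent (nn (tneg T))) HasBad
    (fun _ _ _ hT e => nil_right hT ((iso K).trans (iso_tneg_tsum _ _) (iso_tneg e))) (fun _ _ _ => HasBad.sum)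
    (fun T h hu h0 => ?_) b2 ?_).imp b4 fun hC =>
      ⟨h2, (hC.sum a3 (iso_tsum_comm _ _)).sum a1 a4⟩
  · obtain ⟨n, a, b, c⟩ | ⟨k, y, a, b⟩ := h.neg.unip_cases hu h0
    · obtain ⟨A, C, d1, d2, d3, d4⟩ := h.neg.hasBad h2 a b c
      exact Or.inr ⟨A, C, d1, d2, d3, (iso K).trans d4 (iso_tneg_tneg _)⟩
    · have e : ∀ j : ℕ, aeval (hh (tneg T)) ((X - Polynomial.C 2) ^ j : K[X]) =
          aeval (hh T) ((-(X - Polynomial.C (-2))) ^ j : K[X]) := fun j => by
        rw [hh_tneg]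
        change aeval (-hh T) ((X - Polynomial.C 2) ^ j : K[X]) = _
        simp [sub_eq_add_neg, add_comm, map_pow]
      rw [e] at a b
      exact Or.inl (h.blk_cyc (prime_X_sub_C (-2)).neg a fun e' => b (show T.B (aeval (hh T) _ (-T.g y)) y = 0 by
        rw [map_neg, map_neg]; exact neg_eq_zero.2 e'))
  · have : nn (tneg (tneg C)) = nn C := LinearMap.ext fun x : C.V => show - -C.g x - x = C.g x - x by rw [neg_neg]
    exact a6.imp fun k hk => (congrArg (· ^ k) this).trans hk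

end CL.Ore
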