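/-
Commutators in symplectic groups, part 5: every element is a commutator.
-/
import Cfsg.Agent.Cls.OreSp4

set_option autoImplicit false

open Module Polynomial

namespace CL.Ore

open CL.Sp CL.Chev CL.GLn CL.Known CL.Known.Trip CL.ClassNo

universe u

variable {K : Type u} [Field K] [Finite K] {T : Trip K}

theorem cast_natCard (K : Type*) [Field K] [Finite K] : ((Nat.card K : ℕ) : K) = 0 :=
  have := Fintype.ofFinite K
  Nat.card_eq_fintype_card (α := K) ▸ Nat.cast_card_eq_zero K

theorem Good.comm_tri (h : Alt T) (hg : Good T) {n d : ℕ} (hn : finrank K T.V = 2 * n) (h0 : 0 < d) (hd : d < n)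
    (hp : ∀ (L : Type u) [Field L] [Algebra K L] (x : L), x ^ n = x ^ d + 1 → (x ^ d) ^ 2 + x ^ d + 1 ≠ 0) : Comm T := by
  have h1 : (X ^ d + C 1 : K[X]).degree < n := (degree_X_pow_add_C h0 _).trans_lt (Nat.cast_lt.2 hd)
  refine hg.comm h (monic_X_pow_sub h1) ?_ ?_ fun L _ _ x a b => ?_
  · rw [hn, natDegree_eq_of_degree_eq_some ((degree_sub_eq_left_of_degree_lt (h1.trans_eq (degree_X_pow n).symm)).trans
      (degree_X_pow n))]
  · simp [coeff_X_pow, h0.ne, (h0.trans hd).ne]
  · simp only [map_sub, map_add, map_pow, aeval_X, map_one, sub_eq_zero, inv_pow] at a b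
    have hx : x ≠ 0 := by
      rintro rfl
      simp [h0.ne', (h0.trans hd).ne'] at a
    have c1 := mul_inv_cancel₀ (pow_ne_zero n hx)
    have c2 := mul_inv_cancel₀ (pow_ne_zero d hx)
    rw [b, a] at c1
    exact hp L x a (by linear_combination x ^ d * c1 - (x ^ d + 1) * c2)

theorem Good.comm' (h : Alt T) (hg : Good T) (h1 : finrank K T.V = 2 → 4 ≤ Nat.card K)
    (h2 : finrank K T.V = 4 → 3 ≤ Nat.card K) : Comm T := by
  classical
  obtain ⟨E, -, -, hn, -⟩ := hg.factor h
  generalize finrank K E = n at hn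
  by_cases h4 : 4 ≤ Nat.card K
  · have := Fintype.ofFinite K
    obtain ⟨c, -, hc⟩ := Finset.exists_mem_notMem_of_card_lt_card (s := ({0, 1, -1} : Finset K)) (t := Finset.univ)
      (Finset.card_le_three.trans_lt (by rwa [Finset.card_univ, ← Nat.card_eq_fintype_card]))
    simp only [Finset.mem_insert, Finset.mem_singleton, not_or] at hc
    refine hg.comm h ((monic_X_sub_C c).pow n) (by simp [hn, (monic_X_sub_C c).natDegree_pow])
      (by simp [coeff_zero_eq_eval_zero, hc.1]) fun L _ _ x a b => ?_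
    simp only [map_pow, map_sub, aeval_X, aeval_C] at a b
    have e := sub_eq_zero.1 (pow_eq_zero_iff' .. |>.1 b).1
    rw [sub_eq_zero.1 (pow_eq_zero_iff' .. |>.1 a).1, ← map_inv₀, (algebraMap K L).injective.eq_iff,
      inv_eq_iff_eq_inv, ← one_div, eq_div_iff hc.1, mul_self_eq_one_iff] at e
    exact e.elim hc.2.1 hc.2.2
  rcases Nat.eq_zero_or_pos n with rfl | h0
  · exact comm_of_zero hn
  have key : ∀ (L : Type u) [Field L] (x : L), x ^ 2 + x + 1 = 0 → x ^ n = x ^ (n % 3) := fun L _ x hx =>
    pow_eq_pow_mod n (by linear_combination (x - 1) * hx)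
  by_cases h3 : n % 3 ≠ 2 ∨ (2 : K) ≠ 0
  · refine hg.comm_tri h hn one_pos (by omega) fun L _ _ x a b => ?_
    rw [pow_one] at a b
    rw [key L x b] at a
    rcases (show n % 3 = 0 ∨ n % 3 = 1 ∨ n % 3 = 2 by omega) with e | e | e <;> rw [e] at a
    · exact one_ne_zero (α := L) (by linear_combination b + (x + 1) * a)
    · exact one_ne_zero (α := L) (by linear_combination -a)
    · refine (map_ne_zero (algebraMap K L)).2 (h3.resolve_left (not_not.2 e)) ?_
      rw [map_ofNat]
      linear_combination (2 - x) * b + x * a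
  rw [not_or, not_not, not_not] at h3
  refine hg.comm_tri h hn two_pos ?_ fun L _ _ x a b => ?_
  · by_contra h5
    have h6 : ((Nat.card K : ℕ) : K) = 0 := cast_natCard K
    rw [show Nat.card K = 3 by omega] at h6
    exact one_ne_zero (α := K) (by push_cast at h6; linear_combination h6 - h3.2)
  · have h5 : (2 : L) = 0 := by rw [← map_ofNat (algebraMap K L), h3.2, map_zero]
    rw [key L x (pow_eq_zero_iff two_ne_zero |>.1 (by linear_combination b + (x ^ 3 + x ^ 2 + x) * h5)), h3.1] at a
    exact one_ne_zero (α := L) (by linear_combination -a)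

theorem Alt.comm (h : Alt T) (h1 : finrank K T.V = 2 → 4 ≤ Nat.card K) (h2 : finrank K T.V = 4 → 3 ≤ Nat.card K) :
    Comm T := by
  induction hn : finrank K T.V using Nat.strong_induction_on generalizing T with
  | _ n ih =>
    obtain hg | ⟨h0, A, C, a1, a2, a3, a4⟩ := h.good_or
    · exact hg.comm' h h1 h2
    have b1 := (finrank_tsum A C).symm.trans (finrank_iso a4)
    have b2 := a1.2.2.2
    have b3 : ((Nat.card K : ℕ) : K) = 0 := cast_natCard K
    have b4 : Nat.card K ≠ 2 := fun e => h0 (by simpa [e] using b3)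
    have b5 : 1 < Nat.card K := Finite.one_lt_card
    by_cases hc : finrank K C.V = 2 → 4 ≤ Nat.card K
    · exact (a1.1.sum (ih _ (by omega) (h.right a3 a4) hc (by omega) rfl)).iso a4
    obtain hg | ⟨-, A', C', c1, c2, c3, c4⟩ := (h.right a3 a4).neg.good_or
    · refine Good.comm_neg h ((a1.2.2.1.sum hg).iso ((iso K).trans (iso_tneg_tsum _ _) (iso_tneg a4))) ?_ (by omega)
      simpa [show Nat.card K = 3 by omega] using b3
    · have d1 : _ = finrank K C.V := (finrank_tsum A' C').symm.trans (finrank_iso (S := tneg C) c4)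
      have d2 := c1.2.2.2
      exact (a1.1.sum ((c1.2.1.sum (comm_of_zero (T := tneg C') (show finrank K C'.V = 0 by omega))).iso
        ((iso K).trans (iso_tneg_tsum _ _) ((iso K).trans (iso_tneg c4) (iso_tneg_tneg _))))).iso a4

end CL.Ore
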