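/-
Commutators in special unitary groups, part 1: opposite isotropic subspaces, radicals, Levi factors, and the
fixed-point-free criterion.
-/
import Cfsg.Agent.Cls.OreCore
import Cfsg.Agent.Cls.OreHess
import Cfsg.Agent.Cls.UniMax2
import Cfsg.Agent.Cls.UniStab
import Cfsg.Agent.Cls.TenLin

set_option autoImplicit false

open Module Polynomial

namespace CL.OreU

open CL.Uni CL.Chev CL.Sp

universe u v

variable {K : Type u} [Field K] {q : ℕ} {σ : K →+* K} {V : Type v} [AddCommGroup V] [Module K V]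
  {B : V →ₛₗ[σ] V →ₗ[K] K} {E F E' : Submodule K V}

/-- The unipotent radical of the stabiliser of an isotropic subspace. -/
def Rad (B : V →ₛₗ[σ] V →ₗ[K] K) (E : Submodule K V) : Subgroup (V ≃ₗ[K] V) where
  carrier := {u | u ∈ UG B ∧ (∀ x ∈ E, u x = x) ∧ ∀ x ∈ perp B E, u x - x ∈ E}
  mul_mem' {u v} hu hv := ⟨mul_mem hu.1 hv.1, fun x hx => by rw [LinearEquiv.mul_apply, hv.2.1 x hx, hu.2.1 x hx],
    fun x hx => by
      simpa using add_mem (hu.2.2 (v x) fun e he => by rw [← hv.2.1 e he, hv.1, hx e he]) (hv.2.2 x hx)⟩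
  one_mem' := ⟨one_mem _, fun _ _ => rfl, fun x _ => by simp⟩
  inv_mem' {u} hu := ⟨inv_mem hu.1, fun x hx => by conv_lhs => rw [← hu.2.1 x hx, inv_apply_apply], fun x hx => by
    simpa [apply_inv_apply] using neg_mem (hu.2.2 (u⁻¹ x) fun e he => by
      rw [← UG_apply_left hu.1, hu.2.1 e he, hx e he])⟩

/-- The Levi factor. -/
def Lv (B : V →ₛₗ[σ] V →ₗ[K] K) (E F : Submodule K V) : Subgroup (V ≃ₗ[K] V) :=
  UG B ⊓ (stabSet K (E : Set V) ⊓ stabSet K (F : Set V))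

/-- Two isotropic subspaces in duality. -/
structure Opp (B : V →ₛₗ[σ] V →ₗ[K] K) (E F : Submodule K V) : Prop where
  isoE : ∀ x ∈ E, ∀ y ∈ E, B x y = 0
  isoF : ∀ x ∈ F, ∀ y ∈ F, B x y = 0
  EF : ∀ y ∈ F, (∀ x ∈ E, B x y = 0) → y = 0
  FE : ∀ x ∈ E, (∀ y ∈ F, B y x = 0) → x = 0

theorem Opp.symm (h : Opp B E F) : Opp B F E := ⟨h.isoF, h.isoE, h.FE, h.EF⟩

theorem mem_pp {w : V} : w ∈ perp B (E ⊔ F) ↔ w ∈ perp B E ∧ w ∈ perp B F := by rw [perp_sup]; rfl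

theorem Opp.eq_zero (h : Opp B E F) {e f w : V} (he : e ∈ E) (hf : f ∈ F) (hw : w ∈ perp B (E ⊔ F))
    (h0 : e + f + w = 0) : e = 0 ∧ f = 0 ∧ w = 0 := by
  rw [mem_pp] at hw
  have h1 : f = 0 := h.EF f hf fun x hx => by simpa [h.isoE x hx e he, hw.1 x hx] using congrArg (B x) h0
  have h2 : e = 0 := h.FE e he fun x hx => by simpa [h.isoF x hx f hf, hw.2 x hx] using congrArg (B x) h0
  exact ⟨h2, h1, by simpa [h1, h2] using h0⟩

theorem Opp.disjoint (h : Opp B E F) : Disjoint (E ⊔ F) (perp B (E ⊔ F)) := Submodule.disjoint_def.2 fun x hx hx' => by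
  obtain ⟨e, he, f, hf, rfl⟩ := Submodule.mem_sup.1 hx
  obtain ⟨h1, h2, -⟩ := h.eq_zero he hf (neg_mem hx') (add_neg_cancel _)
  simp [h1, h2]

theorem Opp.map (h : Opp B E F) {k : V ≃ₗ[K] V} (hk : k ∈ UG B) :
    Opp B (E.map (k : End K V)) (F.map (k : End K V)) := by
  refine ⟨?_, ?_, ?_, ?_⟩
  · rintro _ ⟨x, hx, rfl⟩ _ ⟨y, hy, rfl⟩; exact (hk x y).trans (h.isoE x hx y hy)
  · rintro _ ⟨x, hx, rfl⟩ _ ⟨y, hy, rfl⟩; exact (hk x y).trans (h.isoF x hx y hy)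
  · rintro _ ⟨y, hy, rfl⟩ h0
    rw [h.EF y hy fun x hx => (hk x y).symm.trans (h0 _ ⟨x, hx, rfl⟩), map_zero]
  · rintro _ ⟨y, hy, rfl⟩ h0
    rw [h.FE y hy fun x hx => (hk x y).symm.trans (h0 _ ⟨x, hx, rfl⟩), map_zero]

theorem Lv.symm {a : V ≃ₗ[K] V} (h : a ∈ Lv B E F) : a ∈ Lv B F E := ⟨h.1, h.2.2, h.2.1⟩

theorem Lv.left {a : V ≃ₗ[K] V} (h : a ∈ Lv B E F) {x : V} (hx : x ∈ E) : a x ∈ E := (h.2.1 x).1 hx

theorem Lv.right {a : V ≃ₗ[K] V} (h : a ∈ Lv B E F) {x : V} (hx : x ∈ F) : a x ∈ F := (h.2.2 x).1 hx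

theorem Lv.pp {a : V ≃ₗ[K] V} (h : a ∈ Lv B E F) {x : V} (hx : x ∈ perp B (E ⊔ F)) : a x ∈ perp B (E ⊔ F) :=
  mem_pp.2 ⟨(mem_stabSet_perp h.1 h.2.1 x).1 (mem_pp.1 hx).1, (mem_stabSet_perp h.1 h.2.2 x).1 (mem_pp.1 hx).2⟩

theorem Lv.stab {a : V ≃ₗ[K] V} (h : a ∈ Lv B E F) : a ∈ stabSet K (perp B (E ⊔ F) : Set V) := fun x =>
  ⟨Lv.pp h, fun hx => by simpa [inv_apply_apply] using Lv.pp (inv_mem h) hx⟩

theorem Lv.norm {a : V ≃ₗ[K] V} (h : a ∈ Lv B E F) : a ∈ Subgroup.normalizer (Rad B E : Set (V ≃ₗ[K] V)) := by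
  have key : ∀ a ∈ Lv B E F, ∀ u ∈ Rad B E, a * u * a⁻¹ ∈ Rad B E := fun a ha u hu => by
    refine ⟨mul_mem (mul_mem ha.1 hu.1) (inv_mem ha.1), fun x hx => ?_, fun x hx => ?_⟩
    · rw [LinearEquiv.mul_apply, LinearEquiv.mul_apply, hu.2.1 _ (Lv.left (inv_mem ha) hx), apply_inv_apply]
    · simpa [apply_inv_apply] using Lv.left ha (hu.2.2 (a⁻¹ x) fun e he => by
        rw [← UG_apply_left ha.1, hx _ (Lv.left ha he)])
  exact Subgroup.mem_normalizer_iff.2 fun u => ⟨key a h u, fun hu => by simpa [mul_assoc] using key a⁻¹ (inv_mem h) _ hu⟩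

theorem form_aeval {f f' : End K V} (h : ∀ x y, B (f x) y = B x (f' y)) (p : K[X]) (x y : V) :
    B (aeval f p x) y = B x (aeval f' (p.map σ) y) := by
  have hp : ∀ n : ℕ, ∀ x y, B ((f ^ n) x) y = B x ((f' ^ n) y) := fun n => by
    induction n with
    | zero => simp
    | succ n ih => intro x y; rw [pow_succ', pow_succ, End.mul_apply, End.mul_apply, h, ih]
  induction p using Polynomial.induction_on' with
  | add p q hp hq => simp [hp, hq]
  | monomial n c => simp [aeval_monomial, hp, LinearMap.map_smulₛₗ]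

theorem aeval_reflect (a : V ≃ₗ[K] V) (N : ℕ) (p : K[X]) (hp : p.natDegree ≤ N) (x : V) :
    aeval (a : End K V) (p.reflect N) x = ((a : End K V) ^ N) (aeval ((a⁻¹ : V ≃ₗ[K] V) : End K V) p x) := by
  refine induction_with_natDegree_le (fun p => aeval (a : End K V) (p.reflect N) x =
    ((a : End K V) ^ N) (aeval ((a⁻¹ : V ≃ₗ[K] V) : End K V) p x)) N (by simp) (fun n r _ hn => ?_)
    (fun f g _ _ h1 h2 => by simp only [reflect_add, map_add, LinearMap.add_apply, h1, h2]) p hp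
  obtain ⟨k, rfl⟩ := Nat.exists_eq_add_of_le' hn
  have : (a : End K V) ^ n * ((a⁻¹ : V ≃ₗ[K] V) : End K V) ^ n = 1 := by
    have e1 : (a : End K V) * ((a⁻¹ : V ≃ₗ[K] V) : End K V) = 1 := LinearMap.ext (apply_inv_apply a)
    have e2 : ((a⁻¹ : V ≃ₗ[K] V) : End K V) * (a : End K V) = 1 := LinearMap.ext (inv_apply_apply a)
    rw [← Commute.mul_pow (e1.trans e2.symm), e1, one_pow]
  simp only [reflect_C_mul_X_pow, revAt_le hn, map_mul, aeval_C, map_pow, aeval_X, End.mul_apply,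
    Module.algebraMap_end_apply, map_smul, Nat.add_sub_cancel, pow_add]
  rw [← End.mul_apply (_ ^ n), this, End.one_apply]

theorem eq_zero_of_coprime {f : End K V} {p r : K[X]} (h : IsCoprime p r) {x : V} (h1 : aeval f p x = 0)
    (h2 : aeval f r x = 0) : x = 0 := by
  obtain ⟨a, b, e⟩ := h
  simpa [h1, h2] using (congrArg (fun s => aeval f s x) e).symm

variable [FiniteDimensional K V]

theorem Opp.isCompl (h : IsHerm B q) (hO : Opp B E F) : IsCompl E (perp B F) ∧ finrank K E = finrank K F := by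
  have key : ∀ {E F : Submodule K V}, Opp B E F → Disjoint E (perp B F) ∧ finrank K E ≤ finrank K F := fun {E F} hO => by
    have h1 : Disjoint E (perp B F) := Submodule.disjoint_def.2 fun x hx hx' => hO.FE x hx hx'
    have := Submodule.finrank_add_finrank_le_of_disjoint h1
    have := h.finrank_add_finrank_perp F
    exact ⟨h1, by omega⟩
  have h1 := le_antisymm (key hO).2 (key hO.symm).2
  exact ⟨(Submodule.isCompl_iff_disjoint _ _ (by rw [h1, h.finrank_add_finrank_perp])).2 (key hO).1, h1⟩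

theorem opp_of_finrank (h : IsHerm B q) (h1 : ∀ x ∈ E, ∀ y ∈ E, B x y = 0) (h2 : ∀ x ∈ F, ∀ y ∈ F, B x y = 0)
    (h3 : ∀ x ∈ E, (∀ y ∈ F, B y x = 0) → x = 0) (h4 : finrank K E = finrank K F) : Opp B E F := by
  have hc : IsCompl E (perp B F) := (Submodule.isCompl_iff_disjoint _ _ (by rw [h4, h.finrank_add_finrank_perp])).2
    (Submodule.disjoint_def.2 h3)
  refine ⟨h1, h2, fun y hy h0 => h.nondeg y fun v => ?_, h3⟩
  obtain ⟨x, z, rfl⟩ := exists_add_of_isCompl hc v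
  rw [map_add, h.flip_zero (h0 x x.2), z.2 y hy, add_zero]

theorem Opp.dec (h : IsHerm B q) (hO : Opp B E F) (v : V) :
    ∃ e ∈ E, ∃ f ∈ F, ∃ w ∈ perp B (E ⊔ F), v = e + f + w := by
  obtain ⟨x, w, rfl⟩ := exists_add_of_isCompl (h.isCompl_perp hO.disjoint) v
  obtain ⟨e, he, f, hf, e'⟩ := Submodule.mem_sup.1 x.2
  exact ⟨e, he, f, hf, w, w.2, by rw [e']⟩

theorem Opp.finrank_pp (h : IsHerm B q) (hO : Opp B E F) :
    finrank K (perp B (E ⊔ F)) + 2 * finrank K E = finrank K V := by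
  have h1 := h.finrank_add_finrank_perp (E ⊔ F)
  have h2 := Submodule.finrank_sup_add_finrank_inf_eq E F
  rw [show E ⊓ F = ⊥ from eq_bot_iff.2 fun x hx => hO.FE x hx.1 fun y hy => hO.isoF y hy x hx.2, finrank_bot,
    ← (hO.isCompl h).2] at h2
  omega

theorem rad_le (h : IsHerm B q) (hE : ∀ x ∈ E, ∀ y ∈ E, B x y = 0) : Rad B E ≤ SUG B := fun u hu => by
  refine mem_SUG.2 ⟨hu.1, (dt_apply u).trans (det_eq_one_of_isNilpotent ⟨3, LinearMap.ext fun x => ?_⟩)⟩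
  have h1 : u x - x ∈ perp B E := fun e he => by rw [map_sub, ← hu.1 e x, hu.2.1 e he, sub_self]
  exact sub_eq_zero.2 (hu.2.1 _ (hu.2.2 _ h1))

theorem Opp.trans (h : IsHerm B q) (hO : Opp B E F) (hO' : Opp B E' F) : ∃ v ∈ Rad B F, ∀ x ∈ E, v x ∈ E' := by
  have c1 := (hO.isCompl h).1
  have c2 := (hO'.isCompl h).1
  have c3 := (hO.symm.isCompl h).1
  have c4 := (hO'.symm.isCompl h).1.symm
  let f : End K V := E'.projection _ c2 * E.projection _ c1 +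
    (F.projection _ c3 + (perp B E').projection _ c4 * (1 - F.projection _ c3)) * (1 - E.projection _ c1)
  have f1 : ∀ x ∈ E, f x ∈ E' ∧ ∀ y ∈ F, B (f x) y = B x y := fun x hx => by
    have : f x = E'.projection _ c2 x := by simp [f, Submodule.projection_apply_of_mem_left c1 hx]
    refine this ▸ ⟨Submodule.projection_apply_mem _ _, fun y hy => ?_⟩
    have := h.flip_zero (Submodule.sub_projection_mem c2 x y hy)
    rwa [map_sub, LinearMap.sub_apply, sub_eq_zero, eq_comm] at this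
  have f2 : ∀ y ∈ perp B F, f y - y ∈ F ∧ ∀ x ∈ E, B (f x) (f y) = B x y := fun y hy => by
    have : f y = F.projection _ c3 y + (perp B E').projection _ c4 (y - F.projection _ c3 y) := by
      simp [f, Submodule.projection_apply_of_mem_right c1 hy]
    rw [this]
    refine ⟨by convert neg_mem (Submodule.sub_projection_mem c4 (y - F.projection _ c3 y)) using 1; abel, fun x hx => ?_⟩
    have h1 := Submodule.sub_projection_mem c3 y x hx
    rw [map_sub, sub_eq_zero] at h1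
    rw [map_add, (f1 x hx).2 _ (Submodule.projection_apply_mem _ _), Submodule.projection_apply_mem c4 _ _ (f1 x hx).1,
      add_zero, h1]
  have f3 : ∀ y ∈ perp B F, ∀ z ∈ perp B F, B (f y) (f z) = B y z := fun y hy z hz => by
    obtain ⟨a, ha, e1⟩ : ∃ a ∈ F, f y = y + a := ⟨_, (f2 y hy).1, by abel⟩
    obtain ⟨b, hb, e2⟩ : ∃ a ∈ F, f z = z + a := ⟨_, (f2 z hz).1, by abel⟩
    simp [e1, e2, hz a ha, h.flip_zero (hy b hb), hO.isoF a ha b hb]
  obtain ⟨v, hv, e⟩ := h.exists_mem_UG f fun a b => by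
    obtain ⟨x, y, rfl⟩ := exists_add_of_isCompl c1 a
    obtain ⟨x', y', rfl⟩ := exists_add_of_isCompl c1 b
    simp only [map_add, LinearMap.add_apply, f3 _ y.2 _ y'.2, (f2 _ y'.2).2 _ x.2, hO.isoE _ x.2 _ x'.2,
      hO'.isoE _ (f1 _ x.2).1 _ (f1 _ x'.2).1, ← h.symm (f x') (f y), (f2 _ y.2).2 _ x'.2, h.symm]
  have e' : ∀ x, v x = f x := LinearMap.congr_fun e
  refine ⟨v, ⟨hv, fun y hy => ?_, fun y hy => e' y ▸ (f2 y hy).1⟩, fun x hx => e' x ▸ (f1 x hx).1⟩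
  have h1 := f2 y fun z hz => hO.isoF z hz y hy
  refine e' y ▸ sub_eq_zero.1 (hO.EF _ h1.1 fun x hx => ?_)
  rw [map_sub, ← (f1 x hx).2 (f y) (by simpa using add_mem h1.1 hy), h1.2 x hx, sub_self]

theorem mem_Lv {a : V ≃ₗ[K] V} (h1 : a ∈ UG B) (h2 : ∀ x ∈ E, a x ∈ E) (h3 : ∀ x ∈ F, a x ∈ F) : a ∈ Lv B E F :=
  ⟨h1, mem_stabSet_of_forall h2, mem_stabSet_of_forall h3⟩

/-- The big cell. -/
theorem Opp.fac (h : IsHerm B q) (hO : Opp B E F) {g : V ≃ₗ[K] V} (hg : g ∈ UG B)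
    (hs : ∀ x ∈ E, g x ∈ perp B F → x = 0) : ∃ v ∈ Rad B F, ∃ u ∈ Rad B E, ∃ l ∈ Lv B E F, g = v * l * u := by
  have h1 : Opp B (E.map (g : End K V)) F := opp_of_finrank h (hO.map hg).isoE hO.isoF
    (by rintro _ ⟨x, hx, rfl⟩ h0; rw [hs x hx h0, map_zero]) ((LinearEquiv.finrank_map_eq g E).trans (hO.isCompl h).2)
  obtain ⟨v, hv, h2⟩ := h1.trans h hO
  have hk : v * g ∈ UG B := mul_mem hv.1 hg
  have h3 : v * g ∈ stabSet K (E : Set V) := mem_stabSet_of_forall fun x hx => h2 _ ⟨x, hx, rfl⟩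
  have h4 := hO.symm.map (inv_mem hk)
  rw [mem_stabSet_iff_map.1 (inv_mem h3)] at h4
  obtain ⟨u, hu, h5⟩ := hO.symm.trans h h4
  refine ⟨v⁻¹, inv_mem hv, u⁻¹, inv_mem hu, v * g * u, mem_Lv (mul_mem hk hu.1) (fun x hx => ?_) fun x hx => ?_, by group⟩
  · rw [LinearEquiv.mul_apply, hu.2.1 x hx]; exact (h3 x).1 hx
  · obtain ⟨y, hy, e⟩ := h5 x hx
    rw [LinearEquiv.mul_apply, ← e]
    exact (apply_inv_apply (v * g) y).symm ▸ hy

theorem Opp.ext (h : IsHerm B q) (hO : Opp B E F) {a b : V ≃ₗ[K] V} (ha : a ∈ Lv B E F) (hb : b ∈ Lv B E F)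
    (h1 : ∀ x ∈ E, a x = b x) (h2 : ∀ x ∈ perp B (E ⊔ F), a x = b x) : a = b := LinearEquiv.ext fun v => by
  obtain ⟨e, he, f, hf, w, hw, rfl⟩ := hO.dec h v
  have : a f - b f = 0 := hO.EF _ (sub_mem (Lv.right ha hf) (Lv.right hb hf)) fun x hx => by
    rw [← apply_inv_apply a x, map_sub, ha.1, h1 _ (Lv.left (inv_mem ha) hx), hb.1, sub_self]
  simp [h1 e he, h2 w hw, sub_eq_zero.1 this]

theorem Opp.levi (h : IsHerm B q) (hO : Opp B E F) (A : E ≃ₗ[K] E)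
    {a : perp B (E ⊔ F) ≃ₗ[K] perp B (E ⊔ F)} (ha : a ∈ UG (B.domRestrict₁₂ (perp B (E ⊔ F)) (perp B (E ⊔ F)))) :
    ∃ c ∈ Lv B E F, (∀ x : E, c x = A x) ∧ (∀ w : perp B (E ⊔ F), c w = a w) ∧ dt c * σ (dt A) = dt A * dt a := by
  have c1 := (hO.isCompl h).1
  let α : End K V := 1 + E.subtype ∘ₗ ((A : End K E) - 1) ∘ₗ E.projectionOnto _ c1
  have α1 : ∀ x : E, α x = A x := fun x => by simp [α]
  have α2 : ∀ y ∈ perp B F, α y = y := fun y hy => by simp [α, Submodule.projectionOnto_apply_of_mem_right c1 hy]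
  have α3 : ∀ v, α v - v ∈ E := fun v => by simpa [α] using (A (E.projectionOnto _ c1 v) - E.projectionOnto _ c1 v).2
  have α4 : LinearMap.det α = dt A := by
    rw [CL.Known.det_eq_det_restrict α E α3 fun x hx => α1 ⟨x, hx⟩ ▸ (A _).2, dt_apply]
    exact congrArg _ (LinearMap.ext fun x => Subtype.ext (α1 x))
  obtain ⟨β, hβ⟩ : ∃ β : V ≃ₗ[K] V, (β : End K V) = CL.Known.sadj h.bar_bar B h.nondeg α :=
    ⟨LinearMap.equivOfIsUnitDet (by rw [CL.Known.det_sadj h.bar_bar B h.nondeg, α4]; exact ((map_ne_zero σ).2 (dt_ne_zero A)).isUnit), by simp⟩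
  have β1 : ∀ u v, B (β u) v = B u (α v) := fun u v => by
    rw [← CL.Known.sadj_spec h.bar_bar B h.nondeg α, ← hβ]; rfl
  have β2 : ∀ u, β u - u ∈ F := fun u => by
    rw [← h.perp_perp F]
    exact fun y hy => h.flip_zero (by rw [map_sub, LinearMap.sub_apply, β1, α2 y hy, sub_self])
  have β3 : ∀ u ∈ perp B E, β u = u := fun u hu => h.ext_left fun v => by
    rw [β1, ← sub_eq_zero, ← map_sub, h.flip_zero (hu _ (α3 v))]
  have β4 : ∀ v, α (β v) = β (α v) := fun v => by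
    have e1 := α2 _ fun y hy => hO.isoF y hy _ (β2 v)
    have e2 := β3 _ fun y hy => hO.isoE y hy _ (α3 v)
    rw [map_sub] at e1 e2
    rw [sub_eq_iff_eq_add.1 e1, sub_eq_iff_eq_add.1 e2]; abel
  obtain ⟨c, hc, e⟩ := h.exists_mem_UG (α * (β⁻¹ : V ≃ₗ[K] V)) fun u v => by
    conv_rhs => rw [← apply_inv_apply β u, ← apply_inv_apply β v, β1, β4, ← h.symm, β1, h.symm]
    rfl
  have e' : ∀ x, c (β x) = α x := fun x => (LinearMap.congr_fun e (β x)).trans (congrArg α (inv_apply_apply β x))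
  have hc1 := h.isCompl_perp hO.disjoint
  have s1 : ∀ x ∈ E ⊔ F, sumHom hc1 (1, a) x = x := fun x hx => sumHom_left hc1 (1, a) ⟨x, hx⟩
  have cE : ∀ x : E, c x = A x := fun x => by rw [← α1, ← e', β3 x fun y hy => hO.isoE y hy x x.2]
  refine ⟨c * sumHom hc1 (1, a), mem_Lv (mul_mem hc (h.sumHom_mem_UG hc1 (one_mem _) ha)) (fun x hx => ?_) fun y hy => ?_,
    fun x => ?_, fun w => ?_, ?_⟩
  · rw [LinearEquiv.mul_apply, s1 x (Submodule.mem_sup_left hx), cE ⟨x, hx⟩]; exact (A _).2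
  · have h1 : β⁻¹ y ∈ F := by simpa [apply_inv_apply] using sub_mem hy (β2 (β⁻¹ y))
    rw [LinearEquiv.mul_apply, s1 y (Submodule.mem_sup_right hy), ← apply_inv_apply β y, e',
      α2 _ fun z hz => hO.isoF z hz _ h1]
    exact h1
  · rw [LinearEquiv.mul_apply, s1 x (Submodule.mem_sup_left x.2), cE]
  · rw [LinearEquiv.mul_apply, sumHom_right, ← β3 _ (mem_pp.1 (a w).2).1, e', α2 _ (mem_pp.1 (a w).2).2,
      β3 _ (mem_pp.1 (a w).2).1]
  · have : dt c * σ (dt A) = dt A := by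
      rw [← α4, ← CL.Known.det_sadj h.bar_bar B h.nondeg, ← hβ, dt_apply, ← map_mul]
      exact congrArg _ (LinearMap.ext e')
    rw [map_mul, dt_sumHom, map_one, one_mul, mul_right_comm, this]

theorem Opp.fpf (h : IsHerm B q) (hO : Opp B E F) {a : V ≃ₗ[K] V} (ha : a ∈ Lv B E F)
    (hc : ∀ u, Commute a u → ∀ y ∈ F, u y ∈ F) : Fpf (Rad B E) a := by
  refine ⟨Lv.norm ha, fun u hu hau => LinearEquiv.ext fun v => ?_⟩
  obtain ⟨e, he, f, hf, w, hw, rfl⟩ := hO.dec h v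
  rw [mem_pp] at hw
  have h1 : u f - f = 0 := hO.EF _ (sub_mem (hc u hau f hf) hf) fun x hx => by
    rw [map_sub, ← hu.1 x f, hu.2.1 x hx, sub_self]
  have h2 : u w - w = 0 := hO.FE _ (hu.2.2 w hw.1) fun y hy => by
    rw [map_sub, UG_apply_right hu.1, hw.2 _ (hc _ hau.inv_right y hy), hw.2 y hy, sub_self]
  simp [hu.2.1 e he, sub_eq_zero.1 h1, sub_eq_zero.1 h2]

/-- The fixed-point-free criterion. -/
theorem Opp.fpf_of_poly (h : IsHerm B q) (hO : Opp B E F) {a : V ≃ₗ[K] V} (ha : a ∈ Lv B E F) {p r : K[X]}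
    (h0 : ∀ x ∈ E, aeval (a : End K V) p x = 0) (h1 : IsCoprime p (p.map σ).reverse)
    (h2 : ∀ w ∈ perp B (E ⊔ F), aeval (a : End K V) r w = 0) (h3 : IsCoprime p r) :
    Fpf (Rad B E) a ∧ Fpf (Rad B F) a := by
  have mem : ∀ b ∈ Lv B E F, ∀ (p : K[X]) {e f w : V}, e ∈ E → f ∈ F → w ∈ perp B (E ⊔ F) →
      aeval (b : End K V) p (e + f + w) = 0 → aeval (b : End K V) p e = 0 ∧
        aeval (b : End K V) p f = 0 ∧ aeval (b : End K V) p w = 0 := fun b hb p e f w he hf hw h0 =>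
    hO.eq_zero (CL.Ore.aeval_mem (fun x => Lv.left hb) p he) (CL.Ore.aeval_mem (fun x => Lv.right hb) p hf)
      (CL.Ore.aeval_mem (fun x => Lv.pp hb) p hw) (by simpa using h0)
  have adj := form_aeval (f := (a : End K V)) (f' := ((a⁻¹ : V ≃ₗ[K] V) : End K V)) (UG_apply_left ha.1)
  have kF : ∀ p : K[X], (∀ x ∈ E, aeval (a : End K V) p x = 0) → ∀ y ∈ F,
      aeval ((a⁻¹ : V ≃ₗ[K] V) : End K V) (p.map σ) y = 0 := fun p h0 y hy =>
    hO.EF _ (CL.Ore.aeval_mem (fun x => Lv.right (inv_mem ha)) _ hy) fun x hx => by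
      rw [← adj, h0 x hx, map_zero, LinearMap.zero_apply]
  have rev : ∀ x, aeval ((a⁻¹ : V ≃ₗ[K] V) : End K V) (p.map σ) x = 0 → aeval (a : End K V) (p.map σ).reverse x = 0 :=
    fun x hx => by rw [reverse, aeval_reflect a _ _ le_rfl, hx, map_zero]
  refine ⟨hO.fpf h ha fun u hu y hy => ?_, hO.symm.fpf h (Lv.symm ha) fun u hu x hx => ?_⟩
  · obtain ⟨e, he, f, hf, w, hw, e1⟩ := hO.dec h (u y)
    obtain ⟨a1, -, a2⟩ := mem a⁻¹ (inv_mem ha) (p.map σ) he hf hw (by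
      rw [← e1, CL.Ore.comm_aeval hu.inv_left, kF p h0 y hy, map_zero])
    have a3 : aeval ((a⁻¹ : V ≃ₗ[K] V) : End K V) (r.map σ) w = 0 := Submodule.disjoint_def.1
      (h.disjoint_perp_perp hO.disjoint) _ (CL.Ore.aeval_mem (fun x => Lv.pp (inv_mem ha)) _ hw) fun x hx => by
        rw [← adj, h2 x hx, map_zero, LinearMap.zero_apply]
    simpa [e1, eq_zero_of_coprime h1 (h0 e he) (rev e a1),
      eq_zero_of_coprime (h3.map (mapRingHom σ)) a2 a3] using hf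
  · obtain ⟨e, he, f, hf, w, hw, e1⟩ := hO.dec h (u x)
    obtain ⟨-, a1, a2⟩ := mem a ha p he hf hw (by rw [← e1, CL.Ore.comm_aeval hu, h0 x hx, map_zero])
    simpa [e1, eq_zero_of_coprime h1 a1 (rev f (kF p h0 f hf)), eq_zero_of_coprime h3 a2 (h2 w hw)] using he

/-- `g` is a commutator in the special unitary group. -/
def Cm (B : V →ₛₗ[σ] V →ₗ[K] K) (g : V ≃ₗ[K] V) : Prop := ∃ x ∈ SUG B, ∃ y ∈ SUG B, g = x * y * x⁻¹ * y⁻¹

theorem Opp.core (h : IsHerm B q) (hO : Opp B E F) {v u l : V ≃ₗ[K] V} (hv : v ∈ Rad B F) (hu : u ∈ Rad B E)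
    (hl : l ∈ Lv B E F) {A C : E ≃ₗ[K] E} (hA : ∀ x : E, l x = (A * (C * A⁻¹ * C⁻¹)) x)
    {a c : perp B (E ⊔ F) ≃ₗ[K] perp B (E ⊔ F)} (ha : a ∈ UG (B.domRestrict₁₂ (perp B (E ⊔ F)) (perp B (E ⊔ F))))
    (hc : c ∈ UG (B.domRestrict₁₂ (perp B (E ⊔ F)) (perp B (E ⊔ F))))
    (h1 : ∀ w : perp B (E ⊔ F), l w = (a * (c * a⁻¹ * c⁻¹)) w) {p r : K[X]} (hp : aeval (A : End K E) p = 0)
    (ht : IsCoprime p (p.map σ).reverse) (hr : aeval (a : End K (perp B (E ⊔ F))) r = 0) (hpr : IsCoprime p r)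
    (d1 : dt A * dt a = σ (dt A)) (d2 : dt C * dt c = σ (dt C)) : Cm B (v * l * u) := by
  obtain ⟨x, hx, x1, x2, x3⟩ := hO.levi h A ha
  obtain ⟨y, hy, y1, y2, y3⟩ := hO.levi h C hc
  have inv : ∀ {X : Submodule K V} {x : V ≃ₗ[K] V} {A : X ≃ₗ[K] X}, (∀ v : X, x v = A v) → ∀ v : X, x⁻¹ v = A⁻¹ v :=
    fun {X x A} hx v => by
      apply x.injective
      rw [apply_inv_apply, hx, apply_inv_apply]
  have e : l = x * (y * x⁻¹ * y⁻¹) := hO.ext h hl (mul_mem hx (mul_mem (mul_mem hy (inv_mem hx)) (inv_mem hy)))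
    (fun z hz => (hA ⟨z, hz⟩).trans (by
      simp only [LinearEquiv.mul_apply]; rw [← x1, ← y1, ← inv x1, ← inv y1]))
    fun z hz => (h1 ⟨z, hz⟩).trans (by simp only [LinearEquiv.mul_apply]; rw [← x2, ← y2, ← inv x2, ← inv y2])
  obtain ⟨f1, f2⟩ := hO.fpf_of_poly h hx (p := p) (r := r) (fun z hz => by
      rw [← show E.subtype ⟨z, hz⟩ = z from rfl, ← CL.GLn.aeval_intertwine E.subtype (f := (A : End K E))
        (fun v => (x1 v).symm), hp, LinearMap.zero_apply, map_zero]) ht (fun z hz => by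
      rw [← show (perp B (E ⊔ F)).subtype ⟨z, hz⟩ = z from rfl, ← CL.GLn.aeval_intertwine (perp B (E ⊔ F)).subtype
        (f := (a : End K (perp B (E ⊔ F)))) (fun v => (x2 v).symm), hr, LinearMap.zero_apply, map_zero]) hpr
  haveI := h.finite_equiv
  have s : ∀ {x : V ≃ₗ[K] V} {A : E ≃ₗ[K] E}, x ∈ Lv B E F → dt x * σ (dt A) = σ (dt A) → x ∈ SUG B := fun hx e =>
    mem_SUG.2 ⟨hx.1, mul_right_cancel₀ ((map_ne_zero σ).2 (dt_ne_zero _)) (e.trans (one_mul _).symm)⟩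
  rw [e]
  exact CL.Ore.comm_of_fpf (rad_le h hO.isoF) (rad_le h hO.isoE) (s hx (x3.trans d1)) (s hy (y3.trans d2)) f2
    (f1.inv.conj (Lv.norm hy)) hv hu

end CL.OreU
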