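/-
Commutators in special unitary groups, part 2: polynomials without common roots with their conjugate reciprocal.
-/
import Cfsg.Agent.Cls.UniField
import Mathlib.FieldTheory.IsAlgClosed.AlgebraicClosure
import Mathlib.Algebra.Polynomial.SpecificDegree

set_option autoImplicit false

open Polynomial

namespace CL.OreU

open CL.Uni

variable {K : Type*} [Field K] {q : ℕ} {σ : K →+* K}

/-- The extension of the involution to the algebraic closure. -/
structure Fr (σ : K →+* K) (q : ℕ) (φ : AlgebraicClosure K →+* AlgebraicClosure K) : Prop where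
  pow : ∀ x, φ x = x ^ q
  map : ∀ c, φ (algebraMap K _ c) = algebraMap K _ (σ c)
  fix : ∀ x, φ (φ x) = x → ∃ c, algebraMap K _ c = x
  bar : ∀ c, σ (σ c) = c

theorem exists_fr (h : IsBar σ q) : ∃ φ, Fr σ q φ := by
  obtain ⟨p, f, hp, hc, -, rfl⟩ := h.exists_prime_pow
  haveI := Fact.mk hp
  haveI := h.finite
  haveI := Fintype.ofFinite K
  refine ⟨iterateFrobenius _ p f, fun _ => rfl, fun c => by rw [h.apply, map_pow]; rfl, fun x hx => ?_, h.bar_bar⟩
  have h1 := FiniteField.X_pow_card_sub_X_natDegree_eq K (Fintype.one_lt_card (α := K))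
  have h2 := prod_multiset_X_sub_C_of_monic_of_roots_card_eq (p := (X ^ Fintype.card K - X : K[X]))
    (monic_X_pow_sub (by rw [degree_X]; exact_mod_cast Fintype.one_lt_card))
    (by rw [h1, FiniteField.roots_X_pow_card_sub_X]; rfl)
  have h3 := congrArg (aeval x) h2
  rw [map_sub, aeval_X_pow, aeval_X, show x ^ Fintype.card K = x by rw [h.fintype_card, pow_two, pow_mul]; exact hx,
    sub_self, map_multiset_prod, Multiset.prod_eq_zero_iff, Multiset.map_map, Multiset.mem_map] at h3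
  obtain ⟨c, -, hc⟩ := h3
  exact ⟨c, (sub_eq_zero.1 (by simpa using hc)).symm⟩

variable {φ : AlgebraicClosure K →+* AlgebraicClosure K}

/-- No root is the conjugate reciprocal of a root. -/
def TF (φ : AlgebraicClosure K →+* AlgebraicClosure K) (P : K[X]) : Prop :=
  ∀ x : AlgebraicClosure K, aeval x P = 0 → aeval (φ x)⁻¹ P ≠ 0

theorem Fr.aeval_map (h : Fr σ q φ) (x : AlgebraicClosure K) (P : K[X]) : φ (aeval x (P.map σ)) = aeval (φ x) P := by
  rw [aeval_def, hom_eval₂, eval₂_map, aeval_def]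
  congr 1
  ext c
  simp [h.map, h.bar]

theorem TF.coprime (h : Fr σ q φ) {P : K[X]} (hP : TF φ P) :
    IsCoprime P (P.map σ).reverse ∧ IsCoprime P (X ^ (q + 1) - 1) := by
  simp only [isCoprime_iff_aeval_ne_zero_of_isAlgClosed K (AlgebraicClosure K), or_iff_not_imp_left, not_not]
  refine ⟨fun x hx h0 => hP x hx ?_, fun x hx h0 => hP x hx ?_⟩
  · have h1 : x ≠ 0 := fun e => hP x hx (by rw [e] at hx ⊢; rwa [map_zero, inv_zero])
    letI := invertibleOfNonzero (inv_ne_zero h1)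
    rw [← map_inv₀, ← h.aeval_map, map_eq_zero, aeval_def, ← eval₂_reverse_eq_zero_iff, invOf_eq_inv, inv_inv]
    exact h0
  · rw [map_sub, aeval_X_pow, map_one, sub_eq_zero, pow_succ, ← h.pow] at h0
    rwa [inv_eq_of_mul_eq_one_right h0]

theorem Fr.fix_of_eq (_h : Fr σ q φ) {x : AlgebraicClosure K} (e : (φ x)⁻¹ = x) : φ (φ x) = x := by
  rw [← inv_inv (φ x), e, map_inv₀, e]

/-- Irreducible quadratic polynomials with given constant term. -/
structure Qd (φ : AlgebraicClosure K →+* AlgebraicClosure K) (d : K) (p : K[X]) : Prop where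
  monic : p.Monic
  deg : p.natDegree = 2
  coeff : p.coeff 0 = d
  irr : Irreducible p
  root : ∀ x : AlgebraicClosure K, aeval x p = 0 → φ (φ x) ≠ x ∧ x * φ (φ x) = algebraMap K _ d
  two : ∀ x y : AlgebraicClosure K, aeval x p = 0 → aeval y p = 0 → y = x ∨ y = φ (φ x)

theorem Fr.exists_qd [Finite K] (h : Fr σ q φ) {d : K} (hd : d ≠ 0) : ∃ p, Qd φ d p := by
  obtain ⟨t, ht⟩ : ∃ t : K, ∀ x : Kˣ, (x : K) + d / x ≠ t := by
    by_contra hc
    push Not at hc
    have := Nat.card_le_card_of_surjective (fun x : Kˣ => (x : K) + d / x) hc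
    rw [Nat.card_units] at this
    have := Nat.card_pos (α := K)
    omega
  have h1 : ∀ x : K, x ^ 2 - t * x + d ≠ 0 := fun x e => by
    have hx : x ≠ 0 := fun e' => hd (by simpa [e'] using e)
    exact ht (Units.mk0 x hx) (by simp only [Units.val_mk0]; field_simp; linear_combination e)
  have hd2 : (X ^ 2 - C t * X + C d : K[X]).natDegree = 2 := by compute_degree!
  have h2 : ∀ x : AlgebraicClosure K, aeval x (X ^ 2 - C t * X + C d : K[X]) = 0 ↔
      x ^ 2 - algebraMap K _ t * x + algebraMap K _ d = 0 := fun x => by simp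
  have h3 : ∀ x y : AlgebraicClosure K, x ^ 2 - algebraMap K _ t * x + algebraMap K _ d = 0 →
      y ^ 2 - algebraMap K _ t * y + algebraMap K _ d = 0 → y = x ∨ y = algebraMap K _ t - x := fun x y hx hy => by
    rw [← sub_eq_zero, ← sub_eq_zero (a := y), ← mul_eq_zero]
    linear_combination hy - hx
  have h4 : ∀ x : AlgebraicClosure K, x ^ 2 - algebraMap K _ t * x + algebraMap K _ d = 0 →
      φ (φ x) ≠ x ∧ φ (φ x) = algebraMap K _ t - x := fun x hx => by
    have a1 : φ (φ x) ≠ x := fun e => by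
      obtain ⟨c, rfl⟩ := h.fix x e
      exact h1 c ((map_eq_zero (algebraMap K (AlgebraicClosure K))).1 (by simpa using hx))
    exact ⟨a1, (h3 x _ hx (by simpa [h.map, h.bar] using congrArg (fun z => φ (φ z)) hx)).resolve_left a1⟩
  refine ⟨X ^ 2 - C t * X + C d, by monicity!, hd2, by simp, irreducible_of_degree_le_three_of_not_isRoot (by simp [hd2])
    fun x hx => h1 x (by simpa using hx), fun x hx => ?_, fun x y hx hy => ?_⟩
  · rw [h2] at hx
    exact ⟨(h4 x hx).1, by rw [(h4 x hx).2]; linear_combination -hx⟩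
  · rw [h2] at hx hy
    rw [(h4 x hx).2]
    exact h3 x y hx hy

theorem Qd.cross (h : Fr σ q φ) {d d' : K} {p p' : K[X]} (h1 : Qd φ d p) (h2 : Qd φ d' p') {x : AlgebraicClosure K}
    (hx : aeval x p = 0) (hy : aeval (φ x)⁻¹ p' = 0) : d' = (σ d)⁻¹ ∧ p ≠ p' := by
  refine ⟨(algebraMap K (AlgebraicClosure K)).injective ?_, ?_⟩
  · rw [← (h2.root _ hy).2, map_inv₀ (algebraMap K _), ← h.map, ← (h1.root x hx).2]
    simp [mul_comm]
  · rintro rfl
    rcases h1.two x _ hx hy with e | e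
    · exact (h1.root x hx).1 (h.fix_of_eq e)
    · exact (h1.root x hx).1 (φ.injective (h.fix_of_eq (by rw [← e, inv_inv])))

theorem exists_rho (h : IsBar σ q) : ∃ r : K, r * σ r = 1 ∧ r ^ 2 ≠ 1 := by
  obtain ⟨r, hr⟩ := h.exists_primitiveRoot
  have := h.two_le
  exact ⟨r, by rw [h.norm_eq_pow, hr.pow_eq_one], hr.pow_ne_one_of_pos_of_lt two_ne_zero (by omega)⟩

/-- The properties needed of the characteristic polynomial. -/
structure Gd (φ : AlgebraicClosure K →+* AlgebraicClosure K) (m : ℕ) (a : K) (p P : K[X]) : Prop where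
  irr : Irreducible p
  cop : IsCoprime p P
  monic : (p * P).Monic
  deg : (p * P).natDegree = m
  coeff : (p * P).coeff 0 = a
  tf : TF φ (p * P)

theorem Fr.exists_even (hb : IsBar σ q) (h : Fr σ q φ) (j : ℕ) {a : K} (ha : a ≠ 0) : ∃ p P, Gd φ (2 * j + 2) a p P ∧
    ∀ x : AlgebraicClosure K, aeval x (p * P) = 0 → φ (φ x) ≠ x := by
  haveI := hb.finite
  have key : ∀ d : K, ∃ p, d ≠ 0 → Qd φ d p := fun d => by
    by_cases hd : d = 0
    · exact ⟨0, fun e => absurd hd e⟩
    · exact (h.exists_qd hd).imp fun _ hp _ => hp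
  choose f hf using key
  rcases j with - | j
  · have h1 := hf a ha
    exact ⟨f a, 1, ⟨h1.irr, isCoprime_one_right, by simpa using h1.monic, by simpa using h1.deg, by simpa using h1.coeff,
      fun x hx hy => (h1.cross h h1 (by simpa using hx) (by simpa using hy)).2 rfl⟩,
      fun x hx => (h1.root x (by simpa using hx)).1⟩
  obtain ⟨r, r1, r2, r3⟩ : ∃ r : K, r * σ r = 1 ∧ r ≠ 1 ∧ r ^ 2 ≠ a := by
    obtain ⟨r, r1, r2⟩ := exists_rho hb
    by_cases e : r ^ 2 = a
    · refine ⟨r ^ 2, by rw [map_pow, ← mul_pow, r1, one_pow], r2, fun e' => r2 ?_⟩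
      exact mul_left_cancel₀ ha (by rw [← e] at e' ⊢; linear_combination e')
    · exact ⟨r, r1, fun e' => r2 (by simp [e']), e⟩
  have r0 : r ≠ 0 := left_ne_zero_of_mul_eq_one r1
  have h1 := hf r r0
  have h2 := hf 1 one_ne_zero
  have h3 := hf (a / r) (div_ne_zero ha r0)
  have rt : ∀ x : AlgebraicClosure K, aeval x (f 1 ^ j * f (a / r)) = 0 → aeval x (f 1) = 0 ∨ aeval x (f (a / r)) = 0 :=
    fun x hx => by
      rw [map_mul, map_pow, mul_eq_zero] at hx
      exact hx.imp_left eq_zero_of_pow_eq_zero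
  have rt' : ∀ x : AlgebraicClosure K, aeval x (f r * (f 1 ^ j * f (a / r))) = 0 →
      ∃ d, d ≠ 0 ∧ (d * σ d = 1 ∨ d = a / r) ∧ aeval x (f d) = 0 := fun x hx => by
    rw [map_mul, mul_eq_zero] at hx
    rcases hx with hx | hx
    · exact ⟨r, r0, Or.inl r1, hx⟩
    · exact (rt x hx).elim (fun e => ⟨1, one_ne_zero, Or.inl (by simp), e⟩) fun e => ⟨_, div_ne_zero ha r0, Or.inr rfl, e⟩
  refine ⟨f r, f 1 ^ j * f (a / r), ⟨h1.irr, (isCoprime_iff_aeval_ne_zero_of_isAlgClosed K (AlgebraicClosure K) _ _).2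
    fun x => or_iff_not_imp_left.2 fun hx hy => ?_, h1.monic.mul ((h2.monic.pow j).mul h3.monic), ?_, ?_,
    fun x hx hy => ?_⟩, fun x hx => let ⟨d, d0, _, e⟩ := rt' x hx; ((hf d d0).root x e).1⟩
  · have := (h1.root x (not_not.1 hx)).2.symm
    rcases rt x hy with e | e
    · exact r2 ((algebraMap K (AlgebraicClosure K)).injective (this.trans (h2.root x e).2))
    · exact r3 (by rw [pow_two, ← eq_div_iff r0]
                   exact (algebraMap K (AlgebraicClosure K)).injective (this.trans (h3.root x e).2))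
  · rw [h1.monic.natDegree_mul ((h2.monic.pow j).mul h3.monic), (h2.monic.pow j).natDegree_mul h3.monic,
      h2.monic.natDegree_pow, h1.deg, h2.deg, h3.deg]
    ring
  · rw [mul_coeff_zero, mul_coeff_zero, coeff_zero_eq_eval_zero (_ ^ j), eval_pow, ← coeff_zero_eq_eval_zero, h1.coeff,
      h2.coeff, h3.coeff, one_pow, one_mul, mul_div_cancel₀ _ r0]
  · obtain ⟨d, d0, d1, d2⟩ := rt' x hx
    obtain ⟨d', d0', d1', d2'⟩ := rt' _ hy
    obtain ⟨e1, e2⟩ := (hf d d0).cross h (hf d' d0') d2 d2'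
    refine e2 (congrArg f ?_)
    rcases d1 with d1 | d1
    · rw [e1, inv_eq_of_mul_eq_one_left d1]
    rcases d1' with d1' | d1'
    · rw [e1, map_inv₀, h.bar, ← mul_inv, inv_eq_one] at d1'
      rw [e1, inv_eq_of_mul_eq_one_right d1']
    · rw [d1, d1']

theorem Fr.tf_lin (h : Fr σ q φ) {k : K} (hk : k * σ k ≠ 1) (hk0 : k ≠ 0) {x : AlgebraicClosure K}
    (hx : aeval x (X - C k) = 0) : φ (φ x) = x ∧ aeval (φ x)⁻¹ (X - C k) ≠ 0 := by
  obtain rfl : x = algebraMap K _ k := by simpa [sub_eq_zero] using hx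
  refine ⟨by rw [h.map, h.map, h.bar], fun e => hk ?_⟩
  rw [h.map, ← map_inv₀, map_sub, aeval_X, aeval_C, sub_eq_zero] at e
  exact (mul_eq_one_iff_eq_inv₀ ((map_ne_zero σ).2 hk0)).2 ((algebraMap K (AlgebraicClosure K)).injective e).symm

theorem Fr.gd_lin (h : Fr σ q φ) {k : K} (hk : k * σ k ≠ 1) (hk0 : k ≠ 0) : Gd φ 1 (-k) (X - C k) 1 :=
  ⟨irreducible_X_sub_C k, isCoprime_one_right, by simpa using monic_X_sub_C k, by simp, by simp,
    fun x hx => by rw [mul_one] at hx ⊢; exact (h.tf_lin hk hk0 hx).2⟩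

theorem Fr.exists_cubic (hb : IsBar σ 2) (h : Fr σ 2 φ) {a : K} (ha : a ≠ 0) : ∃ c : K[X], c.Monic ∧ c.natDegree = 3 ∧
    c.coeff 0 = a ∧ Irreducible c ∧ TF φ c ∧ ∀ x : AlgebraicClosure K, aeval x c = 0 → φ (φ (φ (φ x))) ≠ x := by
  have h2 : (2 : K) = 0 := by exact_mod_cast hb.cast_q
  have h2' : (2 : AlgebraicClosure K) = 0 := by rw [← map_ofNat (algebraMap K (AlgebraicClosure K)) 2, h2, map_zero]
  have h4 : ∀ x : K, x ^ 4 = x := fun x => by simpa [hb.apply, ← pow_mul] using hb.bar_bar x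
  have h3 : a ^ 3 = 1 := mul_left_cancel₀ ha (by linear_combination h4 a)
  obtain ⟨b, hb1, hb2⟩ : ∃ b : K, (∀ x : K, x ^ 3 + b * x ^ 2 + x + a ≠ 0) ∧ (b = 0 ∧ a = 1 ∨ b = 1 ∧ a ≠ 1) := by
    have key : ∀ x : K, x = 0 ∨ x = 1 ∨ x ^ 2 + x + 1 = 0 := fun x => by
      rw [← sub_eq_zero (b := 1), ← mul_eq_zero, ← mul_eq_zero]
      linear_combination h4 x
    by_cases e : a = 1
    · refine ⟨0, fun x hx => ?_, Or.inl ⟨rfl, e⟩⟩
      rcases key x with h | h | h
      · exact ha (by simpa [h] using hx)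
      · exact one_ne_zero (α := K) (by rw [h, e] at hx; linear_combination hx - h2)
      · have : x = 0 := by rw [e] at hx; linear_combination hx - (x - 1) * h - h2
        exact one_ne_zero (α := K) (by simpa [this] using h)
    · refine ⟨1, fun x hx => ?_, Or.inr ⟨rfl, e⟩⟩
      rcases key x with h | h | h
      · exact ha (by simpa [h] using hx)
      · exact e (by rw [h] at hx; linear_combination hx - 2 * h2)
      · exact ha (by linear_combination hx - x * h)
  have hd : (X ^ 3 + C b * X ^ 2 + X + C a : K[X]).natDegree = 3 := by compute_degree!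
  have e1 : ∀ x : AlgebraicClosure K, aeval x (X ^ 3 + C b * X ^ 2 + X + C a : K[X]) = 0 ↔
      x ^ 3 + algebraMap K _ b * x ^ 2 + x + algebraMap K _ a = 0 := fun x => by simp
  have e2 : ∀ x : AlgebraicClosure K, x ^ 3 + algebraMap K _ b * x ^ 2 + x + algebraMap K _ a = 0 → φ (φ x) ≠ x :=
    fun x hx e => by
      obtain ⟨c, rfl⟩ := h.fix x e
      exact hb1 c ((map_eq_zero (algebraMap K (AlgebraicClosure K))).1 (by simpa using hx))
  refine ⟨X ^ 3 + C b * X ^ 2 + X + C a, by monicity!, hd, by simp, irreducible_of_degree_le_three_of_not_isRoot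
    (by simp [hd]) fun x hx => hb1 x (by simpa using hx), fun x hx hy => ?_, fun x hx e => ?_⟩
  · rw [e1] at hx hy
    have x0 : x ≠ 0 := fun e => e2 x hx (by simp [e])
    have x1 : x ≠ 1 := fun e => e2 x hx (by simp [e])
    have a3 : algebraMap K (AlgebraicClosure K) a ^ 3 = 1 := by rw [← map_pow, h3, map_one]
    rw [h.pow] at hy
    field_simp at hy
    generalize hA : algebraMap K (AlgebraicClosure K) a = A at *
    rcases hb2 with ⟨rfl, e⟩ | ⟨rfl, e⟩
    · obtain rfl : A = 1 := by rw [← hA, e, map_one]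
      rw [map_zero] at hx hy
      refine mul_ne_zero (pow_ne_zero 2 x0) (pow_ne_zero 2 (sub_ne_zero.2 x1)) ?_
      linear_combination hy - (x ^ 3 + x + 1) * hx + (x ^ 4 + x ^ 2 + x) * h2'
    · rw [map_one] at hx hy
      have A1 : A - 1 ≠ 0 := sub_ne_zero.2 fun e' => e ((algebraMap K (AlgebraicClosure K)).injective (by simp [hA, e']))
      refine mul_ne_zero A1 (mul_ne_zero (pow_ne_zero 2 x0) (pow_ne_zero 2 (sub_ne_zero.2 x1))) ?_
      linear_combination hy - A * (x ^ 3 + x ^ 2 + x + A) * hx + a3 + (A * x ^ 5 + 2 * A * x ^ 4 + A ^ 2 * x ^ 3 +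
        A ^ 2 * x ^ 2 + A ^ 2 * x + A * x ^ 2 - x ^ 4 + x ^ 3 - x ^ 2) * h2'
  · rw [e1] at hx
    have hy : φ (φ x) ^ 3 + algebraMap K _ b * φ (φ x) ^ 2 + φ (φ x) + algebraMap K _ a = 0 := by
      simpa [h.map, h.bar] using congrArg (fun z => φ (φ z)) hx
    refine e2 (-algebraMap K _ b - x - φ (φ x)) (mul_left_cancel₀ (sub_ne_zero.2 (e2 x hx)) ?_)
      (by simp only [map_sub, map_neg, h.map, h.bar, e]; ring)
    generalize φ (φ x) = y at hy
    linear_combination (y - (-algebraMap K _ b - x - y)) * hx - (x - (-algebraMap K _ b - x - y)) * hy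

theorem Fr.exists_gd (hb : IsBar σ q) (h : Fr σ q φ) {m : ℕ} (hm : 2 ≤ m) {a : K} (ha : a ≠ 0) :
    ∃ p P, Gd φ m a p P := by
  obtain ⟨j, rfl | rfl⟩ : ∃ j, m = 2 * j + 2 ∨ m = 2 * j + 2 + 1 := ⟨(m - 2) / 2, by omega⟩
  · exact (h.exists_even hb j ha).imp fun _ hp => hp.imp fun _ hP => hP.1
  have inv : ∀ x : AlgebraicClosure K, φ (φ (φ x)⁻¹) = (φ x)⁻¹ ↔ φ (φ x) = x := fun x => by
    simp [φ.injective.eq_iff]
  rcases hb.two_le.eq_or_lt with rfl | hq
  · haveI := hb.finite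
    obtain ⟨c, c1, c2, c3, c4, c5, c6⟩ := h.exists_cubic hb ha
    obtain ⟨p, hp⟩ := h.exists_qd (one_ne_zero (α := K))
    have rt : ∀ x : AlgebraicClosure K, aeval x (p ^ j) = 0 → aeval x p = 0 ∧ φ (φ (φ (φ x))) = x := fun x hx => by
      have h1 : aeval x p = 0 := eq_zero_of_pow_eq_zero (by rwa [map_pow] at hx)
      have h2 := congrArg (fun z => φ (φ z)) (hp.root x h1).2
      have h3 := (hp.root x h1).2
      simp only [map_mul, map_one] at h2 h3
      exact ⟨h1, mul_left_cancel₀ (left_ne_zero_of_mul_eq_one h2) (by rw [h2, mul_comm, h3])⟩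
    refine ⟨c, p ^ j, c4, (isCoprime_iff_aeval_ne_zero_of_isAlgClosed K (AlgebraicClosure K) _ _).2
      fun x => or_iff_not_imp_left.2 fun hx hy => c6 x (not_not.1 hx) (rt x hy).2, c1.mul (hp.monic.pow j), ?_, ?_,
      fun x hx hy => ?_⟩
    · rw [c1.natDegree_mul (hp.monic.pow j), hp.monic.natDegree_pow, c2, hp.deg]; ring
    · rw [mul_coeff_zero, coeff_zero_eq_eval_zero (_ ^ j), eval_pow, ← coeff_zero_eq_eval_zero, hp.coeff, c3, one_pow,
        mul_one]
    · rw [map_mul, mul_eq_zero] at hx hy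
      rcases hx with hx | hx <;> rcases hy with hy | hy
      · exact c5 x hx hy
      · exact c6 x hx (by simpa [φ.injective.eq_iff] using (rt _ hy).2)
      · exact c6 _ hy (by simp [(rt x hx).2])
      · exact (hp.cross h hp (rt x hx).1 (rt _ hy).1).2 rfl
  obtain ⟨k, k0, k1⟩ := hb.exists_norm_ne_one hq
  obtain ⟨p, P, h1, h2⟩ := h.exists_even hb j (neg_ne_zero.2 (div_ne_zero ha k0))
  refine ⟨p, P * (X - C k), h1.irr, h1.cop.mul_right ((isCoprime_iff_aeval_ne_zero_of_isAlgClosed K (AlgebraicClosure K) _ _).2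
    fun x => or_iff_not_imp_left.2 fun hx hy => h2 x (by rw [map_mul, not_not.1 hx, zero_mul]) (h.tf_lin k1 k0 hy).1),
    ?_, ?_, ?_, fun x hx hy => ?_⟩ <;> rw [← mul_assoc] at *
  · exact h1.monic.mul (monic_X_sub_C k)
  · rw [h1.monic.natDegree_mul (monic_X_sub_C k), h1.deg, natDegree_X_sub_C]
  · rw [mul_coeff_zero, h1.coeff]; simp [k0]
  · rw [map_mul, mul_eq_zero] at hx hy
    rcases hx with hx | hx <;> rcases hy with hy | hy
    · exact h1.tf x hx hy
    · exact h2 x hx ((inv x).1 (h.tf_lin k1 k0 hy).1)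
    · exact h2 _ hy ((inv x).2 (h.tf_lin k1 k0 hx).1)
    · exact (h.tf_lin k1 k0 hx).2 hy

end CL.OreU
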