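/-
Commutators in special unitary groups, part 3: monomial commutators, scalars, and the final assembly over a Levi factor.
-/
import Cfsg.Agent.Cls.OreU1
import Cfsg.Agent.Cls.OreU2
import Cfsg.Agent.Cls.OreSp1

set_option autoImplicit false

open Module Polynomial

namespace CL.OreU

open CL.Uni CL.Chev CL.Sp

universe u v

variable {K : Type u} [Field K] {q : ℕ} {σ : K →+* K} {V : Type v} [AddCommGroup V] [Module K V]
  {B : V →ₛₗ[σ] V →ₗ[K] K}

section Mono

variable {ι : Type} [Fintype ι] [DecidableEq ι]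

theorem dt_of_mono (b : Basis ι K V) {a : V ≃ₗ[K] V} {p : Equiv.Perm ι} {c : ι → K} (h : ∀ i, a (b i) = c i • b (p i)) :
    dt a = (Equiv.Perm.sign p : ℤ) * ∏ i, c i := by
  have h1 := b.det_comp (a : End K V) b
  rw [b.det_self, mul_one, show (a : End K V) ∘ b = fun i => c i • (b ∘ p) i from funext h,
    AlternatingMap.map_smul_univ, AlternatingMap.map_perm, b.det_self] at h1
  rw [dt_apply, ← h1, Units.smul_def, zsmul_one, smul_eq_mul, mul_comm]

theorem comm_of_mono (b : Basis ι K V) {l a s : V ≃ₗ[K] V} {p : Equiv.Perm ι} {e d c : ι → K}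
    (hl : ∀ i, l (b i) = e i • b i) (ha : ∀ i, a (b i) = d i • b i) (hs : ∀ i, s (b i) = c i • b (p i))
    (h : ∀ i, e (p i) * d i = d (p i)) : l = a * (s * a⁻¹ * s⁻¹) ∧ l = s * (a⁻¹ * s⁻¹ * a⁻¹⁻¹) := by
  have h1 : l * s * a = a * s := b.ext' fun i => by
    simp only [LinearEquiv.mul_apply, ha, hs, map_smul, hl, smul_smul, ← h]; ring_nf
  have h2 : l * a = a * l := b.ext' fun i => by simp only [LinearEquiv.mul_apply, ha, map_smul, hl, smul_smul, mul_comm]
  have h3 : l = a * (s * a⁻¹ * s⁻¹) := by rw [← mul_assoc, ← mul_assoc, ← h1]; group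
  exact ⟨h3, by rw [show l = a⁻¹ * l * a by rw [mul_assoc, h2, inv_mul_cancel_left], h3]; group⟩

variable [FiniteDimensional K V]

theorem exists_mono (h : IsHerm B q) (b : Basis ι K V) {t : Equiv.Perm ι}
    (hb : ∀ i j, B (b i) (b j) = if t i = j then 1 else 0) {p : Equiv.Perm ι} (hp : ∀ i, t (p i) = p (t i)) {c : ι → K}
    (hc : ∀ i, σ (c i) * c (t i) = 1) : ∃ a ∈ UG B, ∀ i, a (b i) = c i • b (p i) := by
  obtain ⟨a, ha, e⟩ := h.exists_mem_UG (b.constr K fun i => c i • b (p i)) (h.isometry_of_basis b _ fun i j => by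
    simp only [Basis.constr_basis, LinearMap.map_smulₛₗ, LinearMap.smul_apply, hb, hp, EmbeddingLike.apply_eq_iff_eq,
      smul_eq_mul, RingHom.id_apply]
    split_ifs with e
    · rw [← e, mul_one, mul_comm, hc]
    · simp)
  exact ⟨a, ha, fun i => (LinearMap.congr_fun e (b i)).trans (b.constr_basis K _ i)⟩

theorem exists_basis_perm (h : IsHerm B q) (hn : finrank K V = Fintype.card ι) {t : Equiv.Perm ι} (ht : ∀ i, t (t i) = i) :
    ∃ b : Basis ι K V, ∀ i j, B (b i) (b j) = if t i = j then 1 else 0 := by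
  have h1 : IsHerm ((stdB σ ι).compl₂ (LinearMap.funLeft K K t)) q := ⟨h.bar, fun x y => by
    simp only [LinearMap.compl₂_apply, stdB_apply, map_sum, map_mul, h.bar_bar, LinearMap.funLeft_apply]
    exact Fintype.sum_equiv t _ _ fun i => by rw [ht, mul_comm], fun x hx => (isHerm_stdB h.bar ι).nondeg x fun y => by
      have := hx (y ∘ t)
      rwa [LinearMap.compl₂_apply, show LinearMap.funLeft K K t (y ∘ t) = y from funext fun i => congrArg y (ht i)] at this⟩
  obtain ⟨e, he⟩ := h.exists_equiv h1 (by simp [hn])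
  refine ⟨(Pi.basisFun K ι).map e.symm, fun i j => ?_⟩
  rw [← he]
  simp [stdB_single_left, Pi.single_apply, LinearMap.funLeft_apply]

end Mono

theorem pow_rot {n : ℕ} {z e : K} (h : e * z ^ n = 1) (i : Fin (n + 1)) :
    (if finRotate (n + 1) i = 0 then e else z) * z ^ (i : ℕ) = z ^ (finRotate (n + 1) i : ℕ) := by
  induction i using Fin.lastCases with
  | last => simp [h]
  | cast i =>
    have : finRotate (n + 1) i.castSucc = i.succ := by simp
    rw [this, if_neg i.succ_ne_zero, Fin.val_succ, Fin.val_castSucc, pow_succ']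

variable [FiniteDimensional K V]

theorem exists_diag_basis (h : IsHerm B q) {n : ℕ} (hn : finrank K V = n + 1) {l : V ≃ₗ[K] V} (hl : l ∈ SUG B) {z : K}
    {w : V} (hw : w = 0 ∨ B w w ≠ 0) (hz : ∀ v, l v - z • v ∈ K ∙ w) : ∃ (b : Basis (Fin (n + 1)) K V) (e : K),
      (∀ i j, B (b i) (b j) = if (1 : Equiv.Perm (Fin (n + 1))) i = j then 1 else 0) ∧ e * z ^ n = 1 ∧
      (∀ i, l (b i) = (if i = 0 then e else z) • b i) ∧ ∀ i : Fin (n + 1), σ (z ^ (i : ℕ)) * z ^ (i : ℕ) = 1 := by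
  obtain ⟨b, hb, c, hc⟩ : ∃ b : Basis (Fin (n + 1)) K V, (∀ i j, B (b i) (b j) = if i = j then 1 else 0) ∧
      ∃ c : K, w = c • b 0 := by
    obtain ⟨b, hb⟩ := h.exists_orthonormal_basis hn
    rcases hw with rfl | hw
    · exact ⟨b, hb, 0, (zero_smul _ _).symm⟩
    obtain ⟨c, hc⟩ := h.exists_smul_self_eq hw (map_one σ)
    have h0 : c • w ≠ 0 := fun e => by simp [e] at hc
    obtain ⟨k, hk, e⟩ := h.exists_mem_UG_vec (b.ne_zero 0) h0 (by rw [hc, hb, if_pos rfl])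
    exact ⟨b.map k, fun i j => (hk _ _).trans (hb i j), c⁻¹, by
      rw [Basis.map_apply, e, inv_smul_smul₀ (left_ne_zero_of_smul h0)]⟩
  have h1 : ∀ v, ∃ t : K, l v = z • v + t • b 0 := fun v =>
    let ⟨t, ht⟩ := Submodule.mem_span_singleton.1 (hz v)
    ⟨t * c, by rw [mul_smul, ← hc, ht, add_sub_cancel]⟩
  obtain ⟨t, ht⟩ := h1 (b 0)
  rw [← add_smul] at ht
  have h2 : ∀ i, l (b i) = (if i = 0 then z + t else z) • b i := fun i => by
    split_ifs with hi
    · rw [hi, ht]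
    obtain ⟨s, hs⟩ := h1 (b i)
    have h3 := (SUG_le_UG hl) (b 0) (b i)
    have h4 : σ z + σ t ≠ 0 := fun e => b.ne_zero 0 (by rw [← map_add, map_eq_zero] at e; simpa [e] using ht)
    rw [ht, hs] at h3
    rw [hs, show s = 0 by simpa [LinearMap.map_smulₛₗ, hb, Ne.symm hi, h4] using h3, zero_smul, add_zero]
  refine ⟨b, z + t, hb, ?_, h2, fun i => ?_⟩
  · have := dt_of_mono b (p := 1) h2
    rw [(mem_SUG.1 hl).2, Fin.prod_univ_succ] at this
    simpa using this.symm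
  · by_cases hi : i = 0
    · simp [hi]
    have h3 := (SUG_le_UG hl) (b i) (b i)
    rw [h2, if_neg hi] at h3
    rw [map_pow, ← mul_pow, show σ z * z = 1 by simpa [LinearMap.map_smulₛₗ, hb, mul_comm] using h3, one_pow]

theorem exists_diag_comm (h : IsHerm B q) {l : V ≃ₗ[K] V} (hl : l ∈ SUG B) {z : K} {w : V} (hw : w = 0 ∨ B w w ≠ 0)
    (hz : ∀ v, l v - z • v ∈ K ∙ w) : ∃ a ∈ UG B, ∃ c ∈ UG B, l = a * (c * a⁻¹ * c⁻¹) ∧
      aeval (a : End K V) (X ^ (q + 1) - 1 : K[X]) = 0 := by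
  rcases hn : finrank K V with - | n
  · haveI := Module.finrank_zero_iff.1 hn
    exact ⟨1, one_mem _, 1, one_mem _, LinearEquiv.ext fun _ => Subsingleton.elim _ _, Subsingleton.elim _ _⟩
  obtain ⟨b, e, hb, h1, h2, h3⟩ := exists_diag_basis h hn hl hw hz
  obtain ⟨a, ha, a1⟩ := exists_mono h b hb (p := 1) (fun _ => rfl) h3
  obtain ⟨s, hs, s1⟩ := exists_mono h b hb (p := finRotate _) (fun _ => rfl) (c := fun _ => 1) (by simp)
  refine ⟨a, ha, s, hs, (comm_of_mono b h2 a1 s1 (pow_rot h1)).1, b.ext fun i => ?_⟩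
  rw [CL.SLn.aeval_eigen (a1 i), eval_sub, eval_pow, eval_X, ← h.bar.norm_eq_pow, mul_comm, h3, eval_one, sub_self,
    zero_smul, LinearMap.zero_apply]

theorem exists_shift_comm (h : IsHerm B q) {n : ℕ} (hn : finrank K V = n + 1) {l : V ≃ₗ[K] V} (hl : l ∈ SUG B) {z : K}
    {w : V} (hw : w = 0 ∨ B w w ≠ 0) (hz : ∀ v, l v - z • v ∈ K ∙ w) {d : K} (hd : d * σ d = 1) :
    ∃ a ∈ UG B, ∃ c ∈ UG B, l = a * (c * a⁻¹ * c⁻¹) ∧ dt a = d ∧
      aeval (a : End K V) (X ^ (n + 1) - C ((-1) ^ n * d) : K[X]) = 0 := by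
  obtain ⟨b, e, hb, h1, h2, h3⟩ := exists_diag_basis h hn hl hw hz
  obtain ⟨a, ha, a1⟩ := exists_mono h b hb (p := 1) (fun _ => rfl) h3
  have h4 : ((-1 : K) ^ n) * (-1) ^ n = 1 := by rw [← mul_pow]; simp
  obtain ⟨s, hs, s1⟩ := exists_mono h b hb (p := finRotate _) (fun _ => rfl)
    (c := fun i => if i = Fin.last n then (-1) ^ n * d else 1) fun i => by
      by_cases e : i = Fin.last n
      · simp only [Equiv.Perm.coe_one, id, e, if_true, map_mul, map_pow, map_neg, map_one]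
        linear_combination (d * σ d) * h4 + hd
      · simp [e]
  refine ⟨s, hs, a⁻¹, inv_mem ha, (comm_of_mono b h2 a1 s1 (pow_rot h1)).2, ?_, b.ext fun i => ?_⟩
  · rw [dt_of_mono b s1, sign_finRotate, Finset.prod_ite_eq', if_pos (Finset.mem_univ _), ← mul_assoc]
    simp [h4]
  · have h5 : ∀ i : Fin (n + 1), ((s : End K V) ^ (i : ℕ)) (b 0) = b i := fun i => by
      induction i using Fin.induction with
      | zero => simp
      | succ i ih =>
        rw [Fin.val_succ, pow_succ', End.mul_apply, ← Fin.val_castSucc, ih]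
        simpa [(Fin.castSucc_lt_last i).ne] using s1 i.castSucc
    have h6 : ((s : End K V) ^ (n + 1)) (b 0) = ((-1) ^ n * d) • b 0 := by
      rw [pow_succ', End.mul_apply, show ((s : End K V) ^ n) (b 0) = _ from h5 (Fin.last n)]
      simpa using s1 (Fin.last n)
    rw [map_sub, aeval_X_pow, aeval_C, LinearMap.sub_apply, ← h5, ← End.mul_apply, ← pow_add, add_comm, pow_add,
      End.mul_apply, h6, map_smul, Module.algebraMap_end_apply, sub_self, LinearMap.zero_apply]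

theorem odd_q (h : IsBar σ q) (h2 : (-1 : K) ≠ 1) : Odd q := by
  obtain ⟨p, f, hp, hc, -, rfl⟩ := h.exists_prime_pow
  refine (hp.odd_of_ne_two fun e => h2 ?_).pow
  subst e
  exact CharTwo.neg_eq 1

theorem cm_scalar (h : IsHerm B q) {g : V ≃ₗ[K] V} (hg : g ∈ SUG B) {z : K} (hz : ∀ v, g v = z • v) : Cm B g := by
  rcases hn : finrank K V with - | n
  · haveI := Module.finrank_zero_iff.1 hn
    exact ⟨1, one_mem _, 1, one_mem _, LinearEquiv.ext fun _ => Subsingleton.elim _ _⟩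
  have h1 : z * z ^ n = 1 := by
    rw [← pow_succ', ← hn, ← (mem_SUG.1 hg).2, dt_apply, show (g : End K V) = z • LinearMap.id from LinearMap.ext hz,
      LinearMap.det_smul, LinearMap.det_id, mul_one]
  have h2 : σ z * z = 1 := by
    obtain ⟨b, hb⟩ := h.exists_orthonormal_basis hn
    simpa [hz, LinearMap.map_smulₛₗ, hb, mul_comm] using (SUG_le_UG hg) (b 0) (b 0)
  have h3 : ∀ i : ℕ, σ (z ^ i) * z ^ i = 1 := fun i => by rw [map_pow, ← mul_pow, h2, one_pow]
  have key : ∀ (t : Equiv.Perm (Fin (n + 1))) (k : K) (c : Fin (n + 1) → K), (∀ i, t (t i) = i) →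
      (∀ i, t (finRotate _ i) = finRotate _ (t i)) → (∀ i : Fin (n + 1), σ (k * z ^ (i : ℕ)) * (k * z ^ (t i : ℕ)) = 1) →
      (∀ i, σ (c i) * c (t i) = 1) → k ^ (n + 1) * z ^ ((n + 1) * n / 2) = 1 → (-1) ^ n * ∏ i, c i = 1 → Cm B g :=
    fun t k c t1 t2 k1 c1 k2 c2 => by
      obtain ⟨b, hb⟩ := exists_basis_perm h (hn.trans (Fintype.card_fin _).symm) t1
      obtain ⟨a, ha, a1⟩ := exists_mono h b hb (p := 1) (fun _ => rfl) (c := fun i => k * z ^ (i : ℕ)) k1
      obtain ⟨s, hs, s1⟩ := exists_mono h b hb t2 c1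
      refine ⟨a, mem_SUG.2 ⟨ha, ?_⟩, s, mem_SUG.2 ⟨hs, ?_⟩, ?_⟩
      · rw [dt_of_mono b a1, Finset.prod_mul_distrib, Finset.prod_pow_eq_pow_sum, Fin.sum_univ_eq_sum_range (fun i => i),
          Finset.sum_range_id]
        simpa using k2
      · rw [dt_of_mono b s1, sign_finRotate]
        simpa using c2
      · rw [(comm_of_mono b (e := fun _ => z) (fun i => hz _) a1 s1 fun i => by
          rw [← pow_rot h1, ite_self, mul_left_comm]).1, mul_assoc, mul_assoc, mul_assoc]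
  have h4 : ((-1 : K) ^ n) * (-1) ^ n = 1 := by rw [← mul_pow]; simp
  have key1 : ∀ k : K, σ k * k = 1 → k ^ (n + 1) * z ^ ((n + 1) * n / 2) = 1 → Cm B g := fun k k1 k2 =>
    key 1 k (fun i => if i = 0 then (-1) ^ n else 1) (fun _ => rfl) (fun _ => rfl)
      (fun i => by rw [map_mul, mul_mul_mul_comm, k1, one_mul]; exact h3 i)
      (fun i => by by_cases e : i = 0 <;> simp [h4, e]) k2 (by simp [h4])
  rw [← pow_succ'] at h1
  obtain ⟨k, rfl | rfl⟩ := n.even_or_odd'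
  · exact key1 1 (by simp) (by
      rw [show (2 * k + 1) * (2 * k) / 2 = (2 * k + 1) * k by rw [mul_left_comm]; simp, pow_mul, h1, one_pow, one_pow,
        one_mul])
  have h5 : (2 * k + 1 + 1) * (2 * k + 1) / 2 = (k + 1) * (2 * k + 1) := by
    rw [show (2 * k + 1 + 1) * (2 * k + 1) = 2 * ((k + 1) * (2 * k + 1)) by ring]; simp
  have h6 : z ^ (k + 1) * z ^ (k + 1) = 1 := by rw [← h1]; ring
  rw [h5] at key key1
  by_cases h7 : z ^ (k + 1) = 1
  · exact key1 1 (by simp) (by rw [pow_mul, h7, one_pow, one_pow, one_mul])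
  have h8 : z ^ (k + 1) = -1 := (mul_self_eq_one_iff.1 h6).resolve_left h7
  obtain ⟨r, hr⟩ := odd_q h.bar (h8 ▸ h7)
  obtain ⟨y, y0, hy⟩ := h.bar.exists_div_bar_eq ((mul_comm _ _).trans h2)
  have h9 : (y⁻¹ ^ r) ^ 2 = z := by
    rw [h.bar.apply, hr, pow_succ, ← mul_assoc, eq_comm, mul_eq_right₀ y0] at hy
    rw [← pow_mul, inv_pow, mul_comm, inv_eq_of_mul_eq_one_left hy]
  generalize y⁻¹ ^ r = x at h9
  have k2 : x ^ (2 * k + 1 + 1) * z ^ ((k + 1) * (2 * k + 1)) = 1 := by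
    rw [add_assoc, ← mul_add_one 2, pow_mul, h9, ← pow_add, show k + 1 + (k + 1) * (2 * k + 1) = (2 * k + 1 + 1) * (k + 1)
      by ring, pow_mul, h1, one_pow]
  rcases mul_self_eq_one_iff.1 (show (σ x * x) * (σ x * x) = 1 by rw [← h2, ← h9, map_pow]; ring) with e | e
  · exact key1 x e k2
  obtain ⟨s, s0, hs⟩ := h.bar.exists_trace_zero
  let m : Fin (2 * k + 1 + 1) := ⟨k + 1, by omega⟩
  have m0 : m ≠ 0 := fun e => by simpa [m] using congrArg Fin.val e
  have m1 : m + m = 0 := Fin.ext (by rw [Fin.val_add, show (m : ℕ) + m = 2 * k + 1 + 1 by simp [m]; ring]; simp)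
  have m2 : ∀ i, i + m = 0 ↔ i = m := fun i => by rw [← m1, add_left_inj]
  refine key (Equiv.addRight m) x (fun i => if i = 0 then s else if i = m then s⁻¹ * -1 else 1)
    (fun i => by simp [add_assoc, m1]) (fun i => by simp [add_right_comm]) (fun i => ?_) (fun i => ?_) k2 ?_
  · rw [Equiv.coe_addRight, Fin.val_add, ← pow_eq_pow_mod _ h1, pow_add, show z ^ (m : ℕ) = -1 from h8, map_mul]
    linear_combination (-(σ x * x)) * h3 i - e
  · simp only [Equiv.coe_addRight, m2, add_eq_right]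
    by_cases e0 : i = 0
    · simp [e0, m0.symm, hs, s0]
    by_cases e1 : i = m
    · simp [e1, m0, hs, s0]
    · simp [e0, e1]
  · rw [Fintype.prod_eq_mul 0 m m0.symm fun i hi => by simp [hi.1, hi.2]]
    simp [m0, pow_succ, s0]

/-- A flag on which `g` is triangular modulo `Φ`. -/
inductive Tri (g : End K V) (Φ : Submodule K V) : Submodule K V → List K → Prop
  | nil : Tri g Φ ⊥ []
  | cons {E : Submodule K V} {S : List K} {x : V} {c : K} : Tri g Φ E S → x ∉ E → g x - c • x ∈ E ⊔ Φ →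
      Tri g Φ (E ⊔ K ∙ x) (c :: S)

section Tri

variable {f : End K V} {Φ E F : Submodule K V} {S : List K}

omit [FiniteDimensional K V] in
theorem Tri.mono {Φ' : Submodule K V} (h : Tri f Φ E S) (h' : Φ ≤ Φ') : Tri f Φ' E S := by
  induction h with
  | nil => exact .nil
  | cons _ h1 h2 ih => exact ih.cons h1 (sup_le_sup_left h' _ h2)

theorem Tri.finrank_eq (h : Tri f Φ E S) : finrank K E = S.length := by
  induction h with
  | nil => simp
  | cons _ h1 _ ih => rw [Submodule.finrank_sup_span_singleton h1, ih, List.length_cons]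

omit [FiniteDimensional K V] in
theorem Tri.sub_mem {x : V} {c : K} (h1 : ∀ y ∈ E, f y ∈ E ⊔ Φ) (h2 : f x - c • x ∈ E ⊔ Φ) {y : V}
    (hy : y ∈ E ⊔ K ∙ x) : f y - c • y ∈ E ⊔ Φ := by
  obtain ⟨a, ha, t, rfl⟩ := CL.Ore.mem_sup_single hy
  convert add_mem (_root_.sub_mem (h1 a ha) (Submodule.mem_sup_left (E.smul_mem c ha))) (Submodule.smul_mem _ t h2) using 1
  simp only [map_add, map_smul]; module

omit [FiniteDimensional K V] in
theorem Tri.map_mem (h : Tri f Φ E S) : ∀ y ∈ E, f y ∈ E ⊔ Φ := by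
  induction h with
  | nil => intro y hy; rw [(Submodule.mem_bot K).1 hy, map_zero]; exact zero_mem _
  | @cons E S x c _ _ h2 ih =>
    intro y hy
    simpa using add_mem ((sup_le_sup_right le_sup_left _ : E ⊔ Φ ≤ E ⊔ K ∙ x ⊔ Φ) (Tri.sub_mem ih h2 hy))
      (Submodule.mem_sup_left (Submodule.smul_mem _ c hy))

omit [FiniteDimensional K V] in
theorem Tri.surj (h : Tri f Φ E S) (h0 : ∀ c ∈ S, c ≠ 0) : ∀ y ∈ E, ∃ x ∈ E, f x - y ∈ Φ := by
  induction h with
  | nil => exact fun y hy => ⟨0, zero_mem _, by rw [(Submodule.mem_bot K).1 hy]; simp⟩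
  | @cons E S x c h _ h2 ih =>
    intro y hy
    obtain ⟨a, ha, b, hb, e⟩ := Submodule.mem_sup.1 (Tri.sub_mem h.map_mem h2 (Submodule.smul_mem _ c⁻¹ hy))
    obtain ⟨z, hz, hz'⟩ := ih (fun d hd => h0 d (List.mem_cons_of_mem _ hd)) a ha
    refine ⟨c⁻¹ • y - z, _root_.sub_mem (Submodule.smul_mem _ _ hy) (Submodule.mem_sup_left hz), ?_⟩
    rw [smul_inv_smul₀ (h0 c List.mem_cons_self)] at e
    convert _root_.sub_mem hb hz' using 1
    rw [map_sub, eq_sub_of_add_eq' e]; abel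

omit [FiniteDimensional K V] in
theorem Tri.transfer (h : Tri f Φ E S) {l : End K V} {T : Submodule K V} (h1 : ∀ x ∈ T, f x - l x ∈ Φ)
    (h2 : ∀ x ∈ T, l x ∈ T) (h3 : Disjoint T Φ) (h4 : E ≤ T) : Tri l ⊥ E S := by
  induction h with
  | nil => exact .nil
  | @cons E S x c _ h5 h6 ih =>
    refine (ih (le_sup_left.trans h4)).cons h5 ?_
    have hx : x ∈ T := h4 (Submodule.mem_sup_right (Submodule.mem_span_singleton_self x))
    obtain ⟨a, ha, b, hb, e⟩ := Submodule.mem_sup.1 h6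
    have : l x - c • x - a = 0 := Submodule.disjoint_def.1 h3 _
      (_root_.sub_mem (_root_.sub_mem (h2 x hx) (T.smul_mem c hx)) (h4 (Submodule.mem_sup_left ha)))
      (by convert _root_.sub_mem hb (h1 x hx) using 1; rw [eq_sub_of_add_eq' e]; abel)
    exact Submodule.mem_sup_left (sub_eq_zero.1 this ▸ ha)

omit [FiniteDimensional K V] in
theorem Tri.aeval_eq (h : Tri f ⊥ E S) : ∀ x ∈ E, aeval f (S.map fun c => X - C c).prod x = 0 := by
  induction h with
  | nil => intro y hy; rw [(Submodule.mem_bot K).1 hy, map_zero]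
  | @cons E S x c h _ h2 ih =>
    intro y hy
    rw [List.map_cons, List.prod_cons, mul_comm, map_mul, End.mul_apply]
    exact ih _ (by simpa [Module.algebraMap_end_apply] using Tri.sub_mem h.map_mem h2 hy)

theorem Tri.det_eq (h : Tri f ⊥ E S) (hE : ∀ x ∈ E, f x ∈ E) : LinearMap.det (f.restrict hE) = S.prod := by
  induction h with
  | nil => exact LinearMap.det_eq_one_of_subsingleton _
  | @cons E S x c h h1 h2 ih =>
    have h3 : ∀ y ∈ E, f y ∈ E := fun y hy => by simpa using h.map_mem y hy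
    have h4 : E.comap (E ⊔ K ∙ x).subtype ≤ (E.comap (E ⊔ K ∙ x).subtype).comap (f.restrict hE) := fun y hy => h3 _ hy
    have h5 : Submodule.mapQ _ _ _ h4 = c • LinearMap.id := Submodule.linearMap_qext _ (LinearMap.ext fun y =>
      (Submodule.Quotient.eq _).2 (by simpa using Tri.sub_mem h.map_mem h2 y.2))
    have h6 := Submodule.finrank_quotient_add_finrank (E.comap (E ⊔ K ∙ x).subtype)
    rw [(Submodule.comapSubtypeEquivOfLe le_sup_left).finrank_eq, Submodule.finrank_sup_span_singleton h1, add_comm,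
      add_right_inj] at h6
    rw [LinearMap.det_eq_det_mul_det _ _ h4, h5, LinearMap.det_smul, h6, LinearMap.det_id, List.prod_cons, ← ih h3,
      ← LinearMap.det_conj _ (Submodule.comapSubtypeEquivOfLe le_sup_left), pow_one, mul_one, mul_comm]
    rfl

theorem Tri.eigen (h : Tri f ⊥ E S) {c : K} (hc : c ∈ S) : ∃ x ∈ E, x ≠ 0 ∧ f x = c • x := by
  have h1 : Tri (f - c • 1) ⊥ E (S.map (· - c)) := by
    clear hc
    induction h with
    | nil => exact .nil
    | cons _ h1 h2 ih => exact ih.cons h1 (by convert h2 using 1; simp [sub_smul])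
  have h2 := h1.det_eq fun x hx => by simpa using h1.map_mem x hx
  rw [List.prod_eq_zero ((List.mem_map (f := (· - c))).2 ⟨c, hc, sub_self c⟩), LinearMap.det_eq_zero_iff_ker_ne_bot] at h2
  obtain ⟨x, hx, h0⟩ := Submodule.exists_mem_ne_zero_of_ne_bot h2
  exact ⟨x, x.2, fun e => h0 (Subtype.ext e), sub_eq_zero.1 (congrArg Subtype.val hx)⟩

end Tri

/-- A big cell decomposition with triangular Levi component. -/
structure Pre (B : V →ₛₗ[σ] V →ₗ[K] K) (g : V ≃ₗ[K] V) (E F : Submodule K V) (w : V) (S : List K) (z : K) : Prop where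
  opp : Opp B E F
  tri : Tri (g : End K V) (F ⊔ K ∙ w) E S
  ne : ∀ c ∈ S, c ≠ 0
  mem : w ∈ perp B (E ⊔ F)
  nz : w = 0 ∨ B w w ≠ 0
  sc : ∀ v ∈ perp B (E ⊔ F), g v - z • v ∈ E ⊔ (F ⊔ K ∙ w)

variable {g : V ≃ₗ[K] V} {E F : Submodule K V} {w : V} {S : List K} {z : K}

theorem Pre.fac (h : IsHerm B q) (hP : Pre B g E F w S z) (hg : g ∈ SUG B) : ∃ v ∈ Rad B F, ∃ u ∈ Rad B E,
    ∃ (l : V ≃ₗ[K] V) (hl : l ∈ Lv B E F), g = v * l * u ∧ Tri (l : End K V) ⊥ E S ∧ (∀ x ∈ E, g x - l x ∈ perp B F) ∧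
      (∀ x ∈ perp B (E ⊔ F), l x - z • x ∈ K ∙ w) ∧ σ S.prod = S.prod * dt (restrictTo l (Lv.stab hl)) := by
  have c1 := (hP.opp.isCompl h).1
  have h0 : F ⊔ K ∙ w ≤ perp B F := sup_le (fun x hx y hy => hP.opp.isoF y hy x hx)
    ((Submodule.span_singleton_le_iff_mem _ _).2 (mem_pp.1 hP.mem).2)
  have h1 : Function.Injective (E.projectionOnto _ c1 ∘ₗ (g : End K V) ∘ₗ E.subtype) :=
    LinearMap.injective_iff_surjective.2 fun y => by
      obtain ⟨x, hx, e⟩ := hP.tri.surj hP.ne y y.2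
      have := Submodule.projectionOnto_apply_of_mem_right c1 (h0 e)
      rw [map_sub, Submodule.projectionOnto_apply_left, sub_eq_zero] at this
      exact ⟨⟨x, hx⟩, this⟩
  obtain ⟨v, hv, u, hu, l, hl, e⟩ := hP.opp.fac h (SUG_le_UG hg) fun x hx hx' => congrArg Subtype.val
    ((injective_iff_map_eq_zero _).1 h1 ⟨x, hx⟩ (Submodule.projectionOnto_apply_of_mem_right c1 hx'))
  have h2 : ∀ x ∈ E, g x - l x ∈ perp B F := fun x hx y hy => by
    rw [e, LinearEquiv.mul_apply, LinearEquiv.mul_apply, hu.2.1 x hx, map_sub, ← hv.1 y (l x), hv.2.1 y hy, sub_self]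
  have h3 := (hP.tri.mono h0).transfer h2 (fun x => Lv.left hl) c1.disjoint le_rfl
  refine ⟨v, hv, u, hu, l, hl, e, h3, h2, fun x hx => ?_, ?_⟩
  · have a1 := (inv_mem hu).2.2 x (mem_pp.1 hx).1
    have a2 := hv.2.2 _ (mem_pp.1 (Lv.pp hl hx)).2
    have a3 : l x - z • x ∈ E ⊔ (F ⊔ K ∙ w) := by
      convert sub_mem (add_mem (hP.sc x hx) (hP.tri.map_mem _ a1)) (Submodule.mem_sup_right (Submodule.mem_sup_left a2))
        using 1
      have : g (u⁻¹ x) = v (l x) := by rw [e, LinearEquiv.mul_apply, apply_inv_apply, LinearEquiv.mul_apply]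
      rw [← this, map_sub]
      simp only [LinearEquiv.coe_coe]; abel
    obtain ⟨a, ha, b, hb, e1⟩ := Submodule.mem_sup.1 a3
    obtain ⟨c, hc, t, rfl⟩ := CL.Ore.mem_sup_single hb
    obtain ⟨-, -, e2⟩ := hP.opp.eq_zero ha hc (sub_mem (Submodule.smul_mem _ t hP.mem)
      (sub_mem (Lv.pp hl hx) (Submodule.smul_mem _ z hx))) (by rw [← e1]; abel)
    exact Submodule.mem_span_singleton.2 ⟨t, sub_eq_zero.1 e2⟩
  · obtain ⟨c, hc, a1, a2, a3⟩ := hP.opp.levi h (restrictTo l hl.2.1) (a := restrictTo l (Lv.stab hl))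
      fun x y => hl.1 x y
    rw [hP.opp.ext h hc hl (fun x hx => a1 ⟨x, hx⟩) fun x hx => a2 ⟨x, hx⟩] at a3
    have a4 := congrArg dt e
    rw [map_mul, map_mul, (mem_SUG.1 hg).2, (mem_SUG.1 (rad_le h hP.opp.isoF hv)).2,
      (mem_SUG.1 (rad_le h hP.opp.isoE hu)).2, one_mul, mul_one] at a4
    rwa [← a4, one_mul, show dt (restrictTo l hl.2.1) = S.prod from (dt_apply _).trans (h3.det_eq fun x => Lv.left hl)] at a3

theorem Pre.real (h : IsHerm B q) (hP : Pre B g E F w S z) (hg : g ∈ SUG B) (hn : finrank K V = 2 * S.length) :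
    σ S.prod = S.prod := by
  obtain ⟨-, -, -, -, l, hl, -, -, -, -, e⟩ := hP.fac h hg
  have := hP.opp.finrank_pp h
  haveI : Subsingleton (perp B (E ⊔ F)) := (Module.finrank_zero_iff (R := K)).1 (by rw [hP.tri.finrank_eq] at this; omega)
  rwa [dt_apply, LinearMap.det_eq_one_of_subsingleton, mul_one] at e

theorem Pre.fin (h : IsHerm B q) (hP : Pre B g E F w S z) (hg : g ∈ SUG B) (hS : S.prod = 1)
    (hs : (∀ x ∈ E, g x - x ∈ perp B F) ∨ ∃ c ∈ S, ∃ c' ∈ S, c ≠ c') {φ : AlgebraicClosure K →+* AlgebraicClosure K}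
    (hφ : Fr σ q φ) (H : ∀ l ∈ SUG (B.domRestrict₁₂ (perp B (E ⊔ F)) (perp B (E ⊔ F))),
      (∀ v, l v - z • v ∈ K ∙ (⟨w, hP.mem⟩ : perp B (E ⊔ F))) →
      ∃ a ∈ UG (B.domRestrict₁₂ (perp B (E ⊔ F)) (perp B (E ⊔ F))),
      ∃ c ∈ UG (B.domRestrict₁₂ (perp B (E ⊔ F)) (perp B (E ⊔ F))), ∃ (p P r : K[X]) (y : K),
        l = a * (c * a⁻¹ * c⁻¹) ∧ aeval (a : End K (perp B (E ⊔ F))) r = 0 ∧ IsCoprime (p * P) r ∧ y ≠ 0 ∧
        y * dt a = σ y ∧ Gd φ S.length ((-1) ^ S.length * y) p P) : Cm B g := by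
  obtain ⟨v, hv, u, hu, l, hl, e, h1, h2, h3, h4⟩ := hP.fac h hg
  obtain ⟨a, ha, c, hc, p, P, r, y, a1, a2, a3, a4, a5, a6⟩ := H (restrictTo l (Lv.stab hl))
    (mem_SUG.2 ⟨fun x y => hl.1 x y, by simpa [hS] using h4.symm⟩) fun x =>
      let ⟨t, ht⟩ := Submodule.mem_span_singleton.1 (h3 x x.2)
      Submodule.mem_span_singleton.2 ⟨t, Subtype.ext ht⟩
  have hn := (h.restrict (h.disjoint_perp_perp hP.opp.disjoint)).dt_norm hc
  obtain ⟨β, β0, β1⟩ := h.bar.exists_div_bar_eq (x := σ (dt c)) (by rw [h.bar_bar, mul_comm, hn])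
  haveI := h.bar.finite
  have hd := hP.tri.finrank_eq
  obtain ⟨A, C, b1, b2, b3⟩ := CL.OreH.exists_comm (restrictTo l hl.2.1) S (LinearMap.ext fun x => Subtype.ext
      ((CL.GLn.aeval_intertwine E.subtype (g := (l : End K V)) (fun _ => rfl) _ x).trans (h1.aeval_eq x x.2))) hP.ne
    ((h1.det_eq fun x => Lv.left hl).trans hS) a6.irr a6.cop a6.monic (a6.deg.trans hd.symm)
    (a6.coeff ▸ mul_ne_zero (pow_ne_zero _ (neg_ne_zero.2 one_ne_zero)) a4) (hs.imp (fun hs => LinearEquiv.ext fun x =>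
      Subtype.ext (sub_eq_zero.1 (hP.opp.FE (l x - x) (sub_mem (Lv.left hl x.2) x.2) (by
        simpa using sub_mem (hs x x.2) (h2 x x.2))))) fun ⟨c, hc, c', hc', hne⟩ =>
      let ⟨x, x1, x2, x3⟩ := h1.eigen hc
      let ⟨x', x1', x2', x3'⟩ := h1.eigen hc'
      ⟨c, c', ⟨x, x1⟩, ⟨x', x1'⟩, hne, fun e => x2 (congrArg Subtype.val e), fun e => x2' (congrArg Subtype.val e),
        Subtype.ext x3, Subtype.ext x3'⟩) β0
  have b4 : dt A = y := by
    rw [dt_apply, LinearMap.det_eq_sign_charpoly_coeff, b2, a6.coeff, hd, ← mul_assoc, ← mul_pow]; simp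
  rw [e]
  refine hP.opp.core h hv hu hl (fun x => by rw [← b1]; rfl) ha hc (fun x => by rw [← a1]; rfl)
    (b2 ▸ LinearMap.aeval_self_charpoly _) (a6.tf.coprime hφ).1 a2 a3 (b4 ▸ a5) ?_
  rw [dt_apply C, b3]
  linear_combination dt c * β1 + σ β * hn

theorem Pre.herm (h : IsHerm B q) (hP : Pre B g E F w S z) :
    IsHerm (B.domRestrict₁₂ (perp B (E ⊔ F)) (perp B (E ⊔ F))) q := h.restrict (h.disjoint_perp_perp hP.opp.disjoint)

theorem exists_mul_eq_bar (h : IsBar σ q) {d : K} (hd : d * σ d = 1) : ∃ y, y ≠ 0 ∧ y * d = σ y := by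
  obtain ⟨β, β0, β1⟩ := h.exists_div_bar_eq (x := σ d) (by rw [h.bar_bar, mul_comm, hd])
  exact ⟨β, β0, by linear_combination d * β1 + σ β * hd⟩

theorem Pre.finA (h : IsHerm B q) (hP : Pre B g E F w S z) (hg : g ∈ SUG B) (hS : S.prod = 1)
    (hs : (∀ x ∈ E, g x - x ∈ perp B F) ∨ ∃ c ∈ S, ∃ c' ∈ S, c ≠ c') (h2 : 2 ≤ S.length) : Cm B g := by
  obtain ⟨φ, hφ⟩ := exists_fr h.bar
  refine hP.fin h hg hS hs hφ fun l hl hz => ?_
  obtain ⟨a, ha, c, hc, a1, a2⟩ := exists_diag_comm (hP.herm h) hl (hP.nz.imp_left Subtype.ext) hz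
  obtain ⟨y, y0, y1⟩ := exists_mul_eq_bar h.bar ((hP.herm h).dt_norm ha)
  obtain ⟨p, P, hG⟩ := hφ.exists_gd h.bar h2 (mul_ne_zero (pow_ne_zero S.length (neg_ne_zero.2 one_ne_zero)) y0)
  exact ⟨a, ha, c, hc, p, P, _, y, a1, a2, (hG.tf.coprime hφ).2, y0, y1, hG⟩

theorem Pre.one (hP : Pre B g E F w [1] z) : ∀ x ∈ E, g x - x ∈ perp B F := by
  have h0 : F ⊔ K ∙ w ≤ perp B F := sup_le (fun x hx y hy => hP.opp.isoF y hy x hx)
    ((Submodule.span_singleton_le_iff_mem _ _).2 (mem_pp.1 hP.mem).2)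
  have := hP.tri
  cases this with
  | cons h1 h2 h3 =>
    cases h1
    exact fun x hx => h0 (by simpa using Tri.sub_mem (fun y hy => by simp [(Submodule.mem_bot K).1 hy]) h3 hx)

theorem Pre.finI (h : IsHerm B q) (hP : Pre B g E F w [1] z) (hg : g ∈ SUG B) (hq : 3 ≤ q) (hn : 3 ≤ finrank K V)
    (hz : z = 1 ∨ finrank K V = 3) : Cm B g := by
  obtain ⟨φ, hφ⟩ := exists_fr h.bar
  refine hP.fin h hg (by simp) (Or.inl hP.one) hφ fun l hl hz' => ?_
  have h1 := hP.opp.finrank_pp h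
  rw [hP.tri.finrank_eq, List.length_singleton] at h1
  obtain ⟨n, hn'⟩ : ∃ n, finrank K (perp B (E ⊔ F)) = n + 1 := ⟨finrank K V - 3, by omega⟩
  obtain ⟨b, e, hb, b1, b2, -⟩ := exists_diag_basis (hP.herm h) hn' hl (hP.nz.imp_left Subtype.ext) hz'
  obtain rfl : l = 1 := b.ext' fun i => by
    rcases hz with rfl | hz
    · rw [b2, show e = 1 by simpa using b1, ite_self, one_smul]; rfl
    · obtain rfl : n = 0 := by omega
      rw [b2, show e = 1 by simpa using b1, if_pos (Fin.fin_one_eq_zero i), one_smul]; rfl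
  obtain ⟨k, k0, k1⟩ := h.bar.exists_norm_ne_one hq
  have k2 : σ k / k * σ (σ k / k) = 1 := by rw [map_div₀, h.bar_bar]; have := (map_ne_zero σ).2 k0; field_simp
  obtain ⟨a, ha, a1, -⟩ := exists_mono (hP.herm h) b hb (p := 1) (fun _ => rfl)
    (c := fun i => if i = 0 then σ k / k else 1) (fun i => by
      by_cases e : i = 0
      · simpa only [e, Equiv.Perm.coe_one, id, if_true, mul_comm] using k2
      · simp [e]) |>.imp fun a ha => (⟨ha.1, ha.2, trivial⟩ : _ ∧ _ ∧ True)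
  have hG := hφ.gd_lin k1 k0
  refine ⟨a, ha, 1, one_mem _, _, _, _, k, by simp, b.ext fun i => ?_, (hG.tf.coprime hφ).2, k0, ?_, by simpa using hG⟩
  · rw [CL.SLn.aeval_eigen (a1 i), eval_sub, eval_pow, eval_X, ← h.bar.norm_eq_pow]
    split_ifs <;> simp [k2, -map_div₀]
  · rw [dt_of_mono b a1]; simp [mul_div_cancel₀ _ k0]

theorem Pre.finS (h : IsHerm B q) (hP : Pre B g E F w [1] z) (hg : g ∈ SUG B) (h2 : (-1 : K) ≠ 1)
    (hn : finrank K V = 4 ∨ finrank K V = 5) : Cm B g := by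
  obtain ⟨φ, hφ⟩ := exists_fr h.bar
  refine hP.fin h hg (by simp) (Or.inl hP.one) hφ fun l hl hz' => ?_
  have h1 := hP.opp.finrank_pp h
  rw [hP.tri.finrank_eq, List.length_singleton] at h1
  obtain ⟨n, hn', hn''⟩ : ∃ n, finrank K (perp B (E ⊔ F)) = n + 1 ∧ (n = 1 ∨ n = 2) := ⟨finrank K V - 3, by omega⟩
  obtain ⟨k, k1, k2⟩ : ∃ k : K, k * σ k = -1 ∧ k ^ 4 ≠ 1 := by
    obtain ⟨k, k1⟩ := h.bar.exists_norm_eq (a := -1) (by simp)
    obtain ⟨r, hr⟩ := h.bar.exists_primitiveRoot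
    by_cases e : k ^ 4 = 1
    · refine ⟨k * r, by rw [map_mul, mul_mul_mul_comm, k1, h.bar.norm_eq_pow, hr.pow_eq_one, mul_one], fun e' => ?_⟩
      obtain ⟨c, hc⟩ := odd_q h.bar h2
      have := Nat.le_of_dvd (by omega) (hr.dvd_of_pow_eq_one 4 (by rwa [mul_pow, e, one_mul] at e'))
      have := h.bar.two_le
      rw [h.bar.norm_eq_pow, show q + 1 = 4 by omega, e] at k1
      exact h2 k1.symm
    · exact ⟨k, k1, e⟩
  have k0 : k ≠ 0 := fun e => by simp [e] at k1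
  have k3 : σ k / k * σ (σ k / k) = 1 := by rw [map_div₀, h.bar_bar]; have := (map_ne_zero σ).2 k0; field_simp
  obtain ⟨a, ha, c, hc, a1, a2, a3⟩ := exists_shift_comm (hP.herm h) hn' hl (hP.nz.imp_left Subtype.ext) hz' k3
  have hG := hφ.gd_lin (k1 ▸ h2) k0
  refine ⟨a, ha, c, hc, _, _, _, k, a1, a3, ?_, k0, by rw [a2, mul_div_cancel₀ _ k0], by simpa using hG⟩
  rw [mul_one, (irreducible_X_sub_C k).coprime_iff_not_dvd, dvd_iff_isRoot, IsRoot.def, eval_sub, eval_pow, eval_X, eval_C,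
    sub_eq_zero, ← mul_div_assoc, eq_div_iff k0]
  rcases hn'' with rfl | rfl
  · exact fun e => k2 (by linear_combination k * e - k1)
  · intro e
    have e' := congrArg σ e
    simp only [map_mul, map_pow, map_neg, map_one, h.bar_bar] at e'
    exact h2 (by linear_combination -(σ k ^ 4 * e + σ k * e') + ((k * σ k) ^ 3 - (k * σ k) ^ 2 + k * σ k - 2) * k1)

end CL.OreU
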