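/-
Commutators in special unitary groups, part 4: building big cell decompositions step by step.
-/
import Cfsg.Agent.Cls.OreU3

set_option autoImplicit false

open Module Polynomial

namespace CL.OreU

open CL.Uni CL.Chev CL.Sp

universe u v

variable {K : Type u} [Field K] {q : ℕ} {σ : K →+* K} {V : Type v} [AddCommGroup V] [Module K V]
  {B : V →ₛₗ[σ] V →ₗ[K] K} {g : V ≃ₗ[K] V} {E D F W : Submodule K V} {S : List K} {x y w : V} {z : K}

theorem mem_pp1 {v f : V} : v ∈ perp B (E ⊔ K ∙ x ⊔ (D ⊔ K ∙ f)) ↔ v ∈ perp B (E ⊔ D) ∧ B x v = 0 ∧ B f v = 0 := by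
  simp only [mem_pp, mem_perp_singleton]; tauto

theorem mem_l {X : Submodule K V} : x ∈ X ⊔ K ∙ x := Submodule.mem_sup_right (Submodule.mem_span_singleton_self x)

theorem Opp.ext1 (h : IsHerm B q) (hO : Opp B E D) {f : V} (hx : x ∈ perp B (E ⊔ D)) (hf : f ∈ perp B (E ⊔ D))
    (xx : B x x = 0) (ff : B f f = 0) (xf : B x f ≠ 0) : Opp B (E ⊔ K ∙ x) (D ⊔ K ∙ f) ∧ x ∉ E := by
  have key : ∀ {E D : Submodule K V} {x f : V}, Opp B E D → x ∈ perp B (E ⊔ D) → f ∈ perp B (E ⊔ D) → B x x = 0 →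
      B x f ≠ 0 → (∀ a ∈ E ⊔ K ∙ x, ∀ b ∈ E ⊔ K ∙ x, B a b = 0) ∧
        ∀ y ∈ D ⊔ K ∙ f, (∀ a ∈ E ⊔ K ∙ x, B a y = 0) → y = 0 := fun {E D x f} hO hx hf xx xf => by
    rw [mem_pp] at hx hf
    refine ⟨fun a ha b hb => ?_, fun y hy h0 => ?_⟩
    · obtain ⟨a, ha', s, rfl⟩ := CL.Ore.mem_sup_single ha
      obtain ⟨b, hb', t, rfl⟩ := CL.Ore.mem_sup_single hb
      simp [LinearMap.map_smulₛₗ, hO.isoE a ha' b hb', hx.1 a ha', h.flip_zero (hx.1 b hb'), xx]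
    · obtain ⟨d, hd, t, rfl⟩ := CL.Ore.mem_sup_single hy
      obtain rfl : t = 0 := by simpa [h.flip_zero (hx.2 d hd), xf] using h0 x mem_l
      simpa using hO.EF d hd fun e he => by simpa using h0 e (Submodule.mem_sup_left he)
  have k1 := key hO hx hf xx xf
  have k2 := key hO.symm (sup_comm E D ▸ hf) (sup_comm E D ▸ hx) ff (h.flip_ne xf)
  exact ⟨⟨k1.1, k2.1, k1.2, k2.2⟩, fun e => xf ((mem_pp.1 hf).1 x e)⟩

/-- On `W` the map `g` is the scalar `z`, modulo the orthogonal complement. -/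
def Tm (B : V →ₛₗ[σ] V →ₗ[K] K) (g : V ≃ₗ[K] V) (W : Submodule K V) (z : K) : Prop :=
  ∀ v ∈ W, ∀ v' ∈ W, B v' (g v - z • v) = 0

theorem Tm.mono (h : Tm B g W z) (hW : F ≤ W) : Tm B g F z := fun v hv v' hv' => h v (hW hv) v' (hW hv')

/-- A partial big cell decomposition. -/
structure St (B : V →ₛₗ[σ] V →ₗ[K] K) (g : V ≃ₗ[K] V) (E D : Submodule K V) (S : List K) : Prop where
  opp : Opp B E D
  tri : Tri (g : End K V) D E S
  ne : ∀ c ∈ S, c ≠ 0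

theorem St.nil : St B g ⊥ ⊥ [] :=
  ⟨⟨by simp, by simp, by simp, by simp⟩, .nil, by simp⟩

theorem St.prod_ne (hS : St B g E D S) : S.prod ≠ 0 := List.prod_ne_zero fun e => hS.ne 0 e rfl

theorem cmp_form {v : V} (e : g x - y ∈ E ⊔ D) (hv : v ∈ perp B (E ⊔ D)) : B y v = B (g x) v := by
  have := hv _ e
  rw [map_sub, LinearMap.sub_apply, sub_eq_zero] at this
  exact this.symm

theorem St.iso (h : IsHerm B q) (hS : St B g E D S) (hg : g ∈ UG B) {x' y' : V} (hx : x ∈ perp B (E ⊔ D))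
    (hx' : x' ∈ perp B (E ⊔ D)) (hy : y ∈ perp B (E ⊔ D)) (hy' : y' ∈ perp B (E ⊔ D)) (e : g x - y ∈ E ⊔ D)
    (e' : g x' - y' ∈ E ⊔ D) : B y y' = B x x' := by
  have key : ∀ {x y : V}, g x - y ∈ E ⊔ D → ∃ a ∈ E, ∃ d ∈ D, g (x - a) = y + d := fun {x y} e => by
    obtain ⟨a, ha, d, hd, e1⟩ := Submodule.mem_sup.1 e
    obtain ⟨b, hb, e2⟩ := hS.tri.surj hS.ne a ha
    exact ⟨b, hb, _, sub_mem hd e2, by rw [map_sub, eq_add_of_sub_eq e1.symm, LinearEquiv.coe_coe]; abel⟩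
  obtain ⟨a, ha, d, hd, e1⟩ := key e
  obtain ⟨a', ha', d', hd', e2⟩ := key e'
  have := hg (x - a) (x' - a')
  rw [mem_pp] at hx hx' hy hy'
  simpa [e1, e2, hS.opp.isoE a ha a' ha', hS.opp.isoF d hd d' hd', hx'.1 a ha, h.flip_zero (hx.1 a' ha'), hy'.2 d hd,
    h.flip_zero (hy.2 d' hd')] using this

theorem exists_skew (h : IsBar σ q) {c : K} (hc : c ≠ 0) : ∃ a, a ≠ 0 ∧ a * c + σ (a * c) = 0 := by
  obtain ⟨s, s0, hs⟩ := h.exists_trace_zero
  exact ⟨s / c, div_ne_zero s0 hc, by rw [div_mul_cancel₀ _ hc, hs, add_neg_cancel]⟩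

variable [FiniteDimensional K V]

theorem exists_eq_mul (h : IsHerm B q) (s : V →ₛₗ[σ] V →ₗ[K] K) (hs : ∀ v, B v v = 0 → s v v = 0) :
    ∃ c : K, ∀ u v, s u v = c * B u v := by
  obtain ⟨b, hb⟩ := h.exists_orthonormal_basis rfl
  have key : ∀ i j, i ≠ j → s (b i) (b j) = 0 ∧ s (b i) (b i) = s (b j) (b j) := fun i j hij => by
    obtain ⟨a, ha⟩ := h.bar.exists_norm_eq (a := -1) (by simp)
    obtain ⟨r, r1, r2⟩ := exists_rho h.bar
    have h1 : ∀ a : K, a * σ a = -1 → a ^ 2 * s (b i) (b j) + a * (s (b i) (b i) - s (b j) (b j)) - s (b j) (b i) = 0 :=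
      fun a ha => by
        have := hs (b i + a • b j) (by simp [LinearMap.map_smulₛₗ, hb, hij, hij.symm]; linear_combination ha)
        simp only [map_add, LinearMap.add_apply, LinearMap.map_smulₛₗ, LinearMap.smul_apply, RingHom.id_apply,
          smul_eq_mul] at this
        linear_combination a * this - (s (b j) (b i) + a * s (b j) (b j)) * ha
    have e0 := h1 a ha
    have e1 := h1 (a * r) (by rw [map_mul]; linear_combination (r * σ r) * ha - r1)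
    have e2 := h1 (a * r ^ 2) (by rw [map_mul, map_pow]; linear_combination (r * σ r) ^ 2 * ha - (r * σ r + 1) * r1)
    have a0 : a ≠ 0 := fun e => by simp [e] at ha
    have r0 : r ≠ 0 := fun e => by simp [e] at r1
    have r3 : r - 1 ≠ 0 := fun e => r2 (by rw [sub_eq_zero.1 e, one_pow])
    have e3 : s (b i) (b j) = 0 := by
      refine (mul_eq_zero.1 (?_ : (a ^ 2 * r * (r - 1) * (r ^ 2 - 1)) * _ = 0)).resolve_left
        (mul_ne_zero (mul_ne_zero (mul_ne_zero (pow_ne_zero 2 a0) r0) r3) (sub_ne_zero.2 r2))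
      linear_combination r * e0 - (r + 1) * e1 + e2
    refine ⟨e3, sub_eq_zero.1 ((mul_eq_zero.1 (?_ : (a * (r - 1)) * _ = 0)).resolve_left (mul_ne_zero a0 r3))⟩
    linear_combination e1 - e0 - a ^ 2 * (r ^ 2 - 1) * e3
  rcases isEmpty_or_nonempty (Fin (finrank K V)) with h0 | ⟨⟨i₀⟩⟩
  · exact ⟨0, fun u v => by rw [show s = 0 from LinearMap.ext_basis b b fun i => h0.elim i]; simp⟩
  refine ⟨s (b i₀) (b i₀), fun u v => ?_⟩
  rw [show s = s (b i₀) (b i₀) • B from LinearMap.ext_basis b b fun i j => ?_]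
  · simp [hb]
  · by_cases e : i = j
    · by_cases e' : i₀ = j
      · simp [hb, e, e']
      · simp [hb, e, (key _ _ e').2]
    · simp [hb, e, (key _ _ e).1]

theorem exists_tm (h : IsHerm B q) (hW : Disjoint W (perp B W)) (h0 : ∀ v ∈ W, B v v = 0 → B (g v) v = 0) :
    ∃ z, Tm B g W z := by
  obtain ⟨c, hc⟩ := exists_eq_mul (h.restrict hW) ((B.compl₂ W.subtype).comp ((g : End K V) ∘ₗ W.subtype))
    fun v hv => h0 v v.2 hv
  refine ⟨σ c, fun v hv v' hv' => h.flip_zero ?_⟩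
  have : B (g v) v' = c * B v v' := hc ⟨v, hv⟩ ⟨v', hv'⟩
  simp [LinearMap.map_smulₛₗ, this, h.bar_bar]

theorem Tm.mem (h : IsHerm B q) (hT : Tm B g W z) (hF : perp B F ≤ W) {v : V} (hv : v ∈ W) : g v - z • v ∈ F :=
  h.perp_perp F ▸ fun u hu => hT v hv u (hF hu)

theorem St.pre (h : IsHerm B q) (hS : St B g E D S) (hT : Tm B g (perp B (E ⊔ D)) z) : Pre B g E D 0 S z :=
  ⟨hS.opp, hS.tri.mono le_sup_left, hS.ne, zero_mem _, Or.inl rfl, fun _ hv =>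
    (sup_le_sup_left le_sup_left _ : E ⊔ D ≤ _) (hT.mem h le_rfl hv)⟩

theorem St.comp (h : IsHerm B q) (hS : St B g E D S) (x : V) : ∃ y ∈ perp B (E ⊔ D), g x - y ∈ E ⊔ D := by
  obtain ⟨e, he, f, hf, w, hw, e1⟩ := hS.opp.dec h (g x)
  exact ⟨w, hw, by simpa [e1] using Submodule.add_mem_sup he hf⟩

/-- The space remaining after a step along `x`. -/
abbrev Vp (B : V →ₛₗ[σ] V →ₗ[K] K) (g : V ≃ₗ[K] V) (E D : Submodule K V) (x : V) : Submodule K V :=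
  perp B (E ⊔ K ∙ x ⊔ (D ⊔ K ∙ g x))

theorem St.link (h : IsHerm B q) (hS : St B g E D S) (hg : g ∈ UG B) (hx : x ∈ perp B (E ⊔ D)) (xx : B x x = 0)
    (hc : B (g x) x ≠ 0) {a : K} (ha : a ≠ 0) (hw : w ∈ Vp B g E D x)
    (ww : B w w = -(a * B (g x) x + σ (a * B (g x) x))) :
    ∃ F w', Opp B (E ⊔ K ∙ x) F ∧ Tri (g : End K V) (F ⊔ K ∙ w') (E ⊔ K ∙ x) (a :: S) ∧
      w' ∈ perp B (E ⊔ K ∙ x ⊔ F) ∧ B w' w' = B w w ∧ (w = 0 → w' = 0) ∧ (g x ∈ perp B (E ⊔ D) → g x - a • x ∈ perp B F) ∧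
      perp B (E ⊔ K ∙ x ⊔ (F ⊔ K ∙ w')) ≤ Vp B g E D x ∧
      (∀ v ∈ perp B (E ⊔ K ∙ x ⊔ F), ∃ t : K, v - t • x ∈ Vp B g E D x) ∧ (w = 0 → Vp B g E D x ≤ perp B (E ⊔ K ∙ x ⊔ F)) := by
  obtain ⟨y, hy, e⟩ := hS.comp h x
  have yy : B y y = 0 := (hS.iso h hg hx hx hy hy e e).trans xx
  obtain ⟨w1, w2, w3⟩ := mem_pp1.1 hw
  rw [← cmp_form e w1] at w3
  rw [← cmp_form e hx] at hc ww
  generalize hc' : B y x = c at hc ww
  have xy : B x y = σ c := by rw [← hc', h.symm]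
  have sc : σ c ≠ 0 := (map_ne_zero σ).2 hc
  set w' := w + (B w w / c) • x with hw'
  have hw'0 : w' ∈ perp B (E ⊔ D) := add_mem w1 (Submodule.smul_mem _ _ hx)
  have xw : B x w' = 0 := by simp [hw', w2, xx]
  have yw : B y w' = B w w := by simp [hw', w3, hc', div_mul_cancel₀ _ hc]
  have ww' : B w' w' = B w w := by simp [hw', LinearMap.map_smulₛₗ, w2, xx, h.flip_zero w2]
  have wy : B w' y = B w w := by rw [← h.symm, yw, h.self_fixed]
  set f := y - a • x - w' with hf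
  have hf0 : f ∈ perp B (E ⊔ D) := sub_mem (sub_mem hy (Submodule.smul_mem _ _ hx)) hw'0
  have xf : B x f = σ c := by simp [hf, xy, xx, xw]
  have fw : B f w' = 0 := by simp [hf, LinearMap.map_smulₛₗ, yw, xw, ww']
  have ff : B f f = 0 := by
    conv_lhs => rw [hf, map_sub (B _), ← hf, fw, hf]
    simp only [map_sub, LinearMap.sub_apply, LinearMap.map_smulₛₗ, LinearMap.smul_apply, yy, hc', xy, xx, wy,
      h.flip_zero xw, ww, map_mul, smul_eq_mul, RingHom.id_apply]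
    ring
  obtain ⟨h1, h2⟩ := hS.opp.ext1 h hx hf0 xx ff (xf ▸ sc)
  have hle : E ⊔ D ≤ E ⊔ (D ⊔ K ∙ f ⊔ K ∙ w') := sup_le_sup_left (le_sup_left.trans le_sup_left) _
  refine ⟨D ⊔ K ∙ f, w', h1, (hS.tri.mono (le_sup_left.trans le_sup_left)).cons h2 ?_, mem_pp1.2 ⟨hw'0, xw, fw⟩, ww',
    fun e => by simp [hw', e], fun hgx => ?_, fun v hv => ?_, fun v hv => ⟨B y v / c, ?_⟩, fun e' v hv => ?_⟩
  · convert add_mem (hle e) (Submodule.mem_sup_right (add_mem (Submodule.mem_sup_left mem_l) mem_l)) using 1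
    simp [hf]
  · obtain rfl : g x = y := sub_eq_zero.1 (Submodule.disjoint_def.1 hS.opp.disjoint _ e (sub_mem hgx hy))
    rw [show g x - a • x = f + w' by simp [hf]]
    exact mem_pp.2 ⟨(mem_pp.1 (add_mem hf0 hw'0)).2, mem_perp_singleton.2 (by simp [ff, fw])⟩
  · rw [← sup_assoc, mem_pp, mem_pp1, mem_perp_singleton] at hv
    refine mem_pp1.2 ⟨hv.1.1, hv.1.2.1, ?_⟩
    rw [← cmp_form e hv.1.1, show y = f + a • x + w' by rw [hf]; abel]
    simp [LinearMap.map_smulₛₗ, hv.1.2.1, hv.1.2.2, hv.2]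
  · rw [mem_pp1] at hv
    have h3 := sub_mem hv.1 (Submodule.smul_mem _ (B y v / c) hx)
    exact mem_pp1.2 ⟨h3, by simp [hv.2.1, xx], by rw [← cmp_form e h3]; simp [hc', div_mul_cancel₀ _ hc]⟩
  · rw [mem_pp1] at hv ⊢
    refine ⟨hv.1, hv.2.1, ?_⟩
    simp [hf, hw', e', LinearMap.map_smulₛₗ, hv.2.1, cmp_form e hv.1, hv.2.2]

theorem St.ext (h : IsHerm B q) (hS : St B g E D S) (hg : g ∈ UG B) (hx : x ∈ perp B (E ⊔ D)) (xx : B x x = 0)
    (hc : B (g x) x ≠ 0) {a : K} (ha : a ≠ 0) (ha' : a * B (g x) x + σ (a * B (g x) x) = 0) :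
    ∃ F, St B g (E ⊔ K ∙ x) F (a :: S) ∧ perp B (E ⊔ K ∙ x ⊔ F) = Vp B g E D x := by
  obtain ⟨F, w, h1, h2, -, -, h3, -, h4, -, h5⟩ := hS.link h hg hx xx hc ha (zero_mem _) (by simp [ha', -map_mul])
  rw [h3 rfl, Submodule.span_zero_singleton, sup_bot_eq] at h2 h4
  exact ⟨F, ⟨h1, h2, List.forall_mem_cons.2 ⟨ha, hS.ne⟩⟩, le_antisymm h4 (h5 rfl)⟩

theorem St.vp (h : IsHerm B q) (hS : St B g E D S) (hg : g ∈ UG B) (hx : x ∈ perp B (E ⊔ D)) (xx : B x x = 0)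
    (hc : B (g x) x ≠ 0) : Disjoint (Vp B g E D x) (perp B (Vp B g E D x)) ∧
      finrank K (Vp B g E D x) + 2 * (S.length + 1) = finrank K V := by
  obtain ⟨a, a0, a1⟩ := exists_skew h.bar hc
  obtain ⟨F, h1, h2⟩ := hS.ext h hg hx xx hc a0 a1
  have := h1.opp.finrank_pp h
  rw [h1.tri.finrank_eq, List.length_cons] at this
  exact h2 ▸ ⟨h.disjoint_perp_perp h1.opp.disjoint, this⟩

theorem St.step0 (h : IsHerm B q) (hS : St B g E D S) (hg : g ∈ UG B) (hx : x ∈ perp B (E ⊔ D)) (xx : B x x = 0)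
    (hc : B (g x) x ≠ 0) {a : K} (ha : a ≠ 0) (hw : w ∈ Vp B g E D x)
    (ww : B w w = -(a * B (g x) x + σ (a * B (g x) x))) (w0 : w = 0 ∨ B w w ≠ 0) (hT : Tm B g (Vp B g E D x) z) :
    ∃ F w', Pre B g (E ⊔ K ∙ x) F w' (a :: S) z ∧ (w = 0 → w' = 0) ∧ (g x ∈ perp B (E ⊔ D) → g x - a • x ∈ perp B F) := by
  obtain ⟨F, w', h1, h2, h3, h4, h5, h6, h7, h8, -⟩ := hS.link h hg hx xx hc ha hw ww
  refine ⟨F, w', ⟨h1, h2, List.forall_mem_cons.2 ⟨ha, hS.ne⟩, h3, w0.imp h5 (h4 ▸ id), fun v hv => ?_⟩, h5, h6⟩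
  obtain ⟨t, ht⟩ := h8 v hv
  convert add_mem (hT.mem h h7 ht) (Submodule.smul_mem _ t (sub_mem (h2.map_mem x mem_l)
    (Submodule.mem_sup_left (Submodule.smul_mem _ z mem_l)))) using 1
  simp only [map_sub, map_smul, LinearEquiv.coe_coe]; module

omit [FiniteDimensional K V] in
theorem Pre.ll (h : IsHerm B q) (hP : Pre B g E F w S z) (hz : z ≠ 0) (hx : x ∈ perp B (E ⊔ F)) (hy : y ∈ perp B (E ⊔ F))
    (xx : B x x = 0) (yy : B y y = 0) (xy : B x y ≠ 0) (wx : B w x = 0) (wy : B w y = 0) :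
    Pre B g (E ⊔ K ∙ x) (F ⊔ K ∙ y) w (z :: S) z := by
  obtain ⟨h1, h2⟩ := hP.opp.ext1 h hx hy xx yy xy
  have hle : F ⊔ K ∙ w ≤ F ⊔ K ∙ y ⊔ K ∙ w := sup_le_sup_right le_sup_left _
  exact ⟨h1, (hP.tri.mono hle).cons h2 (sup_le_sup_left hle _ (hP.sc x hx)), List.forall_mem_cons.2 ⟨hz, hP.ne⟩,
    mem_pp1.2 ⟨hP.mem, h.flip_zero wx, h.flip_zero wy⟩, hP.nz, fun v hv =>
      sup_le_sup le_sup_left hle (hP.sc v (mem_pp1.1 hv).1)⟩

theorem Pre.iter (h : IsHerm B q) (k : ℕ) : ∀ {E F : Submodule K V} {S : List K}, Pre B g E F w S z → z ^ k ≠ 0 →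
    (w = 0 ∧ 2 * (S.length + k) ≤ finrank K V ∨ 2 * (S.length + k) < finrank K V) →
    ∃ E' F', Pre B g E' F' w (List.replicate k z ++ S) z := by
  induction k with
  | zero => exact fun hP _ _ => ⟨_, _, hP⟩
  | succ k ih =>
    intro E F S hP hz hn
    have h1 := hP.opp.finrank_pp h
    rw [hP.tri.finrank_eq] at h1
    have h2 : Disjoint (perp B (E ⊔ F) ⊓ perp B (K ∙ w)) (perp B (perp B (E ⊔ F) ⊓ perp B (K ∙ w))) := by
      rw [← perp_sup]
      refine h.disjoint_perp_perp (Submodule.disjoint_def.2 fun v hv hv' => ?_)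
      obtain ⟨a, ha, t, rfl⟩ := CL.Ore.mem_sup_single hv
      have h3 : t • w = 0 := hP.nz.elim (fun e => by simp [e]) fun e => by
        rw [show t = 0 by simpa [h.flip_zero (hP.mem a ha), e] using hv' w mem_l, zero_smul]
      rw [h3, add_zero] at hv' ⊢
      exact Submodule.disjoint_def.1 hP.opp.disjoint a ha (mem_pp.1 hv').1
    obtain ⟨x, hx, x0, xx⟩ := h.exists_isotropic_mem h2 (by
      rcases hn with ⟨rfl, hn⟩ | hn
      · rw [Submodule.span_zero_singleton, perp_bot, inf_top_eq]; omega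
      · have := h.finrank_inf_perp_singleton (perp B (E ⊔ F)) w; omega)
    obtain ⟨y, hy, yy, xy⟩ := h.exists_hyperbolic_mem h2 hx x0 xx
    obtain ⟨E', F', h3⟩ := ih (hP.ll h (right_ne_zero_of_mul (pow_succ z k ▸ hz)) hx.1 hy.1 xx yy (xy ▸ one_ne_zero)
      (mem_perp_singleton.1 hx.2) (mem_perp_singleton.1 hy.2)) (left_ne_zero_of_mul (pow_succ z k ▸ hz))
      (by rwa [List.length_cons, add_assoc, add_comm 1 k])
    exact ⟨E', F', by rwa [List.replicate_succ', List.append_assoc]⟩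

theorem St.allowed (h : IsHerm B q) (hS : St B g E D S) (hg : g ∈ SUG B) (hx : x ∈ perp B (E ⊔ D)) (xx : B x x = 0)
    (hc : B (g x) x ≠ 0) (hT : Tm B g (Vp B g E D x) z) {a : K} {k : ℕ} (ha : a * (z ^ k * S.prod) = 1)
    (hn : finrank K V = 2 * (S.length + 1 + k)) : a * B (g x) x + σ (a * B (g x) x) = 0 := by
  obtain ⟨b, b0, b1⟩ := exists_skew h.bar hc
  obtain ⟨F, w, h1, h2, -⟩ := hS.step0 h (SUG_le_UG hg) hx xx hc b0 (zero_mem _) (by simp [b1, -map_mul]) (Or.inl rfl) hT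
  obtain ⟨E', F', h3⟩ := h1.iter h k (fun e => by simp [e] at ha) (Or.inl ⟨h2 rfl, hn.ge⟩)
  have h4 := h3.real h hg (by simp [hn]; ring)
  have h5 := congrArg σ ha
  simp only [List.prod_append, List.prod_replicate, List.prod_cons, map_mul, map_one] at h4 h5 b1 ⊢
  refine mul_left_cancel₀ (mul_ne_zero b0 (right_ne_zero_of_mul_eq_one ha)) ?_
  linear_combination b1 + b * B (g x) x * ha + σ b * σ (B (g x) x) * h5 - σ a * σ (B (g x) x) * h4

theorem St.step (h : IsHerm B q) (hS : St B g E D S) (hg : g ∈ SUG B) (hx : x ∈ perp B (E ⊔ D)) (xx : B x x = 0)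
    (hc : B (g x) x ≠ 0) (hT : Tm B g (Vp B g E D x) z) {a : K} {k : ℕ} (ha : a * (z ^ k * S.prod) = 1)
    (hn : 2 * (S.length + 1 + k) ≤ finrank K V) : ∃ F w, Pre B g (E ⊔ K ∙ x) F w (a :: S) z ∧
      (g x ∈ perp B (E ⊔ D) → g x - a • x ∈ perp B F) ∧ ∃ E' F', Pre B g E' F' w (List.replicate k z ++ a :: S) z := by
  have a0 := left_ne_zero_of_mul_eq_one ha
  have z0 : z ^ k ≠ 0 := fun e => by simp [e] at ha
  by_cases e : a * B (g x) x + σ (a * B (g x) x) = 0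
  · obtain ⟨F, w, h1, h2, h3⟩ := hS.step0 h (SUG_le_UG hg) hx xx hc a0 (zero_mem _) (by simp [e, -map_mul]) (Or.inl rfl) hT
    exact ⟨F, w, h1, h3, h1.iter h k z0 (Or.inl ⟨h2 rfl, hn⟩)⟩
  have hn' := hn.lt_of_ne fun e' => e (hS.allowed h hg hx xx hc hT ha e'.symm)
  obtain ⟨h1, h2⟩ := hS.vp h (SUG_le_UG hg) hx xx hc
  obtain ⟨w, hw, ww⟩ := h.exists_mem_self_eq h1 (fun e' => by rw [e', finrank_bot] at h2; omega)
    (a := -(a * B (g x) x + σ (a * B (g x) x))) (by rw [map_neg, h.bar.trace_fixed])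
  obtain ⟨F, w, h1, -, h3⟩ := hS.step0 h (SUG_le_UG hg) hx xx hc a0 hw ww (Or.inr (ww ▸ neg_ne_zero.2 e)) hT
  exact ⟨F, w, h1, h3, h1.iter h k z0 (Or.inr hn')⟩

end CL.OreU
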