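/-
Commutators in special unitary groups, part 5: the case analysis.
-/
import Cfsg.Agent.Cls.OreU4

set_option autoImplicit false

open Module Polynomial

namespace CL.OreU

open CL.Uni CL.Chev CL.Sp

universe u v

variable {K : Type u} [Field K] {q : ℕ} {σ : K →+* K} {V : Type v} [AddCommGroup V] [Module K V]
  {B : V →ₛₗ[σ] V →ₗ[K] K} {g : V ≃ₗ[K] V} {E D F W : Submodule K V} {S : List K} {x y w : V} {z : K}

/-- Two consecutive steps. -/
structure Pr (B : V →ₛₗ[σ] V →ₗ[K] K) (g : V ≃ₗ[K] V) (W : Submodule K V) (x y : V) : Prop where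
  m1 : x ∈ W
  m2 : y ∈ W
  xx : B x x = 0
  xy : B x y = 0
  yy : B y y = 0
  g1 : B (g x) x ≠ 0
  g2 : B (g x) y = 0
  g3 : B (g y) y ≠ 0

/-- The space remaining after two steps. -/
abbrev Vq (B : V →ₛₗ[σ] V →ₗ[K] K) (g : V ≃ₗ[K] V) (W : Submodule K V) (x y : V) : Submodule K V :=
  W ⊓ perp B (K ∙ x ⊔ K ∙ y ⊔ (K ∙ g x ⊔ K ∙ g y))

theorem mem_vq {v : V} : v ∈ Vq B g W x y ↔ v ∈ W ∧ (B x v = 0 ∧ B y v = 0) ∧ B (g x) v = 0 ∧ B (g y) v = 0 := by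
  simp only [Submodule.mem_inf, mem_pp, mem_perp_singleton]

theorem two_eq {a b c d v w : K} (h : a * d - b * c ≠ 0) (h1 : σ a * v + σ b * w = 0) (h2 : σ c * v + σ d * w = 0) :
    v = 0 ∧ w = 0 := by
  have h' : σ a * σ d - σ b * σ c ≠ 0 := by simpa using (map_ne_zero σ).2 h
  exact ⟨(mul_eq_zero.1 (by linear_combination σ d * h1 - σ b * h2)).resolve_left h',
    (mul_eq_zero.1 (by linear_combination σ a * h2 - σ c * h1)).resolve_left h'⟩

theorem vq_le {a b c d : K} (h : a * d - b * c ≠ 0) : Vq B g W (a • x + b • y) (c • x + d • y) ≤ Vq B g W x y := fun v hv => by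
  simp only [mem_vq, map_add, map_smul, LinearMap.map_smulₛₗ, LinearMap.add_apply, LinearMap.smul_apply, smul_eq_mul] at hv
  exact mem_vq.2 ⟨hv.1, two_eq h hv.2.1.1 hv.2.1.2, two_eq h hv.2.2.1 hv.2.2.2⟩

theorem Pr.form (h : IsHerm B q) (hP : Pr B g W x y) (a b c d : K) : B (a • x + b • y) (c • x + d • y) = 0 ∧
    B (g (a • x + b • y)) (c • x + d • y) = σ a * c * B (g x) x + σ b * c * B (g y) x + σ b * d * B (g y) y := by
  simp only [map_add, map_smul, LinearMap.map_smulₛₗ, LinearMap.add_apply, LinearMap.smul_apply, smul_eq_mul, hP.xx, hP.xy,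
    hP.yy, h.flip_zero hP.xy, hP.g2, RingHom.id_apply]
  constructor <;> ring

theorem Pr.rebase (h : IsHerm B q) (hP : Pr B g W x y) {a b : K} (hv : B (g (a • x + b • y)) (a • x + b • y) ≠ 0) :
    ∃ c d, Pr B g W (a • x + b • y) (c • x + d • y) ∧ a * d - b * c ≠ 0 := by
  have m : ∀ a b : K, a • x + b • y ∈ W := fun a b => add_mem (W.smul_mem _ hP.m1) (W.smul_mem _ hP.m2)
  refine ⟨σ b * B (g y) y, -(σ a * B (g x) x + σ b * B (g y) x), ⟨m _ _, m _ _, (hP.form h _ _ _ _).1, (hP.form h _ _ _ _).1,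
    (hP.form h _ _ _ _).1, hv, by rw [(hP.form h _ _ _ _).2]; ring, fun e => ?_⟩, fun e => hv ?_⟩
  · refine mul_ne_zero (mul_ne_zero hP.g1 hP.g3) ((map_ne_zero σ).2 hv) ?_
    rw [(hP.form h _ _ _ _).2] at e ⊢
    simp only [map_add, map_mul, map_neg, h.bar_bar] at e ⊢
    linear_combination e
  · rw [(hP.form h _ _ _ _).2]
    linear_combination -e

variable [FiniteDimensional K V]

theorem Pr.ext (h : IsHerm B q) (hS : St B g E D S) (hg : g ∈ UG B) (hP : Pr B g (perp B (E ⊔ D)) x y) {a : K}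
    (ha : a ≠ 0) (ha' : a * B (g x) x + σ (a * B (g x) x) = 0) : ∃ F, St B g (E ⊔ K ∙ x) F (a :: S) ∧
      y ∈ perp B (E ⊔ K ∙ x ⊔ F) ∧ perp B (E ⊔ K ∙ x ⊔ F) = Vp B g E D x ∧
      Vp B g (E ⊔ K ∙ x) F y = Vq B g (perp B (E ⊔ D)) x y := by
  obtain ⟨F, h1, h2⟩ := hS.ext h hg hP.m1 hP.xx hP.g1 ha ha'
  refine ⟨F, h1, h2 ▸ mem_pp1.2 ⟨hP.m2, hP.xy, hP.g2⟩, h2, Submodule.ext fun v => ?_⟩
  rw [mem_pp1, h2, mem_pp1, mem_vq]; tauto

theorem Pr.finA (h : IsHerm B q) (hS : St B g E D S) (hg : g ∈ SUG B) (hP : Pr B g (perp B (E ⊔ D)) x y)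
    (hT : Tm B g (Vq B g (perp B (E ⊔ D)) x y) z) {a : K} (ha : a ≠ 0) (ha' : a * B (g x) x + σ (a * B (g x) x) = 0)
    (h2 : a * (a * S.prod) ≠ 1) : Cm B g := by
  obtain ⟨F, h1, h3, -, h4⟩ := hP.ext h hS (SUG_le_UG hg) ha ha'
  have h5 := (h1.vp h (SUG_le_UG hg) h3 hP.yy hP.g3).2
  have h6 : (a * S.prod)⁻¹ * (a * S.prod) = 1 := inv_mul_cancel₀ h1.prod_ne
  obtain ⟨F', w, h7, -⟩ := h1.step h hg h3 hP.yy hP.g3 (h4 ▸ hT) (a := (a * S.prod)⁻¹) (k := 0) (by simpa using h6)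
    (by omega)
  exact h7.finA h hg h6 (Or.inr ⟨_, List.mem_cons_self, a, by simp, fun e => h2 (by rwa [e] at h6)⟩) (by simp)

theorem Pr.finB (h : IsHerm B q) (hS : St B g E D S) (hg : g ∈ SUG B) (hP : Pr B g (perp B (E ⊔ D)) x y)
    (hT : Tm B g (Vq B g (perp B (E ⊔ D)) x y) z) {c : K} (h1 : c * B (g x) x + σ (c * B (g x) x) = 0)
    (h2 : c * B (g y) y + σ (c * B (g y) y) = 0) (h3 : B (g y) x = 0) (h4 : c * (c * S.prod) = 1) : Cm B g := by
  have c0 := left_ne_zero_of_mul_eq_one h4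
  obtain ⟨a, ha⟩ := h.bar.exists_norm_eq (a := -(c * B (g x) x / (c * B (g y) y))) (by
    rw [map_neg, map_div₀, eq_neg_of_add_eq_zero_right h1, eq_neg_of_add_eq_zero_right h2, neg_div_neg_eq])
  rw [mul_div_mul_left _ _ c0, ← neg_div, eq_div_iff hP.g3] at ha
  obtain ⟨r, r1, r2⟩ := exists_rho h.bar
  have r0 : r ≠ 0 := left_ne_zero_of_mul_eq_one r1
  have r3 : 1 - r ≠ 0 := fun e => r2 (by rw [← sub_eq_zero.1 e, one_pow])
  have r4 : 1 - σ r ≠ 0 := by simpa using (map_ne_zero σ).2 r3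
  have a0 : a ≠ 0 := fun e => hP.g1 (by simpa [e] using ha)
  have fm := hP.form h
  have hv := vq_le (B := B) (g := g) (W := perp B (E ⊔ D)) (x := x) (y := y) (a := 1) (b := a) (c := 1) (d := a * r)
    (fun e => mul_ne_zero a0 r3 (by linear_combination -e))
  have m : ∀ a b : K, a • x + b • y ∈ perp B (E ⊔ D) := fun a b =>
    add_mem (Submodule.smul_mem _ _ hP.m1) (Submodule.smul_mem _ _ hP.m2)
  have g11 : B (g ((1 : K) • x + a • y)) ((1 : K) • x + a • y) = 0 := by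
    rw [(fm _ _ _ _).2, h3, map_one]; linear_combination ha
  have g22 : B (g ((1 : K) • x + (a * r) • y)) ((1 : K) • x + (a * r) • y) = 0 := by
    rw [(fm _ _ _ _).2, h3, map_one, map_mul]; linear_combination (r * σ r) * ha - B (g x) x * r1
  have g12 : B (g ((1 : K) • x + a • y)) ((1 : K) • x + (a * r) • y) = B (g x) x * (1 - r) := by
    rw [(fm _ _ _ _).2, h3, map_one]; linear_combination r * ha
  have g21 : B (g ((1 : K) • x + (a * r) • y)) ((1 : K) • x + a • y) = B (g x) x * (1 - σ r) := by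
    rw [(fm _ _ _ _).2, h3, map_one, map_mul]; linear_combination σ r * ha
  have b11 := (fm 1 a 1 a).1
  have b22 := (fm 1 (a * r) 1 (a * r)).1
  have b12 := (fm 1 a 1 (a * r)).1
  have m1 := m 1 a
  have m2 := m 1 (a * r)
  generalize (1 : K) • x + a • y = u at *
  generalize (1 : K) • x + (a * r) • y = v at *
  obtain ⟨u', hu', e1⟩ := hS.comp h u
  obtain ⟨v', hv', e2⟩ := hS.comp h v
  have i11 := (hS.iso h (SUG_le_UG hg) m1 m1 hu' hu' e1 e1).trans b11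
  have i22 := (hS.iso h (SUG_le_UG hg) m2 m2 hv' hv' e2 e2).trans b22
  have i21 := (hS.iso h (SUG_le_UG hg) m2 m1 hv' hu' e2 e1).trans (h.flip_zero b12)
  rw [← cmp_form e1 m1] at g11
  rw [← cmp_form e2 m2] at g22
  rw [← cmp_form e1 m2] at g12
  rw [← cmp_form e2 m1] at g21
  have f1 := sub_mem hu' (Submodule.smul_mem _ (c * r) m1)
  have f2 := sub_mem hv' (Submodule.smul_mem _ (c * σ r) m2)
  obtain ⟨o1, n1⟩ := hS.opp.ext1 h m1 f2 b11 (by simp [LinearMap.map_smulₛₗ, i22, g22, b22, h.flip_zero g22])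
    (by rw [map_sub, map_smul, b12, smul_zero, sub_zero]; exact h.flip_ne (g21 ▸ mul_ne_zero hP.g1 r4))
  obtain ⟨o2, n2⟩ := o1.ext1 h (x := v) (f := u' - (c * r) • u) (mem_pp1.2 ⟨m2, b12, by simp [LinearMap.map_smulₛₗ, g22, b22]⟩)
    (mem_pp1.2 ⟨f1, by simp [h.flip_zero g11, b11], by
      simp only [map_sub, map_smul, LinearMap.map_smulₛₗ, LinearMap.sub_apply, LinearMap.smul_apply, smul_eq_mul, i21, g21,
        h.flip_zero b12, ← h.symm u' v, g12, map_mul, h.bar_bar, map_one] at h1 ⊢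
      linear_combination (r * σ r - r) * h1 + (c * B (g x) x - c * B (g x) x) * r1⟩) b22
    (by simp [LinearMap.map_smulₛₗ, i11, g11, b11, h.flip_zero g11])
    (by rw [map_sub, map_smul, h.flip_zero b12, smul_zero, sub_zero]; exact h.flip_ne (g12 ▸ mul_ne_zero hP.g1 r3))
  have hle : E ⊔ D ≤ E ⊔ (D ⊔ K ∙ (v' - (c * σ r) • v) ⊔ K ∙ (u' - (c * r) • u)) :=
    sup_le_sup_left (le_sup_left.trans le_sup_left) _
  have hS' : St B g _ _ (c * σ r :: c * r :: S) := ⟨o2, ((hS.tri.mono (le_sup_left.trans le_sup_left)).cons n1 (by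
      convert add_mem (hle e1) (Submodule.mem_sup_right mem_l) using 1; simp)).cons n2 (by
      convert add_mem ((sup_le_sup_right le_sup_left _ : _ ≤ E ⊔ K ∙ u ⊔ _) (hle e2))
        (Submodule.mem_sup_right (Submodule.mem_sup_left mem_l)) using 1; simp),
    List.forall_mem_cons.2 ⟨mul_ne_zero c0 ((map_ne_zero σ).2 r0), List.forall_mem_cons.2 ⟨mul_ne_zero c0 r0, hS.ne⟩⟩⟩
  refine (hS'.pre h (hT.mono (le_trans (fun t ht => ?_) hv))).finA h hg (by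
    simp only [List.prod_cons]; linear_combination (r * σ r) * h4 + r1) (Or.inr ⟨_, List.mem_cons_self, c * r, by simp,
      fun e => r2 (by linear_combination r1 - r * mul_left_cancel₀ c0 e)⟩) (by simp)
  simp only [mem_pp1, map_sub, LinearMap.map_smulₛₗ, LinearMap.sub_apply, LinearMap.smul_apply] at ht
  obtain ⟨⟨t1, t2, t3⟩, t4, t5⟩ := ht
  rw [t4, smul_zero, sub_zero, cmp_form e2 t1] at t3
  rw [t2, smul_zero, sub_zero, cmp_form e1 t1] at t5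
  exact mem_vq.2 ⟨t1, ⟨t2, t4⟩, t5, t3⟩

theorem Pr.fin (h : IsHerm B q) (hS : St B g E D S) (hg : g ∈ SUG B) (hP : Pr B g (perp B (E ⊔ D)) x y)
    (hT : Tm B g (Vq B g (perp B (E ⊔ D)) x y) z) : Cm B g := by
  obtain ⟨c, c0, c1⟩ := exists_skew h.bar hP.g1
  by_cases h1 : c * (c * S.prod) = 1
  swap
  · exact hP.finA h hS hg hT c0 c1 h1
  by_contra h2
  have key : ∀ a b : K, c * B (g (a • x + b • y)) (a • x + b • y) + σ (c * B (g (a • x + b • y)) (a • x + b • y)) = 0 :=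
    fun a b => by
      by_cases e : B (g (a • x + b • y)) (a • x + b • y) = 0
      · simp [e, -map_add]
      obtain ⟨a', b', h3, h4⟩ := hP.rebase h e
      obtain ⟨d, d0, d1⟩ := exists_skew h.bar e
      have h5 : d * (d * S.prod) = 1 := by_contra fun h5 => h2 (h3.finA h hS hg (hT.mono (vq_le h4)) d0 d1 h5)
      rcases mul_self_eq_mul_self_iff.1 (mul_right_cancel₀ hS.prod_ne (by linear_combination h1 - h5) : c * c = d * d)
        with rfl | rfl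
      · exact d1
      · rw [neg_mul, map_neg, ← neg_add, d1, neg_zero]
  simp only [(hP.form h _ _ _ _).2] at key
  have h3 : c * B (g y) y + σ (c * B (g y) y) = 0 := by simpa using key 0 1
  refine h2 (hP.finB h hS hg hT c1 h3 ?_ h1)
  obtain ⟨t, ht⟩ := h.bar.exists_ne
  have e1 := key 1 1
  have e2 := key 1 t
  simp only [map_add, map_mul, map_one, h.bar_bar] at c1 h3 e1 e2
  refine (mul_eq_zero.1 (?_ : (σ t - t) * c * _ = 0)).resolve_left (mul_ne_zero (sub_ne_zero.2 ht) c0)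
  linear_combination e2 - t * e1 + (t - 1) * c1 + (t - t * σ t) * h3

theorem Pr.cm (h : IsHerm B q) (hg : g ∈ SUG B) (n : ℕ) : ∀ {E D : Submodule K V} {S : List K} {x y : V}, St B g E D S →
    finrank K V ≤ S.length + n → Pr B g (perp B (E ⊔ D)) x y → Cm B g := by
  induction n with
  | zero =>
    intro E D S x y hS hn hP
    have := (hS.vp h (SUG_le_UG hg) hP.m1 hP.xx hP.g1).2
    omega
  | succ n ih =>
    intro E D S x y hS hn hP
    obtain ⟨c, c0, c1⟩ := exists_skew h.bar hP.g1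
    obtain ⟨F, h1, h2, h3, h4⟩ := hP.ext h hS (SUG_le_UG hg) c0 c1
    by_cases h5 : ∀ v ∈ Vp B g (E ⊔ K ∙ x) F y, B v v = 0 → B (g v) v = 0
    · obtain ⟨z, hz⟩ := exists_tm h (h1.vp h (SUG_le_UG hg) h2 hP.yy hP.g3).1 h5
      exact hP.fin h hS hg (h4 ▸ hz)
    push Not at h5
    obtain ⟨v, v1, v2, v3⟩ := h5
    rw [mem_pp1] at v1
    exact ih h1 (by rw [List.length_cons]; omega) ⟨h2, v1.1, hP.yy, v1.2.1, v2, hP.g3, v1.2.2, v3⟩

omit [FiniteDimensional K V] in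
theorem special (h : IsHerm B 2) (hg : g ∈ UG B) {u v : V} {a : K} (xx : B x x = 0) (hc : B (g x) x = 1) (uu : B u u = 0)
    (vv : B v v = 0) (uv : B u v = 1) (xu : B x u = 0) (xv : B x v = 0) (yu : B (g x) u = 0) (yv : B (g x) v = 0)
    (gu : g u = u + g x) (gv : g v = v + a • g x) (ha : a ^ 2 + a + 1 = 0) : ∃ x y, Pr B g (perp B (⊥ ⊔ ⊥)) x y := by
  have h2 : (2 : K) = 0 := by exact_mod_cast h.bar.cast_q
  have yy : B (g x) (g x) = 0 := (hg x x).trans xx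
  have gy : B (g (g x)) (g x) = 1 := (hg _ x).trans hc
  have gu' : B (g (g x)) u = -1 := by have := (hg _ u).trans yu; rw [gu, map_add, gy] at this; linear_combination this
  have gv' : B (g (g x)) v = -a := by
    have := (hg _ v).trans yv; rw [gv, map_add, map_smul, gy, smul_eq_mul] at this; linear_combination this
  have key : ∀ p₁ p₂ p₃ p₄ r₁ r₂ r₃ r₄ : K,
      B (p₁ • x + p₂ • g x + p₃ • u + p₄ • v) (r₁ • x + r₂ • g x + r₃ • u + r₄ • v) =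
        p₁ ^ 2 * r₂ + p₂ ^ 2 * r₁ + p₃ ^ 2 * r₄ + p₄ ^ 2 * r₃ ∧
      B (g (p₁ • x + p₂ • g x + p₃ • u + p₄ • v)) (r₁ • x + r₂ • g x + r₃ • u + r₄ • v) = p₁ ^ 2 * r₁ +
        p₂ ^ 2 * (r₁ * B (g (g x)) x + r₂ - r₃ - r₄ * a) + p₃ ^ 2 * (r₁ + r₄) + p₄ ^ 2 * (r₁ * a ^ 2 + r₃) :=
    fun p₁ p₂ p₃ p₄ r₁ r₂ r₃ r₄ => by
      simp only [map_add, map_smul, LinearMap.map_smulₛₗ, LinearMap.add_apply, LinearMap.smul_apply, smul_eq_mul, gu, gv,
        RingHom.id_apply, xx, hc, uu, vv, uv, xu, xv, yu, yv, yy, gy, gu', gv', h.flip_one hc, h.flip_one uv,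
        h.flip_zero xu, h.flip_zero xv, h.flip_zero yu, h.flip_zero yv, h.bar.apply]
      constructor <;> ring
  have fin : ∀ p₁ p₂ p₃ p₄ r₁ r₂ r₃ r₄ : K, p₁ ^ 2 * p₂ + p₂ ^ 2 * p₁ + p₃ ^ 2 * p₄ + p₄ ^ 2 * p₃ = 0 →
      p₁ ^ 2 * r₂ + p₂ ^ 2 * r₁ + p₃ ^ 2 * r₄ + p₄ ^ 2 * r₃ = 0 → r₁ ^ 2 * r₂ + r₂ ^ 2 * r₁ + r₃ ^ 2 * r₄ + r₄ ^ 2 * r₃ = 0 →
      p₁ ^ 2 * p₁ + p₂ ^ 2 * (p₁ * B (g (g x)) x + p₂ - p₃ - p₄ * a) + p₃ ^ 2 * (p₁ + p₄) + p₄ ^ 2 * (p₁ * a ^ 2 + p₃) ≠ 0 →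
      p₁ ^ 2 * r₁ + p₂ ^ 2 * (r₁ * B (g (g x)) x + r₂ - r₃ - r₄ * a) + p₃ ^ 2 * (r₁ + r₄) + p₄ ^ 2 * (r₁ * a ^ 2 + r₃) = 0 →
      r₁ ^ 2 * r₁ + r₂ ^ 2 * (r₁ * B (g (g x)) x + r₂ - r₃ - r₄ * a) + r₃ ^ 2 * (r₁ + r₄) + r₄ ^ 2 * (r₁ * a ^ 2 + r₃) ≠ 0 →
      ∃ x y, Pr B g (perp B (⊥ ⊔ ⊥)) x y := fun p₁ p₂ p₃ p₄ r₁ r₂ r₃ r₄ e1 e2 e3 e4 e5 e6 =>
    ⟨p₁ • x + p₂ • g x + p₃ • u + p₄ • v, r₁ • x + r₂ • g x + r₃ • u + r₄ • v, by simp [perp_bot], by simp [perp_bot],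
      (key ..).1.trans e1, (key ..).1.trans e2, (key ..).1.trans e3, (key ..).2 ▸ e4, (key ..).2.trans e5, (key ..).2 ▸ e6⟩
  generalize B (g (g x)) x = k at fin
  have hk : k * ((k - 1) * ((k - a) * (k - a ^ 2))) = 0 := by
    have := h.bar_bar k
    rw [h.bar.apply, h.bar.apply] at this
    grind
  simp only [mul_eq_zero, sub_eq_zero] at hk
  rcases hk with rfl | rfl | rfl | rfl
  · exact fin 0 1 0 a 1 1 a 0 (by grind) (by grind) (by grind) (by grind) (by grind) (by grind)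
  · exact fin 0 1 0 a 1 0 a 0 (by grind) (by grind) (by grind) (by grind) (by grind) (by grind)
  · exact fin 0 1 0 1 1 1 1 0 (by grind) (by grind) (by grind) (by grind) (by grind) (by grind)
  · exact fin 0 1 (a ^ 2) 0 1 1 0 (a ^ 2) (by grind) (by grind) (by grind) (by grind) (by grind) (by grind)

theorem cm_two (h : IsHerm B 2) (hg : g ∈ SUG B) (hn : 4 ≤ finrank K V) (xx : B x x = 0) (hc : B (g x) x ≠ 0)
    (hT : Tm B g (Vp B g ⊥ ⊥ x) 1) (h1 : ∀ v ∈ Vp B g ⊥ ⊥ x, ∃ t : K, g v = v + t • g x) : Cm B g := by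
  have hU := SUG_le_UG hg
  have m0 : ∀ v, v ∈ perp B (⊥ ⊔ ⊥) := fun v => by simp [perp_bot]
  obtain ⟨h2, h3⟩ := St.nil.vp h hU (m0 x) xx hc
  by_cases h4 : ∃ u ∈ Vp B g ⊥ ⊥ x, u ≠ 0 ∧ B u u = 0 ∧ g u = u
  · obtain ⟨u, u1, u0, uu, gu⟩ := h4
    obtain ⟨v, v1, vv, uv⟩ := h.exists_hyperbolic_mem h2 u1 u0 uu
    obtain ⟨o1, n1⟩ := St.nil (g := g).opp.ext1 h (m0 u) (m0 v) uu vv (uv ▸ one_ne_zero)
    have hS : St B g _ _ [1] := ⟨o1, Tri.nil.cons n1 (by simp [gu]), by simp⟩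
    rw [mem_pp1] at u1 v1
    obtain ⟨F, w, h5, h6, -⟩ := hS.step h hg (mem_pp1.2 ⟨m0 x, h.flip_zero u1.2.1, h.flip_zero v1.2.1⟩) xx hc
      (hT.mono fun t ht => mem_pp1.2 ⟨m0 t, (mem_pp1.1 ht).2⟩) (a := 1) (k := 0) (by simp) hn
    refine h5.finA h hg (by simp) (Or.inl fun t ht => ?_) le_rfl
    obtain ⟨t, ht', b, rfl⟩ := CL.Ore.mem_sup_single ht
    obtain ⟨a, rfl⟩ := Submodule.mem_span_singleton.1 (bot_sup_eq (K ∙ u) ▸ ht')
    convert Submodule.smul_mem _ b (h6 (mem_pp1.2 ⟨m0 _, h.flip_zero u1.2.2, h.flip_zero v1.2.2⟩)) using 1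
    simp only [map_add, map_smul, gu]; module
  push Not at h4
  have h5 : finrank K V = 4 := by
    by_contra h5
    have h6 := h.finrank_inf_perp_singleton (Vp B g ⊥ ⊥ x) (g⁻¹ x)
    obtain ⟨u, hu, u0, uu⟩ : ∃ u ∈ Vp B g ⊥ ⊥ x ⊓ perp B (K ∙ g⁻¹ x), u ≠ 0 ∧ B u u = 0 := by
      by_cases e : Disjoint (Vp B g ⊥ ⊥ x ⊓ perp B (K ∙ g⁻¹ x)) (perp B (Vp B g ⊥ ⊥ x ⊓ perp B (K ∙ g⁻¹ x)))
      · exact h.exists_isotropic_mem e (by simp only [List.length_nil] at h3; omega)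
      · simp only [Submodule.disjoint_def, not_forall] at e
        obtain ⟨u, u1, u2, u0⟩ := e
        exact ⟨u, u1, u0, u2 u u1⟩
    obtain ⟨t, ht⟩ := h1 u hu.1
    have h7 := mem_perp_singleton.1 hu.2
    rw [← UG_apply_right hU, ht, map_add, (mem_pp1.1 hu.1).2.1, map_smul, zero_add, smul_eq_zero] at h7
    exact h4 u hu.1 u0 uu (by rw [ht, h7.resolve_right (h.flip_ne hc), zero_smul, add_zero])
  have h6 := St.nil.allowed h hg (m0 x) xx hc hT (a := 1) (k := 1) (by simp) h5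
  have h7 : (2 : K) = 0 := by exact_mod_cast h.bar.cast_q
  rw [one_mul, h.bar.apply] at h6
  obtain ⟨u, u1, u0, uu⟩ := h.exists_isotropic_mem h2 (by simp only [List.length_nil] at h3; omega)
  obtain ⟨t, ht⟩ := h1 u u1
  have t0 : t ≠ 0 := fun e => h4 u u1 u0 uu (by simpa [e] using ht)
  have u2 := Submodule.smul_mem _ t⁻¹ u1
  have uu' : B (t⁻¹ • u) (t⁻¹ • u) = 0 := by simp [LinearMap.map_smulₛₗ, uu]
  have gu : g (t⁻¹ • u) = t⁻¹ • u + g x := by rw [map_smul, ht, smul_add, inv_smul_smul₀ t0]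
  obtain ⟨v, v1, vv, uv⟩ := h.exists_hyperbolic_mem h2 u2 (smul_ne_zero (inv_ne_zero t0) u0) uu'
  generalize t⁻¹ • u = u at *
  obtain ⟨a, ha⟩ := h1 v v1
  have a0 : a ≠ 0 := fun e => h4 v v1 (fun e => by simp [e] at uv) vv (by simpa [e] using ha)
  have a1 : 1 + a ≠ 0 := fun e => h4 (u + v) (add_mem u2 v1) (fun e => by simpa [uu', uv] using congrArg (B u) e)
    (by simp [uu', vv, uv, h.flip_one uv, one_add_one_eq_two, h7])
    (by rw [map_add, gu, ha, eq_neg_of_add_eq_zero_right e]; module)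
  have a2 := h.bar_bar a
  rw [h.bar.apply, h.bar.apply] at a2
  rw [mem_pp1] at u2 v1
  obtain ⟨x, y, hP⟩ := special h hU xx (by grind) uu' vv uv u2.2.1 v1.2.1 u2.2.2 v1.2.2 gu ha (by grind)
  exact hP.cm h hg _ St.nil (Nat.le_add_left _ _)

theorem cm_of_mem (h : IsHerm B q) (hg : g ∈ SUG B) (hn : 3 ≤ finrank K V) (hex : ¬(finrank K V = 3 ∧ q = 2)) :
    Cm B g := by
  have hU := SUG_le_UG hg
  have m0 : ∀ v, v ∈ perp B (⊥ ⊔ ⊥) := fun v => by simp [perp_bot]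
  by_cases h0 : ∀ v, B v v = 0 → B (g v) v = 0
  · obtain ⟨z, hz⟩ := exists_tm h (W := ⊤) (by rw [h.perp_top]; exact disjoint_bot_right) fun v _ => h0 v
    exact cm_scalar h hg fun v => sub_eq_zero.1 (h.nondeg' _ fun u => hz v trivial u trivial)
  push Not at h0
  obtain ⟨x, xx, hc⟩ := h0
  by_cases h1 : ∀ v ∈ Vp B g ⊥ ⊥ x, B v v = 0 → B (g v) v = 0
  swap
  · push Not at h1
    obtain ⟨v, v1, v2, v3⟩ := h1
    rw [mem_pp1] at v1
    exact Pr.cm h hg _ St.nil (Nat.le_add_left _ _) ⟨m0 x, m0 v, xx, v1.2.1, v2, hc, v1.2.2, v3⟩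
  obtain ⟨h2, h3⟩ := St.nil.vp h hU (m0 x) xx hc
  obtain ⟨z, hz⟩ := exists_tm h h2 h1
  have h4 : ∀ v ∈ Vp B g ⊥ ⊥ x, ∃ t : K, g v = z • v + t • g x := fun v hv => by
    obtain ⟨a, ha, b, hb, e⟩ := Submodule.mem_sup.1 (hz.mem h le_rfl hv)
    rw [bot_sup_eq, Submodule.mem_span_singleton] at ha hb
    obtain ⟨s, rfl⟩ := ha
    obtain ⟨t, rfl⟩ := hb
    rw [mem_pp1] at hv
    obtain rfl : s = 0 := by simpa [hU _ _, xx, hc, hv.2.1, hv.2.2] using congrArg (B (g x)) e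
    exact ⟨t, by rw [eq_add_of_sub_eq' e.symm, zero_smul, zero_add]⟩
  have stp := fun (a : K) (k : ℕ) => St.nil.step h hg (m0 x) xx hc hz (a := a) (k := k)
  simp only [List.prod_nil, mul_one, List.length_nil, zero_add] at stp h3
  have hq := h.bar.two_le
  obtain ⟨F, w, h5, -⟩ := stp 1 0 (by simp) (by omega)
  by_cases n3 : finrank K V = 3
  · exact h5.finI h hg (by omega) hn (Or.inr n3)
  by_cases z2 : z * z = 1
  swap
  · have z0 : z ≠ 0 := by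
      rintro rfl
      obtain ⟨v, hv, v0⟩ := Submodule.exists_mem_ne_zero_of_ne_bot (p := Vp B g ⊥ ⊥ x) fun e => by
        rw [e, finrank_bot] at h3; omega
      obtain ⟨t, ht⟩ := h4 v hv
      rw [zero_smul, zero_add, ← map_smul, g.injective.eq_iff] at ht
      exact v0 (by rw [ht, show t = 0 by simpa [ht, hc] using (mem_pp1.1 hv).2.2, zero_smul])
    obtain ⟨_, w', -, -, E, F, h6⟩ := stp z⁻¹ 1 (by simp [z0]) (by omega)
    exact h6.finA h hg (by simp [z0]) (Or.inr ⟨z, by simp, z⁻¹, by simp, fun e => z2 (by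
      nth_rw 1 [e]; exact inv_mul_cancel₀ z0)⟩) (by simp)
  by_cases z1 : z = 1
  · rcases hq.eq_or_lt with rfl | hq
    · subst z1
      exact cm_two h hg (by omega) xx hc hz (by simpa using h4)
    · exact h5.finI h hg hq hn (Or.inl z1)
  obtain rfl := (mul_self_eq_one_iff.1 z2).resolve_left z1
  by_cases n5 : finrank K V ≤ 5
  · exact h5.finS h hg z1 (by omega)
  obtain ⟨_, w', -, -, E, F, h6⟩ := stp 1 2 (by simp) (by omega)
  exact h6.finA h hg (by simp) (Or.inr ⟨-1, by simp, 1, by simp, z1⟩) (by simp)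

end CL.OreU
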