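/-
A semisimple class of `SL₃(q)`, `q ≥ 3`, whose square contains all non-scalar elements.
-/
import Cfsg.Agent.Cls.ProdOre

set_option autoImplicit false

namespace CL.SLn

open Module Polynomial

variable {F : Type*} [Field F]

universe u

section

variable {V : Type u} [AddCommGroup V] [Module F V] [FiniteDimensional F V]

theorem split_eq_qp {l : F} (hl : l ≠ 0) : (X - C l) * (X - C l⁻¹) = qp (l + l⁻¹) := by
  have : C l * C l⁻¹ = (1 : F[X]) := by rw [← C_mul, mul_inv_cancel₀ hl, C_1]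
  simp only [qp, map_neg, map_add, map_one]
  linear_combination this

theorem res_tv {P : F[X]} {Δ : F[X] → F} {g : End F V} {u : V} {ρ : Dual F V} (hρ : ρ ≠ 0)
    (h0 : ρ u = 0) (h : ∀ x, g x = x + ρ x • u)
    (base : ∀ c r, Res 1 P Δ (1 : End F (LinearMap.ker ρ)) c r) :
    ∃ c r, Res 1 ((X - C 1) ^ (0 + 1) * P) (fun u ↦ u.eval 1 ^ (0 + 1) * Δ u) g c r := by
  obtain ⟨z, hz⟩ : ∃ z, ρ z = 1 := by
    obtain ⟨z, hz⟩ := DFunLike.ne_iff.1 hρ
    exact ⟨(ρ z)⁻¹ • z, by simp [show ρ z ≠ 0 from hz]⟩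
  have h1 : ρ (g z) = 1 := by simp [h, hz, h0]
  have e : red h1 = 1 := LinearMap.ext fun x ↦ Subtype.ext (by
    simp [coe_red, h x, LinearMap.mem_ker.1 x.2])
  exact ⟨z, ρ, by simpa using Res.lift one_ne_zero hz h1 (by simp [hz]) (by simp [hz]) (e ▸ base _ _)⟩

theorem res_three_four (h4 : ∀ a b c : F, ∃ x, x ≠ a ∧ x ≠ b ∧ x ≠ c) {l : F} (hl : l ≠ 0)
    (hl1 : l * l ≠ 1) (hV : finrank F V = 3) {g : End F V} (hg : LinearMap.det g = 1)
    (hns : ∀ a : F, g ≠ a • 1) : ∃ c r, Res 1 ((X - C 1) ^ (0 + 1) * ((X - C l) * (X - C l⁻¹)))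
      (fun u ↦ u.eval 1 ^ (0 + 1) * (u.eval l * u.eval l⁻¹)) g c r := by
  rcases res_top h4 (fun V _ _ _ g v c r a1 a2 a3 _ _ _ ↦ res_two_split hl hl1 a1 a2 a3) (m := 0)
    hV hg hns with h | ⟨u, ρ, -, h1, h2, h⟩
  · exact h
  refine res_tv h1 h2 h fun c r ↦ ?_
  have h2 : finrank F (LinearMap.ker ρ) = 2 := by
    have := Module.Dual.finrank_ker_add_one_of_ne_zero h1
    omega
  obtain ⟨T, a1, -, w, a2⟩ := exists_model h2 0
  have e1 : l ≠ 1 := by rintro rfl; simp at hl1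
  exact (res_two_split hl hl1 (c := c) (r := r) h2 a1 a2).one (by simp [sub_eq_zero, e1.symm, e1])

theorem res_three_three (h : ∀ x : F, x = 0 ∨ x = 1 ∨ x = -1) (h2 : (2 : F) ≠ 0)
    (hV : finrank F V = 3) {g : End F V} (hg : LinearMap.det g = 1) (hns : ∀ a : F, g ≠ a • 1) :
    ∃ c r, Res 1 ((X - C 1) ^ (0 + 1) * qp 0)
      (fun u ↦ u.eval 1 ^ (0 + 1) * LinearMap.det (aeval (cmp (0 : F)) u)) g c r := by
  obtain ⟨v, R, hC, hR, hd, f, hf, hfd, hf0⟩ := exists_state hg hns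
  have e := Submodule.finrank_add_eq_of_isCompl hC
  rcases hd.eq_or_lt with hd2 | hd3
  swap
  · obtain rfl : R = ⊥ := Submodule.finrank_eq_zero.1 (by omega)
    obtain ⟨r, hr⟩ := exists_dual_eq_one (F := F) (v := v) fun e ↦ ne_smul_sub hd 0 (by simp [e])
    exact ⟨v, r, res_of_peelSt (t := 0) (no_root_three h h2)
      (fun V _ _ _ g c r a1 a2 ↦ res_base_three h h2 a1 a2 c r) 0 V g v v r ⊥ hV ⟨hg, hC, hR,
        by simp [hr], self_mem_cyc _ _, hd, by simp, Or.inl hd3, Or.inl ⟨1, 0, by simp, by simp⟩⟩⟩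
  obtain ⟨a, b, hab⟩ := exists_quadratic hf (by omega) hf0
  obtain ⟨w, hw0, hw⟩ := finrank_eq_one_iff'.1 (show finrank F R = 1 by omega)
  obtain ⟨β, hβ'⟩ := hw ⟨g w, hR _ w.2⟩
  have hβ : ∀ x ∈ R, g x = β • x := fun x hx ↦ by
    obtain ⟨s, hs⟩ := hw ⟨x, hx⟩
    have e1 : β • (w : V) = g w := congrArg Subtype.val hβ'
    have e2 : s • (w : V) = x := congrArg Subtype.val hs
    rw [← e2, map_smul, ← e1, smul_comm]
  have hy0 : (w : V) ≠ 0 := fun e ↦ hw0 (Subtype.ext e)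
  by_cases h1 : β = 1
  · obtain ⟨u, ρ, -, a1, a2, a3⟩ := exists_tv_of_state hg hC hd hab
      ((Submodule.ne_bot_iff _).2 ⟨w, w.2, hy0⟩) (by simpa [h1] using hβ)
    refine res_tv a1 a2 a3 fun c r ↦ ?_
    have h2' : finrank F (LinearMap.ker ρ) = 2 := by
      have := Module.Dual.finrank_ker_add_one_of_ne_zero a1
      omega
    obtain ⟨T, -, a4, -⟩ := exists_model h2' 0
    exact (res_base_three h h2 h2' a4 c r).one (by rw [eval_qp]; exact no_root_three h h2 1)
  have hinj := inj_of_det hg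
  obtain rfl : β = -1 :=
    ((h β).resolve_left fun e ↦ hy0 (hinj (by simp [hβ w w.2, e]))).resolve_left h1
  obtain rfl : a = b - 1 := by
    have := hab w
    rw [hβ w w.2, map_smul, hβ w w.2] at this
    exact sub_eq_zero.1 ((smul_eq_zero.1 (show (a - (b - 1)) • (w : V) = 0 by
      linear_combination (norm := module) this)).resolve_right hy0)
  have hu : g v + v ≠ 0 := fun e ↦ by
    have := cyc_indep_two hd (a := 1) (b := 1) (by linear_combination (norm := module) e)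
    simp at this
  rcases h b with rfl | rfl | rfl
  · exact absurd (hinj (by rw [map_add, hab]; simp)) hu
  · replace hab : ∀ x, g (g x) = x := by simpa using hab
    obtain ⟨φ, h0, h3⟩ := exists_dual_of_notMem (W := LinearMap.range (g - 1)) (v := g v + v)
      fun ⟨y, hy⟩ ↦ hu ((smul_eq_zero.1 (show (2 : F) • (g v + v) = 0 by
        have := congrArg g hy
        simp only [LinearMap.sub_apply, End.one_apply, map_sub, map_add, hab] at hy this
        linear_combination (norm := module) -hy - this)).resolve_left h2)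
    have h4 : ∀ x, φ (g x) = φ x := fun x ↦ by simpa [sub_eq_zero] using h3 _ ⟨x, rfl⟩
    have h5 : φ (g (g v + v)) = 1 := by rw [h4, h0]
    have h6 : ∀ x, red h5 x = -x := fun x ↦ Subtype.ext (by
      have hx := LinearMap.mem_ker.1 x.2
      rw [coe_red, h4, hx, zero_smul, sub_zero, Submodule.coe_neg]
      obtain ⟨y, hy, z, hz, e'⟩ := Submodule.mem_sup.1 (hC.sup_eq_top ▸ Submodule.mem_top (x := x.1))
      obtain ⟨s, t, rfl⟩ := mem_cyc_of_quadratic (a := 0) (b := 1) (by simpa using hab v) hy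
      have e1 : g x + x = (s + t) • (g v + v) := by
        rw [← e', map_add, map_add, map_smul, map_smul, hab, hβ z hz]; module
      have e2 := congrArg φ e1
      rw [map_add, h4, hx, map_smul, h0, smul_eq_mul, mul_one, zero_add] at e2
      rw [← e2, zero_smul] at e1
      exact eq_neg_of_add_eq_zero_left e1)
    have h2' : finrank F (LinearMap.ker φ) = 2 := by have := finrank_ker_add_one h0; omega
    obtain ⟨T, -, a4, -⟩ := exists_model h2' 0
    have := Res.lift one_ne_zero h0 h5 (h0 ▸ one_ne_zero) (h0 ▸ one_ne_zero)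
      (res_of_irred (no_root_three h h2) h2' a4 (fun x ↦ by simp [h6, a4]) _ _)
    exact ⟨g v + v, φ, by simpa using this⟩
  · have hI : ∀ x ∈ cyc g v, g x ∈ cyc g v := fun _ ↦ apply_mem_cyc
    have hcyc : cyc (g.restrict hI) ⟨v, self_mem_cyc g v⟩ = ⊤ := by
      rw [← comap_cyc (g := g) (cyc g v).subtype (cyc g v).injective_subtype fun _ ↦ rfl]
      simp
    have hq : ∀ x, g.restrict hI (g.restrict hI x) = (-2 : F) • g.restrict hI x - x := fun x ↦
      Subtype.ext (by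
        change g (g x) = (-2 : F) • g x - x
        rw [hab]; module)
    have hd' := det_of_isCompl hC hI hR
    rw [det_restrict_smul hR hβ, hg, CL.GLn.Sim.det (exists_equiv_cmp hd2.symm hcyc hq), det_cmp,
      show finrank F R = 1 by omega] at hd'
    exact absurd (by linear_combination hd') h2

omit [FiniteDimensional F V] in
theorem aeval_cubic {t : F} {T : End F V} : aeval T ((X - C 1) ^ (0 + 1) * qp t) = 0 ↔
    ∀ x, T (T (T x)) = (t + 1) • T (T x) - (t + 1) • T x + x := by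
  rw [LinearMap.ext_iff]
  refine forall_congr' fun x ↦ ?_
  simp only [qp, map_add, map_mul, aeval_C, aeval_X, Algebra.algebraMap_eq_smul_one, pow_two,
    LinearMap.add_apply, End.mul_apply, LinearMap.smul_apply, End.one_apply, LinearMap.zero_apply,
    zero_add, pow_one, map_sub, LinearMap.sub_apply, map_smul]
  exact ⟨fun h ↦ by linear_combination (norm := module) h,
    fun h ↦ by linear_combination (norm := module) h⟩

end

open Matrix

theorem sl_ext {n : ℕ} {A B : SpecialLinearGroup (Fin n) F} (h : toLin' A.1 = toLin' B.1) : A = B :=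
  Subtype.ext (toLin'.injective h)

theorem exists_sl_conj {n : ℕ} {Q : F[X]} (hQ : Q ≠ 0) (hd : Q.natDegree = n)
    (T : SpecialLinearGroup (Fin n) F) {w : Fin n → F} (h1 : cyc (toLin' T.1) w = ⊤)
    (h2 : aeval (toLin' T.1) Q = 0)
    (h3 : ∀ δ : F, δ ≠ 0 → ∃ u : F[X], LinearMap.det (aeval (toLin' T.1) u) = δ)
    {S : End F (Fin n → F)} {w' : Fin n → F} (h4 : cyc S w' = ⊤) (h5 : aeval S Q = 0) :
    ∃ A : SpecialLinearGroup (Fin n) F, toLin' (A * T * A⁻¹).1 = S := by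
  obtain ⟨e, he⟩ := exists_equiv_of_cyc h1 h4 hQ h2 h5 (by simp [hd]) (by simp [hd])
  have he0 : LinearMap.det (e : End F (Fin n → F)) ≠ 0 := (LinearEquiv.isUnit_det' e).ne_zero
  obtain ⟨u, hu⟩ := h3 _ (inv_ne_zero he0)
  let a : End F (Fin n → F) := (e : End F (Fin n → F)) * aeval (toLin' T.1) u
  have ha : LinearMap.det a = 1 := by rw [map_mul, hu, mul_inv_cancel₀ he0]
  let A : SpecialLinearGroup (Fin n) F := ⟨LinearMap.toMatrix' a, by simpa using ha⟩
  refine ⟨A, LinearMap.ext fun x ↦ ?_⟩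
  obtain ⟨y, rfl⟩ := LinearMap.injective_iff_surjective.1 (inj_of_det ha) x
  have e1 : toLin' ((A * T * A⁻¹).1 * A.1) y = toLin' (A.1 * T.1) y := by
    rw [← Matrix.SpecialLinearGroup.coe_mul, inv_mul_cancel_right, Matrix.SpecialLinearGroup.coe_mul]
  simp only [toLin'_mul, LinearMap.comp_apply, show toLin' A.1 = a from toLin'_toMatrix' a] at e1
  rw [e1]
  simp only [a, End.mul_apply, LinearEquiv.coe_coe, aeval_comm_apply, he]

theorem exists_sq_class {t : F} {Δ : F[X] → F} (hΔ : ∀ δ : F, δ ≠ 0 → ∃ u, Δ u = δ) (h1 : Δ X = 1)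
    (h : ∀ g : End F (Fin 3 → F), LinearMap.det g = 1 → (∀ a : F, g ≠ a • 1) →
      ∃ c r, Res 1 ((X - C 1) ^ (0 + 1) * qp t) Δ g c r) :
    ∃ T : SpecialLinearGroup (Fin 3) F, aeval (toLin' T.1) ((X - C 1) ^ (0 + 1) * qp t) = 0 ∧
      ∀ g : SpecialLinearGroup (Fin 3) F, (∀ a : F, g.1 ≠ a • 1) →
        ∃ A B : SpecialLinearGroup (Fin 3) F, g = A * T * A⁻¹ * (B * T * B⁻¹) := by
  have hQ : (X - C 1) ^ (0 + 1) * qp t ≠ 0 :=
    mul_ne_zero (pow_ne_zero _ (X_sub_C_ne_zero _)) (qp_ne_zero t)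
  have hd := natDegree_peel (qp_ne_zero t) (natDegree_qp t) (0 + 1)
  obtain ⟨c, r, D₀, -, ⟨w, a1⟩, -, a2, -, -, a3⟩ := h (toLin' !![1, 1, 0; 0, 1, 0; 0, 0, 1])
    (by simp [det_fin_three]) fun a e ↦ by
      simpa [toLin'_apply, mulVec, dotProduct, Fin.sum_univ_three] using
        congrFun (LinearMap.congr_fun e ![0, 1, 0]) 0
  generalize toLin' !![(1 : F), 1, 0; 0, 1, 0; 0, 0, 1] * D₀ = T₀ at a1 a2 a3
  obtain ⟨T, rfl⟩ : ∃ T : SpecialLinearGroup (Fin 3) F, toLin' T.1 = T₀ :=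
    ⟨⟨LinearMap.toMatrix' T₀, by simpa [h1] using a3 X⟩, toLin'_toMatrix' _⟩
  refine ⟨T, a2, fun g hg ↦ ?_⟩
  obtain ⟨c, r, D, ⟨w₁, b1⟩, ⟨w₂, b2⟩, b3, b4, -⟩ := h (toLin' g.1) (by simp)
    fun a e ↦ hg a (toLin'.injective (by rw [e, map_smul, toLin'_one]; rfl))
  obtain ⟨D, rfl⟩ := isUnit_of_aeval b3 (by simp [eval_qp])
  have key := fun {S w'} ↦ exists_sl_conj hQ hd T a1 a2 (fun δ hδ ↦ by simpa only [a3] using hΔ δ hδ)
    (S := S) (w' := w')
  obtain ⟨A, hA⟩ := key b2 b4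
  have hD : ∀ x, D.val ((D⁻¹).val x) = x := fun x ↦ by rw [← End.mul_apply, D.mul_inv]; rfl
  have hE : aeval (D⁻¹).val ((X - C 1) ^ (0 + 1) * qp t) = 0 := aeval_cubic.2 fun x ↦ by
    have := aeval_cubic.1 b3 ((D⁻¹).val ((D⁻¹).val ((D⁻¹).val x)))
    simp only [hD] at this
    generalize (D⁻¹).val = E at this ⊢
    linear_combination (norm := module) -this
  obtain ⟨B, hB⟩ := key (cyc_inv D.mul_inv b1) hE
  refine ⟨A, B, sl_ext (LinearMap.ext fun x ↦ ?_)⟩
  rw [Matrix.SpecialLinearGroup.coe_mul, toLin'_mul, hA, hB, LinearMap.comp_apply, End.mul_apply, hD]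

theorem pow_eq_one_of_dvd {n N : ℕ} {T : SpecialLinearGroup (Fin n) F} {Q : F[X]}
    (h : aeval (toLin' T.1) Q = 0) (hd : Q ∣ X ^ N - 1) : T ^ N = 1 := by
  obtain ⟨p, hp⟩ := hd
  have := congrArg (aeval (toLin' T.1)) hp
  rw [map_mul, h, zero_mul, map_sub, map_pow, aeval_X, map_one, sub_eq_zero] at this
  refine sl_ext ?_
  rw [Matrix.SpecialLinearGroup.coe_pow, toLin'_pow, this, Matrix.SpecialLinearGroup.coe_one,
    toLin'_one]
  rfl

theorem exists_sq_class_three [Fintype F] (h3 : 3 ≤ Fintype.card F) :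
    ∃ (T : SpecialLinearGroup (Fin 3) F) (N : ℕ), (N : F) ≠ 0 ∧ T ^ N = 1 ∧
      ∀ g : SpecialLinearGroup (Fin 3) F, (∀ a : F, g.1 ≠ a • 1) →
        ∃ A B : SpecialLinearGroup (Fin 3) F, g = A * T * A⁻¹ * (B * T * B⁻¹) := by
  have hq := FiniteField.cast_card_eq_zero F
  rcases h3.eq_or_lt with h3 | h4
  · have h := (four_or_small F).2 (by omega)
    rw [← h3] at hq
    have h2 : (2 : F) ≠ 0 := fun e ↦ one_ne_zero (α := F) (by push_cast at hq; linear_combination hq - e)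
    obtain ⟨T, h5, h6⟩ := exists_sq_class (fun δ hδ ↦ exists_det_three h h2 (0 + 1) hδ)
      (by simp [det_cmp]) fun g ↦ res_three_three h h2 (by simp)
    refine ⟨T, 4, fun e ↦ one_ne_zero (α := F) (by push_cast at hq e; linear_combination e - hq),
      pow_eq_one_of_dvd h5 ⟨X + 1, ?_⟩, h6⟩
    simp only [qp, map_one, neg_zero, map_zero]
    ring
  · have h := (four_or_small F).1 h4
    obtain ⟨l, hl, hl1⟩ := exists_split_elt h
    obtain ⟨T, h5, h6⟩ := exists_sq_class (t := l + l⁻¹) (fun δ _ ↦ exists_split_det hl hl1 (0 + 1) δ)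
      (by simp [hl]) fun g ↦ split_eq_qp hl ▸ res_three_four h hl hl1 (by simp)
    refine ⟨T, Fintype.card F - 1, by rw [Nat.cast_pred (by omega), hq]; simp,
      pow_eq_one_of_dvd h5 ?_, h6⟩
    have e1 : l ≠ 1 := by rintro rfl; simp at hl1
    have e2 : l ≠ l⁻¹ := fun e ↦ hl1 (by nth_rw 2 [e]; exact mul_inv_cancel₀ hl)
    have hc : ∀ {a b : F}, a ≠ b → IsCoprime (X - C a) (X - C b) := fun hab ↦
      isCoprime_X_sub_C_of_isUnit_sub (sub_ne_zero.2 hab).isUnit
    have hr : ∀ {a : F}, a ≠ 0 → X - C a ∣ X ^ (Fintype.card F - 1) - 1 := fun ha ↦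
      dvd_iff_isRoot.2 (by simp [FiniteField.pow_card_sub_one_eq_one _ ha])
    rw [← split_eq_qp hl, zero_add, pow_one]
    exact ((hc e1.symm).mul_right (hc (by simpa using e1))).mul_dvd (hr one_ne_zero)
      ((hc e2).mul_dvd (hr hl) (hr (inv_ne_zero hl)))

end CL.SLn
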