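import Cfsg.Agent.Cls.SpExt2
import Cfsg.Agent.Cls.SLnTv

set_option autoImplicit false

/-!
Overgroups of `GL_d(K) ∩ SL_{dr}(F)` in `GL_{dr}(F)` for a finite extension `K / F` of prime degree `r`, `d ≥ 2`,
part 1: the unipotent radical of the stabiliser of a `K`-line.
-/

namespace CL.Sp

open Module CL.SLn

variable {F K V : Type*} [Field F] [Field K] [Algebra F K] [AddCommGroup V] [Module F V] [Module K V]
  [IsScalarTower F K V]

/-- An additive subgroup stable under the elements of norm one is stable under all of `K`. -/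
theorem mul_mem_of_norm_one [Finite K] (hp : (finrank F K).Prime) {E : Subring K}
    (h : ∀ μ : K, Algebra.norm F μ = 1 → μ ∈ E) (μ : K) : μ ∈ E := by
  have : Finite F := Finite.of_injective _ (algebraMap F K).injective
  obtain ⟨σ, hσ⟩ : ∃ σ : K ≃ₐ[F] K, σ ≠ 1 := by
    have := IsGalois.card_aut_eq_finrank F K
    have : Nontrivial (K ≃ₐ[F] K) := Finite.one_lt_card_iff_nontrivial.1 (this ▸ hp.one_lt)
    exact exists_ne 1
  have hinv : ∀ a ∈ E, a⁻¹ ∈ E := fun a ha => by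
    by_cases h0 : a = 0
    · rw [h0, inv_zero]; exact zero_mem E
    let φ : E → E := fun x => ⟨a * x, mul_mem ha x.2⟩
    have hinj : Function.Injective φ := fun x y e => Subtype.ext (mul_left_cancel₀ h0 (congrArg Subtype.val e))
    obtain ⟨x, hx⟩ := Finite.injective_iff_surjective.1 hinj 1
    rw [← eq_inv_of_mul_eq_one_right (congrArg Subtype.val hx)]
    exact x.2
  have hq : ∀ x : K, x ≠ 0 → σ x / x ∈ E := fun x hx => h _ (by
    rw [div_eq_mul_inv, map_mul, Algebra.norm_eq_of_algEquiv, ← map_mul, mul_inv_cancel₀ hx, map_one])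
  have key : ∀ x : K, σ x ≠ x → x ∈ E := fun x hx => by
    have h0 : x ≠ 0 := fun e => hx (by simp [e])
    have h1 : x + 1 ≠ 0 := fun e => hx (by rw [eq_neg_of_add_eq_zero_left e]; simp)
    have h2 : σ x / x - σ (x + 1) / (x + 1) = (σ x - x) / (x * (x + 1)) := by rw [map_add, map_one]; field_simp; ring
    have h3 : σ (x + 1) / (x + 1) - 1 = (σ x - x) / (x + 1) := by rw [map_add, map_one]; field_simp; ring
    have := mul_mem (sub_mem (hq _ h1) (one_mem E)) (hinv _ (sub_mem (hq _ h0) (hq _ h1)))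
    rw [h2, h3] at this
    convert this using 1
    have := sub_ne_zero.2 hx
    field_simp
  by_cases hμ : σ μ = μ
  · obtain ⟨x, hx⟩ : ∃ x, σ x ≠ x := by
      by_contra hc
      push Not at hc
      exact hσ (AlgEquiv.ext hc)
    simpa using sub_mem (key (μ + x) (by rw [map_add, hμ]; simpa using hx)) (key x hx)
  · exact key μ hμ

theorem exists_kdual [FiniteDimensional F K] {τ : K →ₗ[F] F} (hτ : τ ≠ 0) (φ : Dual F V) :
    ∃ χ : Dual K V, ∀ x, φ x = τ (χ x) := by
  let β : K →ₗ[F] Dual F K := (LinearMap.mul F K).flip.compr₂ τ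
  have hβ : Function.Injective β := by
    rw [← LinearMap.ker_eq_bot, eq_bot_iff]
    intro a ha
    exact tau_eq_zero hτ fun k => LinearMap.congr_fun (LinearMap.mem_ker.1 ha) k
  have hs : Function.Surjective β :=
    (LinearMap.injective_iff_surjective_of_finrank_eq_finrank (by simp)).1 hβ
  have hex : ∀ x : V, ∃ c : K, ∀ k : K, τ (k * c) = φ (k • x) := fun x => by
    obtain ⟨c, hc⟩ := hs (φ ∘ₗ (LinearMap.toSpanSingleton K V x).restrictScalars F)
    exact ⟨c, fun k => LinearMap.congr_fun hc k⟩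
  choose c hc using hex
  have ext : ∀ a b : K, (∀ k, τ (k * a) = τ (k * b)) → a = b := fun a b h =>
    sub_eq_zero.1 (tau_eq_zero hτ fun k => by rw [mul_sub, map_sub, h, sub_self])
  refine ⟨⟨⟨c, fun x y => ext _ _ fun k => by rw [mul_add, map_add, hc, hc, hc, smul_add, map_add]⟩,
    fun a x => ext _ _ fun k => by rw [RingHom.id_apply, smul_eq_mul, ← mul_assoc, hc, hc, smul_smul]⟩, fun x => ?_⟩
  have := hc x 1
  rw [one_mul, one_smul] at this
  exact this.symm

variable (K) in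
/-- `M` contains the `K`-dilatransvections whose determinant has norm one, and `dim_K V ≥ 2`. -/
structure LinData (M : Subgroup (V ≃ₗ[F] V)) : Prop where
  dil : ∀ (χ : Dual K V) (v : V), Algebra.norm F (1 + χ v) = 1 → ∃ g ∈ M, ∀ x, g x = x + χ x • v
  two : ∀ v : V, ∃ y, y ∉ Submodule.span K {v}

variable (K) in
/-- The part of `M` in the unipotent radical of the stabiliser of the line `K v`. -/
def NS (M : Subgroup (V ≃ₗ[F] V)) (v : V) : AddSubgroup (V →ₗ[F] K) where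
  carrier := {S | (∀ k : K, S (k • v) = 0) ∧ ∃ m ∈ M, ∀ x, m x = x + S x • v}
  add_mem' := by
    rintro S S' ⟨h1, m, hm, e⟩ ⟨h1', m', hm', e'⟩
    refine ⟨fun k => by simp [h1, h1'], m * m', mul_mem hm hm', fun x => ?_⟩
    rw [LinearEquiv.mul_apply, e, e', map_add, h1, add_zero, LinearMap.add_apply, add_smul]; abel
  zero_mem' := ⟨fun _ => rfl, 1, one_mem M, fun x => by simp⟩
  neg_mem' := by
    rintro S ⟨h1, m, hm, e⟩
    refine ⟨fun k => by simp [h1], m⁻¹, inv_mem hm, fun x => m.injective ?_⟩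
    rw [apply_inv_apply, e, map_add, h1, LinearMap.neg_apply]; simp

theorem conj_mem_NS {M : Subgroup (V ≃ₗ[F] V)} {v : V} {S S' : V →ₗ[F] K} (hS : S ∈ NS K M v) {g : V ≃ₗ[F] V}
    (hg : g ∈ M) (h0 : ∀ k : K, S' (k • v) = 0) (h : ∀ x, g (S x • v) = S' (g x) • v) : S' ∈ NS K M v := by
  obtain ⟨-, m, hm, e⟩ := hS
  refine ⟨h0, g * m * g⁻¹, mul_mem (mul_mem hg hm) (inv_mem hg), fun x => ?_⟩
  rw [LinearEquiv.mul_apply, LinearEquiv.mul_apply, e, map_add, h, apply_inv_apply]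

theorem comp_mem_NS {M : Subgroup (V ≃ₗ[F] V)} {v : V} {S : V →ₗ[F] K} (hS : S ∈ NS K M v) {g : V ≃ₗ[F] V}
    (hg : g ∈ M) (h0 : ∀ k : K, g (k • v) = k • v) : S ∘ₗ (g : V →ₗ[F] V) ∈ NS K M v :=
  conj_mem_NS hS (inv_mem hg) (fun k => by simp [h0, hS.1]) fun x => by
    rw [← h0, inv_apply_apply]; simp [apply_inv_apply]

/-- An `F`-functional viewed as a `K`-valued map. -/
def kval (K : Type*) [Field K] [Algebra F K] (φ : Dual F V) : V →ₗ[F] K := Algebra.linearMap F K ∘ₗ φ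

omit [Module K V] [IsScalarTower F K V] in
theorem kval_apply (φ : Dual F V) (x : V) : kval K φ x = algebraMap F K (φ x) := rfl

namespace LinData

variable {M : Subgroup (V ≃ₗ[F] V)}

theorem tv (D : LinData K M) {χ : Dual K V} {v : V} (h : χ v = 0) : ∃ g ∈ M, ∀ x, g x = x + χ x • v :=
  D.dil χ v (by simp [h])

theorem move (D : LinData K M) {x y : V} (hx : x ≠ 0) (hy : y ≠ 0) :
    ∃ g ∈ M, (∀ (k : K) x, g (k • x) = k • g x) ∧ g x = y := by
  have key : ∀ x y : V, x ≠ 0 → y ∉ Submodule.span K {x} →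
      ∃ g ∈ M, (∀ (k : K) x, g (k • x) = k • g x) ∧ g x = y := fun x y hx hy => by
    obtain ⟨χ, h1, h2⟩ := exists_dual_pair (F := K) (u := y - x) (v := x) fun c e => hy (by
      have hc : c ≠ 0 := fun e' => hx (by rw [← e, e', zero_smul])
      refine Submodule.mem_span_singleton.2 ⟨c⁻¹ + 1, ?_⟩
      rw [add_smul, one_smul]
      nth_rewrite 1 [← e]
      rw [inv_smul_smul₀ hc, sub_add_cancel])
    obtain ⟨g, hg, e⟩ := D.tv h2
    exact ⟨g, hg, fun k w => by simp [e, smul_smul], by simp [e, h1]⟩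
  by_cases h : y ∈ Submodule.span K {x}
  · obtain ⟨z, hz⟩ := D.two x
    obtain ⟨g, hg, a, b⟩ := key x z hx hz
    obtain ⟨g', hg', a', b'⟩ := key y z hy fun e => hz (Submodule.span_le.2 (by simpa using h) e)
    refine ⟨g'⁻¹ * g, mul_mem (inv_mem hg') hg, fun k w => g'.injective ?_, ?_⟩
    · rw [a', LinearEquiv.mul_apply, LinearEquiv.mul_apply, apply_inv_apply, apply_inv_apply, a]
    · rw [LinearEquiv.mul_apply, b, ← b', inv_apply_apply]
  · exact key x y hx h

theorem kdual_mem_NS (D : LinData K M) {χ : Dual K V} {v : V} (h : χ v = 0) :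
    χ.restrictScalars F ∈ NS K M v := ⟨fun k => by simp [h], D.tv h⟩

theorem smul_mem_NS [Finite K] (D : LinData K M) (hp : (finrank F K).Prime) {v : V} (hv : v ≠ 0)
    {S : V →ₗ[F] K} (hS : S ∈ NS K M v) (μ : K) : μ • S ∈ NS K M v := by
  let E : Subring K :=
    { carrier := {μ | ∀ S ∈ NS K M v, μ • S ∈ NS K M v}
      mul_mem' := fun ha hb S hS => by rw [mul_smul]; exact ha _ (hb S hS)
      one_mem' := fun S hS => by rwa [one_smul]
      add_mem' := fun ha hb S hS => by rw [add_smul]; exact add_mem (ha S hS) (hb S hS)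
      zero_mem' := fun S _ => by rw [zero_smul]; exact zero_mem _
      neg_mem' := fun {a} ha S hS => by rw [show -a • S = -(a • S) from neg_smul a S]; exact neg_mem (ha S hS) }
  refine mul_mem_of_norm_one hp (E := E) (fun μ hμ S hS => ?_) μ S hS
  obtain ⟨ψ, hψ⟩ := exists_dual_eq_one (F := K) hv
  obtain ⟨g, hg, e⟩ := D.dil ((μ - 1) • ψ) v (by simpa [hψ] using hμ)
  refine conj_mem_NS hS hg (fun k => by simp [hS.1]) fun x => ?_
  rw [e, e, LinearMap.smul_apply μ S, map_add, hS.1]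
  simp only [map_smul, LinearMap.smul_apply, hψ, smul_eq_mul]
  module

theorem mem_NS_of_smul [Finite K] (D : LinData K M) (hp : (finrank F K).Prime) {v : V} (hv : v ≠ 0)
    {S : V →ₗ[F] K} {μ : K} (hμ : μ ≠ 0) (hS : μ • S ∈ NS K M v) : S ∈ NS K M v := by
  simpa [inv_smul_smul₀ hμ] using D.smul_mem_NS hp hv hS μ⁻¹

/-- Right multiplication. -/
theorem of_forall_comp [Finite K] (D : LinData K M) (hp : (finrank F K).Prime) {v y : V} {χ : Dual K V}
    (h1 : χ v = 0) (h2 : χ y = 1) {P : K → Prop} (h0 : P 0) (hadd : ∀ a b, P a → P b → P (a + b))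
    (hneg : ∀ a, P a → P (-a))
    (h : ∀ g ∈ M, (∀ k : K, g (k • v) = k • v) → ∀ μ : K, (∀ x, χ (g x) = μ * χ x) → ∀ a, P a → P (μ * a))
    {a : K} (ha : P a) (μ : K) : P (μ * a) := by
  let E : Subring K :=
    { carrier := {μ | ∀ a, P a → P (μ * a)}
      mul_mem' := fun ha hb S hS => by rw [mul_assoc]; exact ha _ (hb S hS)
      one_mem' := fun S hS => by rwa [one_mul]
      add_mem' := fun ha hb S hS => by rw [add_mul]; exact hadd _ _ (ha S hS) (hb S hS)
      zero_mem' := fun S _ => by rw [zero_mul]; exact h0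
      neg_mem' := fun ha S hS => by rw [neg_mul]; exact hneg _ (ha S hS) }
  refine mul_mem_of_norm_one hp (E := E) (fun μ hμ => ?_) μ a ha
  obtain ⟨g, hg, e⟩ := D.dil ((μ - 1) • χ) y (by simpa [h2] using hμ)
  exact h g hg (fun k => by simp [e, h1]) μ fun x => by simp [e, h2]; ring

theorem kval_mem_NS [Finite K] (D : LinData K M) (hp : (finrank F K).Prime) {v : V} {φ : Dual F V} (hφ : φ ≠ 0)
    (h : kval K φ ∈ NS K M v) (φ' : Dual F V) (h' : ∀ k : K, φ' (k • v) = 0) : kval K φ' ∈ NS K M v := by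
  obtain ⟨τ, hτ⟩ : ∃ τ : K →ₗ[F] F, τ ≠ 0 := exists_ne 0
  obtain ⟨χ, e⟩ := exists_kdual hτ φ
  obtain ⟨χ', e'⟩ := exists_kdual hτ φ'
  have h1 : χ v = 0 := tau_eq_zero hτ fun k => by
    rw [← smul_eq_mul, ← map_smul, ← e]; exact (map_eq_zero (algebraMap F K)).1 (h.1 k)
  have h1' : χ' v = 0 := tau_eq_zero hτ fun k => by rw [← smul_eq_mul, ← map_smul, ← e', h']
  obtain ⟨y, hy⟩ : ∃ y, χ y = 1 := by
    obtain ⟨y, hy⟩ : ∃ y, χ y ≠ 0 := by
      by_contra hc
      push Not at hc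
      exact hφ (LinearMap.ext fun x => by rw [e, hc, map_zero]; rfl)
    exact ⟨(χ y)⁻¹ • y, by simp [inv_mul_cancel₀ hy]⟩
  let A : Dual K V → (V →ₗ[F] K) := fun ψ => kval K (τ ∘ₗ ψ.restrictScalars F)
  have A1 : ∀ ψ ψ', A (ψ + ψ') = A ψ + A ψ' := fun ψ ψ' => by ext x; simp [A, kval_apply]
  have A2 : ∀ ψ, A (-ψ) = - A ψ := fun ψ => by ext x; simp [A, kval_apply]
  have k1 : ∀ μ : K, A (μ • χ) ∈ NS K M v := fun μ => by
    have := D.of_forall_comp hp h1 hy (P := fun a => A (a • χ) ∈ NS K M v)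
      (by convert zero_mem (NS K M v) using 1; ext x; simp [A, kval_apply])
      (fun a b ha hb => by rw [add_smul, A1]; exact add_mem ha hb)
      (fun a ha => by rw [show -a • χ = -(a • χ) from neg_smul a χ, A2]; exact neg_mem ha)
      (fun g hg h2 μ h3 a ha => by
        convert comp_mem_NS ha hg h2 using 1
        ext x; simp [A, kval_apply, h3, mul_assoc, mul_left_comm])
      (a := 1) (by convert h using 1; ext x; simp [A, kval_apply, e]) μ
    rwa [mul_one] at this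
  have k2 : A (χ' - χ' y • χ) ∈ NS K M v := by
    obtain ⟨g, hg, e2⟩ := D.tv (χ := χ' - χ' y • χ) (v := y) (by simp [hy])
    have := sub_mem (comp_mem_NS (k1 1) hg fun k => by simp [e2, h1, h1']) (k1 1)
    convert this using 1
    ext x; simp [A, kval_apply, e2, hy]
  convert add_mem k2 (k1 (χ' y)) using 1
  rw [← A1, sub_add_cancel]
  ext x; simp [A, kval_apply, e']

theorem centers_eq_top [Finite K] (D : LinData K M) (hp : (finrank F K).Prime) {v : V} (hv : v ≠ 0)
    {φ : Dual F V} (hφ : φ ≠ 0) (h : kval K φ ∈ NS K M v) : centers F V M = ⊤ := by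
  have k1 : ∀ (k : K) (φ' : Dual F V), (∀ k : K, φ' (k • v) = 0) → Tv M (k • v) φ' := fun k φ' h' => by
    obtain ⟨-, m, hm, e⟩ := D.smul_mem_NS hp hv (D.kval_mem_NS hp hφ h φ' h') k
    refine ⟨h' k, m, hm, fun x => ?_⟩
    rw [LinearEquiv.smul_def, e, LinearMap.smul_apply, kval_apply, smul_eq_mul, mul_comm, mul_smul, algebraMap_smul]
  have k2 : ∀ w, w ≠ 0 → ∀ φ' : Dual F V, (∀ k : K, φ' (k • w) = 0) → Tv M w φ' := fun w hw φ' h' => by
    obtain ⟨g, hg, a, rfl⟩ := D.move hv hw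
    have := (k1 1 (φ' ∘ₗ (g : V →ₗ[F] V)) fun k => by simp [a, h']).conj' hg (ψ := φ') fun x => rfl
    rwa [one_smul] at this
  refine eq_top_iff.2 fun z _ => mem_centers.2 fun ψ hψ => ?_
  by_cases hz : z = 0
  · rw [hz]; exact Tv.zero_left
  obtain ⟨w, hw⟩ := D.two z
  have hw0 : w ≠ 0 := fun e => hw (by simp [e])
  obtain ⟨φ₁, a1, a2⟩ := exists_dual_of_notMem (F := F) (W := kline F K z) (mt mem_kline_iff_span.1 hw)
  obtain ⟨χ, b1, b2⟩ := exists_dual_pair (F := K) (u := w) (v := z) fun c e => hw (by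
    have hc : c ≠ 0 := fun e' => hz (by rw [← e, e', zero_smul])
    exact Submodule.mem_span_singleton.2 ⟨c⁻¹, by rw [← e, inv_smul_smul₀ hc]⟩)
  let ψ₁ : Dual F V := ψ ∘ₗ (LinearMap.toSpanSingleton K V z).restrictScalars F ∘ₗ χ.restrictScalars F
  have c1 : ∀ x, ψ₁ x = ψ (χ x • z) := fun x => rfl
  have t1 := (k2 z hz φ₁ fun k => a2 _ (smul_mem_kline k z)).comm (k2 w hw0 ψ₁ fun k => by simp [c1, b2])
    (by simp [c1, b1, hψ])
  rw [a1, one_smul] at t1
  simpa using t1.add_right (k2 z hz (ψ - ψ₁) fun k => by simp [c1, b1])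

variable [FiniteDimensional F V]

theorem hyper (D : LinData K M) (hp : (finrank F K).Prime) {v : V} {W : Submodule F V}
    (h : MaxMeet M (kline F K v) W) {y₁ : V} (hy : y₁ ∈ W) (hy' : y₁ ∉ kline F K v) :
    ∀ y ∈ W, ∃ t : F, y - t • y₁ ∈ kline F K v := by
  obtain ⟨hA0, hA1⟩ := ExtData.kcoef_ne h
  have key : ∀ χ : Dual K V, χ v = 0 → χ y₁ ∈ kcoef K W v → ∀ y ∈ W, χ y ∈ kcoef K W v := fun χ h0 h2 y hyW => by
    obtain ⟨g, hg, e⟩ := D.tv h0
    have := h.apply_mem hg (fun z hz => by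
      obtain ⟨a, ha⟩ := mem_kline.1 hz.2
      rw [e, ← ha, map_smul, h0, smul_zero, zero_smul, add_zero, ha]
      exact hz.1) hy hy' (by rw [e]; exact add_mem hy h2) y hyW
    rw [e] at this
    exact (W.add_mem_iff_right hyW).1 this
  intro y hyW
  have hs : y ∈ Submodule.span K {v, y₁} := by
    by_contra hn
    obtain ⟨χ, hyx, hx⟩ := exists_dual_of_notMem hn
    have a1 : χ v = 0 := hx v (Submodule.subset_span (by simp))
    have a2 : χ y₁ = 0 := hx y₁ (Submodule.subset_span (by simp))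
    refine hA1 (eq_top_iff.2 fun c _ => ?_)
    simpa [hyx] using key (c • χ) (by simp [a1]) (by simp [a2]) y hyW
  obtain ⟨α, β, rfl⟩ := Submodule.mem_span_pair.1 hs
  obtain ⟨χ, hyx, hx⟩ := exists_dual_of_notMem (mt mem_kline_iff_span.2 hy')
  have a1 : χ v = 0 := hx v (Submodule.mem_span_singleton_self v)
  obtain ⟨t, ht⟩ := exists_algebraMap_of_mul_mem hp hA0 hA1 (β := β) fun a ha => by
    simpa [a1, hyx] using key (a • χ) (by simp [a1]) (by simpa [hyx] using ha) _ hyW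
  exact ⟨t, by rw [← algebraMap_smul K t y₁, ht, add_sub_cancel_right]; exact smul_mem_kline α v⟩

omit [FiniteDimensional F V] in
theorem exists_elation (D : LinData K M) {v : V} {W : Submodule F V} (hW : W ∈ Orb M (kline F K v)) {x₀ : V}
    (hx : x₀ ∉ W) {w : V} (hw : w ∈ W) : ∃ t ∈ M, t x₀ = x₀ + w ∧ (∀ x, t x - x ∈ W) ∧ (∀ x ∈ W, t x = x) ∧
      (w ≠ 0 → (∀ χ : Dual K V, χ ≠ 0 → χ v = 0 → ∀ x, χ x = 0 → x ∈ kline F K v) → ∀ x, t x = x → x ∈ W) := by
  obtain ⟨g, hg, rfl⟩ := hW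
  obtain ⟨_, ⟨a, rfl⟩, rfl⟩ := hw
  obtain ⟨χ, h1, h2⟩ := exists_dual_of_notMem (F := K) (W := Submodule.span K {v}) (v := g⁻¹ x₀) fun e =>
    hx ⟨_, mem_kline_iff_span.2 e, apply_inv_apply g x₀⟩
  have h3 : χ v = 0 := h2 v (Submodule.mem_span_singleton_self v)
  obtain ⟨u, hu, e⟩ := D.tv (χ := a • χ) (v := v) (by simp [h3])
  have e1 : ∀ x, (g * u * g⁻¹) x = x + g ((a * χ (g⁻¹ x)) • v) := fun x => by
    rw [LinearEquiv.mul_apply, LinearEquiv.mul_apply, e, map_add, apply_inv_apply]; rfl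
  refine ⟨g * u * g⁻¹, mul_mem (mul_mem hg hu) (inv_mem hg), by rw [e1, h1, mul_one]; rfl, fun x => ?_, ?_,
    fun h4 h5 x h6 => ?_⟩
  · rw [e1, add_sub_cancel_left]
    exact Submodule.mem_map_of_mem (smul_mem_kline _ v)
  · rintro _ ⟨_, ⟨b, rfl⟩, rfl⟩
    change (g * u * g⁻¹) (g (b • v)) = g (b • v)
    rw [e1, inv_apply_apply]; simp [h3]
  · rw [e1, add_eq_left, map_eq_zero_iff _ g.injective, smul_eq_zero, mul_eq_zero] at h6
    have h7 : χ (g⁻¹ x) = 0 := by
      rcases h6 with (h | h) | h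
      · exact (h4 (by simp [h])).elim
      · exact h
      · exact (h4 (by simp [h])).elim
    exact ⟨_, h5 χ (fun e => by simp [e] at h1) h3 _ h7, apply_inv_apply g x⟩

end LinData

end CL.Sp
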