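import Cfsg.Agent.Cls.SLExt

set_option autoImplicit false

/-!
Overgroups of `GL_d(K) ∩ SL_{dr}(F)` in `GL_{dr}(F)` for a finite extension `K / F` of prime degree `r`, `d ≥ 2`,
part 2: such an overgroup is `K`-semilinear or contains `SL_{dr}(F)`.
-/

namespace CL.Sp

open Module CL.SLn

variable {F K V : Type*} [Field F] [Field K] [Algebra F K] [AddCommGroup V] [Module F V] [Module K V]
  [IsScalarTower F K V]

/-- A linear map preserving the spread of `K`-lines is `K`-semilinear. -/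
theorem semilinear_of_spread' (two : ∀ v : V, ∃ y, y ∉ Submodule.span K {v}) {g : V ≃ₗ[F] V}
    (h : ∀ v, (kline F K v).map (g : V →ₗ[F] V) = kline F K (g v)) (k : K) :
    ∃ k' : K, ∀ x, g (k • x) = k' • g x := by
  have h1 : ∀ x, ∃ l : K, g (k • x) = l • g x := fun x => by
    obtain ⟨l, hl⟩ := mem_kline.1 (h x ▸ Submodule.mem_map_of_mem (smul_mem_kline k x) : g (k • x) ∈ kline F K (g x))
    exact ⟨l, hl.symm⟩
  choose l hl using h1
  have h2 : ∀ x y, x ≠ 0 → y ∉ kline F K x → l x = l y := fun x y hx hy => by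
    have hi : ∀ s t : K, s • g x + t • g y = 0 → s = 0 ∧ t = 0 := fun s t e => by
      have ht : t = 0 := by
        by_contra ht
        have : g y ∈ kline F K (g x) := ⟨-s / t, by
          change (-s / t) • g x = g y
          rw [← smul_right_injective V ht |>.eq_iff]
          simp only [smul_smul, mul_div_cancel₀ _ ht, neg_smul]
          exact neg_eq_of_add_eq_zero_right e⟩
        rw [← h x] at this
        obtain ⟨x', hx', e'⟩ := this
        exact hy (g.injective e' ▸ hx')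
      rw [ht, zero_smul, add_zero, smul_eq_zero] at e
      exact ⟨e.resolve_right (by simpa using hx), ht⟩
    have e := hl (x + y)
    rw [smul_add, map_add, map_add, hl, hl, smul_add] at e
    obtain ⟨a, b⟩ := hi (l x - l (x + y)) (l y - l (x + y)) (by rw [sub_smul, sub_smul, sub_add_sub_comm, e, sub_self])
    linear_combination a - b
  obtain ⟨x₀, hx₀⟩ := two 0
  have hx0 : x₀ ≠ 0 := fun e => hx₀ (by simp [e])
  refine ⟨l x₀, fun x => ?_⟩
  by_cases hx : x = 0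
  · rw [hx]; simp
  by_cases hxx : x₀ ∈ kline F K x
  · obtain ⟨y, hy⟩ := two x
    rw [hl, h2 x y hx (mt mem_kline_iff_span.1 hy), h2 x₀ y hx0 fun e =>
      hy (Submodule.span_le.2 (by simpa using mem_kline_iff_span.1 hxx) (mem_kline_iff_span.1 e))]
  · rw [hl, h2 x x₀ hx hxx]

namespace LinData

variable {M : Subgroup (V ≃ₗ[F] V)}

theorem key_mem (D : LinData K M) {v y₀ : V} {f : K →ₗ[F] F} {ζ : K} {ρ : Dual F V} {t : V ≃ₗ[F] V} (ht : t ∈ M)
    (h1 : ∀ k : K, t (k • v) = (k + algebraMap F K (f k) * ζ) • v) (h2 : ∀ k : K, ρ (k • v) = 0)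
    (h3 : ∀ x, ∃ k : K, t x = x + k • v + ρ x • y₀) (h4 : ρ y₀ = 0) {χ : Dual K V} (hχ : χ v = 0) :
    ζ • kval K (f ∘ₗ χ.restrictScalars F) - (χ y₀ + algebraMap F K (f (χ y₀)) * ζ) • kval K ρ ∈ NS K M v := by
  refine (AddSubgroup.add_mem_cancel_left _ (D.kdual_mem_NS hχ)).1 (conj_mem_NS (D.kdual_mem_NS hχ) ht
    (fun k => by simp [kval_apply, hχ, h2]) fun x => ?_)
  obtain ⟨k, hk⟩ := h3 x
  rw [h1, hk]
  congr 1
  have e : χ (ρ x • y₀) = ρ x • χ y₀ := (χ.restrictScalars F).map_smul _ _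
  simp only [LinearMap.add_apply, LinearMap.sub_apply, LinearMap.smul_apply, kval_apply, LinearMap.comp_apply,
    LinearMap.restrictScalars_apply, map_add, map_smul χ, map_smul ρ, map_smul f, e, hχ, h2, h4, smul_eq_mul,
    map_mul, mul_zero, add_zero, map_zero]
  rw [Algebra.smul_def]
  ring

theorem elim [Finite K] (D : LinData K M) (hp : (finrank F K).Prime) {v y₀ : V} (hv : v ≠ 0) {f : K →ₗ[F] F}
    (hf : f ≠ 0) {ζ : K} (hζ : ζ ≠ 0) {R : V →ₗ[F] K} {χ : Dual K V} (h1 : χ v = 0) (h2 : χ y₀ = 1)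
    (h : ∀ c : K, ζ • kval K (f ∘ₗ (c • χ).restrictScalars F) - (c + algebraMap F K (f c) * ζ) • R ∈ NS K M v) :
    centers F V M = ⊤ ∨ ∀ a b μ : K, (μ * a + algebraMap F K (f (μ * a)) * ζ) * (b + algebraMap F K (f b) * ζ) =
      (a + algebraMap F K (f a) * ζ) * (μ * b + algebraMap F K (f (μ * b)) * ζ) := by
  let T : K → K := fun c => c + algebraMap F K (f c) * ζ
  let A : K → (V →ₗ[F] K) := fun c => kval K (f ∘ₗ (c • χ).restrictScalars F)
  have A1 : ∀ a b, A (a + b) = A a + A b := fun a b => by ext x; simp [A, kval_apply, add_mul]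
  have A2 : ∀ a, A (-a) = - A a := fun a => by ext x; simp [A, kval_apply]
  have k1 : ∀ a b, T b • A a - T a • A b ∈ NS K M v := fun a b => by
    refine D.mem_NS_of_smul hp hv hζ ?_
    convert sub_mem (D.smul_mem_NS hp hv (h a) (T b)) (D.smul_mem_NS hp hv (h b) (T a)) using 1
    module
  have k2 : ∀ a b μ, T b • A (μ * a) - T a • A (μ * b) ∈ NS K M v := fun a b μ => by
    have := D.of_forall_comp hp h1 h2 (P := fun μ => T b • A (μ * a) - T a • A (μ * b) ∈ NS K M v)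
      (by convert zero_mem (NS K M v) using 1; ext x; simp [A, kval_apply])
      (fun c d hc hd => by convert add_mem hc hd using 1; rw [add_mul, add_mul, A1, A1]; module)
      (fun c hc => by convert neg_mem hc using 1; rw [neg_mul, neg_mul, A2, A2]; module)
      (fun g hg h3 μ h4 c hc => by
        convert comp_mem_NS hc hg h3 using 1
        ext x; simp [A, kval_apply, h4, mul_assoc, mul_left_comm])
      (a := 1) (by simpa using k1 a b) μ
    rwa [mul_one] at this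
  by_cases hc : ∀ a b μ : K, T (μ * a) * T b = T a * T (μ * b)
  · exact Or.inr hc
  left
  push Not at hc
  obtain ⟨a, b, μ, hne⟩ := hc
  have k3 : (T (μ * a) * T b - T a * T (μ * b)) • A (μ * a) ∈ NS K M v := by
    convert sub_mem (D.smul_mem_NS hp hv (k2 a b μ) (T (μ * a)))
      (D.smul_mem_NS hp hv (k1 (μ * a) (μ * b)) (T a)) using 1
    module
  have h0 : μ * a ≠ 0 := fun e => hne (by
    rcases mul_eq_zero.1 e with e | e <;> simp [T, e])
  refine D.centers_eq_top hp hv (fun e => hf (LinearMap.ext fun k => ?_))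
    (D.mem_NS_of_smul hp hv (sub_ne_zero.2 hne) k3)
  have := LinearMap.congr_fun e (((μ * a)⁻¹ * k) • y₀)
  simp only [LinearMap.comp_apply, LinearMap.restrictScalars_apply, LinearMap.smul_apply, map_smul, h2, smul_eq_mul,
    mul_one] at this
  rwa [mul_right_comm, inv_mul_cancel₀ h0, one_mul] at this

theorem centers_eq_top_exceptional [Finite K] (D : LinData K M) (hp : (finrank F K).Prime)
    (hq : ∀ c : F, c = 0 ∨ c = 1) {ω : K} (hK : ∀ k : K, ∃ a b : F, k = algebraMap F K a + algebraMap F K b * ω)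
    (hω : ∀ c : F, algebraMap F K c ≠ ω) {z y : V} {a b : Dual K V} (az : a z = 1) (ay : a y = 0) (bz : b z = 0)
    (by' : b y = 1) (hV : ∀ x, x = a x • z + b x • y) {s : V ≃ₗ[F] V} (hs : s ∈ M) (s1 : s z = z) (s2 : s y = y)
    (s3 : s (ω • z) = ω • z + y) (s4 : s (ω • y) = ω • y + z ∨ s (ω • y) = ω • y + (z + y)) :
    centers F V M = ⊤ := by
  have h2F : (1 : F) + 1 = 0 := by
    rcases hq (1 + 1) with e | e
    · exact e
    · exact absurd (by linear_combination e : (1 : F) = 0) one_ne_zero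
  have h2 : (2 : K) = 0 := by
    have := congrArg (algebraMap F K) h2F
    rwa [map_add, map_one, map_zero, one_add_one_eq_two] at this
  have hω0 : ω ≠ 0 := fun e => hω 0 (by simp [e])
  have hω1 : ω ≠ 1 := fun e => hω 1 (by simp [e])
  have hω2 : ω * ω = ω + 1 := by
    obtain ⟨c, d, e⟩ := hK (ω * ω)
    rcases hq c with rfl | rfl <;> rcases hq d with rfl | rfl <;> simp only [map_zero, map_one] at e
    · exact (hω0 (by grind)).elim
    · exact (hω1 (mul_left_cancel₀ hω0 (by grind))).elim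
    · exact (hω1 (by have : (ω - 1) ^ 2 = 0 := by grind
                     exact sub_eq_zero.1 (pow_eq_zero_iff two_ne_zero |>.1 this))).elim
    · grind
  have hn : ∀ μ : K, μ ≠ 0 → Algebra.norm F μ = 1 := fun μ hμ =>
    (hq _).resolve_left (Algebra.norm_ne_zero_iff.2 hμ)
  let vec : ℕ → ℕ → ℕ → ℕ → V := fun n₁ n₂ n₃ n₄ => n₁ • z + n₂ • y + n₃ • ω • z + n₄ • ω • y
  have hvec : ∀ x, ∃ n₁ n₂ n₃ n₄, x = vec n₁ n₂ n₃ n₄ := fun x => by
    have hk : ∀ k : K, ∃ n m : ℕ, k = n + m * ω := fun k => by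
      obtain ⟨c, d, e⟩ := hK k
      rcases hq c with rfl | rfl <;> rcases hq d with rfl | rfl
      exacts [⟨0, 0, by simp [e]⟩, ⟨0, 1, by simp [e]⟩, ⟨1, 0, by simp [e]⟩, ⟨1, 1, by simp [e]⟩]
    obtain ⟨n₁, n₃, e1⟩ := hk (a x)
    obtain ⟨n₂, n₄, e2⟩ := hk (b x)
    exact ⟨n₁, n₂, n₃, n₄, by rw [hV x, e1, e2]; simp only [vec]; module⟩
  have fin : ∀ m ∈ M, ∀ u : V, u ≠ 0 → (∀ x, ∃ n : ℕ, m x = x + n • u) → m u = u → m (ω • u) = ω • u →
      m ≠ 1 → centers F V M = ⊤ := fun m hm u hu e e1 e2 hne => by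
    obtain ⟨ρ, hρ⟩ := exists_dual_eq_one (F := F) hu
    let φ : Dual F V := ρ ∘ₗ ((m : V →ₗ[F] V) - LinearMap.id)
    have e3 : ∀ x, m x = x + φ x • u := fun x => by
      obtain ⟨n, hn⟩ := e x
      simp [φ, hn, hρ, Nat.cast_smul_eq_nsmul]
    refine D.centers_eq_top hp hu (φ := φ) (fun e => hne (LinearEquiv.ext fun x => by rw [e3, e]; simp))
      ⟨fun k => ?_, m, hm, fun x => by rw [kval_apply, algebraMap_smul, e3]⟩
    obtain ⟨c, d, rfl⟩ := hK k
    simp [kval_apply, φ, add_smul, mul_smul, e1, e2]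
  have hy0 : y ≠ 0 := fun e => by simp [e] at by'
  rcases s4 with s4 | s4
  · have hs' : ∀ n₁ n₂ n₃ n₄, s (vec n₁ n₂ n₃ n₄) = vec (n₁ + n₄) (n₂ + n₃) n₃ n₄ := fun n₁ n₂ n₃ n₄ => by
      simp only [vec, map_add, map_nsmul, s1, s2, s3, s4]; module
    obtain ⟨d, hd, e⟩ := D.dil b (ω • z + ω • y) (hn _ (by simp [bz, by']; clear * - h2 hω2 hω1; grind))
    have hd' : ∀ n₁ n₂ n₃ n₄, d (vec n₁ n₂ n₃ n₄) = vec (n₁ + n₄) (n₂ + n₄) (n₃ + n₂ + n₄) n₂ :=
      fun n₁ n₂ n₃ n₄ => by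
        simp only [vec, e, map_add, map_nsmul, map_smul, bz, by']
        match_scalars <;> ((try simp only [smul_eq_mul]) <;> (clear * - h2 hω2; grind))
    have em : ∀ n₁ n₂ n₃ n₄, (d * s * d * s) (vec n₁ n₂ n₃ n₄) = vec n₁ n₂ n₃ n₄ + (n₃ + n₄) • vec 0 0 1 1 :=
      fun n₁ n₂ n₃ n₄ => by
        simp only [LinearEquiv.mul_apply, hs', hd']
        simp only [vec]
        match_scalars <;> ((try simp only [smul_eq_mul]) <;> (clear * - h2 hω2; grind))
    refine fin (d * s * d * s) (mul_mem (mul_mem (mul_mem hd hs) hd) hs) (vec 0 0 1 1)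
      (fun e => hω0 (by simpa [vec, bz, by'] using congrArg b e)) (fun x => ?_) ?_ ?_ fun e => ?_
    · obtain ⟨n₁, n₂, n₃, n₄, rfl⟩ := hvec x
      exact ⟨_, em n₁ n₂ n₃ n₄⟩
    · rw [em]; simp only [vec]; match_scalars <;> ((try simp only [smul_eq_mul]) <;> (clear * - h2 hω2; grind))
    · rw [show ω • vec 0 0 1 1 = vec 1 1 1 1 by simp only [vec]; match_scalars <;> ((try simp only [smul_eq_mul]) <;> (clear * - h2 hω2; grind)), em]
      simp only [vec]; match_scalars <;> ((try simp only [smul_eq_mul]) <;> (clear * - h2 hω2; grind))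
    · have := congrArg b (em 0 0 1 0)
      rw [e] at this
      exact hω0 (by simpa [vec, bz, by'] using this.symm)
  · have hs' : ∀ n₁ n₂ n₃ n₄, s (vec n₁ n₂ n₃ n₄) = vec (n₁ + n₄) (n₂ + n₃ + n₄) n₃ n₄ := fun n₁ n₂ n₃ n₄ => by
      simp only [vec, map_add, map_nsmul, s1, s2, s3, s4]; module
    obtain ⟨d₁, hd₁, e₁⟩ := D.dil b (ω • z) (hn _ (by simp [bz]))
    obtain ⟨d₂, hd₂, e₂⟩ := D.dil (a + b) (ω • y) (hn _ (by simp [ay, by']; clear * - h2 hω2 hω1; grind))
    obtain ⟨d₃, hd₃, e₃⟩ := D.dil (a + (ω + 1) • b) ((ω + 1) • z + ω • y) (hn _ (by simp [az, ay, bz, by']; clear * - h2 hω2 hω0; grind))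
    have hd₁' : ∀ n₁ n₂ n₃ n₄, d₁ (vec n₁ n₂ n₃ n₄) = vec (n₁ + n₄) n₂ (n₃ + n₂ + n₄) n₄ :=
      fun n₁ n₂ n₃ n₄ => by
        simp only [vec, e₁, map_add, map_nsmul, map_smul, bz, by']
        match_scalars <;> ((try simp only [smul_eq_mul]) <;> (clear * - h2 hω2; grind))
    have hd₂' : ∀ n₁ n₂ n₃ n₄, d₂ (vec n₁ n₂ n₃ n₄) = vec n₁ (n₂ + n₃ + n₄) n₃ (n₁ + n₂ + n₃) :=
      fun n₁ n₂ n₃ n₄ => by
        simp only [vec, e₂, map_add, map_nsmul, map_smul, LinearMap.add_apply, az, ay, bz, by']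
        match_scalars <;> ((try simp only [smul_eq_mul]) <;> (clear * - h2 hω2; grind))
    have hd₃' : ∀ n₁ n₂ n₃ n₄, d₃ (vec n₁ n₂ n₃ n₄) = vec (n₃ + n₄) n₃ (n₁ + n₂ + n₃ + n₄) (n₁ + n₃) :=
      fun n₁ n₂ n₃ n₄ => by
        simp only [vec, e₃, map_add, map_nsmul, map_smul, LinearMap.add_apply, LinearMap.smul_apply, az, ay, bz, by']
        match_scalars <;> ((try simp only [smul_eq_mul]) <;> (clear * - h2 hω2; grind))
    have em : ∀ n₁ n₂ n₃ n₄, (d₁ * s * d₂ * s * d₃ * s) (vec n₁ n₂ n₃ n₄) =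
        vec n₁ n₂ n₃ n₄ + (n₁ + n₃) • vec 0 1 0 0 := fun n₁ n₂ n₃ n₄ => by
      simp only [LinearEquiv.mul_apply, hs', hd₁', hd₂', hd₃']
      simp only [vec]
      match_scalars <;> ((try simp only [smul_eq_mul]) <;> (clear * - h2 hω2; grind))
    refine fin (d₁ * s * d₂ * s * d₃ * s) (mul_mem (mul_mem (mul_mem (mul_mem (mul_mem hd₁ hs) hd₂) hs) hd₃) hs)
      (vec 0 1 0 0) (by simpa [vec] using hy0) (fun x => ?_) ?_ ?_ fun e => ?_
    · obtain ⟨n₁, n₂, n₃, n₄, rfl⟩ := hvec x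
      exact ⟨_, em n₁ n₂ n₃ n₄⟩
    · rw [em]; simp
    · rw [show ω • vec 0 1 0 0 = vec 0 0 0 1 by simp [vec], em]; simp
    · have := congrArg b (em 1 0 0 0)
      rw [e] at this
      simp [vec, bz, by'] at this

theorem not_identity (hr : (∃ c : F, c ≠ 0 ∧ c ≠ 1) ∨ 3 ≤ finrank F K) [FiniteDimensional F K] {f : K →ₗ[F] F}
    (hf : f ≠ 0) (h : ∀ ζ : K, ζ ≠ 0 → f ζ = 0 → ∀ a b μ : K,
      (μ * a + algebraMap F K (f (μ * a)) * ζ) * (b + algebraMap F K (f b) * ζ) =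
      (a + algebraMap F K (f a) * ζ) * (μ * b + algebraMap F K (f (μ * b)) * ζ)) (h2 : 2 ≤ finrank F K) : False := by
  have hk : finrank F (LinearMap.ker f) + 1 = finrank F K := Module.Dual.finrank_ker_add_one_of_ne_zero hf
  obtain ⟨ζ, hζ, hζ0⟩ := Submodule.exists_mem_ne_zero_of_ne_bot (p := LinearMap.ker f) fun e => by
    rw [e, finrank_bot] at hk; omega
  rw [LinearMap.mem_ker] at hζ
  obtain ⟨a, ha⟩ := exists_tau_mul hf one_ne_zero 1
  rw [mul_one] at ha
  rcases hr with ⟨s, hs0, hs1⟩ | h3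
  · obtain ⟨μ, hμ⟩ := exists_tau_mul hf hζ0 1
    have e1 := h ζ hζ0 hζ a ζ μ
    have e2 := h (s • ζ) (smul_ne_zero hs0 hζ0) (by simp [hζ]) a ζ μ
    rw [Algebra.smul_def] at e2
    simp only [hζ, ha, hμ, map_zero, map_one] at e1 e2
    have e3 : algebraMap F K s * (algebraMap F K s - 1) * ζ ^ 2 = 0 := by
      linear_combination (algebraMap F K s) * e1 - e2
    have n1 : algebraMap F K s ≠ 0 := (map_ne_zero _).2 hs0
    have n2 : algebraMap F K s - 1 ≠ 0 := sub_ne_zero.2 fun e => hs1 ((algebraMap F K).injective (by simpa using e))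
    exact mul_ne_zero (mul_ne_zero n1 n2) (pow_ne_zero 2 hζ0) e3
  · obtain ⟨z, hz, hz'⟩ : ∃ z ∈ LinearMap.ker f, z ∉ Submodule.span F {ζ} := by
      by_contra hc
      push Not at hc
      have := Submodule.finrank_mono (show LinearMap.ker f ≤ Submodule.span F {ζ} from hc)
      rw [finrank_span_singleton hζ0] at this
      omega
    rw [LinearMap.mem_ker] at hz
    have e1 := h ζ hζ0 hζ ζ a (z / ζ)
    rw [div_mul_cancel₀ _ hζ0] at e1
    simp only [hζ, ha, hz, map_zero, map_one] at e1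
    refine hz' (Submodule.mem_span_singleton.2 ⟨f (z / ζ * a), ?_⟩)
    rw [Algebra.smul_def]
    apply mul_left_cancel₀ hζ0
    have e2 : ζ * (z / ζ) = z := mul_div_cancel₀ _ hζ0
    linear_combination -e1 - a * e2

variable [FiniteDimensional F V]

theorem centers_eq_top_of_maxMeet [Finite K] (D : LinData K M) (hp : (finrank F K).Prime) {v : V} (hv : v ≠ 0)
    {W : Submodule F V} (h : MaxMeet M (kline F K v) W) : centers F V M = ⊤ := by
  obtain ⟨y₀, hy, hy'⟩ := SetLike.not_le_iff_exists.1 h.not_le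
  obtain ⟨x₀, hx, hx'⟩ := SetLike.not_le_iff_exists.1 h.not_ge
  have hyp := D.hyper hp h hy hy'
  obtain ⟨φ, φ1, φ2⟩ := exists_dual_of_notMem hx'
  have hZ := h.mem_of_hyper hy hy' hyp (φ := φ) (fun z hz => φ2 z hz.1) ⟨x₀, hx, by rw [φ1]; exact one_ne_zero⟩
  obtain ⟨ρ₀, ρ1, ρ2⟩ := exists_dual_of_notMem hy'
  let f : K →ₗ[F] F := φ ∘ₗ (LinearMap.toSpanSingleton K V v).restrictScalars F
  have f1 : ∀ k, f k = φ (k • v) := fun k => rfl
  obtain ⟨k₀, rfl⟩ := mem_kline.1 hx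
  have hf : f ≠ 0 := fun e => by rw [← f1, e] at φ1; simp at φ1
  have key : ∀ ζ : K, f ζ = 0 → ∃ R : V →ₗ[F] K, ∀ χ : Dual K V, χ v = 0 →
      ζ • kval K (f ∘ₗ χ.restrictScalars F) - (χ y₀ + algebraMap F K (f (χ y₀)) * ζ) • R ∈ NS K M v := fun ζ hζ => by
    obtain ⟨t, ht, t1, t2, t3, -⟩ := D.exists_elation h.mem hx' (hZ _ (smul_mem_kline ζ v) hζ)
    have t4 : ∀ k : K, t (k • v) = (k + algebraMap F K (f k) * ζ) • v := fun k => by
      have := t3 _ (hZ (k • v - f k • k₀ • v) (sub_mem (smul_mem_kline k v) (Submodule.smul_mem _ _ hx))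
        (by rw [map_sub, map_smul φ (f k), φ1, ← f1]; simp))
      rw [map_sub, map_smul t (f k), t1, sub_eq_iff_eq_add] at this
      rw [this, add_smul, mul_smul, algebraMap_smul, smul_add]; abel
    refine ⟨kval K (ρ₀ ∘ₗ ((t : V →ₗ[F] V) - LinearMap.id)), fun χ hχ => D.key_mem ht t4 (fun k => ?_)
      (fun x => ?_) (by simp [t3 y₀ hy]) hχ⟩
    · simp only [LinearMap.comp_apply, LinearMap.sub_apply, LinearEquiv.coe_coe, LinearMap.id_apply, t4, ← sub_smul]
      exact ρ2 _ (smul_mem_kline _ v)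
    · obtain ⟨s, k, hk⟩ := hyp _ (t2 x)
      change k • v = _ at hk
      have : ρ₀ (t x - x) = s := by
        have := ρ2 _ (smul_mem_kline k v)
        rw [hk, map_sub, map_smul, ρ1, smul_eq_mul, mul_one, sub_eq_zero] at this
        exact this
      refine ⟨k, ?_⟩
      simp only [LinearMap.comp_apply, LinearMap.sub_apply, LinearEquiv.coe_coe, LinearMap.id_apply, this, hk]
      abel
  have hker : finrank F (LinearMap.ker f) + 1 = finrank F K := Module.Dual.finrank_ker_add_one_of_ne_zero hf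
  obtain ⟨ζ, hζ, hζ0⟩ := Submodule.exists_mem_ne_zero_of_ne_bot (p := LinearMap.ker f) fun e => by
    rw [e, finrank_bot] at hker; have := hp.two_le; omega
  rw [LinearMap.mem_ker] at hζ
  by_cases hd : ∀ x, x ∈ Submodule.span K {v, y₀}
  swap
  · push Not at hd
    obtain ⟨x, hx⟩ := hd
    obtain ⟨χ, c1, c2⟩ := exists_dual_of_notMem hx
    obtain ⟨R, hR⟩ := key ζ hζ
    have := hR χ (c2 v (Submodule.subset_span (by simp)))
    rw [c2 y₀ (Submodule.subset_span (by simp)), map_zero, map_zero, zero_mul, add_zero, zero_smul, sub_zero] at this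
    refine D.centers_eq_top hp hv (fun e => hf (LinearMap.ext fun k => ?_)) (D.mem_NS_of_smul hp hv hζ0 this)
    simpa [c1] using LinearMap.congr_fun e (k • x)
  obtain ⟨χ, c1, c2⟩ := exists_dual_of_notMem (mt mem_kline_iff_span.2 hy')
  have c3 : χ v = 0 := c2 v (Submodule.mem_span_singleton_self v)
  by_cases hr : (∃ c : F, c ≠ 0 ∧ c ≠ 1) ∨ 3 ≤ finrank F K
  · by_contra hc
    refine not_identity hr hf (fun ζ h0 hζ => ?_) hp.two_le
    obtain ⟨R, hR⟩ := key ζ hζ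
    refine (D.elim hp hv hf h0 (R := R) c3 c1 fun c => ?_).resolve_left hc
    simpa [c1] using hR (c • χ) (by simp [c3])
  push Not at hr
  have hq : ∀ c : F, c = 0 ∨ c = 1 := fun c => by
    by_cases h : c = 0
    · exact Or.inl h
    · exact Or.inr (hr.1 c h)
  have hz : ζ • v ∈ W := hZ _ (smul_mem_kline ζ v) hζ
  have hk1 : ∀ k, f k = 0 → ∃ c : F, k = algebraMap F K c * ζ := fun k hk => by
    have e : Submodule.span F {ζ} = LinearMap.ker f := Submodule.eq_of_le_of_finrank_le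
      (by simpa using hζ) (by rw [finrank_span_singleton hζ0]; omega)
    obtain ⟨c, hc⟩ := Submodule.mem_span_singleton.1 (e ▸ hk : k ∈ Submodule.span F {ζ})
    exact ⟨c, by rw [← hc, Algebra.smul_def]⟩
  have fk : f k₀ = 1 := φ1
  obtain ⟨s, hs, s3, s4, s5, s6⟩ := D.exists_elation h.mem hx' hy
  obtain ⟨a₀, a1, a2⟩ := exists_dual_pair (F := K) (u := y₀) (v := v) fun c e => hy' (by
    have hc : c ≠ 0 := fun e' => hv (by rw [← e, e', zero_smul])
    exact ⟨c⁻¹, by change c⁻¹ • v = y₀; rw [← e, inv_smul_smul₀ hc]⟩)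
  have hV : ∀ x, x = a₀ x • v + χ x • y₀ := fun x => by
    obtain ⟨α, β, rfl⟩ := Submodule.mem_span_pair.1 (hd x)
    simp [a1, a2, c1, c3]
  have s7 := s6 (fun e => hy' (e ▸ zero_mem _)) fun χ' h0 h1 x hx => by
    have h2 : χ' y₀ ≠ 0 := fun e => h0 (LinearMap.ext fun w => by rw [hV w]; simp [h1, e])
    rw [hV x] at hx ⊢
    simp only [map_add, map_smul, h1, smul_eq_mul, mul_zero, zero_add, mul_eq_zero, h2, or_false] at hx
    rw [hx, zero_smul, add_zero]
    exact smul_mem_kline _ v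
  have hW : ∀ w ∈ W, ∃ c d : F, w = (algebraMap F K c * ζ) • v + algebraMap F K d • y₀ := fun w hw => by
    obtain ⟨d, k, hk⟩ := hyp w hw
    change k • v = _ at hk
    obtain ⟨c, rfl⟩ := hk1 k (by rw [f1, hk]; exact φ2 _ (sub_mem hw (W.smul_mem d hy)))
    exact ⟨c, d, by rw [hk, algebraMap_smul, sub_add_cancel]⟩
  have hω : ∀ c : F, algebraMap F K c ≠ k₀ / ζ := fun c e => by
    rw [eq_div_iff hζ0, ← Algebra.smul_def] at e
    rw [← e, map_smul, hζ, smul_zero] at fk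
    exact zero_ne_one fk
  have e0 : (k₀ / ζ) • ζ • v = k₀ • v := by rw [smul_smul, div_mul_cancel₀ _ hζ0]
  refine D.centers_eq_top_exceptional hp hq (ω := k₀ / ζ) (fun k => ?_) hω (z := ζ • v) (y := y₀) (a := ζ⁻¹ • a₀)
    (b := χ) (by simp [a1, hζ0]) (by simp [a2]) (by simp [c3]) c1 (fun x => ?_) hs (s5 _ hz) (s5 _ hy)
    (by rw [e0, s3]) ?_
  · obtain ⟨c, hc⟩ := hk1 (k * ζ - f (k * ζ) • k₀) (by simp [fk])
    refine ⟨c, f (k * ζ), ?_⟩
    rw [Algebra.smul_def] at hc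
    field_simp
    linear_combination hc
  · rw [LinearMap.smul_apply, smul_smul, smul_eq_mul, mul_right_comm, inv_mul_cancel₀ hζ0, one_mul]
    exact hV x
  · obtain ⟨c, d, e⟩ := hW _ (s4 ((k₀ / ζ) • y₀))
    have nW : ∀ k : K, k • v + (k₀ / ζ) • y₀ ∉ W := fun k hk => by
      obtain ⟨c, d, e⟩ := hW _ hk
      exact hω d (by simpa [c1, c3, Algebra.smul_def] using (congrArg χ e).symm)
    rw [sub_eq_iff_eq_add'] at e
    rcases hq c with rfl | rfl <;> rcases hq d with rfl | rfl <;>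
      simp only [map_zero, map_one, zero_mul, one_mul, zero_smul, one_smul, add_zero, zero_add] at e
    · exact (nW 0 (by simpa using s7 _ e)).elim
    · exact (nW (-k₀) (s7 _ (by rw [neg_smul, map_add, map_neg, s3, e]; abel))).elim
    · exact Or.inl e
    · exact Or.inr e

theorem centers_eq_top_or_semilinear [Finite K] (D : LinData K M) (hp : (finrank F K).Prime) :
    centers F V M = ⊤ ∨ ∀ g ∈ M, ∀ k : K, ∃ k' : K, ∀ x, g (k • x) = k' • g x := by
  by_cases h : ∀ g ∈ M, ∀ v, (kline F K v).map (g : V →ₗ[F] V) = kline F K (g v)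
  · exact Or.inr fun g hg => semilinear_of_spread' D.two (h g hg)
  left
  push Not at h
  obtain ⟨g, hg, v, hv⟩ := h
  have hv0 : v ≠ 0 := fun e => hv (by
    have : kline F K (0 : V) = ⊥ := eq_bot_iff.2 fun x ⟨k, hk⟩ => by rw [← hk]; simp
    rw [e, map_zero, this, Submodule.map_bot])
  obtain ⟨s, hs, s1, e⟩ := D.move (x := g v) (by simpa using hv0) hv0
  have e1 : (kline F K (g v)).map (s : V →ₗ[F] V) = kline F K v := by
    ext x
    constructor
    · rintro ⟨_, ⟨k, rfl⟩, rfl⟩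
      exact ⟨k, by change k • v = s (k • g v); rw [s1, e]⟩
    · rintro ⟨k, rfl⟩
      exact ⟨k • g v, smul_mem_kline _ _, by change s (k • g v) = k • v; rw [s1, e]⟩
  obtain ⟨W, hW⟩ := exists_maxMeet (M := M) (L := kline F K v)
    (W₀ := ((kline F K v).map (g : V →ₗ[F] V)).map (s : V →ₗ[F] V))
    (orb_map ⟨g, hg, rfl⟩ hs) (fun e' => hv (by
      rw [← map_inv_map ((kline F K v).map _) s, e', ← e1, map_inv_map]))
    (fun e' => hv0 (by
      have : v ∈ ((kline F K v).map (g : V →ₗ[F] V)).map (s : V →ₗ[F] V) ⊓ kline F K v :=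
        ⟨⟨g v, ⟨v, self_mem_kline v, rfl⟩, e⟩, self_mem_kline v⟩
      rwa [e', Submodule.mem_bot] at this))
  exact D.centers_eq_top_of_maxMeet hp hv0 hW

end LinData

theorem lin_alg {F K V : Type*} [Field F] [Field K] [Finite K] [Algebra F K] [AddCommGroup V] [Module F V]
    [FiniteDimensional F V] (φ : K →ₐ[F] Module.End F V) (hp : (finrank F K).Prime)
    (hlt : finrank F K < finrank F V) :
    (∃ (ψ : Dual F V) (v : V), ψ v = 0 ∧ ∃ k : K, ¬ ∃ k' : K, ∀ x,
      φ k x + ψ (φ k x) • v = φ k' (x + ψ x • v)) ∧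
    (∀ c : F, c ≠ 0 → ∃ g : V ≃ₗ[F] V, LinearMap.det (g : V →ₗ[F] V) = c ∧ ∀ k x, g (φ k x) = φ k (g x)) ∧
    ∀ M : Subgroup (V ≃ₗ[F] V),
      (∀ g : V ≃ₗ[F] V, LinearMap.det (g : V →ₗ[F] V) = 1 → (∀ k x, g (φ k x) = φ k (g x)) → g ∈ M) →
      centers F V M = ⊤ ∨ ∀ g ∈ M, ∀ k : K, ∃ k' : K, ∀ x, g (φ k x) = φ k' (g x) := by
  let _ : Module K V := Module.compHom _ φ.toRingHom
  have : IsScalarTower F K V := ⟨fun c k v => by
    change φ (c • k) v = c • φ k v
    rw [map_smul]; rfl⟩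
  have : FiniteDimensional K V := Module.Finite.of_restrictScalars_finite F K V
  have : Finite F := Finite.of_injective _ (algebraMap F K).injective
  have two : ∀ v : V, ∃ y, y ∉ Submodule.span K {v} := fun v => by
    by_contra hc
    push Not at hc
    have h1 : kline F K v = ⊤ := eq_top_iff.2 fun y _ => mem_kline_iff_span.2 (hc y)
    have h2 : finrank F (kline F K v) ≤ finrank F K := LinearMap.finrank_range_le _
    rw [h1, finrank_top] at h2
    omega
  have dil : ∀ (χ : Dual K V) (v : V), 1 + χ v ≠ 0 → ∃ g : V ≃ₗ[F] V,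
      LinearMap.det (g : V →ₗ[F] V) = Algebra.norm F (1 + χ v) ∧ (∀ k x, g (φ k x) = φ k (g x)) ∧
      ∀ x, g x = x + χ x • v := fun χ v h => by
    refine ⟨(LinearEquiv.dilatransvection (Ne.isUnit h)).restrictScalars F, ?_,
      fun k x => map_smul (LinearEquiv.dilatransvection (Ne.isUnit h)) k x,
      fun x => LinearEquiv.dilatransvection.apply (h := Ne.isUnit h)⟩
    have e := LinearMap.det_restrictScalars (R := F) (f := LinearMap.transvection χ v)
    rw [LinearMap.transvection.det] at e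
    exact e
  obtain ⟨v, hv⟩ := two 0
  have hv0 : v ≠ 0 := fun e => hv (by simp [e])
  refine ⟨?_, fun c hc => ?_, fun M hM => LinData.centers_eq_top_or_semilinear (K := K) ⟨fun χ v h => ?_, two⟩ hp⟩
  · obtain ⟨y, hy⟩ := two v
    obtain ⟨ψ, h1, h2⟩ := exists_dual_of_notMem (F := F) (W := kline F K v) (mt mem_kline_iff_span.1 hy)
    obtain ⟨k, hk⟩ : ∃ k : K, k ∉ (⊥ : Subalgebra F K) := by
      by_contra hc
      push Not at hc
      have : (⊥ : Subalgebra F K) = ⊤ := eq_top_iff.2 fun k _ => hc k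
      exact hp.one_lt.ne' (Subalgebra.bot_eq_top_iff_finrank_eq_one.1 this)
    refine ⟨ψ, v, h2 v (self_mem_kline v), k, fun ⟨k', h⟩ => hk ?_⟩
    have e1 : k • v + ψ (k • v) • v = k' • (v + ψ v • v) := h v
    have e2 : k • y + ψ (k • y) • v = k' • (y + ψ y • v) := h y
    rw [h2 _ (smul_mem_kline k v), h2 _ (self_mem_kline v), zero_smul, add_zero, add_zero] at e1
    rw [← smul_left_injective K hv0 e1, h1, one_smul, smul_add, add_right_inj, ← algebraMap_smul K] at e2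
    exact Algebra.mem_bot.2 ⟨_, smul_left_injective K hv0 e2⟩
  · obtain ⟨μ, hμ⟩ := FiniteField.norm_surjective F K c
    obtain ⟨χ, hχ⟩ := exists_dual_eq_one (F := K) hv0
    have e : 1 + ((μ - 1) • χ) v = μ := by simp [hχ]
    obtain ⟨g, a, b, -⟩ := dil ((μ - 1) • χ) v (by
      rw [e]; rintro rfl; exact hc (by rw [← hμ, Algebra.norm_zero]))
    exact ⟨g, by rw [a, e, hμ], b⟩
  · obtain ⟨g, a, b, c⟩ := dil χ v fun e => by simp [e] at h
    exact ⟨g, hM g (a.trans h) b, c⟩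

section matrix

open Matrix

theorem det_glEquiv_symm {ι : Type} [Fintype ι] [DecidableEq ι] (g : (ι → F) ≃ₗ[F] (ι → F)) :
    (((glEquiv ι F).symm g : GL ι F) : Matrix ι ι F).det = LinearMap.det (g : (ι → F) →ₗ[F] (ι → F)) :=
  det_eq_of_smul fun x => glEquiv_symm_mulVec g x

/-- Overgroups of the determinant-one part of the normaliser of a field of matrices of prime degree `r < n`. -/
theorem ext_matrix [Finite F] {ι : Type} [Fintype ι] [DecidableEq ι] {r : ℕ} (hr : r.Prime)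
    (hlt : r < Fintype.card ι) (A : Subalgebra F (Matrix ι ι F)) (hA : Cfsg.Geo.IsFieldSubalgebra r A) :
    ¬ Cfsg.Geo.specialLinear ι F ≤ Cfsg.Geo.subalgebraNormalizer A ∧
    (∀ c : F, c ≠ 0 → ∃ g ∈ Cfsg.Geo.subalgebraNormalizer A, (g : Matrix ι ι F).det = c) ∧
    ∀ H : Subgroup (GL ι F), Cfsg.Geo.subalgebraNormalizer A ⊓ Cfsg.Geo.specialLinear ι F ≤ H →
      Cfsg.Geo.specialLinear ι F ≤ H ∨ H ≤ Cfsg.Geo.subalgebraNormalizer A := by
  have : Nonempty ι := Fintype.card_pos_iff.1 (by omega)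
  let _ : Field A := (CL.Asch.isFld_of hA).isField.toField
  let φ : A →ₐ[F] Module.End F (ι → F) := Matrix.toLinAlgEquiv'.toAlgHom.comp A.val
  have hs : ∀ (k : A) (v : ι → F), φ k v = (k : Matrix _ _ F) *ᵥ v := fun k v => rfl
  obtain ⟨h1, h2, h3⟩ := lin_alg φ (hA.finrank_eq ▸ hr) (by rw [hA.finrank_eq]; simpa using hlt)
  have hlin : ∀ g : (ι → F) ≃ₗ[F] (ι → F), (∀ k x, g (φ k x) = φ k (g x)) →
      (glEquiv ι F).symm g ∈ Cfsg.Geo.subalgebraNormalizer A := fun s hs2 => by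
    rw [mem_subalgebraNormalizer_symm_iff]
    refine ⟨fun k hk => ⟨k, hk, hs2 ⟨k, hk⟩⟩, fun k hk => ⟨k, hk, fun x => ?_⟩⟩
    have := hs2 ⟨k, hk⟩ (s⁻¹ x)
    rw [apply_inv_apply, hs, hs] at this
    rw [← this, inv_apply_apply]
  refine ⟨fun h => ?_, fun c hc => ?_, fun H hH => ?_⟩
  · obtain ⟨ψ, v, h0, k, hk⟩ := h1
    have := h (tv_mem_specialLinear v ψ h0)
    rw [← (glEquiv ι F).symm_apply_apply (CL.SLn.tv v ψ h0), mem_subalgebraNormalizer_symm_iff] at this
    obtain ⟨k', hk', e⟩ := this.1 k k.2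
    refine hk ⟨⟨k', hk'⟩, fun x => ?_⟩
    have := e x
    rwa [glEquiv_apply, glEquiv_apply, ← gl_smul_def, ← gl_smul_def, CL.SLn.tv_smul, CL.SLn.tv_smul] at this
  · obtain ⟨g, a, b⟩ := h2 c hc
    exact ⟨_, hlin g b, by rw [det_glEquiv_symm, a]⟩
  · rcases h3 (H.map (glEquiv ι F).toMonoidHom) (fun g a b => ⟨(glEquiv ι F).symm g,
      hH ⟨hlin g b, mem_specialLinear.2 (by rw [det_glEquiv_symm, a])⟩, (glEquiv ι F).apply_symm_apply g⟩) with h | h
    · refine Or.inl (specialLinear_le_of_centers (eq_top_iff.2 fun v _ => mem_centers.2 fun ψ hψ => ?_))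
      obtain ⟨-, _, ⟨g, hg, rfl⟩, e⟩ := mem_centers.1 (h ▸ Submodule.mem_top : v ∈ centers F _ _) ψ hψ
      exact ⟨hψ, g, hg, e⟩
    · refine Or.inr fun g hg => ?_
      rw [← (glEquiv ι F).symm_apply_apply g, mem_subalgebraNormalizer_symm_iff]
      constructor
      · intro k hk
        obtain ⟨k', e⟩ := h _ ⟨g, hg, rfl⟩ ⟨k, hk⟩
        exact ⟨k', k'.2, e⟩
      · intro k hk
        obtain ⟨k', e⟩ := h _ (inv_mem ⟨g, hg, rfl⟩) ⟨k, hk⟩
        exact ⟨k', k'.2, e⟩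

theorem isMaximalIn_subalgebraNormalizer_sl [Finite F] {ι : Type} [Fintype ι] [DecidableEq ι] {r : ℕ}
    (hr : r.Prime) (hlt : r < Fintype.card ι) (A : Subalgebra F (Matrix ι ι F))
    (hA : Cfsg.Geo.IsFieldSubalgebra r A) : Cfsg.Geo.IsMaximalIn (Cfsg.Geo.specialLinear ι F)
      (Cfsg.Geo.subalgebraNormalizer A ⊓ Cfsg.Geo.specialLinear ι F) := by
  obtain ⟨h1, -, h3⟩ := ext_matrix hr hlt A hA
  exact isMaximalIn_of h1 fun H a _ g hg hg' => (h3 H a).resolve_right fun e => hg' (e hg)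

theorem isCoatom_subalgebraNormalizer [Finite F] {ι : Type} [Fintype ι] [DecidableEq ι] {r : ℕ}
    (hr : r.Prime) (hlt : r < Fintype.card ι) (A : Subalgebra F (Matrix ι ι F))
    (hA : Cfsg.Geo.IsFieldSubalgebra r A) : IsCoatom (Cfsg.Geo.subalgebraNormalizer A) := by
  obtain ⟨h1, h2, h3⟩ := ext_matrix hr hlt A hA
  refine ⟨fun e => h1 (e ▸ le_top), fun H hH => eq_top_iff.2 fun g _ => ?_⟩
  have h4 := (h3 H (inf_le_left.trans hH.le)).resolve_right hH.not_ge
  obtain ⟨s, hs, e⟩ := h2 _ (Matrix.GeneralLinearGroup.det_ne_zero g)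
  refine (mul_mem_cancel_left (inv_mem (hH.le hs))).1 (h4 (mem_specialLinear.2 ?_))
  rw [Units.val_mul, det_mul, ← e, ← det_mul, CL.Asch.gl_inv_mul, det_one]

end matrix

end CL.Sp
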