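/-
Second maximal subgroups below a point stabiliser of a group inducing all 3-cycles on a set of odd size.
-/
import Cfsg.Agent.Cls.SpMaxMat

set_option autoImplicit false

open MulAction Cfsg.Geo
open scoped Pointwise

namespace CL.SecMax

variable {G Ω : Type*} [Group G] [MulAction G Ω]

theorem isMaximalIn_of_isCoatom {K H : Subgroup G} (hle : H ≤ K) (h : IsCoatom (H.subgroupOf K)) :
    IsMaximalIn K H := by
  refine ⟨lt_of_le_of_ne hle fun e => h.1 (by rw [e, Subgroup.subgroupOf_self]), fun M h1 h2 => ?_⟩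
  by_cases e : M ≤ H
  · exact Or.inl (le_antisymm e h1)
  refine Or.inr (le_antisymm h2 (Subgroup.subgroupOf_eq_top.1 (h.2 _ (lt_of_le_of_ne
    (Subgroup.subgroupOf_mono _ h1) fun e' => e fun m hm => ?_))))
  have : (⟨m, h2 hm⟩ : K) ∈ M.subgroupOf K := hm
  rwa [← e'] at this

theorem isMaximalIn_of_three [Finite Ω] (hodd : Odd (Nat.card Ω)) (a : Ω)
    (h3 : ∀ x y z : Ω, x ≠ y → y ≠ z → x ≠ z →
      ∃ g : G, g • x = y ∧ g • y = z ∧ ∀ w, w ≠ x → w ≠ y → w ≠ z → g • w = w)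
    {H K : Subgroup G} (hH : IsMaximalIn (stabilizer G a) H) (hHK : H ≤ K) (hK : ¬ stabilizer G a ≤ K)
    (hK' : ¬ K ≤ stabilizer G a) : IsMaximalIn K H := by
  have hKM : ∀ k ∈ K, k • a = a → k ∈ H := fun k hk e => by
    rcases hH.2 (K ⊓ stabilizer G a) (le_inf hHK hH.1.le) inf_le_right with h | h
    · exact h ▸ ⟨hk, e⟩
    · exact absurd (inf_eq_right.1 h) hK
  refine ⟨lt_of_le_of_ne hHK fun e => hK' (e ▸ hH.1.le), fun L h1 h2 => ?_⟩
  by_contra hn
  push Not at hn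
  obtain ⟨l, hl, hlH⟩ := SetLike.exists_of_lt (lt_of_le_of_ne h1 hn.1.symm)
  obtain ⟨k, hk, hkL⟩ := SetLike.exists_of_lt (lt_of_le_of_ne h2 hn.2)
  have hb : l • a ≠ a := fun e => hlH (hKM l (h2 hl) e)
  let B : Set Ω := orbit L a
  have mem : ∀ g ∈ L, g • a ∈ B := fun g hg => ⟨⟨g, hg⟩, rfl⟩
  have blk : ∀ g ∈ K, g • a ∈ B → g ∈ L := by
    rintro g hg ⟨m, hm⟩
    have : (m : G)⁻¹ * g ∈ L := h1 (hKM _ (K.mul_mem (K.inv_mem (h2 m.2)) hg) (by
      rw [mul_smul, inv_smul_eq_iff]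
      exact hm.symm))
    exact (L.mul_mem_cancel_left (L.inv_mem m.2)).1 this
  have hdis : ∀ w ∈ B, k • w ∉ B := by
    rintro _ ⟨m, rfl⟩ hw
    exact hkL ((L.mul_mem_cancel_right m.2).1 (blk _ (K.mul_mem hk (h2 m.2)) (by rwa [mul_smul])))
  have ha : a ∈ B := mem_orbit_self a
  have hc := hdis a ha
  have hc' := hdis _ (mem l hl)
  have hcc : k • a ≠ k • l • a := fun e => hb (smul_left_cancel k e).symm
  have ne : ∀ {x y : Ω}, x ∈ B → y ∉ B → x ≠ y := fun hx hy e => hy (e ▸ hx)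
  have hL : ∀ g : G, (∀ w ∈ B, g • w = w) → g ∈ H := by
    intro g hg
    rcases hH.2 (stabilizer G a ⊓ stabilizer G B) (le_inf hH.1.le fun h hh => smul_orbit (⟨h, h1 hh⟩ : L) a)
      inf_le_left with h | h
    · refine h ▸ ⟨hg a ha, (mem_stabilizer_set_iff_smul_set_subset (Set.toFinite B)).2 ?_⟩
      rintro _ ⟨w, hw, rfl⟩
      simpa only [hg w hw] using hw
    · obtain ⟨x, x1, -, x3⟩ := h3 (l • a) (k • a) (k • l • a) (ne (mem l hl) hc) hcc (ne (mem l hl) hc')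
      have := (inf_eq_left.1 h) (x3 a hb.symm (ne ha hc) (ne ha hc'))
      exact absurd (x1 ▸ (mem_stabilizer_set.1 this _).2 (mem l hl)) hc
  obtain ⟨e, he, he'⟩ : ∃ e, e ∉ B ∧ e ∉ k • B := by
    by_contra hn
    push Not at hn
    have h4 : B ∪ k • B = Set.univ := Set.eq_univ_of_forall fun e => (em (e ∈ B)).imp_right (hn e)
    have h5 := Set.ncard_union_eq (s := B) (t := k • B) (Set.disjoint_right.2 (by
      rintro _ ⟨w, hw, rfl⟩
      exact hdis w hw))
    rw [h4, Set.ncard_univ, Set.ncard_smul_set] at h5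
    rw [h5, ← two_mul] at hodd
    exact (Nat.not_even_iff_odd.2 hodd) (even_two_mul _)
  obtain ⟨g, g1, g2, g3⟩ := h3 (k • a) (k • l • a) e hcc (fun h => he' ⟨_, mem l hl, h⟩) fun h => he' ⟨_, ha, h⟩
  have hg := hHK (hL g fun w hw => g3 w (ne hw hc) (ne hw hc') (ne hw he))
  have h4 := blk (k⁻¹ * g * k) (K.mul_mem (K.mul_mem (K.inv_mem hk) hg) hk) (by
    rw [mul_smul, mul_smul, g1, inv_smul_smul]
    exact mem l hl)
  refine he' ⟨_, mem _ (L.mul_mem h4 hl), ?_⟩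
  simp only [mul_smul, smul_inv_smul, g2]

theorem second_maximal [Finite G] (n : ℕ) (hodd : Odd n)
    (hA : ∀ P : Subgroup (Equiv.Perm (Fin n)), IsPreprimitive P (Fin n) → alternatingGroup (Fin n) ≤ P)
    (M : Subgroup G) (hM : IsCoatom M) (hn : M.index = n) (H : Subgroup G) (hHM : H ≤ M)
    (hmax : IsCoatom (H.subgroupOf M)) (K : Subgroup G) (hK : IsCoatom K) (hHK : H ≤ K) :
    IsCoatom (H.subgroupOf K) := by
  by_cases hKM : K = M
  · exact hKM ▸ hmax
  have hst : stabilizer G ((1 : G) : G ⧸ M) = M := stabilizer_quotient M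
  have : Nontrivial (G ⧸ M) := QuotientGroup.nontrivial_iff.2 hM.1
  have hp : IsPreprimitive G (G ⧸ M) := (isCoatom_stabilizer_iff_preprimitive G _).1 (hst.symm ▸ hM)
  let e : (G ⧸ M) ≃ Fin n := Finite.equivFinOfCardEq hn
  let φ : G →* Equiv.Perm (Fin n) := (e.permCongrHom : _ →* _).comp (toPermHom G (G ⧸ M))
  have hφ : ∀ g x, φ g (e x) = e (g • x) := fun g x => by simp [φ]
  let f : (G ⧸ M) →ₑ[φ.rangeRestrict] Fin n := ⟨e, fun g x => (hφ g x).symm⟩
  have hle := hA φ.range (IsPreprimitive.of_surjective (f := f) e.surjective)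
  refine CL.Sp.isCoatom_subgroupOf_of_isMaximalIn (isMaximalIn_of_three (Ω := G ⧸ M) (hn ▸ hodd : Odd M.index)
    ((1 : G) : G ⧸ M)
    (fun x y z h1 h2 h3 => ?_) (hst.symm ▸ isMaximalIn_of_isCoatom hHM hmax) hHK ?_ ?_)
  · have n1 := e.injective.ne h1
    have n2 := e.injective.ne h2
    have n3 := e.injective.ne h3
    obtain ⟨g, hg⟩ := hle (x := Equiv.swap (e x) (e z) * Equiv.swap (e x) (e y)) (by
      simp [Equiv.Perm.mem_alternatingGroup, n1, n3])
    refine ⟨g, e.injective ?_, e.injective ?_, fun w w1 w2 w3 => e.injective ?_⟩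
    · rw [← hφ, hg, Equiv.Perm.mul_apply, Equiv.swap_apply_left, Equiv.swap_apply_of_ne_of_ne n1.symm n2]
    · rw [← hφ, hg, Equiv.Perm.mul_apply, Equiv.swap_apply_right, Equiv.swap_apply_left]
    · rw [← hφ, hg, Equiv.Perm.mul_apply, Equiv.swap_apply_of_ne_of_ne (e.injective.ne w1) (e.injective.ne w2),
        Equiv.swap_apply_of_ne_of_ne (e.injective.ne w1) (e.injective.ne w3)]
  · rw [hst]
    exact fun h => hKM ((hM.le_iff.1 h).resolve_left hK.1)
  · rw [hst]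
    exact fun h => hKM ((hK.le_iff.1 h).resolve_left hM.1).symm

end CL.SecMax
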